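import Mathlib
set_option autoImplicit false

namespace Cfsg.Agent.H5

theorem two_dvd_of_inv_conj {G : Type*} [Group G] [Finite G] {p : ℕ} [Fact p.Prime] (P : Sylow p G)
    (hP : IsMulCommutative (P : Subgroup G)) (x g : G) (hxP : x ∈ P) (hxinv : x⁻¹ ≠ x) (hg : g⁻¹ * x * g = x⁻¹) :
    2 ∣ ((Subgroup.centralizer ((P : Subgroup G) : Set G)).subgroupOf (Subgroup.normalizer ((P : Subgroup G) : Set G))).index := by
  have hgP : g⁻¹ * x * g ∈ P := by rw [hg]; exact (P : Subgroup G).inv_mem hxP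
  obtain ⟨m, hmN, hm⟩ := P.conj_eq_normalizer_conj_of_mem x g hxP hgP
  rw [hg] at hm
  set N := Subgroup.normalizer ((P : Subgroup G) : Set G) with hN
  set K := (Subgroup.centralizer ((P : Subgroup G) : Set G)).subgroupOf N with hK
  by_contra hodd
  have hodd' : Odd K.index := by
    rcases Nat.even_or_odd K.index with h | h
    · exact absurd h.two_dvd hodd
    · exact h
  have : K.Normal := inferInstance
  have hmem := Subgroup.pow_index_mem K (⟨m, hmN⟩ : N)
  rw [hK, Subgroup.mem_subgroupOf, Subgroup.mem_centralizer_iff] at hmem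
  have hcomm := hmem x hxP
  have hpow : ∀ k : ℕ, (m ^ k)⁻¹ * x * m ^ k = if Even k then x else x⁻¹ := by
    intro k
    induction k with
    | zero => simp
    | succ k ih =>
      have : (m ^ (k + 1))⁻¹ * x * m ^ (k + 1) = m⁻¹ * ((m ^ k)⁻¹ * x * m ^ k) * m := by
        rw [pow_succ]; group
      rw [this, ih]
      by_cases hk : Even k
      · rw [if_pos hk, if_neg (by simpa [Nat.even_add_one] using hk), ← hm]
      · rw [if_neg hk, if_pos (by simpa [Nat.even_add_one] using hk)]
        have := congrArg (·⁻¹) hm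
        simp only [mul_inv_rev, inv_inv] at this
        rw [← mul_assoc] at this
        exact this.symm
  have h1 := hpow K.index
  rw [if_neg (Nat.not_even_iff_odd.2 hodd')] at h1
  apply hxinv
  rw [← h1]
  have h2 : x * m ^ K.index = m ^ K.index * x := by rw [hK]; simpa using hcomm
  rw [mul_assoc, h2]; simp

theorem exists_alt_conj {n : ℕ} (x y : alternatingGroup (Fin n)) (h : IsConj (x : Equiv.Perm (Fin n)) (y : Equiv.Perm (Fin n)))
    (hc : ¬ Subgroup.centralizer {(x : Equiv.Perm (Fin n))} ≤ alternatingGroup (Fin n)) :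
    ∃ g : alternatingGroup (Fin n), g⁻¹ * x * g = y := by
  rw [isConj_iff] at h
  obtain ⟨c, hc1⟩ := h
  obtain ⟨z, hz, hz1⟩ := SetLike.not_le_iff_exists.mp hc
  rw [Subgroup.mem_centralizer_singleton_iff] at hz
  have hz2 : Equiv.Perm.sign z = -1 := by
    rcases Int.units_eq_one_or (Equiv.Perm.sign z) with h | h
    · exact absurd (Equiv.Perm.mem_alternatingGroup.mpr h) hz1
    · exact h
  rcases Int.units_eq_one_or (Equiv.Perm.sign c) with h | h
  · refine ⟨⟨c⁻¹, Equiv.Perm.mem_alternatingGroup.mpr (by rw [Equiv.Perm.sign_inv, h])⟩, ?_⟩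
    apply Subtype.ext
    show (c⁻¹)⁻¹ * (x : Equiv.Perm (Fin n)) * c⁻¹ = y
    rw [inv_inv, hc1]
  · refine ⟨⟨z * c⁻¹, Equiv.Perm.mem_alternatingGroup.mpr (by rw [map_mul, Equiv.Perm.sign_inv, h, hz2]; rfl)⟩, ?_⟩
    apply Subtype.ext
    show (z * c⁻¹)⁻¹ * (x : Equiv.Perm (Fin n)) * (z * c⁻¹) = y
    rw [← hc1, _root_.mul_inv_rev, inv_inv]
    have : z⁻¹ * (x : Equiv.Perm (Fin n)) * z = x := by
      rw [mul_assoc, ← hz, inv_mul_cancel_left]
    calc c * z⁻¹ * (x : Equiv.Perm (Fin n)) * (z * c⁻¹) = c * (z⁻¹ * (x : Equiv.Perm (Fin n)) * z) * c⁻¹ := by group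
      _ = _ := by rw [this]

theorem alt_syl_even {n : ℕ} {p : ℕ} [Fact p.Prime] (P : Sylow p (alternatingGroup (Fin n)))
    (hP : IsMulCommutative (P : Subgroup (alternatingGroup (Fin n)))) (x : alternatingGroup (Fin n)) (hxP : x ∈ P)
    (hxinv : x⁻¹ ≠ x) (hc : ¬ Subgroup.centralizer {(x : Equiv.Perm (Fin n))} ≤ alternatingGroup (Fin n)) :
    2 ∣ ((Subgroup.centralizer ((P : Subgroup (alternatingGroup (Fin n))) : Set (alternatingGroup (Fin n)))).subgroupOf (Subgroup.normalizer ((P : Subgroup (alternatingGroup (Fin n))) : Set (alternatingGroup (Fin n))))).index := by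
  obtain ⟨g, hg⟩ := exists_alt_conj x x⁻¹ (by
    rw [Equiv.Perm.isConj_iff_cycleType_eq]
    show _ = Equiv.Perm.cycleType ((x : Equiv.Perm (Fin n))⁻¹)
    rw [Equiv.Perm.cycleType_inv]) hc
  exact two_dvd_of_inv_conj P hP x g hxP hxinv hg

/-- the automizer of an abelian Sylow subgroup has order prime to p. -/
theorem not_dvd_automizer {G : Type*} [Group G] [Finite G] {p : ℕ} [Fact p.Prime] (P : Sylow p G)
    (hP : IsMulCommutative (P : Subgroup G)) :
    ¬ p ∣ ((Subgroup.centralizer ((P : Subgroup G) : Set G)).subgroupOf (Subgroup.normalizer ((P : Subgroup G) : Set G))).index := by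
  intro h
  have h1 : (P : Subgroup G) ≤ Subgroup.centralizer ((P : Subgroup G) : Set G) := by
    intro a ha
    rw [Subgroup.mem_centralizer_iff]
    intro b hb
    have := hP.1.1 ⟨b, hb⟩ ⟨a, ha⟩
    exact congrArg Subtype.val this
  have h2 : (Subgroup.centralizer ((P : Subgroup G) : Set G)).relIndex (Subgroup.normalizer ((P : Subgroup G) : Set G)) ∣
      (P : Subgroup G).relIndex (Subgroup.normalizer ((P : Subgroup G) : Set G)) :=
    Subgroup.relIndex_dvd_of_le_left _ h1
  have h3 : (P : Subgroup G).relIndex (Subgroup.normalizer ((P : Subgroup G) : Set G)) ∣ (P : Subgroup G).index :=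
    Subgroup.relIndex_dvd_index_of_le Subgroup.le_normalizer
  exact P.not_dvd_index ((h.trans h2).trans h3)

end Cfsg.Agent.H5
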