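import Mathlib
import Cfsg.Agent.H5.AltSyl
import Cfsg.Agent.H5.Klein2
set_option autoImplicit false
open Equiv Pointwise

namespace Cfsg.Agent.H5

theorem sq_not_dvd_factorial {p n : ℕ} (hp : p.Prime) (hn : n ≤ p + 1) (h2 : p ≠ 2) : ¬ p ^ 2 ∣ n.factorial := by
  intro h
  have h1 : p ^ 2 ∣ (p + 1).factorial := h.trans (Nat.factorial_dvd_factorial hn)
  obtain ⟨k, rfl⟩ : ∃ k, p = k + 1 := ⟨p - 1, by have := hp.pos; omega⟩
  rw [Nat.factorial_succ, Nat.factorial_succ, pow_two] at h1
  have h3 : (k + 1) ∣ (k + 1 + 1) * k.factorial := by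
    have h4 : (k + 1 + 1) * ((k + 1) * k.factorial) = (k + 1) * ((k + 1 + 1) * k.factorial) := by ring
    rw [h4] at h1
    exact Nat.dvd_of_mul_dvd_mul_left hp.pos h1
  rcases (Nat.Prime.dvd_mul hp).mp h3 with h5 | h5
  · have h6 : (k + 1) ∣ 1 := (Nat.dvd_add_right dvd_rfl).mp h5
    exact hp.one_lt.ne' (Nat.dvd_one.mp h6)
  · have := (Nat.Prime.dvd_factorial hp).mp h5
    omega

theorem s2269_odd (n : ℕ) {p : ℕ} [Fact p.Prime] (hp2 : p ≠ 2)
    (P : Sylow p (alternatingGroup (Fin n))) (hP : IsMulCommutative (P : Subgroup (alternatingGroup (Fin n)))) 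
    (hcyc : ¬ IsCyclic (P : Subgroup (alternatingGroup (Fin n)))) :
    2 ∣ ((Subgroup.centralizer ((P : Subgroup (alternatingGroup (Fin n))) : Set (alternatingGroup (Fin n)))).subgroupOf (Subgroup.normalizer ((P : Subgroup (alternatingGroup (Fin n))) : Set (alternatingGroup (Fin n))))).index := by
  have hp : p.Prime := Fact.out
  obtain ⟨k, hk⟩ := (IsPGroup.iff_card.mp P.isPGroup')
  have hk2 : 2 ≤ k := by
    by_contra hcon
    have : k = 0 ∨ k = 1 := by omega
    rcases this with rfl | rfl
    · rw [pow_zero] at hk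
      haveI : Subsingleton (P : Subgroup (alternatingGroup (Fin n))) := (Nat.card_eq_one_iff_unique.mp hk).1
      exact hcyc isCyclic_of_subsingleton
    · rw [pow_one] at hk
      exact hcyc (isCyclic_of_prime_card hk)
  have hdvd : p ∣ Nat.card (P : Subgroup (alternatingGroup (Fin n))) := by
    rw [hk]; exact dvd_pow_self p (by omega)
  obtain ⟨⟨x, hxP⟩, hx⟩ := exists_prime_orderOf_dvd_card' p hdvd
  have hx' : orderOf x = p := by rw [← hx]; exact (Subgroup.orderOf_mk x hxP).symm
  have hx'' : orderOf (x : Perm (Fin n)) = p := by rw [Subgroup.orderOf_coe, hx']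
  apply alt_syl_even P hP x hxP
  · intro h
    have h2 : x ^ 2 = 1 := by rw [pow_two]; nth_rewrite 1 [← h]; simp
    have h3 := orderOf_dvd_of_pow_eq_one h2
    rw [hx'] at h3
    exact hp2 ((Nat.prime_dvd_prime_iff_eq hp Nat.prime_two).mp h3)
  · intro hc
    rw [Equiv.Perm.centralizer_le_alternating_iff] at hc
    obtain ⟨m, hm⟩ := Equiv.Perm.cycleType_prime_order (σ := (x : Perm (Fin n))) (by rw [hx'']; exact hp)
    rw [hx''] at hm
    have h1 := hc.2.2 p
    rw [hm, Multiset.count_replicate_self] at h1
    have hm0 : m = 0 := by omega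
    have h2 := hc.2.1
    rw [hm, hm0] at h2
    simp at h2
    apply sq_not_dvd_factorial hp h2 hp2
    have h3 : Nat.card (P : Subgroup (alternatingGroup (Fin n))) ∣ Nat.card (alternatingGroup (Fin n)) :=
      Subgroup.card_subgroup_dvd_card _
    have h4 : Nat.card (alternatingGroup (Fin n)) ∣ Nat.card (Perm (Fin n)) := Subgroup.card_subgroup_dvd_card _
    rw [Nat.card_eq_fintype_card (α := Perm (Fin n)), Fintype.card_perm, Fintype.card_fin] at h4
    rw [hk] at h3
    exact ((pow_dvd_pow p hk2).trans h3).trans h4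

theorem s2269_two (n : ℕ) (hn : 6 ≤ n) (P : Sylow 2 (alternatingGroup (Fin n)))
    (hP : IsMulCommutative (P : Subgroup (alternatingGroup (Fin n)))) : False := by
  obtain ⟨g, hg⟩ := (Equiv.Perm.exists_with_cycleType_iff (α := Fin n) (m := {4, 2})).mpr (by
    constructor
    · simp; omega
    · intro a ha; simp at ha; omega)
  have hg0 : Perm.sign g = 1 := by
    rw [Equiv.Perm.sign_of_cycleType, hg]; simp; decide
  have hgo : orderOf g = 4 := by
    rw [← Equiv.Perm.lcm_cycleType, hg]; decide
  let x : alternatingGroup (Fin n) := ⟨g, Equiv.Perm.mem_alternatingGroup.mpr hg0⟩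
  have hxo : orderOf x = 4 := by rw [← Subgroup.orderOf_coe]; exact hgo
  have hpg : IsPGroup 2 (Subgroup.zpowers x) := IsPGroup.of_card (n := 2) (by rw [Nat.card_zpowers, hxo]; norm_num)
  obtain ⟨Q, hQ⟩ := hpg.exists_le_sylow
  obtain ⟨c, hc⟩ := MulAction.exists_smul_eq (alternatingGroup (Fin n)) Q P
  have hyP : c * x * c⁻¹ ∈ P := by
    rw [← hc]
    have : (MulAut.conj c) x ∈ (MulAut.conj c) • (Q : Subgroup (alternatingGroup (Fin n))) :=
      Subgroup.smul_mem_pointwise_smul _ _ _ (hQ (Subgroup.mem_zpowers x))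
    exact this
  have hyo : orderOf (c * x * c⁻¹) = 4 := by rw [← hxo]; exact (orderOf_injective (MulAut.conj c).toMonoidHom (MulAut.conj c).injective x)
  have hyc : Perm.cycleType ((c * x * c⁻¹ : alternatingGroup (Fin n)) : Perm (Fin n)) = {4, 2} := by
    show Perm.cycleType ((c : Perm (Fin n)) * g * (c : Perm (Fin n))⁻¹) = _
    rw [Equiv.Perm.cycleType_conj, hg]
  apply not_dvd_automizer P hP
  apply alt_syl_even P hP (c * x * c⁻¹) hyP
  · intro h
    generalize c * x * c⁻¹ = y at h hyo
    have h2 : y ^ 2 = 1 := by rw [pow_two]; nth_rewrite 1 [← h]; simp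
    have h3 := orderOf_dvd_of_pow_eq_one h2
    rw [hyo] at h3
    norm_num at h3
  · intro hcc
    rw [Equiv.Perm.centralizer_le_alternating_iff] at hcc
    have h1 := hcc.1 4 (by rw [hyc]; simp)
    exact absurd h1 (by decide)

theorem s2269_five (P : Sylow 2 (alternatingGroup (Fin 5)))
    (hP : IsMulCommutative (P : Subgroup (alternatingGroup (Fin 5)))) :
    ((Subgroup.centralizer ((P : Subgroup (alternatingGroup (Fin 5))) : Set (alternatingGroup (Fin 5)))).subgroupOf (Subgroup.normalizer ((P : Subgroup (alternatingGroup (Fin 5))) : Set (alternatingGroup (Fin 5))))).index = 3 ∧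
    IsKleinFour (P : Subgroup (alternatingGroup (Fin 5))) := by
  have hcardA : Nat.card (alternatingGroup (Fin 5)) = 60 := by
    rw [nat_card_alternatingGroup]; simp; decide
  have hcard : Nat.card (P : Subgroup (alternatingGroup (Fin 5))) = 4 := by
    rw [Sylow.card_eq_multiplicity, hcardA]
    have : Nat.factorization 60 2 = 2 := by
      apply le_antisymm
      · by_contra hcon
        have h1 : 2 ^ 3 ∣ 60 := (Nat.prime_two.pow_dvd_iff_le_factorization (by norm_num)).mpr (by omega)
        norm_num at h1
      · exact (Nat.prime_two.pow_dvd_iff_le_factorization (by norm_num)).mp (by norm_num)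
    rw [this]; norm_num
  have hsq : ∀ x ∈ P, x ^ 2 = 1 := by
    intro x hx
    have h1 : orderOf x ∣ 4 := by
      rw [← hcard, ← Subgroup.orderOf_mk x hx]
      exact orderOf_dvd_natCard _
    have h2 : orderOf x ∣ 2 := by
      have h4 : orderOf x ∣ 2 ^ 2 := h1
      obtain ⟨k, hk, hk'⟩ := (Nat.dvd_prime_pow Nat.prime_two).mp h4
      rcases Nat.lt_or_ge k 2 with h | h
      · rw [hk']; have : k = 0 ∨ k = 1 := by omega
        rcases this with rfl | rfl <;> norm_num
      · exfalso
        have h5 : orderOf x = 4 := by rw [hk', show k = 2 by omega]; norm_num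
        have h6 : orderOf (x : Perm (Fin 5)) = 4 := by rw [Subgroup.orderOf_coe, h5]
        have h7 : Perm.sign (x : Perm (Fin 5)) = 1 := Equiv.Perm.mem_alternatingGroup.mp x.2
        have h8 : 4 ∈ Perm.cycleType (x : Perm (Fin 5)) := by
          by_contra hcon
          have h9 : ∀ k ∈ Perm.cycleType (x : Perm (Fin 5)), k ∣ 2 := by
            intro k hk
            have h10 := Equiv.Perm.dvd_of_mem_cycleType hk
            have h11 := Equiv.Perm.two_le_of_mem_cycleType hk
            rw [h6] at h10
            have h12 := Nat.le_of_dvd (by norm_num) h10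
            have h13 : k ≠ 4 := by rintro rfl; exact hcon hk
            interval_cases k
            · exact dvd_rfl
            · norm_num at h10
            · exact absurd rfl h13
          have h14 : orderOf (x : Perm (Fin 5)) ∣ 2 := by
            rw [← Equiv.Perm.lcm_cycleType]
            exact Multiset.lcm_dvd.mpr h9
          rw [h6] at h14; norm_num at h14
        obtain ⟨t, ht⟩ := Multiset.exists_cons_of_mem h8
        have h9 := (x : Perm (Fin 5)).sum_cycleType_le
        rw [ht, Multiset.sum_cons, Fintype.card_fin] at h9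
        have h10 : t = 0 := by
          by_contra hcon
          obtain ⟨k, hk⟩ := Multiset.exists_mem_of_ne_zero hcon
          have h11 : 2 ≤ k := Equiv.Perm.two_le_of_mem_cycleType (σ := (x : Perm (Fin 5))) (by rw [ht]; exact Multiset.mem_cons_of_mem hk)
          have h12 := Multiset.single_le_sum (fun _ _ => Nat.zero_le _) k hk
          omega
        rw [Equiv.Perm.sign_of_cycleType, ht, h10] at h7
        simp at h7
        exact absurd h7 (by decide)
    exact orderOf_dvd_iff_pow_eq_one.mp h2
  have hV : IsKleinFour (P : Subgroup (alternatingGroup (Fin 5))) := by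
    refine ⟨hcard, ?_⟩
    have h1 : Monoid.exponent (P : Subgroup (alternatingGroup (Fin 5))) ∣ 2 :=
      Monoid.exponent_dvd_of_forall_pow_eq_one (fun x => Subtype.ext (hsq x x.2))
    rcases (Nat.dvd_prime Nat.prime_two).mp h1 with h | h
    · rw [Monoid.exp_eq_one_iff] at h
      rw [Nat.card_of_subsingleton (1 : (P : Subgroup (alternatingGroup (Fin 5))))] at hcard
      norm_num at hcard
    · exact h
  refine ⟨?_, hV⟩
  haveI := hV
  set N := Subgroup.normalizer ((P : Subgroup (alternatingGroup (Fin 5))) : Set (alternatingGroup (Fin 5))) with hN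
  set K := (Subgroup.centralizer ((P : Subgroup (alternatingGroup (Fin 5))) : Set (alternatingGroup (Fin 5)))).subgroupOf N with hK
  have h6 : K.index ∣ 6 := by
    rw [← card_mulAut_klein (V := (P : Subgroup (alternatingGroup (Fin 5)))), hK, hN,
      ← Subgroup.normalizerMonoidHom_ker, Subgroup.index_ker]
    exact Subgroup.card_subgroup_dvd_card _
  have h2 : ¬ 2 ∣ K.index := not_dvd_automizer P hP
  have h1 : K.index ≠ 1 := by
    intro h
    rw [Subgroup.index_eq_one] at h
    obtain ⟨x, hx⟩ : ∃ x : (P : Subgroup (alternatingGroup (Fin 5))), x ≠ 1 := by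
      by_contra hcon
      push Not at hcon
      haveI : Subsingleton (P : Subgroup (alternatingGroup (Fin 5))) := ⟨fun a b => by rw [hcon a, hcon b]⟩
      rw [Nat.card_of_subsingleton (1 : (P : Subgroup (alternatingGroup (Fin 5))))] at hcard
      norm_num at hcard
    obtain ⟨y, hy⟩ : ∃ y : (P : Subgroup (alternatingGroup (Fin 5))), y ≠ 1 ∧ y ≠ x := by
      by_contra hcon
      push Not at hcon
      have : Nat.card (P : Subgroup (alternatingGroup (Fin 5))) ≤ 2 := by
        classical
        haveI : Fintype (P : Subgroup (alternatingGroup (Fin 5))) := Fintype.ofFinite _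
        rw [Nat.card_eq_fintype_card]
        calc Fintype.card (P : Subgroup (alternatingGroup (Fin 5))) = (Finset.univ : Finset (P : Subgroup (alternatingGroup (Fin 5)))).card := rfl
          _ ≤ ({1, x} : Finset (P : Subgroup (alternatingGroup (Fin 5)))).card := by
            apply Finset.card_le_card
            intro z _
            simp only [Finset.mem_insert, Finset.mem_singleton]
            by_cases hz : z = 1
            · exact Or.inl hz
            · exact Or.inr (hcon z hz)
          _ ≤ 2 := Finset.card_le_two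
      omega
    have hct : ∀ z : (P : Subgroup (alternatingGroup (Fin 5))), z ≠ 1 →
        Perm.cycleType ((z : alternatingGroup (Fin 5)) : Perm (Fin 5)) = {2, 2} := by
      intro z hz
      have ho : orderOf ((z : alternatingGroup (Fin 5)) : Perm (Fin 5)) = 2 := by
        apply orderOf_eq_prime
        · have := hsq z z.2
          exact congrArg (fun w : alternatingGroup (Fin 5) => (w : Perm (Fin 5))) this
        · intro h
          exact hz (Subtype.ext (Subtype.ext h))
      obtain ⟨m, hm⟩ := Equiv.Perm.cycleType_prime_order (σ := ((z : alternatingGroup (Fin 5)) : Perm (Fin 5))) (by rw [ho]; exact Nat.prime_two)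
      rw [ho] at hm
      have h9 := ((z : alternatingGroup (Fin 5)) : Perm (Fin 5)).sum_cycleType_le
      rw [hm, Fintype.card_fin, Multiset.sum_replicate, smul_eq_mul] at h9
      have h7 : Perm.sign ((z : alternatingGroup (Fin 5)) : Perm (Fin 5)) = 1 := Equiv.Perm.mem_alternatingGroup.mp (z : alternatingGroup (Fin 5)).2
      rw [Equiv.Perm.sign_of_cycleType, hm] at h7
      have : m = 0 ∨ m = 1 := by omega
      rcases this with rfl | rfl
      · simp at h7; exact absurd h7 (by decide)
      · rw [hm]; rfl
    obtain ⟨g, hg⟩ := exists_alt_conj (x : alternatingGroup (Fin 5)) (y : alternatingGroup (Fin 5)) (by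
      rw [Equiv.Perm.isConj_iff_cycleType_eq, hct x hx, hct y hy.1]) (by
      intro hcc
      rw [Equiv.Perm.centralizer_le_alternating_iff] at hcc
      have h1 := hcc.1 2 (by rw [hct x hx]; simp)
      exact absurd h1 (by decide))
    obtain ⟨m, hmN, hm⟩ := P.conj_eq_normalizer_conj_of_mem (x : alternatingGroup (Fin 5)) g x.2 (by rw [hg]; exact y.2)
    have h3 : (⟨m, hmN⟩ : N) ∈ K := by rw [h]; exact Subgroup.mem_top _
    rw [hK, Subgroup.mem_subgroupOf, Subgroup.mem_centralizer_iff] at h3
    have h4 : (x : alternatingGroup (Fin 5)) * m = m * x := h3 x x.2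
    apply hy.2
    apply Subtype.ext
    rw [← hg, hm, mul_assoc, h4, inv_mul_cancel_left]
  have h3 : K.index ≤ 6 := Nat.le_of_dvd (by norm_num) h6
  have h0 : K.index ≠ 0 := by intro h; rw [h] at h2; exact h2 (dvd_zero 2)
  interval_cases K.index <;> first | rfl | (exfalso; revert h6 h2 h1 h0; decide)

end Cfsg.Agent.H5
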