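import Cfsg.Agent.H5.Dk22
set_option autoImplicit false
set_option linter.style.haveILetI false
set_option linter.unusedSectionVars false

/-! Maximal subgroups `S₄`, `A₅`, `A₄`, `PGL₂(q₀)` of `PSL₂(q)`. -/

namespace Cfsg.Agent.H5

open OnePoint Cfsg.Agent.H4 Cfsg.Agent.H2

section
variable {F : Type*} [Field F] [Fintype F]

local notation "PSL₂" => Matrix.ProjectiveSpecialLinearGroup (Fin 2) F

theorem card_odd (h : Fintype.card F % 2 = 1) : 2 * Nat.card PSL₂ = Fintype.card F * (Fintype.card F ^ 2 - 1) := by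
  have h1 := card_PSL2 (F := F) rfl
  have h2 : Nat.gcd 2 (Fintype.card F - 1) = 2 := by
    apply Nat.gcd_eq_left
    omega
  rw [h2] at h1
  exact h1

theorem p_ne_two (h : Fintype.card F % 2 = 1) (p : ℕ) [hp : Fact p.Prime] [CharP F p] : p ≠ 2 := by
  rcases gcd_cases (F := F) p with ⟨-, -, r, h2, h3⟩ | ⟨h1, -⟩
  · exfalso
    rw [h2] at h
    have : 2 ^ r % 2 = 0 := Nat.mod_eq_zero_of_dvd (dvd_pow_self _ (by omega))
    omega
  · exact h1

theorem max_s4 {p : ℕ} (hpp : p.Prime) (hF : Fintype.card F = p) (hp : p % 8 = 1 ∨ p % 8 = 7) :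
    ∃ H : Subgroup PSL₂, IsCoatom H ∧ Nonempty (H ≃* Equiv.Perm (Fin 4)) := by
  have h16 : p ^ 2 % 16 = 1 := by
    have : p % 16 = 1 ∨ p % 16 = 9 ∨ p % 16 = 7 ∨ p % 16 = 15 := by omega
    rcases this with h | h | h | h <;> rw [Nat.pow_mod, h]
  obtain ⟨H, ⟨e⟩⟩ := (S0803.result hF).2 h16
  refine ⟨H, ?_, ⟨e⟩⟩
  obtain ⟨p', hp'⟩ := CharP.exists F
  haveI : Fact p'.Prime := ⟨CharP.char_is_prime F p'⟩
  have hH : Nat.card H = 24 := by rw [Nat.card_congr e.toEquiv, card_S4']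
  have hG := card_odd (F := F) (by rw [hF]; omega)
  rw [hF] at hG
  have hp7 : 7 ≤ p := by
    have := hpp.two_le
    omega
  have hG2 : 7 * 48 ≤ p * (p ^ 2 - 1) := by
    have h1 : 7 ^ 2 ≤ p ^ 2 := Nat.pow_le_pow_left hp7 2
    exact Nat.mul_le_mul hp7 (by omega)
  apply isCoatom_of
  · rw [hH]; omega
  intro M hM hMt hd1 hd2 hle1 hle2
  let f : alternatingGroup (Fin 4) →* M := (Subgroup.inclusion hM.le).comp (e.symm.toMonoidHom.comp (alternatingGroup (Fin 4)).subtype)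
  have hf : Function.Injective f :=
    (Subgroup.inclusion_injective hM.le).comp (e.symm.injective.comp (Subgroup.subtype_injective _))
  rw [hH] at hle1 hd1
  rcases dickson_a4 p' (p_ne_two (F := F) (by rw [hF]; omega) p') M f hf with ⟨⟨g⟩⟩ | ⟨⟨g⟩⟩ | ⟨⟨g⟩⟩ | ⟨C, i1, i2, m, hm, h⟩
  · rw [Nat.card_congr g.toEquiv, card_A4'] at hle1; omega
  · rw [Nat.card_congr g.toEquiv, card_S4'] at hle1; omega
  · rw [Nat.card_congr g.toEquiv, card_A5'] at hd1; omega
  · obtain ⟨hm2, -⟩ := sub_types hMt hm h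
    rw [hF] at hm
    exact not_two_le_of_prime hpp hm hm2

theorem max_a4 {p : ℕ} (hpp : p.Prime) (hF : Fintype.card F = p) (h5 : 5 ≤ p) (h8 : p % 8 = 3 ∨ p % 8 = 5)
    (h10 : p % 10 ≠ 1 ∧ p % 10 ≠ 9) :
    ∃ H : Subgroup PSL₂, IsCoatom H ∧ Nonempty (H ≃* alternatingGroup (Fin 4)) := by
  obtain ⟨p', hp'⟩ := CharP.exists F
  haveI : Fact p'.Prime := ⟨CharP.char_is_prime F p'⟩
  obtain ⟨n, -, hcard⟩ := FiniteField.card F p'
  have hp2 := p_ne_two (F := F) (by rw [hF]; omega) p'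
  obtain ⟨H, ⟨e⟩⟩ := (S0802.result p' n hcard).2 (fun h => hp2 h.1)
  refine ⟨H, ?_, ⟨e⟩⟩
  have hH : Nat.card H = 12 := by rw [Nat.card_congr e.toEquiv, card_A4']
  have hG := card_odd (F := F) (by rw [hF]; omega)
  rw [hF] at hG
  have hG2 : 5 * 24 ≤ p * (p ^ 2 - 1) := by
    have h1 : 5 ^ 2 ≤ p ^ 2 := Nat.pow_le_pow_left h5 2
    exact Nat.mul_le_mul h5 (by omega)
  apply isCoatom_of
  · rw [hH]; omega
  intro M hM hMt hd1 hd2 hle1 hle2
  let f : alternatingGroup (Fin 4) →* M := (Subgroup.inclusion hM.le).comp e.symm.toMonoidHom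
  have hf : Function.Injective f := (Subgroup.inclusion_injective hM.le).comp e.symm.injective
  rw [hH] at hle1 hd1
  rcases dickson_a4 p' hp2 M f hf with ⟨⟨g⟩⟩ | ⟨⟨g⟩⟩ | ⟨⟨g⟩⟩ | ⟨C, i1, i2, m, hm, h⟩
  · rw [Nat.card_congr g.toEquiv, card_A4'] at hle1; omega
  · rw [Nat.card_congr g.toEquiv, card_S4'] at hd2
    have h1 := (S0803.result hF).1 ⟨M, ⟨g⟩⟩
    have : p % 16 = 3 ∨ p % 16 = 11 ∨ p % 16 = 5 ∨ p % 16 = 13 := by omega
    rcases this with h | h | h | h <;> rw [Nat.pow_mod, h] at h1 <;> omega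
  · have h1 := (S0804.result hF).1 ⟨M, ⟨g⟩⟩
    have h2 := sq_sub_one_mod (by omega) h1
    have h3 : p % 5 ≠ 0 ∨ p = 5 := by
      by_contra hcon
      push Not at hcon
      exact hcon.2 ((Nat.prime_dvd_prime_iff_eq Nat.prime_five hpp).1 (Nat.dvd_of_mod_eq_zero hcon.1)).symm
    rcases h3 with h3 | h3
    · omega
    · rw [Nat.card_congr g.toEquiv, card_A5'] at hle2
      rw [h3] at hG
      norm_num at hG
      omega
  · obtain ⟨hm2, -⟩ := sub_types hMt hm h
    rw [hF] at hm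
    exact not_two_le_of_prime hpp hm hm2

theorem max_a5 (p : ℕ) [hp : Fact p.Prime] [CharP F p]
    (h : (Fintype.card F = p ∧ (p % 10 = 1 ∨ p % 10 = 9)) ∨ (Fintype.card F = p ^ 2 ∧ (p % 10 = 3 ∨ p % 10 = 7))) :
    ∃ H : Subgroup PSL₂, IsCoatom H ∧ Nonempty (H ≃* alternatingGroup (Fin 5)) := by
  have hpp := hp.out
  have h3p : 3 ≤ p := by
    have := hpp.two_le
    rcases h with ⟨-, h⟩ | ⟨-, h⟩ <;> omega
  have hodd : Fintype.card F % 2 = 1 := by
    rcases h with ⟨h, h1⟩ | ⟨h, h1⟩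
    · omega
    · rw [h, Nat.pow_mod]
      have : p % 2 = 1 := by omega
      rw [this]
  have h9 : 9 ≤ Fintype.card F := by
    rcases h with ⟨h, h1⟩ | ⟨h, h1⟩
    · have : p ≠ 1 := hpp.one_lt.ne'
      omega
    · rw [h]; nlinarith
  have hmod : Fintype.card F % 5 = 1 ∨ Fintype.card F % 5 = 4 := by
    rcases h with ⟨h, h1⟩ | ⟨h, h1⟩
    · omega
    · right
      have : p % 5 = 3 ∨ p % 5 = 2 := by omega
      rw [h, Nat.pow_mod]
      rcases this with h | h <;> rw [h]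
  obtain ⟨H, ⟨e⟩⟩ := (S0804.result (F := F) rfl).2 (dvd_of_mod hmod)
  refine ⟨H, ?_, ⟨e⟩⟩
  have hH : Nat.card H = 60 := by rw [Nat.card_congr e.toEquiv, card_A5']
  have hG := card_odd (F := F) hodd
  have hG2 : 9 * 80 ≤ Fintype.card F * (Fintype.card F ^ 2 - 1) := by
    have h1 : 9 ^ 2 ≤ Fintype.card F ^ 2 := Nat.pow_le_pow_left h9 2
    exact Nat.mul_le_mul h9 (by omega)
  apply isCoatom_of
  · rw [hH]; omega
  intro M hM hMt hd1 hd2 hle1 hle2
  have hns : ¬ Group.IsSolvable M := by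
    intro hs
    apply a5_not_solvable
    have h1 : Group.IsSolvable H := H1.isSolvable_of_le hM.le hs
    exact H1.isSolvable_of_equiv e h1
  rw [hH] at hd1 hle1
  rcases nonsolv_cases M hns with ⟨⟨g⟩⟩ | ⟨C, i1, i2, m, hm, h4, hC⟩
  · rw [Nat.card_congr g.toEquiv, card_A5'] at hle1; omega
  · obtain ⟨hm2, -⟩ := sub_types hMt hm hC
    rcases h with ⟨h, h1⟩ | ⟨h, h1⟩
    · rw [h] at hm
      exact not_two_le_of_prime hpp hm hm2
    · rw [h] at hm
      have hCp : Fintype.card C = p := by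
        have h5 : Fintype.card C ∣ p ^ 2 := by rw [← hm]; exact dvd_pow_self _ (by omega)
        obtain ⟨s, -, hs⟩ := (Nat.dvd_prime_pow hpp).1 h5
        rw [hs, ← pow_mul] at hm
        have h6 : s * m = 2 := Nat.pow_right_injective hpp.two_le hm
        have h7 : s ≠ 0 := by rintro rfl; omega
        have h8 : s = 1 := by
          rcases s with _ | _ | s
          · exact absurd rfl h7
          · rfl
          · nlinarith
        rw [hs, h8, pow_one]
      have h5 : 5 ∣ p * (p ^ 2 - 1) := by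
        have h6 : 5 ∣ Nat.card M := ((by norm_num : (5 : ℕ) ∣ 60)).trans hd1
        rcases hC with ⟨⟨g⟩⟩ | ⟨⟨g⟩⟩
        · rw [← hCp, ← card_PSL2 (F := C) rfl, ← Nat.card_congr g.toEquiv]
          exact h6.mul_left _
        · rw [← hCp, ← card_PGL2 (K := C) rfl, ← Nat.card_congr g.toEquiv]
          exact h6
      have := sq_sub_one_mod (by omega) h5
      omega

theorem max_pgl {K : Type*} [Field K] [Fintype K] {q : ℕ} (hK : Fintype.card K = q) (hF : Fintype.card F = q ^ 2) (hq : Odd q) :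
    ∃ H : Subgroup PSL₂, IsCoatom H ∧ Nonempty (H ≃* Matrix.ProjGenLinGroup (Fin 2) K) := by
  classical
  obtain ⟨H, ⟨e⟩⟩ := ((S0805.result (F := F) (K := K) hF hq.pow 2 (by norm_num) (by rw [hK])).2).2 even_two
  refine ⟨H, ?_, ⟨e⟩⟩
  obtain ⟨p, hp⟩ := CharP.exists F
  haveI : Fact p.Prime := ⟨CharP.char_is_prime F p⟩
  have hq1 : 1 < q := hK ▸ Fintype.one_lt_card
  have hq2 := Nat.odd_iff.1 hq
  have hq3 : 3 ≤ q := by omega
  have hodd : Fintype.card F % 2 = 1 := by rw [hF, Nat.pow_mod, hq2]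
  have hG := card_odd (F := F) hodd
  rw [hF] at hG
  have hH : Nat.card H = q * (q ^ 2 - 1) := by rw [Nat.card_congr e.toEquiv, card_PGL2 hK]
  obtain ⟨t, ht⟩ : ∃ t, q ^ 2 = t + 1 := ⟨q ^ 2 - 1, by
    have : 0 < q ^ 2 := by positivity
    omega⟩
  have ht8 : 8 ≤ t := by nlinarith
  have htt : (q ^ 2) ^ 2 - 1 = t * (t + 2) := by
    have : (t + 1) ^ 2 = t * (t + 2) + 1 := by ring
    rw [ht, this, Nat.add_sub_cancel]
  rw [htt] at hG
  rw [ht, Nat.add_sub_cancel] at hH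
  rw [ht] at hG
  apply isCoatom_of
  · rw [hH]
    intro h
    rw [← h] at hG
    -- 2 q t = (t+1) t (t+2)
    have h1 : t * (2 * q) = t * ((t + 1) * (t + 2)) := by linarith
    have h2 := Nat.eq_of_mul_eq_mul_left (by omega) h1
    nlinarith
  intro M hM hMt hd1 hd2 hle1 hle2
  rw [hH] at hd1 hle1
  rcases dickson p M with ⟨k, hk, h⟩ | ⟨P, hP⟩ | ⟨⟨g⟩⟩ | ⟨⟨g⟩⟩ | ⟨⟨g⟩⟩ | ⟨C, i1, i2, m, hm, h⟩
  · rw [hF, ht] at hk
    have hkle : k ≤ t + 1 + 1 := by
      rcases hk with hk | hk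
      · refine (Nat.le_of_dvd (Nat.div_pos ?_ ?_) hk).trans (Nat.div_le_self _ _)
        · exact (Nat.le_of_dvd (by omega) (Nat.gcd_dvd_left 2 (t + 1 - 1))).trans (by omega)
        · exact Nat.gcd_pos_of_pos_left _ (by norm_num)
      · refine (Nat.le_of_dvd (Nat.div_pos ?_ ?_) hk).trans ((Nat.div_le_self _ _).trans (by omega))
        · exact (Nat.le_of_dvd (by omega) (Nat.gcd_dvd_left 2 (t + 1 - 1))).trans (by omega)
        · exact Nat.gcd_pos_of_pos_left _ (by norm_num)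
    have hcard : Nat.card M ≤ 2 * k := by
      rcases h with ⟨-, h⟩ | ⟨⟨e⟩⟩
      · omega
      · rw [Nat.card_congr e.toEquiv, DihedralGroup.nat_card]
    nlinarith
  · obtain ⟨a, ha⟩ := sylow_norm_le (F := F) p P
    have h1 := Subgroup.card_dvd_of_le (hP.trans ha)
    have h2 := card_pstab (F := F) a
    have h3 : Nat.gcd 2 (Fintype.card F - 1) = 2 := by
      apply Nat.gcd_eq_left
      omega
    rw [h3, hF, ht, Nat.add_sub_cancel] at h2
    obtain ⟨c, hc⟩ := hd1.trans h1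
    rw [hc, ← ht] at h2
    have h4 : (q * t) * (2 * c) = (q * t) * q := by
      have : q ^ 2 * t = (q * t) * q := by ring
      rw [← this, ← h2]; ring
    have h5 := Nat.eq_of_mul_eq_mul_left (by positivity) h4
    omega
  · rw [Nat.card_congr g.toEquiv, card_A4'] at hle1; nlinarith
  · rw [Nat.card_congr g.toEquiv, card_S4'] at hle1; nlinarith
  · rw [Nat.card_congr g.toEquiv, card_A5'] at hle1 hd1
    have hq3' : q = 3 := by
      by_contra hne
      have : 5 ≤ q := by omega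
      nlinarith
    rw [hq3'] at ht hd1
    have ht' : t = 8 := by omega
    rw [ht'] at hd1
    revert hd1; decide
  · obtain ⟨hm2, hc2, hC, hle, -⟩ := sub_types hMt hm h
    rw [hF] at hc2
    have hcq : Fintype.card C ≤ q := by
      by_contra hcon
      have : (q + 1) ^ 2 ≤ Fintype.card C ^ 2 := Nat.pow_le_pow_left (by omega) 2
      nlinarith
    have h1 : Fintype.card C ^ 2 - 1 ≤ t := by rw [ht] at hc2; omega
    have h2 : Fintype.card C * (Fintype.card C ^ 2 - 1) ≤ q * t := Nat.mul_le_mul hcq h1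
    have h3 : 0 < q * t := by positivity
    omega

end

end Cfsg.Agent.H5
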