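import Cfsg.Agent.H5.Dk23
set_option autoImplicit false
set_option linter.style.haveILetI false
set_option linter.unusedSectionVars false

/-! Subfield subgroups as maximal subgroups. -/

namespace Cfsg.Agent.H5

open OnePoint Cfsg.Agent.H4 Cfsg.Agent.H2

theorem pow_eq_of_bounds {p s t X : ℕ} (hp : p.Prime) (hs : s ≠ 0) (ht : t ≠ 0)
    (h1 : p ^ s * ((p ^ s) ^ 2 - 1) ≤ 2 * X) (h2 : X ≤ p ^ s * ((p ^ s) ^ 2 - 1))
    (h3 : p ^ t * ((p ^ t) ^ 2 - 1) ≤ 2 * X) (h4 : X ≤ p ^ t * ((p ^ t) ^ 2 - 1)) : p ^ s = p ^ t := by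
  have key : ∀ s t : ℕ, s ≠ 0 → X ≤ p ^ s * ((p ^ s) ^ 2 - 1) → p ^ t * ((p ^ t) ^ 2 - 1) ≤ 2 * X → ¬ s < t := by
    intro s t hs h2 h3 hst
    have h5 : p ^ s * p ≤ p ^ t := by rw [← pow_succ]; exact Nat.pow_le_pow_right hp.pos hst
    have hp2 := hp.two_le
    have h6 : 2 * p ^ s ≤ p ^ t := by nlinarith [Nat.pos_of_ne_zero (pow_ne_zero s hp.ne_zero)]
    have h7 : 2 ≤ p ^ s := hp2.trans (Nat.le_self_pow hs p)
    generalize p ^ s = a at *
    generalize p ^ t = b at *
    have h8 : a ^ 2 - 1 < b ^ 2 - 1 := by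
      have : a ^ 2 < b ^ 2 := Nat.pow_lt_pow_left (by omega) two_ne_zero
      have : 0 < a ^ 2 := by positivity
      omega
    have h9 : 2 * a * (a ^ 2 - 1) < b * (b ^ 2 - 1) := by
      calc 2 * a * (a ^ 2 - 1) ≤ b * (a ^ 2 - 1) := Nat.mul_le_mul_right _ h6
        _ < b * (b ^ 2 - 1) := Nat.mul_lt_mul_of_pos_left h8 (by omega)
    have : 2 * (a * (a ^ 2 - 1)) = 2 * a * (a ^ 2 - 1) := by ring
    omega
  rcases lt_trichotomy s t with h | h | h
  · exact absurd h (key s t hs h2 h3)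
  · rw [h]
  · exact absurd h (key t s ht h4 h1)

section
variable {K C : Type*} [Field K] [Fintype K] [Field C] [Fintype C]

theorem psl_card_bounds : Fintype.card K * (Fintype.card K ^ 2 - 1) ≤ 2 * Nat.card (Matrix.ProjectiveSpecialLinearGroup (Fin 2) K) ∧
    Nat.card (Matrix.ProjectiveSpecialLinearGroup (Fin 2) K) ≤ Fintype.card K * (Fintype.card K ^ 2 - 1) := by
  have h1 := card_PSL2 (F := K) rfl
  have h2 : Nat.gcd 2 (Fintype.card K - 1) ≤ 2 := Nat.le_of_dvd (by norm_num) (Nat.gcd_dvd_left _ _)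
  constructor
  · rw [← h1]; exact Nat.mul_le_mul_right _ h2
  · rw [← h1]; exact Nat.le_mul_of_pos_left _ (Nat.gcd_pos_of_pos_left _ (by norm_num))

theorem psl_sub_card (p : ℕ) [hp : Fact p.Prime] [CharP K p] [CharP C p] (h4 : 4 ≤ Fintype.card K)
    (f : Matrix.ProjectiveSpecialLinearGroup (Fin 2) K →* Matrix.ProjectiveSpecialLinearGroup (Fin 2) C)
    (hf : Function.Injective f) : ∃ m, Fintype.card K ^ m = Fintype.card C := by
  let e := MonoidHom.ofInjective hf
  obtain ⟨s, -, hs⟩ := FiniteField.card K p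
  obtain ⟨t, -, ht⟩ := FiniteField.card C p
  have hns : ¬ Group.IsSolvable f.range := by
    intro h
    exact psl2_not_solvable (F := K) h4 (H1.isSolvable_of_equiv e.symm h)
  have hb := psl_card_bounds (K := K)
  rcases nonsolv_cases f.range hns with ⟨⟨g⟩⟩ | ⟨C', i1, i2, m, hm, h4', hC'⟩
  · have h60 : Nat.card (Matrix.ProjectiveSpecialLinearGroup (Fin 2) K) = 60 := by
      rw [Nat.card_congr e.toEquiv, Nat.card_congr g.toEquiv, card_A5']
    rw [h60] at hb
    have hK5 : Fintype.card K < 6 := by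
      by_contra hcon
      have h1 : 6 ≤ Fintype.card K := by omega
      have h2 : 6 ^ 2 ≤ Fintype.card K ^ 2 := Nat.pow_le_pow_left h1 2
      have h3 : 6 * 35 ≤ Fintype.card K * (Fintype.card K ^ 2 - 1) := Nat.mul_le_mul h1 (by omega)
      omega
    have hK45 : Fintype.card K = 4 ∨ Fintype.card K = 5 := by omega
    rcases hK45 with h | h
    · -- `4`
      have hp2 : p = 2 := by
        have h1 : p ∣ 2 ^ 2 := by
          have : p ∣ Fintype.card K := by rw [hs]; exact dvd_pow_self _ s.ne_zero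
          rw [h] at this
          exact this
        exact (Nat.prime_dvd_prime_iff_eq hp.out Nat.prime_two).1 (hp.out.dvd_of_dvd_pow h1)
      have h5 : 5 ∣ Fintype.card C * (Fintype.card C ^ 2 - 1) := by
        have h6 := Subgroup.card_subgroup_dvd_card f.range
        rw [← Nat.card_congr e.toEquiv, h60] at h6
        rw [← card_PSL2 (F := C) rfl]
        exact (((by norm_num : (5 : ℕ) ∣ 60)).trans h6).mul_left _
      have h6 : 5 ∣ 4 ^ (t : ℕ) - 1 := by
        rcases Nat.prime_five.dvd_mul.1 h5 with h7 | h7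
        · rw [ht, hp2] at h7
          have := Nat.prime_five.dvd_of_dvd_pow h7
          omega
        · rw [ht, hp2, ← pow_mul, mul_comm, pow_mul] at h7
          exact h7
      have h7 := five_dvd_four_pow h6
      obtain ⟨k, hk⟩ := Nat.dvd_of_mod_eq_zero h7
      refine ⟨k, ?_⟩
      rw [h, ht, hk, hp2, pow_mul]; norm_num
    · have hp5 : p = 5 := by
        have h1 : p ∣ 5 := by
          have : p ∣ Fintype.card K := by rw [hs]; exact dvd_pow_self _ s.ne_zero
          rwa [h] at this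
        exact (Nat.prime_dvd_prime_iff_eq hp.out Nat.prime_five).1 h1
      exact ⟨t, by rw [h, ht, hp5]⟩
  · refine ⟨m, ?_⟩
    suffices h : Fintype.card K = Fintype.card C' by rw [h]; exact hm
    have h1 : Fintype.card C' ∣ p ^ (t : ℕ) := by
      rw [← ht, ← hm]
      apply dvd_pow_self
      rintro rfl
      rw [pow_zero] at hm
      have := Fintype.one_lt_card (α := C)
      omega
    obtain ⟨s', -, hs'⟩ := (Nat.dvd_prime_pow hp.out).1 h1
    rw [hs, hs']
    have hcard : Nat.card (Matrix.ProjectiveSpecialLinearGroup (Fin 2) K) = Nat.card f.range := Nat.card_congr e.toEquiv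
    have hb' : Fintype.card C' * (Fintype.card C' ^ 2 - 1) ≤ 2 * Nat.card f.range ∧ Nat.card f.range ≤ Fintype.card C' * (Fintype.card C' ^ 2 - 1) := by
      rcases hC' with ⟨⟨g⟩⟩ | ⟨⟨g⟩⟩
      · rw [Nat.card_congr g.toEquiv]; exact psl_card_bounds
      · rw [Nat.card_congr g.toEquiv, card_PGL2 (K := C') rfl]
        exact ⟨by omega, le_rfl⟩
    rw [← hcard, hs'] at hb'
    rw [hs] at hb
    exact pow_eq_of_bounds hp.out s.ne_zero (by rintro rfl; rw [pow_zero] at hs'; omega) hb.1 hb.2 hb'.1 hb'.2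

theorem psl_to_psl_of_pgl (h4 : 4 ≤ Fintype.card K)
    (f : Matrix.ProjectiveSpecialLinearGroup (Fin 2) K →* Matrix.ProjGenLinGroup (Fin 2) C)
    (hf : Function.Injective f) :
    ∃ g : Matrix.ProjectiveSpecialLinearGroup (Fin 2) K →* Matrix.ProjectiveSpecialLinearGroup (Fin 2) C, Function.Injective g := by
  classical
  haveI : IsSimpleGroup (Matrix.ProjectiveSpecialLinearGroup (Fin 2) K) := PSL2_isSimple (by rw [Nat.card_eq_fintype_card]; exact h4)
  let T := Matrix.ProjectiveSpecialLinearGroup.toPGL (n := Fin 2) (R := C)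
  have hT : Function.Injective T := Matrix.ProjectiveSpecialLinearGroup.toPGL_injective
  have hidx : T.range.index ≤ 2 := by
    have h1 := T.range.card_mul_index
    rw [← Nat.card_congr (MonoidHom.ofInjective hT).toEquiv, card_PGL2 (K := C) rfl] at h1
    have h2 := psl_card_bounds (K := C)
    rw [← h1] at h2
    have h3 : 0 < Nat.card (Matrix.ProjectiveSpecialLinearGroup (Fin 2) C) := Nat.card_pos
    by_contra hcon
    nlinarith [h2.1]
  have hidx0 : T.range.index ≠ 0 := by
    haveI : Finite (Matrix.ProjGenLinGroup (Fin 2) C) := by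
      show Finite (Matrix.GeneralLinearGroup (Fin 2) C ⧸ Subgroup.center (Matrix.GeneralLinearGroup (Fin 2) C))
      infer_instance
    exact Subgroup.index_ne_zero_of_finite
  have hle : (T.range.comap f).index ≤ 2 := by
    rw [Subgroup.index_comap]
    have h5 : T.range.relIndex f.range ≤ T.range.relIndex ⊤ :=
      Subgroup.relIndex_le_of_le_right le_top (by rw [Subgroup.relIndex_top_right]; exact hidx0)
    rw [Subgroup.relIndex_top_right] at h5
    exact h5.trans hidx
  have htop : T.range.comap f = ⊤ := by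
    have h0 : (T.range.comap f).index ≠ 0 := Subgroup.index_ne_zero_of_finite
    have h12 : (T.range.comap f).index = 1 ∨ (T.range.comap f).index = 2 := by omega
    rcases h12 with h | h
    · exact Subgroup.index_eq_one.1 h
    · haveI := Subgroup.normal_of_index_eq_two h
      rcases Subgroup.Normal.eq_bot_or_eq_top (H := T.range.comap f) inferInstance with h1 | h1
      · exfalso
        rw [h1, Subgroup.index_bot] at h
        have h2 := (psl_card_bounds (K := K)).1
        rw [h] at h2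
        have h3 : 4 ^ 2 ≤ Fintype.card K ^ 2 := Nat.pow_le_pow_left h4 2
        have h5 : 4 * 15 ≤ Fintype.card K * (Fintype.card K ^ 2 - 1) := Nat.mul_le_mul h4 (by omega)
        omega
      · exact h1
  have hfr : ∀ x, f x ∈ T.range := by
    intro x
    have : x ∈ T.range.comap f := by rw [htop]; trivial
    exact this
  refine ⟨(MonoidHom.ofInjective hT).symm.toMonoidHom.comp (f.codRestrict T.range hfr), ?_⟩
  apply (MonoidHom.ofInjective hT).symm.injective.comp
  intro x y hxy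
  exact hf (congrArg Subtype.val hxy)

end

section
variable {F K : Type*} [Field F] [Fintype F] [Field K] [Fintype K]

local notation "PSL₂" => Matrix.ProjectiveSpecialLinearGroup (Fin 2) F

theorem charP_of_card_pow (p : ℕ) [hp : Fact p.Prime] [CharP F p] {C : Type*} [Field C] [Fintype C] {m : ℕ}
    (hm : Fintype.card C ^ m = Fintype.card F) : CharP C p := by
  obtain ⟨p', hp'⟩ := CharP.exists C
  haveI : Fact p'.Prime := ⟨CharP.char_is_prime C p'⟩
  obtain ⟨s, -, hs⟩ := FiniteField.card C p'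
  obtain ⟨t, -, ht⟩ := FiniteField.card F p
  have h1 : p ∣ Fintype.card C ^ m := by rw [hm, ht]; exact dvd_pow_self _ t.ne_zero
  rw [hs, ← pow_mul] at h1
  have h2 := (Nat.prime_dvd_prime_iff_eq hp.out (Fact.out : p'.Prime)).1 (hp.out.dvd_of_dvd_pow h1)
  rw [h2]; exact hp'

theorem sub_core (p : ℕ) [hp : Fact p.Prime] [CharP F p] {r : ℕ} (hr : r.Prime) (hF : Fintype.card K ^ r = Fintype.card F) (h4 : 4 ≤ Fintype.card K)
    {M : Subgroup PSL₂} {C : Type*} [Field C] [Fintype C] {m : ℕ} (hm2 : 2 ≤ m) (hm : Fintype.card C ^ m = Fintype.card F)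
    (hC : Nonempty (M ≃* Matrix.ProjectiveSpecialLinearGroup (Fin 2) C) ∨ Nonempty (M ≃* Matrix.ProjGenLinGroup (Fin 2) C))
    (f : Matrix.ProjectiveSpecialLinearGroup (Fin 2) K →* M) (hf : Function.Injective f) : Fintype.card C = Fintype.card K ∧ m = r := by
  haveI := charP_of_card_pow (F := F) p hm
  haveI := charP_of_card_pow (F := F) p hF
  obtain ⟨g, hg⟩ : ∃ g : Matrix.ProjectiveSpecialLinearGroup (Fin 2) K →* Matrix.ProjectiveSpecialLinearGroup (Fin 2) C, Function.Injective g := by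
    rcases hC with ⟨⟨e⟩⟩ | ⟨⟨e⟩⟩
    · exact ⟨e.toMonoidHom.comp f, e.injective.comp hf⟩
    · exact psl_to_psl_of_pgl h4 (e.toMonoidHom.comp f) (e.injective.comp hf)
  obtain ⟨m', hm'⟩ := psl_sub_card p h4 g hg
  rw [← hm', ← pow_mul, ← hF] at hm
  have h1 : m' * m = r := Nat.pow_right_injective (by omega : 2 ≤ Fintype.card K) hm
  rcases (Nat.dvd_prime hr).1 (Dvd.intro_left m' h1) with h2 | h2
  · omega
  · rw [h2] at h1
    have h3 : m' = 1 := Nat.eq_of_mul_eq_mul_right hr.pos (by rw [h1, one_mul])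
    rw [h3, pow_one] at hm'
    exact ⟨hm'.symm, h2⟩

theorem max_psl_odd {q r : ℕ} (hK : Fintype.card K = q) (hF : Fintype.card F = q ^ r) (hq : Odd q) (hr : r.Prime) (hr2 : r ≠ 2) :
    ∃ H : Subgroup PSL₂, IsCoatom H ∧ Nonempty (H ≃* Matrix.ProjectiveSpecialLinearGroup (Fin 2) K) := by
  classical
  have hFK : Fintype.card K ^ r = Fintype.card F := by rw [hK, hF]
  obtain ⟨H, ⟨e⟩⟩ := exists_psl_sub (F := F) hFK
  refine ⟨H, ?_, ⟨e⟩⟩
  obtain ⟨p, hp⟩ := CharP.exists F
  haveI : Fact p.Prime := ⟨CharP.char_is_prime F p⟩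
  haveI := charP_of_card_pow (F := F) p hFK
  have hq1 : 1 < q := hK ▸ Fintype.one_lt_card
  have hq2 := Nat.odd_iff.1 hq
  have hq3 : 3 ≤ q := by omega
  have hrodd : r % 2 = 1 := Nat.odd_iff.1 (hr.odd_of_ne_two hr2)
  have hr3 : 3 ≤ r := by have := hr.two_le; omega
  have hodd : Fintype.card F % 2 = 1 := by rw [hF]; exact Nat.odd_iff.1 hq.pow
  have hp2 := p_ne_two (F := F) hodd p
  have hG := card_odd (F := F) hodd
  have hKc := card_odd (F := K) (by rw [hK]; exact hq2)
  have hH : 2 * Nat.card H = q * (q ^ 2 - 1) := by rw [Nat.card_congr e.toEquiv, hKc, hK]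
  have hqF : q < Fintype.card F := by
    rw [hF]
    calc q = q ^ 1 := (pow_one q).symm
      _ < q ^ r := Nat.pow_lt_pow_right hq1 (by omega)
  have h24 : 3 * 8 ≤ q * (q ^ 2 - 1) := by
    have : 3 ^ 2 ≤ q ^ 2 := Nat.pow_le_pow_left hq3 2
    exact Nat.mul_le_mul hq3 (by omega)
  apply isCoatom_of
  · intro h
    rw [h, hG] at hH
    have h1 : q ^ 2 - 1 ≤ Fintype.card F ^ 2 - 1 := Nat.sub_le_sub_right (Nat.pow_le_pow_left hqF.le 2) 1
    have h2 : q * (q ^ 2 - 1) < Fintype.card F * (Fintype.card F ^ 2 - 1) := by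
      have h9 : 3 ^ 2 ≤ q ^ 2 := Nat.pow_le_pow_left hq3 2
      calc q * (q ^ 2 - 1) ≤ q * (Fintype.card F ^ 2 - 1) := Nat.mul_le_mul_left _ h1
        _ < Fintype.card F * (Fintype.card F ^ 2 - 1) := Nat.mul_lt_mul_of_pos_right hqF (by omega)
    omega
  intro M hM hMt hd1 hd2 hle1 hle2
  have hsmall : Nat.card M < 120 → q = 3 := by
    intro hlt
    by_contra hne
    have h5 : 5 ≤ q := by omega
    have : 5 ^ 2 ≤ q ^ 2 := Nat.pow_le_pow_left h5 2
    have : 5 * 24 ≤ q * (q ^ 2 - 1) := Nat.mul_le_mul h5 (by omega)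
    omega
  obtain ⟨nK, -, hnK⟩ := FiniteField.card K p
  obtain ⟨A, ⟨eA⟩⟩ := (S0802.result p nK hnK).2 (fun h => hp2 h.1)
  let f0 : Matrix.ProjectiveSpecialLinearGroup (Fin 2) K →* M := (Subgroup.inclusion hM.le).comp e.symm.toMonoidHom
  have hf0 : Function.Injective f0 := (Subgroup.inclusion_injective hM.le).comp e.symm.injective
  let f : alternatingGroup (Fin 4) →* M := f0.comp (A.subtype.comp eA.symm.toMonoidHom)
  have hf : Function.Injective f := hf0.comp (A.subtype_injective.comp eA.symm.injective)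
  rcases dickson_a4 p hp2 M f hf with ⟨⟨g⟩⟩ | ⟨⟨g⟩⟩ | ⟨⟨g⟩⟩ | ⟨C, i1, i2, m, hm, h⟩
  · rw [Nat.card_congr g.toEquiv, card_A4'] at hle1; omega
  · have hc := Nat.card_congr g.toEquiv
    rw [card_S4'] at hc
    have h3 := hsmall (by omega)
    have h1 := (S0803.result (F := F) rfl).1 ⟨M, ⟨g⟩⟩
    rw [hF, h3, ← pow_mul, mul_comm, pow_mul] at h1
    obtain ⟨k, hk⟩ : ∃ k, r = 2 * k + 1 := ⟨r / 2, by omega⟩
    rw [hk, pow_succ, pow_mul, Nat.mul_mod, Nat.pow_mod] at h1
    norm_num at h1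
  · have hc := Nat.card_congr g.toEquiv
    rw [card_A5'] at hc
    have h3 := hsmall (by omega)
    have h1 := (S0804.result (F := F) rfl).1 ⟨M, ⟨g⟩⟩
    rw [hF, h3] at h1
    have h6 : 5 ∣ 9 ^ r - 1 := by
      rcases Nat.prime_five.dvd_mul.1 h1 with h7 | h7
      · have := Nat.prime_five.dvd_of_dvd_pow h7
        omega
      · rw [← pow_mul, mul_comm, pow_mul] at h7
        exact h7
    have h7 := five_dvd_nine_pow h6
    omega
  · obtain ⟨hm2, -⟩ := sub_types hMt hm h
    have hCK : Fintype.card C = Fintype.card K ∧ m = r := by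
      by_cases h4 : 4 ≤ Fintype.card K
      · exact sub_core p hr hFK h4 hm2 hm h f0 hf0
      · have hq' : q = 3 := by omega
        rw [hK]
        rw [hF, hq'] at hm
        have h1 : Fintype.card C ∣ 3 ^ r := by rw [← hm]; exact dvd_pow_self _ (by omega)
        obtain ⟨s, -, hs⟩ := (Nat.dvd_prime_pow Nat.prime_three).1 h1
        rw [hs, ← pow_mul] at hm
        have h2 : s * m = r := Nat.pow_right_injective (by norm_num) hm
        rcases (Nat.dvd_prime hr).1 (Dvd.intro_left s h2) with h3 | h3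
        · omega
        · rw [h3] at h2
          have h5 : s = 1 := Nat.eq_of_mul_eq_mul_right hr.pos (by rw [h2, one_mul])
          exact ⟨by rw [hs, h5, hq']; norm_num, h3⟩
    obtain ⟨hCK, hmr⟩ := hCK
    rcases h with ⟨⟨g⟩⟩ | h
    · have h1 := card_odd (F := C) (by rw [hCK, hK]; exact hq2)
      rw [← Nat.card_congr g.toEquiv, hCK, hK] at h1
      omega
    · have h1 := ((S0805.result (F := F) (K := C) rfl (Nat.odd_iff.2 hodd) m (by omega) hm).2).1 ⟨M, h⟩
      rw [hmr] at h1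
      have := Nat.even_iff.1 h1
      omega

theorem max_psl_even {q r : ℕ} (hK : Fintype.card K = q) (hF : Fintype.card F = q ^ r) (hq : Even q) (hq2 : q ≠ 2) (hr : r.Prime) :
    ∃ H : Subgroup PSL₂, IsCoatom H ∧ Nonempty (H ≃* Matrix.ProjectiveSpecialLinearGroup (Fin 2) K) := by
  classical
  have hFK : Fintype.card K ^ r = Fintype.card F := by rw [hK, hF]
  obtain ⟨H, ⟨e⟩⟩ := exists_psl_sub (F := F) hFK
  refine ⟨H, ?_, ⟨e⟩⟩
  obtain ⟨p, hp⟩ := CharP.exists F
  haveI : Fact p.Prime := ⟨CharP.char_is_prime F p⟩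
  haveI := charP_of_card_pow (F := F) p hFK
  have hq1 : 1 < q := hK ▸ Fintype.one_lt_card
  have hq2' := Nat.even_iff.1 hq
  have hq4 : 4 ≤ q := by omega
  have hr2 := hr.two_le
  have hKc := card_PSL2 (F := K) rfl
  have hg1 : Nat.gcd 2 (Fintype.card K - 1) = 1 := by
    rcases gcd_cases (F := K) p with ⟨-, h, -⟩ | ⟨-, -, h⟩
    · exact h
    · omega
  rw [hg1, one_mul, ← Nat.card_congr e.toEquiv, hK] at hKc
  have hqF : q < Fintype.card F := by
    rw [hF]
    calc q = q ^ 1 := (pow_one q).symm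
      _ < q ^ r := Nat.pow_lt_pow_right hq1 (by omega)
  have h60 : 4 * 15 ≤ q * (q ^ 2 - 1) := by
    have : 4 ^ 2 ≤ q ^ 2 := Nat.pow_le_pow_left hq4 2
    exact Nat.mul_le_mul hq4 (by omega)
  have hFeven : Fintype.card F % 2 = 0 := by
    rw [hF]
    exact Nat.even_iff.1 (hq.pow_of_ne_zero (by omega))
  apply isCoatom_of
  · intro h
    have hG := card_PSL2 (F := F) rfl
    have hg1 : Nat.gcd 2 (Fintype.card F - 1) = 1 := by
      rcases gcd_cases (F := F) p with ⟨-, h, -⟩ | ⟨-, -, h⟩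
      · exact h
      · omega
    rw [hg1, one_mul, ← h, hKc] at hG
    have h1 : q ^ 2 - 1 ≤ Fintype.card F ^ 2 - 1 := Nat.sub_le_sub_right (Nat.pow_le_pow_left hqF.le 2) 1
    have h2 : q * (q ^ 2 - 1) < Fintype.card F * (Fintype.card F ^ 2 - 1) := by
      calc q * (q ^ 2 - 1) ≤ q * (Fintype.card F ^ 2 - 1) := Nat.mul_le_mul_left _ h1
        _ < Fintype.card F * (Fintype.card F ^ 2 - 1) := by
          apply Nat.mul_lt_mul_of_pos_right hqF
          have : 4 ^ 2 ≤ q ^ 2 := Nat.pow_le_pow_left hq4 2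
          omega
    omega
  intro M hM hMt hd1 hd2 hle1 hle2
  let f0 : Matrix.ProjectiveSpecialLinearGroup (Fin 2) K →* M := (Subgroup.inclusion hM.le).comp e.symm.toMonoidHom
  have hf0 : Function.Injective f0 := (Subgroup.inclusion_injective hM.le).comp e.symm.injective
  have hns : ¬ Group.IsSolvable M := by
    intro hs
    apply psl2_not_solvable (F := K) (by omega)
    have h1 : Group.IsSolvable H := H1.isSolvable_of_le hM.le hs
    exact H1.isSolvable_of_equiv e h1
  rcases nonsolv_cases M hns with ⟨⟨g⟩⟩ | ⟨C, i1, i2, m, hm, h4, h⟩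
  · rw [Nat.card_congr g.toEquiv, card_A5'] at hle1; omega
  · obtain ⟨hm2, -, -, hle, -⟩ := sub_types hMt hm h
    obtain ⟨hCK, -⟩ := sub_core p hr hFK (by omega) hm2 hm h f0 hf0
    rw [hCK, hK] at hle
    omega

end

end Cfsg.Agent.H5
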