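import Cfsg.Agent.H5.Dk24
set_option autoImplicit false
set_option linter.style.haveILetI false
set_option linter.unusedSectionVars false

/-! Pair stabilizers. -/

namespace Cfsg.Agent.H5

open OnePoint Cfsg.Agent.H4 Cfsg.Agent.H2 Matrix

section
variable {K : Type*} [Field K] [DecidableEq K]

theorem ml_spec (α : Kˣ) : glPerm K (dgl α) ∞ = ∞ ∧
    ∀ k : K, glPerm K (dgl α) (k : OnePoint K) = (((α : K) * k : K) : OnePoint K) := by
  have e : ∀ i j, (dgl α) i j = (!![(α : K), 0; 0, 1] : Matrix (Fin 2) (Fin 2) K) i j := by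
    intro i j; rfl
  constructor
  · rw [glPerm_infty, e, e]; simp
  · intro k
    rw [glPerm_some, e, e, e, e]; simp

theorem glPerm_mem_range [IsAlgClosed K] (A : GL (Fin 2) K) : glPerm K A ∈ (slPerm K).range := by
  obtain ⟨α, S, rfl⟩ := gl_decomp A
  rw [map_mul]
  refine mul_mem ?_ ⟨S, rfl⟩
  obtain ⟨s, hs⟩ := IsAlgClosed.exists_pow_nat_eq (α : K) (n := 2) (by norm_num)
  have hs0 : s ≠ 0 := by
    rintro rfl
    exact α.ne_zero (by rw [← hs]; ring)
  refine ⟨mkSL s 0 0 s⁻¹ (by field_simp; ring), ?_⟩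
  apply perm_ext
  · rw [slPerm_mkSL_infty, if_pos rfl, (ml_spec α).1]
  · intro k
    rw [slPerm_mkSL_some, zero_mul, zero_add, if_neg (inv_ne_zero hs0), (ml_spec α).2]
    congr 1
    rw [← hs]; field_simp; ring

/-- the permutations in the Möbius group commuting with `φ` -/
noncomputable def cG (φ : K →+* K) : Subgroup (Equiv.Perm (OnePoint K)) where
  carrier := {γ | γ ∈ (slPerm K).range ∧ ∀ x, γ (OnePoint.map φ x) = OnePoint.map φ (γ x)}
  mul_mem' := by
    rintro a b ⟨ha, ha'⟩ ⟨hb, hb'⟩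
    refine ⟨mul_mem ha hb, fun x => ?_⟩
    rw [Equiv.Perm.mul_apply, hb', ha', Equiv.Perm.mul_apply]
  one_mem' := ⟨one_mem _, fun x => rfl⟩
  inv_mem' := by
    rintro a ⟨ha, ha'⟩
    refine ⟨inv_mem ha, fun x => ?_⟩
    apply a.injective
    rw [app_inv, ha', app_inv]

theorem mem_cG {φ : K →+* K} {γ : Equiv.Perm (OnePoint K)} :
    γ ∈ cG φ ↔ γ ∈ (slPerm K).range ∧ ∀ x, γ (OnePoint.map φ x) = OnePoint.map φ (γ x) := Iff.rfl

theorem map_coe' (φ : K →+* K) (k : K) : OnePoint.map φ (k : OnePoint K) = ((φ k : K) : OnePoint K) := rfl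

theorem map_inf' (φ : K →+* K) : OnePoint.map φ (∞ : OnePoint K) = ∞ := rfl

theorem cG_le (φ : K →+* K) : cG φ ≤ (slPerm K).range := fun _ h => h.1

/-- the pointwise stabilizer of two points in `Λ` -/
def pT (Λ : Subgroup (Equiv.Perm (OnePoint K))) (a b : OnePoint K) : Subgroup (Equiv.Perm (OnePoint K)) where
  carrier := {γ | γ ∈ Λ ∧ γ a = a ∧ γ b = b}
  mul_mem' := by
    rintro x y ⟨h1, h2, h3⟩ ⟨h1', h2', h3'⟩
    exact ⟨mul_mem h1 h1', by rw [Equiv.Perm.mul_apply, h2', h2], by rw [Equiv.Perm.mul_apply, h3', h3]⟩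
  one_mem' := ⟨one_mem _, rfl, rfl⟩
  inv_mem' := by
    rintro x ⟨h1, h2, h3⟩
    refine ⟨inv_mem h1, ?_, ?_⟩
    · apply x.injective; rw [app_inv, h2]
    · apply x.injective; rw [app_inv, h3]

theorem mem_pT {Λ : Subgroup (Equiv.Perm (OnePoint K))} {a b : OnePoint K} {γ : Equiv.Perm (OnePoint K)} :
    γ ∈ pT Λ a b ↔ γ ∈ Λ ∧ γ a = a ∧ γ b = b := Iff.rfl

/-- the setwise stabilizer of two points in `Λ` -/
def pS (Λ : Subgroup (Equiv.Perm (OnePoint K))) (a b : OnePoint K) : Subgroup (Equiv.Perm (OnePoint K)) where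
  carrier := {γ | γ ∈ Λ ∧ ((γ a = a ∧ γ b = b) ∨ (γ a = b ∧ γ b = a))}
  mul_mem' := by
    rintro x y ⟨h1, h2⟩ ⟨h1', h2'⟩
    refine ⟨mul_mem h1 h1', ?_⟩
    rw [Equiv.Perm.mul_apply, Equiv.Perm.mul_apply]
    rcases h2 with ⟨h2, h3⟩ | ⟨h2, h3⟩ <;> rcases h2' with ⟨h2', h3'⟩ | ⟨h2', h3'⟩
    · left; exact ⟨by rw [h2', h2], by rw [h3', h3]⟩
    · right; exact ⟨by rw [h2', h3], by rw [h3', h2]⟩
    · right; exact ⟨by rw [h2', h2], by rw [h3', h3]⟩
    · left; exact ⟨by rw [h2', h3], by rw [h3', h2]⟩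
  one_mem' := ⟨one_mem _, Or.inl ⟨rfl, rfl⟩⟩
  inv_mem' := by
    rintro x ⟨h1, h2⟩
    refine ⟨inv_mem h1, ?_⟩
    rcases h2 with ⟨h2, h3⟩ | ⟨h2, h3⟩
    · left; exact ⟨by apply x.injective; rw [app_inv, h2], by apply x.injective; rw [app_inv, h3]⟩
    · right; exact ⟨by apply x.injective; rw [app_inv, h3], by apply x.injective; rw [app_inv, h2]⟩

theorem mem_pS {Λ : Subgroup (Equiv.Perm (OnePoint K))} {a b : OnePoint K} {γ : Equiv.Perm (OnePoint K)} :
    γ ∈ pS Λ a b ↔ γ ∈ Λ ∧ ((γ a = a ∧ γ b = b) ∨ (γ a = b ∧ γ b = a)) := Iff.rfl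

theorem pT_le_pS (Λ : Subgroup (Equiv.Perm (OnePoint K))) (a b : OnePoint K) : pT Λ a b ≤ pS Λ a b :=
  fun _ h => ⟨h.1, Or.inl h.2⟩

theorem pT_le (Λ : Subgroup (Equiv.Perm (OnePoint K))) (a b : OnePoint K) : pT Λ a b ≤ Λ := fun _ h => h.1

theorem pS_le (Λ : Subgroup (Equiv.Perm (OnePoint K))) (a b : OnePoint K) : pS Λ a b ≤ Λ := fun _ h => h.1

/-- twisting by a field endomorphism -/
theorem twist (φ : K →+* K) {γ : Equiv.Perm (OnePoint K)} (hγ : γ ∈ (slPerm K).range) :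
    ∃ γ' ∈ (slPerm K).range, ∀ x, γ' (OnePoint.map φ x) = OnePoint.map φ (γ x) := by
  obtain ⟨A, rfl⟩ := hγ
  refine ⟨_, ⟨Matrix.SpecialLinearGroup.map φ A, rfl⟩, fun x => ?_⟩
  have h1 := OnePoint.map_smul φ (Matrix.SpecialLinearGroup.toGL A) x
  have h2 : (Matrix.SpecialLinearGroup.toGL A).map φ =
      Matrix.SpecialLinearGroup.toGL (Matrix.SpecialLinearGroup.map φ A) := by
    apply Units.ext
    ext i j
    rfl
  rw [h2] at h1
  exact h1.symm

/-- conjugation into coordinates -/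
theorem conj_mem_cG {φ : K →+* K} {h h' σ : Equiv.Perm (OnePoint K)} (hh : h ∈ (slPerm K).range)
    (hh' : ∀ x, h' (OnePoint.map φ x) = OnePoint.map φ (h x)) (hσ : σ ∈ (slPerm K).range) :
    h⁻¹ * σ * h ∈ cG φ ↔ ∀ y, σ ((h * h'⁻¹) (OnePoint.map φ y)) = (h * h'⁻¹) (OnePoint.map φ (σ y)) := by
  have key : ∀ z, OnePoint.map φ (h⁻¹ z) = h'⁻¹ (OnePoint.map φ z) := by
    intro z
    apply h'.injective
    rw [app_inv, hh', app_inv]
  rw [mem_cG]
  constructor
  · rintro ⟨-, h2⟩ y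
    have h3 := h2 (h⁻¹ y)
    simp only [Equiv.Perm.mul_apply, app_inv, key] at h3 ⊢
    rw [← h3, app_inv]
  · intro h2
    refine ⟨mul_mem (mul_mem (inv_mem hh) hσ) hh, fun x => ?_⟩
    have h3 := h2 (h x)
    simp only [Equiv.Perm.mul_apply, key] at h3 ⊢
    rw [← hh', inv_app] at h3
    rw [h3, inv_app]

theorem ml_eq_of {σ : Equiv.Perm (OnePoint K)} (h : σ ∈ (slPerm K).range) (hi : σ ∞ = ∞)
    (h0 : σ ((0 : K) : OnePoint K) = ((0 : K) : OnePoint K)) : ∃ α : Kˣ, σ = glPerm K (dgl α) := by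
  obtain ⟨α, hα, h1⟩ := mul_of_fix2 h hi h0
  refine ⟨Units.mk0 α hα, perm_ext ?_ ?_⟩
  · rw [hi, (ml_spec _).1]
  · intro k
    rw [h1, (ml_spec _).2]; rfl

theorem ml_injective {α β : Kˣ} (h : glPerm K (dgl α) = glPerm K (dgl β)) : α = β := by
  have h1 := congrArg (fun σ : Equiv.Perm (OnePoint K) => σ ((1 : K) : OnePoint K)) h
  simp only [(ml_spec _).2] at h1
  have h2 := coe_inj'.1 h1
  exact Units.ext (by simpa using h2)

/-- swap `k ↦ μ/k` -/
noncomputable def sgl (μ : Kˣ) : GL (Fin 2) K :=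
  Matrix.GeneralLinearGroup.mkOfDetNeZero !![0, (μ : K); 1, 0] (by rw [Matrix.det_fin_two_of]; simp)

theorem sgl_spec (μ : Kˣ) : glPerm K (sgl μ) ∞ = ((0 : K) : OnePoint K) ∧ glPerm K (sgl μ) ((0 : K) : OnePoint K) = ∞ ∧
    ∀ k : K, k ≠ 0 → glPerm K (sgl μ) (k : OnePoint K) = (((μ : K) / k : K) : OnePoint K) := by
  have e : ∀ i j, (sgl μ) i j = (!![0, (μ : K); 1, 0] : Matrix (Fin 2) (Fin 2) K) i j := by
    intro i j; rfl
  refine ⟨?_, ?_, ?_⟩
  · rw [glPerm_infty, e, e]; simp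
  · rw [glPerm_some, e, e, e, e]; simp
  · intro k hk
    rw [glPerm_some, e, e, e, e]; simp [hk]

theorem card_pT_of (p : ℕ) [hp : Fact p.Prime] [CharP K p] [IsAlgClosed K] {φ : K →+* K} {n : ℕ} (hn : 0 < n) (hpn : ¬ p ∣ n)
    {h h' : Equiv.Perm (OnePoint K)} (hh : h ∈ (slPerm K).range)
    (hh' : ∀ x, h' (OnePoint.map φ x) = OnePoint.map φ (h x)) {a b : OnePoint K} (ha : h a = ∞) (hb : h b = ((0 : K) : OnePoint K))
    (key : ∀ α : Kˣ, (∀ y, glPerm K (dgl α) ((h * h'⁻¹) (OnePoint.map φ y)) = (h * h'⁻¹) (OnePoint.map φ (glPerm K (dgl α) y))) ↔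
      α ^ n = 1) : Nat.card (pT (cG φ) a b) = n := by
  haveI : NeZero n := ⟨hn.ne'⟩
  haveI : NeZero (n : K) := ⟨fun h0 => hpn ((CharP.cast_eq_zero_iff K p n).1 h0)⟩
  haveI : HasEnoughRootsOfUnity K n := inferInstance
  rw [← HasEnoughRootsOfUnity.natCard_rootsOfUnity K n]
  symm
  have ha' : h⁻¹ ∞ = a := by rw [← ha, inv_app]
  have hb' : h⁻¹ ((0 : K) : OnePoint K) = b := by rw [← hb, inv_app]
  have hmem : ∀ α : rootsOfUnity n K, h⁻¹ * glPerm K (dgl (α : Kˣ)) * h ∈ pT (cG φ) a b := by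
    intro α
    refine ⟨?_, ?_, ?_⟩
    · rw [conj_mem_cG hh hh' (glPerm_mem_range _), key]
      exact (mem_rootsOfUnity _ _).1 α.2
    · rw [Equiv.Perm.mul_apply, Equiv.Perm.mul_apply, ha, (ml_spec _).1, ha']
    · rw [Equiv.Perm.mul_apply, Equiv.Perm.mul_apply, hb, (ml_spec _).2, mul_zero, hb']
  apply Nat.card_congr
  refine Equiv.ofBijective (fun α => (⟨h⁻¹ * glPerm K (dgl (α : Kˣ)) * h, hmem α⟩ : pT (cG φ) a b)) ⟨?_, ?_⟩
  · intro α β hαβ
    have h1 := congrArg Subtype.val hαβ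
    have h2 : glPerm K (dgl (α : Kˣ)) = glPerm K (dgl (β : Kˣ)) := by
      have h3 : h⁻¹ * glPerm K (dgl (α : Kˣ)) * h = h⁻¹ * glPerm K (dgl (β : Kˣ)) * h := h1
      exact mul_left_cancel (mul_right_cancel h3)
    exact Subtype.ext (ml_injective h2)
  · rintro ⟨γ, hγ, hγa, hγb⟩
    obtain ⟨α, hα⟩ := ml_eq_of (mul_mem (mul_mem hh hγ.1) (inv_mem hh)) (by
        rw [Equiv.Perm.mul_apply, Equiv.Perm.mul_apply, ha', hγa, ha]) (by
        rw [Equiv.Perm.mul_apply, Equiv.Perm.mul_apply, hb', hγb, hb])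
    have h1 : γ = h⁻¹ * glPerm K (dgl α) * h := by rw [← hα]; group
    have h2 : α ^ n = 1 := by
      rw [← key, ← conj_mem_cG hh hh' (glPerm_mem_range _), ← h1]; exact hγ
    exact ⟨⟨α, (mem_rootsOfUnity _ _).2 h2⟩, Subtype.ext h1.symm⟩

theorem pair_card (p : ℕ) [hp : Fact p.Prime] [CharP K p] [IsAlgClosed K] {q : ℕ} (hq : 1 < q) (hpq : p ∣ q) {φ : K →+* K}
    (hφ : ∀ x, φ x = x ^ q) {a b : OnePoint K} (hab : a ≠ b) :
    (OnePoint.map φ a = a → OnePoint.map φ b = b → Nat.card (pT (cG φ) a b) = q - 1 ∧ ∃ w ∈ cG φ, w a = b ∧ w b = a) ∧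
    (OnePoint.map φ a = b → OnePoint.map φ b = a → Nat.card (pT (cG φ) a b) = q + 1 ∧ ∃ w ∈ cG φ, w a = b ∧ w b = a) := by
  obtain ⟨h, hh, ha, hb⟩ := exists_conj_infty_zero hab
  obtain ⟨h', hh1, hh'⟩ := twist φ hh
  have ha' : h⁻¹ ∞ = a := by rw [← ha, inv_app]
  have hb' : h⁻¹ ((0 : K) : OnePoint K) = b := by rw [← hb, inv_app]
  have φ0 : OnePoint.map φ ((0 : K) : OnePoint K) = ((0 : K) : OnePoint K) := by rw [map_coe', map_zero]
  have hwr : h * h'⁻¹ ∈ (slPerm K).range := mul_mem hh (inv_mem hh1)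
  have hswap : ∀ μ : Kˣ, h⁻¹ * glPerm K (sgl μ) * h ∈ cG φ → ∃ w ∈ cG φ, w a = b ∧ w b = a := by
    intro μ hμ
    refine ⟨_, hμ, ?_, ?_⟩
    · rw [Equiv.Perm.mul_apply, Equiv.Perm.mul_apply, ha, (sgl_spec _).1, hb']
    · rw [Equiv.Perm.mul_apply, Equiv.Perm.mul_apply, hb, (sgl_spec _).2.1, ha']
  constructor
  · intro fa fb
    have w1 : (h * h'⁻¹) ∞ = ∞ := by
      have h1 := hh' a
      rw [fa, ha, map_inf'] at h1
      rw [Equiv.Perm.mul_apply, ← h1, inv_app, ha, h1]
    have w2 : (h * h'⁻¹) ((0 : K) : OnePoint K) = ((0 : K) : OnePoint K) := by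
      have h1 := hh' b
      rw [fb, hb, φ0] at h1
      rw [Equiv.Perm.mul_apply]
      nth_rewrite 1 [← h1]
      rw [inv_app, hb]
    obtain ⟨ν, hν, w3⟩ := mul_of_fix2 hwr w1 w2
    constructor
    · apply card_pT_of p (by omega) ?_ hh hh' ha hb
      · intro α
        constructor
        · intro H
          have h1 := H ((1 : K) : OnePoint K)
          simp only [map_coe', w3, (ml_spec _).2] at h1
          have h2 := coe_inj'.1 h1
          rw [hφ, hφ, one_pow, mul_one, mul_one, mul_comm] at h2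
          have h3 := mul_left_cancel₀ hν h2
          apply Units.ext
          rw [Units.val_pow_eq_pow_val, Units.val_one]
          have h4 : (α : K) ^ (q - 1) * (α : K) = 1 * (α : K) := by
            rw [← pow_succ, show q - 1 + 1 = q by omega, one_mul]; exact h3.symm
          exact mul_right_cancel₀ α.ne_zero h4
        · intro hα
          have h5 : (α : K) ^ q = α := by
            have h6 := congrArg Units.val hα
            rw [Units.val_pow_eq_pow_val, Units.val_one] at h6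
            calc (α : K) ^ q = (α : K) ^ (q - 1) * α := by rw [← pow_succ, show q - 1 + 1 = q by omega]
              _ = α := by rw [h6, one_mul]
          intro y
          cases y with
          | infty => rw [map_inf', w1, (ml_spec _).1, map_inf', w1]
          | coe k =>
            simp only [map_coe', w3, (ml_spec _).2]
            congr 1
            rw [hφ, hφ, mul_pow, h5]; ring
      · intro hd
        have : p ∣ 1 := by
          have := (Nat.dvd_sub hpq hd)
          rwa [show q - (q - 1) = 1 by omega] at this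
        exact hp.out.one_lt.ne' (Nat.dvd_one.1 this)
    · obtain ⟨μ, hμ⟩ := IsAlgClosed.exists_pow_nat_eq ((ν ^ 2)⁻¹ : K) (n := q - 1) (by omega)
      have hμ0 : μ ≠ 0 := by
        rintro rfl
        rw [zero_pow (by omega)] at hμ
        exact inv_ne_zero (pow_ne_zero 2 hν) hμ.symm
      apply hswap (Units.mk0 μ hμ0)
      rw [conj_mem_cG hh hh' (glPerm_mem_range _)]
      intro y
      cases y with
      | infty => rw [map_inf', w1, (sgl_spec _).1, φ0, w2]
      | coe k =>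
        by_cases hk : k = 0
        · subst hk
          rw [φ0, w2, (sgl_spec _).2.1, map_inf', w1]
        · have hk' : ν * k ^ q ≠ 0 := mul_ne_zero hν (pow_ne_zero _ hk)
          rw [map_coe', w3, hφ, (sgl_spec _).2.2 _ hk', (sgl_spec _).2.2 _ hk, map_coe', w3, hφ]
          congr 1
          rw [Units.val_mk0, div_pow]
          have h7 : μ ^ q = (ν ^ 2)⁻¹ * μ := by
            rw [← hμ, ← pow_succ, show q - 1 + 1 = q by omega]
          rw [h7]
          field_simp
  · intro fa fb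
    have w1 : (h * h'⁻¹) ∞ = ((0 : K) : OnePoint K) := by
      have h1 := hh' a
      rw [fa, ha, map_inf'] at h1
      rw [Equiv.Perm.mul_apply, ← h1, inv_app, hb]
    have w2 : (h * h'⁻¹) ((0 : K) : OnePoint K) = ∞ := by
      have h1 := hh' b
      rw [fb, hb, φ0] at h1
      rw [Equiv.Perm.mul_apply, ← h1, inv_app, ha]
    obtain ⟨ν, hν, w3⟩ := swap_of hwr w1 w2
    constructor
    · apply card_pT_of p (by omega) ?_ hh hh' ha hb
      · intro α
        constructor
        · intro H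
          have h1 := H ((1 : K) : OnePoint K)
          have hα1 : ((α : K) * 1) ^ q ≠ 0 := pow_ne_zero _ (by rw [mul_one]; exact α.ne_zero)
          rw [map_coe', hφ, one_pow, w3 1 one_ne_zero, (ml_spec _).2, (ml_spec _).2, map_coe', hφ, w3 _ hα1] at h1
          have h2 := coe_inj'.1 h1
          rw [div_one, mul_one, eq_div_iff (by rw [mul_one] at hα1; exact hα1)] at h2
          apply Units.ext
          rw [Units.val_pow_eq_pow_val, Units.val_one, pow_succ]
          have h3 : ν * ((α : K) ^ q * α) = ν * 1 := by linear_combination h2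
          exact mul_left_cancel₀ hν h3
        · intro hα
          have h6 := congrArg Units.val hα
          rw [Units.val_pow_eq_pow_val, Units.val_one, pow_succ] at h6
          intro y
          cases y with
          | infty => rw [map_inf', w1, (ml_spec _).1, (ml_spec _).2, map_inf', w1, mul_zero]
          | coe k =>
            by_cases hk : k = 0
            · subst hk
              rw [φ0, w2, (ml_spec _).1, (ml_spec _).2, mul_zero, φ0, w2]
            · have hk1 : k ^ q ≠ 0 := pow_ne_zero _ hk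
              have hk2 : ((α : K) * k) ^ q ≠ 0 := pow_ne_zero _ (mul_ne_zero α.ne_zero hk)
              rw [map_coe', hφ, w3 _ hk1, (ml_spec _).2, (ml_spec _).2, map_coe', hφ, w3 _ hk2]
              congr 1
              rw [mul_pow]
              have hα0 := α.ne_zero
              have hα1 : (α : K) ^ q ≠ 0 := pow_ne_zero _ hα0
              field_simp
              linear_combination h6
      · intro hd
        have : p ∣ 1 := by
          have := (Nat.dvd_sub hd hpq)
          rwa [show q + 1 - q = 1 by omega] at this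
        exact hp.out.one_lt.ne' (Nat.dvd_one.1 this)
    · obtain ⟨μ, hμ⟩ := IsAlgClosed.exists_pow_nat_eq (ν ^ 2 : K) (n := q + 1) (by omega)
      have hμ0 : μ ≠ 0 := by
        rintro rfl
        rw [zero_pow (by omega)] at hμ
        exact (pow_ne_zero 2 hν) hμ.symm
      apply hswap (Units.mk0 μ hμ0)
      rw [conj_mem_cG hh hh' (glPerm_mem_range _)]
      intro y
      cases y with
      | infty => rw [map_inf', w1, (sgl_spec _).1, (sgl_spec _).2.1, φ0, w2]
      | coe k =>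
        by_cases hk : k = 0
        · subst hk
          rw [φ0, w2, (sgl_spec _).2.1, (sgl_spec _).1, map_inf', w1]
        · have hk1 : k ^ q ≠ 0 := pow_ne_zero _ hk
          have hk2 : ν / k ^ q ≠ 0 := div_ne_zero hν hk1
          have hk3 : (((Units.mk0 μ hμ0 : Kˣ) : K) / k) ^ q ≠ 0 := pow_ne_zero _ (div_ne_zero hμ0 hk)
          rw [map_coe', hφ, w3 _ hk1, (sgl_spec _).2.2 _ hk2, (sgl_spec _).2.2 _ hk, map_coe', hφ, w3 _ hk3]
          congr 1
          rw [Units.val_mk0, div_pow]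
          have hμq : μ ^ q ≠ 0 := pow_ne_zero _ hμ0
          rw [pow_succ] at hμ
          field_simp
          linear_combination hμ

end

end Cfsg.Agent.H5
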