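import Cfsg.Agent.H5.Dk25
set_option autoImplicit false
set_option linter.style.haveILetI false
set_option linter.unusedSectionVars false

/-! Pair stabilizers in `PSL₂(B)` and `PGL₂(B)`. -/

namespace Cfsg.Agent.H5

open OnePoint Cfsg.Agent.H4 Cfsg.Agent.H2 Matrix Polynomial

section
variable {K : Type*} [Field K] [DecidableEq K]

theorem subfield_mem_iff (B : Subfield K) [Finite B] (x : K) : x ∈ B ↔ x ^ Nat.card B = x := by
  classical
  haveI := Fintype.ofFinite B
  have hq : 1 < Nat.card B := Finite.one_lt_card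
  constructor
  · intro hx
    have h1 := FiniteField.pow_card (⟨x, hx⟩ : B)
    rw [← Nat.card_eq_fintype_card] at h1
    exact congrArg Subtype.val h1
  · intro hx
    by_contra hn
    have hne0 : (X ^ (Nat.card B) - X : K[X]) ≠ 0 := FiniteField.X_pow_card_sub_X_ne_zero K hq
    have hdeg : (X ^ (Nat.card B) - X : K[X]).natDegree = Nat.card B := FiniteField.X_pow_card_sub_X_natDegree_eq K hq
    have hsub : insert x (Finset.univ.image (fun b : B => (b : K))) ⊆ ((X ^ (Nat.card B) - X : K[X]).roots).toFinset := by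
      intro y hy
      rw [Multiset.mem_toFinset, mem_roots hne0]
      rw [Finset.mem_insert, Finset.mem_image] at hy
      rcases hy with rfl | ⟨b, -, rfl⟩
      · rw [IsRoot.def, eval_sub, eval_pow, eval_X, hx, sub_self]
      · have h1 := FiniteField.pow_card b
        rw [← Nat.card_eq_fintype_card] at h1
        have h2 := congrArg Subtype.val h1
        simp only [SubmonoidClass.coe_pow] at h2
        rw [IsRoot.def, eval_sub, eval_pow, eval_X, h2, sub_self]
    have h3 := (Finset.card_le_card hsub).trans (Multiset.toFinset_card_le _)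
    have h4 := card_roots' (X ^ (Nat.card B) - X : K[X])
    rw [hdeg] at h4
    rw [Finset.card_insert_of_notMem (by
      rw [Finset.mem_image]
      rintro ⟨b, -, rfl⟩
      exact hn b.2), Finset.card_image_of_injective _ Subtype.val_injective, Finset.card_univ, ← Nat.card_eq_fintype_card] at h3
    omega

theorem subfield_char (p : ℕ) [hp : Fact p.Prime] [CharP K p] (B : Subfield K) [Finite B] :
    1 < Nat.card B ∧ p ∣ Nat.card B ∧ ∃ φ : K →+* K, ∀ x, φ x = x ^ Nat.card B := by
  haveI := Fintype.ofFinite B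
  haveI : CharP B p := (RingHom.charP_iff B.subtype B.subtype_injective p).2 inferInstance
  obtain ⟨r, hr, hcard⟩ := FiniteField.card B p
  rw [← Nat.card_eq_fintype_card] at hcard
  refine ⟨Finite.one_lt_card, ?_, iterateFrobenius K p r, ?_⟩
  · rw [hcard]; exact dvd_pow_self _ r.ne_zero
  · intro x
    rw [iterateFrobenius_def, hcard]

theorem inB_iff (B : Subfield K) [Finite B] {φ : K →+* K} (hφ : ∀ x, φ x = x ^ Nat.card B) (x : OnePoint K) :
    InB B x ↔ OnePoint.map φ x = x := by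
  cases x with
  | infty => exact ⟨fun _ => rfl, fun _ => inB_infty B⟩
  | coe k => rw [inB_coe, subfield_mem_iff, map_coe', hφ, coe_inj']

theorem Mimg_eq_cG [IsAlgClosed K] (B : Subfield K) [Finite B] {φ : K →+* K} (hφ : ∀ x, φ x = x ^ Nat.card B) :
    Mimg B = cG φ := by
  apply le_antisymm
  · rintro _ ⟨A, rfl⟩
    refine ⟨glPerm_mem_range _, fun x => ?_⟩
    have h1 := OnePoint.map_smul φ (Matrix.GeneralLinearGroup.map B.subtype A) x
    have h2 : (Matrix.GeneralLinearGroup.map B.subtype A).map φ = Matrix.GeneralLinearGroup.map B.subtype A := by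
      apply Units.ext
      ext i j
      show φ ((A i j : B) : K) = ((A i j : B) : K)
      rw [hφ]
      exact (subfield_mem_iff B _).1 (A i j).2
    rw [h2] at h1
    exact h1.symm
  · intro γ hγ
    obtain ⟨s, hs, α, h1⟩ := exists_torus B hγ.1 (fun x hx => by
      rw [inB_iff B hφ] at hx ⊢
      rw [← hγ.2, hx])
    have h2 : s * γ ∈ Mimg B := h1 ▸ ⟨_, rfl⟩
    exact (Subgroup.mul_mem_cancel_left _ (Simg_le_Mimg B hs)).1 h2

theorem Mimg_le_range [IsAlgClosed K] (B : Subfield K) : Mimg B ≤ (slPerm K).range := by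
  rintro _ ⟨A, rfl⟩
  exact glPerm_mem_range _

theorem Simg_le_range (B : Subfield K) : Simg B ≤ (slPerm K).range := by rintro _ ⟨A, rfl⟩; exact ⟨_, rfl⟩

theorem card_Mimg (B : Subfield K) [Finite B] : Nat.card (Mimg B) = Nat.card B * (Nat.card B ^ 2 - 1) := by
  haveI := Fintype.ofFinite B
  obtain ⟨e⟩ := Mimg_equiv B
  rw [Nat.card_congr e.toEquiv, card_PGL2 rfl, Nat.card_eq_fintype_card]

theorem card_Simg (B : Subfield K) [Finite B] :
    Nat.gcd 2 (Nat.card B - 1) * Nat.card (Simg B) = Nat.card B * (Nat.card B ^ 2 - 1) := by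
  haveI := Fintype.ofFinite B
  obtain ⟨e⟩ := Simg_equiv B
  rw [Nat.card_congr e.toEquiv, Nat.card_eq_fintype_card, card_PSL2 rfl]

instance finite_Mimg (B : Subfield K) [Finite B] : Finite (Mimg B) := by
  have h := card_Mimg B
  apply Nat.finite_of_card_ne_zero
  rw [h]
  have : 1 < Nat.card B := Finite.one_lt_card
  have h2 : 1 < Nat.card B ^ 2 := Nat.one_lt_pow (by norm_num) this
  exact Nat.mul_ne_zero (by omega) (by omega)

instance finite_Simg (B : Subfield K) [Finite B] : Finite (Simg B) :=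
  Finite.of_injective _ (Subgroup.inclusion_injective (Simg_le_Mimg B))

theorem Simg_eq_Mimg (B : Subfield K) [Finite B] (h : Nat.card B % 2 = 0) : Simg B = Mimg B := by
  apply Subgroup.eq_of_le_of_card_ge (Simg_le_Mimg B)
  have h1 := card_Simg B
  have h2 := card_Mimg B
  have h3 : 1 < Nat.card B := Finite.one_lt_card
  have h4 : Nat.gcd 2 (Nat.card B - 1) = 1 := by
    have : (Nat.card B - 1) % 2 = 1 := by omega
    rw [Nat.gcd_rec, this]; simp
  rw [h4, one_mul] at h1
  omega

theorem relIndex_Simg (B : Subfield K) [Finite B] (h : Nat.card B % 2 = 1) : ((Simg B).subgroupOf (Mimg B)).index = 2 := by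
  have h1 := card_Simg B
  have h2 := card_Mimg B
  have h4 : Nat.gcd 2 (Nat.card B - 1) = 2 := Nat.gcd_eq_left (by omega)
  rw [h4] at h1
  have h5 := Subgroup.card_mul_index ((Simg B).subgroupOf (Mimg B))
  rw [Nat.card_congr (Subgroup.subgroupOfEquivOfLe (Simg_le_Mimg B)).toEquiv] at h5
  have h6 : 0 < Nat.card (Simg B) := Nat.card_pos
  rw [← h1] at h2
  rw [h2, mul_comm 2] at h5
  exact Nat.eq_of_mul_eq_mul_left h6 h5

theorem mul_mem_Simg (B : Subfield K) [Finite B] (h : Nat.card B % 2 = 1) {x y : Equiv.Perm (OnePoint K)}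
    (hx : x ∈ Mimg B) (hy : y ∈ Mimg B) : x * y ∈ Simg B ↔ (x ∈ Simg B ↔ y ∈ Simg B) := by
  have := Subgroup.mul_mem_iff_of_index_two (relIndex_Simg B h) (a := ⟨x, hx⟩) (b := ⟨y, hy⟩)
  simpa [Subgroup.mem_subgroupOf] using this

theorem conj_mem_Simg (B : Subfield K) [Finite B] {x y : Equiv.Perm (OnePoint K)}
    (hx : x ∈ Mimg B) (hy : y ∈ Simg B) : x * y * x⁻¹ ∈ Simg B := by
  rcases Nat.mod_two_eq_zero_or_one (Nat.card B) with h | h
  · rw [Simg_eq_Mimg B h] at hy ⊢
    exact mul_mem (mul_mem hx hy) (inv_mem hx)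
  · have h1 := mul_mem_Simg B h hx (Simg_le_Mimg B hy)
    rw [mul_mem_Simg B h (mul_mem hx (Simg_le_Mimg B hy)) (inv_mem hx), h1]
    simp [hy]

/-- `Simg` is 2-transitive on rational points -/
theorem Simg_two_trans (B : Subfield K) {a b : OnePoint K} (ha : InB B a) (hb : InB B b) (hab : a ≠ b) :
    ∃ h ∈ Simg B, h a = ∞ ∧ h b = ((0 : K) : OnePoint K) := by
  obtain ⟨s1, hs1, h1⟩ : ∃ s ∈ Simg B, s a = ∞ := by
    cases a with
    | infty => exact ⟨1, one_mem _, rfl⟩
    | coe k =>
      have hk := (inB_coe B).1 ha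
      obtain ⟨t, ht, -, t2⟩ := Simg_trans B (-k) (B.neg_mem hk)
      obtain ⟨w, hw, -, w2, -⟩ := Simg_inv B
      exact ⟨w * t, mul_mem hw ht, by rw [Equiv.Perm.mul_apply, t2, add_neg_cancel, w2]⟩
  have hi : InB B (s1 b) := inB_Mimg (Simg_le_Mimg B hs1) hb
  generalize h : s1 b = x at hi
  cases x with
  | infty =>
    exfalso
    rw [← h1] at h
    exact hab (s1.injective h).symm
  | coe k =>
    have hk := (inB_coe B).1 hi
    obtain ⟨t, ht, t1, t2⟩ := Simg_trans B (-k) (B.neg_mem hk)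
    exact ⟨t * s1, mul_mem ht hs1, by rw [Equiv.Perm.mul_apply, h1, t1], by rw [Equiv.Perm.mul_apply, h, t2, add_neg_cancel]⟩

theorem ml_mem_Simg (B : Subfield K) {α : Kˣ} (h : glPerm K (dgl α) ∈ Simg B) : ∃ s ∈ B, (α : K) = s ^ 2 := by
  obtain ⟨A, hA⟩ := h
  have h1 : slPerm K (Matrix.SpecialLinearGroup.map B.subtype A) ∞ = ∞ := by
    rw [show slPerm K (Matrix.SpecialLinearGroup.map B.subtype A) = glPerm K (dgl α) from hA, (ml_spec α).1]
  have h2 : slPerm K (Matrix.SpecialLinearGroup.map B.subtype A) ((1 : K) : OnePoint K) = ((α : K) : OnePoint K) := by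
    rw [show slPerm K (Matrix.SpecialLinearGroup.map B.subtype A) = glPerm K (dgl α) from hA, (ml_spec α).2, mul_one]
  have h3 : slPerm K (Matrix.SpecialLinearGroup.map B.subtype A) ((0 : K) : OnePoint K) = ((0 : K) : OnePoint K) := by
    rw [show slPerm K (Matrix.SpecialLinearGroup.map B.subtype A) = glPerm K (dgl α) from hA, (ml_spec α).2, mul_zero]
  have e : ∀ i j, (Matrix.SpecialLinearGroup.map B.subtype A) i j = ((A i j : B) : K) := by
    intro i j; rfl
  have hdet := A.det_coe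
  rw [Matrix.det_fin_two] at hdet
  rw [slPerm_infty, e, e] at h1
  have hc : ((A 1 0 : B) : K) = 0 := by
    by_contra hne
    rw [if_neg hne] at h1
    exact coe_ne_infty _ h1
  have hc' : (A 1 0 : B) = 0 := Subtype.ext hc
  rw [hc', mul_zero, sub_zero] at hdet
  have hd : A 1 1 ≠ 0 := right_ne_zero_of_mul (by rw [hdet]; exact one_ne_zero)
  have hd' : ((A 1 1 : B) : K) ≠ 0 := fun h => hd (Subtype.ext h)
  rw [slPerm_some, e, e, e, e, hc, zero_mul, zero_add, if_neg hd', mul_zero, zero_add, coe_inj', div_eq_zero_iff,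
    or_iff_left hd'] at h3
  rw [slPerm_some, e, e, e, e, hc, zero_mul, zero_add, if_neg hd', h3, mul_one, add_zero, coe_inj'] at h2
  have hdet' : ((A 0 0 : B) : K) * ((A 1 1 : B) : K) = 1 := by
    have := congrArg Subtype.val hdet
    simpa using this
  refine ⟨((A 0 0 : B) : K), (A 0 0 : B).2, ?_⟩
  rw [← h2, div_eq_iff hd']
  linear_combination (-((A 0 0 : B) : K)) * hdet'

theorem finite_of_le {Λ : Subgroup (Equiv.Perm (OnePoint K))} (B : Subfield K) [Finite B] (h : Λ ≤ Mimg B) : Finite Λ :=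
  Finite.of_injective _ (Subgroup.inclusion_injective h)

/-- there is an element of the full pair stabilizer outside `Simg` -/
theorem exists_pT_not_Simg (p : ℕ) [hp : Fact p.Prime] [CharP K p] [IsAlgClosed K] (B : Subfield K) [Finite B]
    (hodd : Nat.card B % 2 = 1) {φ : K →+* K} (hφ : ∀ x, φ x = x ^ Nat.card B)
    {a b : OnePoint K} (hab : a ≠ b) (hst : (OnePoint.map φ a = a ∧ OnePoint.map φ b = b) ∨ (OnePoint.map φ a = b ∧ OnePoint.map φ b = a)) :
    ∃ t ∈ pT (Mimg B) a b, t ∉ Simg B := by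
  haveI := Fintype.ofFinite B
  haveI : CharP B p := (RingHom.charP_iff B.subtype B.subtype_injective p).2 inferInstance
  rcases hst with ⟨fa, fb⟩ | ⟨fa, fb⟩
  · obtain ⟨h, hh, h1, h2⟩ := Simg_two_trans B ((inB_iff B hφ a).2 fa) ((inB_iff B hφ b).2 fb) hab
    have hF2 : ringChar B ≠ 2 := by
      intro h2
      have := FiniteField.even_card_iff_char_two.1 h2
      rw [← Nat.card_eq_fintype_card] at this
      omega
    obtain ⟨α, hα⟩ := FiniteField.exists_nonsquare hF2
    have hα0 : α ≠ 0 := by rintro rfl; exact hα ⟨0, by simp⟩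
    have hα0' : (α : K) ≠ 0 := fun h => hα0 (Subtype.ext h)
    have hm : glPerm K (dgl (Units.mk0 (α : K) hα0')) = glPerm K (Matrix.GeneralLinearGroup.map B.subtype (dgl (Units.mk0 α hα0))) := by
      apply perm_ext
      · rw [(ml_spec _).1, (glPerm_dgl B _).1]
      · intro k
        rw [(ml_spec _).2, (glPerm_dgl B _).2]; rfl
    refine ⟨h⁻¹ * glPerm K (dgl (Units.mk0 (α : K) hα0')) * h, ⟨?_, ?_, ?_⟩, ?_⟩
    · rw [hm]
      exact mul_mem (mul_mem (inv_mem (Simg_le_Mimg B hh)) ⟨_, rfl⟩) (Simg_le_Mimg B hh)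
    · rw [Equiv.Perm.mul_apply, Equiv.Perm.mul_apply, h1, (ml_spec _).1, ← h1, inv_app]
    · rw [Equiv.Perm.mul_apply, Equiv.Perm.mul_apply, h2, (ml_spec _).2, mul_zero, ← h2, inv_app]
    · intro hc
      have h3 := mul_mem (mul_mem hh hc) (inv_mem hh)
      rw [show h * (h⁻¹ * glPerm K (dgl (Units.mk0 (α : K) hα0')) * h) * h⁻¹ = glPerm K (dgl (Units.mk0 (α : K) hα0')) by group] at h3
      obtain ⟨s, hs, hsα⟩ := ml_mem_Simg B h3
      apply hα
      refine ⟨⟨s, hs⟩, Subtype.ext ?_⟩
      show (α : K) = s * s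
      rw [← sq, ← hsα]; rfl
  · by_contra hcon
    push Not at hcon
    obtain ⟨hq, hpq, -⟩ := subfield_char p B
    have hcard := ((pair_card p hq hpq hφ hab).2 fa fb).1
    rw [← Mimg_eq_cG B hφ] at hcard
    haveI : Finite (pT (Mimg B) a b) := finite_of_le B (pT_le _ _ _)
    have hpn : ¬ p ∣ Nat.card (pT (Mimg B) a b) := by
      rw [hcard]
      intro hd
      have : p ∣ 1 := by
        have := (Nat.dvd_sub hd hpq)
        rwa [show Nat.card B + 1 - Nat.card B = 1 by omega] at this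
      exact hp.out.one_lt.ne' (Nat.dvd_one.1 this)
    haveI hcyc : IsCyclic (pT (Mimg B) a b) := cyclic_of_fix p _ ((pT_le _ _ _).trans (Mimg_le_range B)) hpn (a := a) (fun γ h => h.2.1)
    obtain ⟨c, hc⟩ := hcyc.exists_generator
    have hoc : orderOf (c : Equiv.Perm (OnePoint K)) = Nat.card B + 1 := by
      rw [Subgroup.orderOf_coe, orderOf_eq_card_of_forall_mem_zpowers hc, hcard]
    have hcS := hcon c c.2
    obtain ⟨e⟩ := Simg_equiv B
    have ho : orderOf (e ⟨c, hcS⟩) = Nat.card B + 1 := by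
      rw [MulEquiv.orderOf_eq, ← Subgroup.orderOf_coe, hoc]
    have hcop : Nat.Coprime (orderOf (e ⟨c, hcS⟩)) p := by
      rw [ho, ← hcard]; exact ((hp.out.coprime_iff_not_dvd).2 hpn).symm
    have h1 := psl_order_dvd p (e ⟨c, hcS⟩) hcop
    have h4 : Nat.gcd 2 (Fintype.card B - 1) = 2 := by
      rw [← Nat.card_eq_fintype_card]
      exact Nat.gcd_eq_left (by omega)
    rw [h4, ho, ← Nat.card_eq_fintype_card] at h1
    rcases h1 with h1 | h1
    · have := Nat.le_of_dvd (by omega) h1; omega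
    · have := Nat.le_of_dvd (by omega) h1; omega

end

end Cfsg.Agent.H5
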