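import Cfsg.Agent.H5.Dk26
set_option autoImplicit false
set_option linter.style.haveILetI false
set_option linter.unusedSectionVars false

/-! Pair stabilizers are dihedral; containments. -/

namespace Cfsg.Agent.H5

open OnePoint Cfsg.Agent.H4 Cfsg.Agent.H2 Matrix Polynomial

section
variable {K : Type*} [Field K] [DecidableEq K]

/-- stable pair -/
def StP (φ : K →+* K) (a b : OnePoint K) : Prop :=
  (OnePoint.map φ a = a ∧ OnePoint.map φ b = b) ∨ (OnePoint.map φ a = b ∧ OnePoint.map φ b = a)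

/-- the order of the torus -/
theorem card_pT_cases (p : ℕ) [hp : Fact p.Prime] [CharP K p] [IsAlgClosed K] (B : Subfield K) [Finite B]
    {φ : K →+* K} (hφ : ∀ x, φ x = x ^ Nat.card B) {a b : OnePoint K} (hab : a ≠ b) (hst : StP φ a b) :
    (Nat.card (pT (Mimg B) a b) = Nat.card B - 1 ∨ Nat.card (pT (Mimg B) a b) = Nat.card B + 1) ∧
      ¬ p ∣ Nat.card (pT (Mimg B) a b) ∧ ∃ w ∈ Mimg B, w a = b ∧ w b = a := by
  obtain ⟨hq, hpq, -⟩ := subfield_char p B
  rw [Mimg_eq_cG B hφ]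
  obtain ⟨h1, h2⟩ := pair_card p hq hpq hφ hab
  rcases hst with ⟨fa, fb⟩ | ⟨fa, fb⟩
  · obtain ⟨h3, h4⟩ := h1 fa fb
    refine ⟨Or.inl h3, ?_, h4⟩
    rw [h3]
    intro hd
    have : p ∣ 1 := by
      have := (Nat.dvd_sub hpq hd)
      rwa [show Nat.card B - (Nat.card B - 1) = 1 by omega] at this
    exact hp.out.one_lt.ne' (Nat.dvd_one.1 this)
  · obtain ⟨h3, h4⟩ := h2 fa fb
    refine ⟨Or.inr h3, ?_, h4⟩
    rw [h3]
    intro hd
    have : p ∣ 1 := by
      have := (Nat.dvd_sub hd hpq)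
      rwa [show Nat.card B + 1 - Nat.card B = 1 by omega] at this
    exact hp.out.one_lt.ne' (Nat.dvd_one.1 this)

theorem card_pS_of (Λ : Subgroup (Equiv.Perm (OnePoint K))) [Finite Λ] {a b : OnePoint K} (hab : a ≠ b)
    (hw : ∃ w ∈ Λ, w a = b ∧ w b = a) :
    Nat.card (MulAction.orbit (pS Λ a b) a) = 2 ∧ Nonempty (MulAction.stabilizer (pS Λ a b) a ≃* pT Λ a b) := by
  obtain ⟨w, hwΛ, w1, w2⟩ := hw
  constructor
  · have h1 : MulAction.orbit (pS Λ a b) a = {a, b} := by
      ext x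
      constructor
      · rintro ⟨g, rfl⟩
        show (g : Equiv.Perm (OnePoint K)) a = a ∨ (g : Equiv.Perm (OnePoint K)) a = b
        rcases g.2.2 with h | h
        · exact Or.inl h.1
        · exact Or.inr h.1
      · rintro (rfl | rfl)
        · exact MulAction.mem_orbit_self _
        · exact ⟨⟨w, hwΛ, Or.inr ⟨w1, w2⟩⟩, w1⟩
    rw [h1, Nat.card_coe_set_eq, Set.ncard_pair hab]
  · refine ⟨MulEquiv.mk' (Equiv.ofBijective (fun g => (⟨(g : pS Λ a b), g.1.2.1, ?_, ?_⟩ : pT Λ a b)) ⟨?_, ?_⟩) ?_⟩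
    · exact g.2
    · rcases g.1.2.2 with h | h
      · exact h.2
      · exfalso
        have h3 : (g.1 : Equiv.Perm (OnePoint K)) a = a := g.2
        rw [h.1] at h3
        exact hab h3.symm
    · intro g g' h
      exact Subtype.ext (Subtype.ext (congrArg (fun z : pT Λ a b => (z : Equiv.Perm (OnePoint K))) h))
    · rintro ⟨t, ht, ta, tb⟩
      exact ⟨⟨⟨t, ht, Or.inl ⟨ta, tb⟩⟩, ta⟩, rfl⟩
    · intro g g'; rfl

/-- the pair stabilizers are dihedral -/
theorem pS_dihedral (p : ℕ) [hp : Fact p.Prime] [CharP K p] [IsAlgClosed K] (B : Subfield K) [Finite B]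
    {φ : K →+* K} (hφ : ∀ x, φ x = x ^ Nat.card B) {Λ : Subgroup (Equiv.Perm (OnePoint K))} {d : ℕ}
    (hΛ : (Λ = Mimg B ∧ d = 1) ∨ (Λ = Simg B ∧ d = Nat.gcd 2 (Nat.card B - 1)))
    {a b : OnePoint K} (hab : a ≠ b) (hst : StP φ a b) :
    ∃ n, d * n = Nat.card (pT (Mimg B) a b) ∧ Nat.card (pT Λ a b) = n ∧ IsCyclic (pT Λ a b) ∧ (∃ w ∈ Λ, w a = b ∧ w b = a) ∧
      Nonempty (pS Λ a b ≃* DihedralGroup n) ∧ Nat.card (pS Λ a b) = 2 * n := by
  obtain ⟨-, hpn, hw⟩ := card_pT_cases p B hφ hab hst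
  haveI hfT : Finite (pT (Mimg B) a b) := finite_of_le B (pT_le _ _ _)
  have hΛM : Λ ≤ Mimg B := by
    rcases hΛ with ⟨rfl, -⟩ | ⟨rfl, -⟩
    · exact le_rfl
    · exact Simg_le_Mimg B
  haveI hfΛ : Finite Λ := finite_of_le B hΛM
  haveI hfTΛ : Finite (pT Λ a b) := finite_of_le B ((pT_le _ _ _).trans hΛM)
  haveI hfSΛ : Finite (pS Λ a b) := finite_of_le B ((pS_le _ _ _).trans hΛM)
  have hTT : pT Λ a b ≤ pT (Mimg B) a b := fun x hx => ⟨hΛM hx.1, hx.2⟩
  have hpn' : ¬ p ∣ Nat.card (pT Λ a b) := fun h => hpn (h.trans (Subgroup.card_dvd_of_le hTT))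
  have hcyc : IsCyclic (pT Λ a b) := cyclic_of_fix p _ ((pT_le _ _ _).trans (hΛM.trans (Mimg_le_range B))) hpn' (a := a) (fun γ h => h.2.1)
  have main : d * Nat.card (pT Λ a b) = Nat.card (pT (Mimg B) a b) ∧ (∃ w ∈ Λ, w a = b ∧ w b = a) := by
    rcases hΛ with ⟨rfl, rfl⟩ | ⟨rfl, rfl⟩
    · exact ⟨one_mul _, hw⟩
    · rcases Nat.mod_two_eq_zero_or_one (Nat.card B) with h | h
      · have h4 : Nat.gcd 2 (Nat.card B - 1) = 1 := by
          have : (Nat.card B - 1) % 2 = 1 := by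
            have : 1 < Nat.card B := Finite.one_lt_card
            omega
          rw [Nat.gcd_rec, this]; simp
        rw [h4, Simg_eq_Mimg B h]
        exact ⟨one_mul _, hw⟩
      · have h4 : Nat.gcd 2 (Nat.card B - 1) = 2 := Nat.gcd_eq_left (by omega)
        obtain ⟨t, ht, htS⟩ := exists_pT_not_Simg p B h hφ hab hst
        rw [h4]
        constructor
        · have hidx : ((pT (Simg B) a b).subgroupOf (pT (Mimg B) a b)).index = 2 := by
            rw [Subgroup.index_eq_two_iff]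
            refine ⟨⟨t, ht⟩, fun x => ?_⟩
            have key : (x : Equiv.Perm (OnePoint K)) * t ∈ Simg B ↔ ¬ (x : Equiv.Perm (OnePoint K)) ∈ Simg B := by
              rw [mul_mem_Simg B h x.2.1 ht.1]
              tauto
            have e1 : x * ⟨t, ht⟩ ∈ (pT (Simg B) a b).subgroupOf (pT (Mimg B) a b) ↔ (x : Equiv.Perm (OnePoint K)) * t ∈ Simg B := by
              rw [Subgroup.mem_subgroupOf]
              constructor
              · intro h; exact h.1
              · intro h; exact ⟨h, (mul_mem x.2 ht).2⟩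
            have e2 : x ∈ (pT (Simg B) a b).subgroupOf (pT (Mimg B) a b) ↔ (x : Equiv.Perm (OnePoint K)) ∈ Simg B := by
              rw [Subgroup.mem_subgroupOf]
              constructor
              · intro h; exact h.1
              · intro h; exact ⟨h, x.2.2⟩
            rw [e1, e2, key]
            by_cases hx : (x : Equiv.Perm (OnePoint K)) ∈ Simg B
            · right; exact ⟨hx, fun h => h hx⟩
            · left; exact ⟨hx, hx⟩
          have h5 := Subgroup.card_mul_index ((pT (Simg B) a b).subgroupOf (pT (Mimg B) a b))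
          rw [Nat.card_congr (Subgroup.subgroupOfEquivOfLe hTT).toEquiv, hidx] at h5
          rw [← h5, mul_comm]
        · obtain ⟨w, hwM, w1, w2⟩ := hw
          by_cases hwS : w ∈ Simg B
          · exact ⟨w, hwS, w1, w2⟩
          · refine ⟨w * t, ?_, ?_, ?_⟩
            · rw [mul_mem_Simg B h hwM ht.1]; tauto
            · rw [Equiv.Perm.mul_apply, ht.2.1, w1]
            · rw [Equiv.Perm.mul_apply, ht.2.2, w2]
  obtain ⟨ho, ⟨es⟩⟩ := card_pS_of Λ hab main.2
  haveI : IsCyclic (MulAction.stabilizer (pS Λ a b) a) := isCyclic_of_surjective es.symm.toMonoidHom es.symm.surjective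
  obtain ⟨n, c, hc, hn, ⟨e⟩⟩ := dihedral_of_orbit (pS Λ a b) ((pS_le _ _ _).trans (hΛM.trans (Mimg_le_range B))) ho inferInstance
  rw [Nat.card_congr es.toEquiv] at hn
  refine ⟨n, ?_, hn.symm, hcyc, main.2, ⟨e⟩, ?_⟩
  · rw [hn]; exact main.1
  · have h6 := card_orbit_mul' (Γ := pS Λ a b) a
    rw [ho, Nat.card_congr es.toEquiv, ← hn] at h6
    exact h6.symm

/-- normalizers of regular cyclic groups are in pair stabilizers -/
theorem le_pS_of_normal (p : ℕ) [hp : Fact p.Prime] [CharP K p] [IsAlgClosed K] {φ : K →+* K}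
    {Λ Γ : Subgroup (Equiv.Perm (OnePoint K))} (hΛ : Λ ≤ cG φ) (hΓ : Γ ≤ Λ) {c : Equiv.Perm (OnePoint K)} (hc : c ∈ Λ)
    (hcp : c ^ p ≠ 1) (hn : ∀ g ∈ Γ, g * c * g⁻¹ ∈ Subgroup.zpowers c) :
    ∃ a b, a ≠ b ∧ StP φ a b ∧ Γ ≤ pS Λ a b ∧ c ∈ pT Λ a b ∧ (∀ x, c x = x ↔ (x = a ∨ x = b)) := by
  have hcr := (hΛ hc).1
  obtain ⟨a, ha⟩ := exists_fix hcr
  obtain ⟨h, hh, hha⟩ := exists_conj_infty a
  have ha' : h⁻¹ ∞ = a := by rw [← hha, inv_app]
  obtain ⟨b', hb'⟩ := two_fix_infty p (mul_mem (mul_mem hh hcr) (inv_mem hh)) (by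
      rw [Equiv.Perm.mul_apply, Equiv.Perm.mul_apply, ha', ha, hha]) (by
      intro h1
      apply hcp
      rw [conj_pow] at h1
      have : c ^ p = h⁻¹ * (h * c ^ p * h⁻¹) * h := by group
      rw [this, h1]; group)
  have hfix : ∀ x, c x = x ↔ (x = a ∨ x = h⁻¹ (b' : OnePoint K)) := by
    intro x
    have h1 := hb' (h x)
    rw [Equiv.Perm.mul_apply, Equiv.Perm.mul_apply, inv_app] at h1
    constructor
    · intro hx
      rcases h1.1 (by rw [hx]) with h2 | h2
      · left; rw [← inv_app h x, h2, ha']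
      · right; rw [← inv_app h x, h2]
    · intro hx
      have h2 : h x = ∞ ∨ h x = (b' : OnePoint K) := by
        rcases hx with rfl | rfl
        · left; exact hha
        · right; rw [app_inv]
      exact h.injective (h1.2 h2)
  obtain ⟨b, hb⟩ : ∃ b, b = h⁻¹ (b' : OnePoint K) := ⟨_, rfl⟩
  rw [← hb] at hfix
  have hab : a ≠ b := by
    rintro rfl
    have : h a = (b' : OnePoint K) := by rw [hb, app_inv]
    rw [hha] at this
    exact infty_ne_coe _ this
  have hφinj : Function.Injective (OnePoint.map φ : OnePoint K → OnePoint K) := by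
    intro x y hxy
    cases x with
    | infty => cases y with
      | infty => rfl
      | coe y => exact absurd hxy (by rw [map_inf', map_coe']; exact infty_ne_coe _)
    | coe x => cases y with
      | infty => exact absurd hxy (by rw [map_inf', map_coe']; exact coe_ne_infty _)
      | coe y =>
        rw [map_coe', map_coe', coe_inj'] at hxy
        rw [φ.injective hxy]
  have hst : StP φ a b := by
    have h1 : OnePoint.map φ a = a ∨ OnePoint.map φ a = b := by
      rw [← hfix, (hΛ hc).2, (hfix a).2 (Or.inl rfl)]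
    have h2 : OnePoint.map φ b = a ∨ OnePoint.map φ b = b := by
      rw [← hfix, (hΛ hc).2, (hfix b).2 (Or.inr rfl)]
    rcases h1 with h1 | h1 <;> rcases h2 with h2 | h2
    · exact absurd (hφinj (h1.trans h2.symm)) hab
    · exact Or.inl ⟨h1, h2⟩
    · exact Or.inr ⟨h1, h2⟩
    · exact absurd (hφinj (h1.trans h2.symm)) hab
  refine ⟨a, b, hab, hst, ?_, ⟨hc, (hfix a).2 (Or.inl rfl), (hfix b).2 (Or.inr rfl)⟩, hfix⟩
  intro g hg
  refine ⟨hΓ hg, ?_⟩
  have key : ∀ g ∈ Γ, ∀ x, c x = x → c (g x) = g x := by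
    intro g hg x hx
    have h1 := hn g⁻¹ (inv_mem hg)
    rw [inv_inv] at h1
    obtain ⟨k, hk⟩ := h1
    have h2 : (g⁻¹ * c * g) x = x := by
      rw [← hk]
      exact Function.IsFixedPt.perm_zpow hx k
    rw [Equiv.Perm.mul_apply, Equiv.Perm.mul_apply] at h2
    have h3 := congrArg g h2
    rwa [app_inv] at h3
  have h1 := (hfix _).1 (key g hg a ((hfix a).2 (Or.inl rfl)))
  have h2 := (hfix _).1 (key g hg b ((hfix b).2 (Or.inr rfl)))
  rcases h1 with h1 | h1 <;> rcases h2 with h2 | h2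
  · exact absurd (g.injective (h1.trans h2.symm)) hab
  · exact Or.inl ⟨h1, h2⟩
  · exact Or.inr ⟨h1, h2⟩
  · exact absurd (g.injective (h1.trans h2.symm)) hab

end

end Cfsg.Agent.H5
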