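import Cfsg.Agent.H5.Dk27
set_option autoImplicit false
set_option linter.style.haveILetI false
set_option linter.unusedSectionVars false

/-! Rationality of subfield subgroups. -/

namespace Cfsg.Agent.H5

open OnePoint Cfsg.Agent.H4 Cfsg.Agent.H2 Matrix Polynomial

section
variable {K : Type*} [Field K] [DecidableEq K]

theorem eq_one_of_three {σ : Equiv.Perm (OnePoint K)} (h : σ ∈ (slPerm K).range) (hi : σ ∞ = ∞)
    (h0 : σ ((0 : K) : OnePoint K) = ((0 : K) : OnePoint K)) (h1 : σ ((1 : K) : OnePoint K) = ((1 : K) : OnePoint K)) : σ = 1 := by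
  obtain ⟨α, hα, h2⟩ := mul_of_fix2 h hi h0
  rw [h2, mul_one, coe_inj'] at h1
  apply perm_ext
  · exact hi
  · intro k; rw [h2, h1, one_mul]; rfl

theorem rat_conj (B' : Subfield K) {φ : K →+* K} {Γ : Subgroup (Equiv.Perm (OnePoint K))} (hΓ : Γ ≤ cG φ)
    {g : Equiv.Perm (OnePoint K)} (hg : g ∈ (slPerm K).range) (hS : Simg B' ≤ cj g Γ) : g ∈ cG φ := by
  obtain ⟨t, ht, t1, t2⟩ := Simg_trans B' 1 B'.one_mem
  obtain ⟨w, hw, w1, w2, w3⟩ := Simg_inv B'
  have tfix : ∀ x, t x = x → x = ∞ := by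
    intro x hx
    cases x with
    | infty => rfl
    | coe k =>
      rw [t2, coe_inj'] at hx
      exact absurd (add_eq_left.1 hx) one_ne_zero
  have key : ∀ u ∈ Simg B', OnePoint.map φ (g⁻¹ (u ∞)) = g⁻¹ (u ∞) := by
    intro u hu
    obtain ⟨γ, hγ, h1⟩ := mem_cj.1 (hS (mul_mem (mul_mem hu ht) (inv_mem hu)))
    have h2 : γ = g⁻¹ * (u * t * u⁻¹) * g := by rw [← h1]; group
    have h3 : ∀ x, γ x = x → x = g⁻¹ (u ∞) := by
      intro x hx
      rw [h2] at hx
      simp only [Equiv.Perm.mul_apply] at hx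
      have h4 := congrArg g hx
      rw [app_inv] at h4
      have h5 := congrArg (u⁻¹ : Equiv.Perm (OnePoint K)) h4
      rw [inv_app] at h5
      have h6 := tfix _ h5
      have h7 : g x = u ∞ := by rw [← h6, app_inv]
      rw [← h7, inv_app]
    have h4 : γ (g⁻¹ (u ∞)) = g⁻¹ (u ∞) := by
      rw [h2]
      simp only [Equiv.Perm.mul_apply, app_inv, inv_app, t1]
    apply h3
    rw [(hΓ hγ).2, h4]
  obtain ⟨g', hg', h'⟩ := twist φ hg
  have h8 : ∀ u ∈ Simg B', OnePoint.map φ (u ∞) = u ∞ → (g' * g⁻¹) (u ∞) = u ∞ := by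
    intro u hu hf
    rw [Equiv.Perm.mul_apply, ← key u hu, h', app_inv, hf]
  have e1 := h8 1 (one_mem _) rfl
  have e2 := h8 w hw (by rw [w1, map_coe', map_zero])
  have e3 := h8 (t * w) (mul_mem ht hw) (by rw [Equiv.Perm.mul_apply, w1, t2, zero_add, map_coe', map_one])
  rw [w1] at e2
  rw [show (t * w) ∞ = ((1 : K) : OnePoint K) by rw [Equiv.Perm.mul_apply, w1, t2, zero_add]] at e3
  have e4 := eq_one_of_three (mul_mem hg' (inv_mem hg)) e1 e2 e3
  have e5 : g' = g := by rwa [mul_inv_eq_one] at e4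
  rw [e5] at h'
  exact ⟨hg, h'⟩

theorem le_of_Simg_le {B' : Subfield K} {φ : K →+* K} (h : Simg B' ≤ cG φ) : ∀ b ∈ B', φ b = b := by
  intro b hb
  obtain ⟨t, ht, t1, t2⟩ := Simg_trans B' b hb
  have h1 := (h ht).2 ((0 : K) : OnePoint K)
  rw [map_coe', map_zero, t2, zero_add, map_coe', coe_inj'] at h1
  exact h1.symm

theorem sub1 [IsAlgClosed K] (p : ℕ) [hp : Fact p.Prime] [CharP K p] (B B' : Subfield K) [Finite B]
    {Γ : Subgroup (Equiv.Perm (OnePoint K))} (hΓ : Γ ≤ Mimg B)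
    {g : Equiv.Perm (OnePoint K)} (hg : g ∈ (slPerm K).range) (hS : Simg B' ≤ cj g Γ) : g ∈ Mimg B ∧ B' ≤ B := by
  obtain ⟨hq, hpq, φ, hφ⟩ := subfield_char p B
  rw [Mimg_eq_cG B hφ] at hΓ ⊢
  have hgc := rat_conj B' hΓ hg hS
  refine ⟨hgc, ?_⟩
  have h1 : Simg B' ≤ cG φ := by
    refine hS.trans ?_
    intro x hx
    obtain ⟨γ, hγ, rfl⟩ := mem_cj.1 hx
    exact mul_mem (mul_mem hgc (hΓ hγ)) (inv_mem hgc)
  intro b hb
  rw [subfield_mem_iff, ← hφ]
  exact le_of_Simg_le h1 b hb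

theorem cj_one (Γ : Subgroup (Equiv.Perm (OnePoint K))) : cj 1 Γ = Γ := by
  ext x
  rw [mem_cj]
  constructor
  · rintro ⟨γ, hγ, rfl⟩; simpa using hγ
  · intro hx; exact ⟨x, hx, by simp⟩

theorem cj_inv_cj (g : Equiv.Perm (OnePoint K)) (Γ : Subgroup (Equiv.Perm (OnePoint K))) : cj g⁻¹ (cj g Γ) = Γ := by
  ext x
  rw [mem_cj]
  constructor
  · rintro ⟨γ, hγ, rfl⟩
    obtain ⟨δ, hδ, rfl⟩ := mem_cj.1 hγ
    have : g⁻¹ * (g * δ * g⁻¹) * g⁻¹⁻¹ = δ := by group
    rw [this]; exact hδ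
  · intro hx
    refine ⟨g * x * g⁻¹, ⟨x, hx, rfl⟩, by group⟩

theorem cj_mono (g : Equiv.Perm (OnePoint K)) {Γ Δ : Subgroup (Equiv.Perm (OnePoint K))} (h : Γ ≤ Δ) : cj g Γ ≤ cj g Δ := by
  intro x hx
  obtain ⟨γ, hγ, rfl⟩ := mem_cj.1 hx
  exact ⟨γ, h hγ, rfl⟩

theorem cj_le_iff (g : Equiv.Perm (OnePoint K)) {Γ Δ : Subgroup (Equiv.Perm (OnePoint K))} : cj g Γ ≤ Δ ↔ Γ ≤ cj g⁻¹ Δ := by
  constructor
  · intro h
    have := cj_mono g⁻¹ h
    rwa [cj_inv_cj] at this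
  · intro h
    have := cj_mono g h
    have h2 := cj_inv_cj g⁻¹ Δ
    rw [inv_inv] at h2
    rwa [h2] at this

theorem cj_lt (g : Equiv.Perm (OnePoint K)) {Γ Δ : Subgroup (Equiv.Perm (OnePoint K))} (h : Γ < Δ) : cj g Γ < cj g Δ := by
  refine lt_of_le_of_ne (cj_mono g h.le) fun he => h.ne ?_
  rw [← cj_inv_cj g Γ, he, cj_inv_cj]

theorem cj_Mimg (B : Subfield K) {g : Equiv.Perm (OnePoint K)} (hg : g ∈ Mimg B) : cj g (Mimg B) = Mimg B := by
  have key : ∀ g ∈ Mimg B, cj g (Mimg B) ≤ Mimg B := by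
    intro g hg x hx
    obtain ⟨γ, hγ, rfl⟩ := mem_cj.1 hx
    exact mul_mem (mul_mem hg hγ) (inv_mem hg)
  apply le_antisymm (key g hg)
  have := cj_mono g (key g⁻¹ (inv_mem hg))
  have h2 := cj_inv_cj g⁻¹ (Mimg B)
  rw [inv_inv] at h2
  rwa [h2] at this

theorem cj_Simg (B : Subfield K) [Finite B] {g : Equiv.Perm (OnePoint K)} (hg : g ∈ Mimg B) : cj g (Simg B) = Simg B := by
  have key : ∀ g ∈ Mimg B, cj g (Simg B) ≤ Simg B := by
    intro g hg x hx
    obtain ⟨γ, hγ, rfl⟩ := mem_cj.1 hx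
    exact conj_mem_Simg B hg hγ
  apply le_antisymm (key g hg)
  have := cj_mono g (key g⁻¹ (inv_mem hg))
  have h2 := cj_inv_cj g⁻¹ (Simg B)
  rw [inv_inv] at h2
  rwa [h2] at this

/-- the finite subfields of an algebraically closed field -/
theorem exists_subfield_card [IsAlgClosed K] (p : ℕ) [hp : Fact p.Prime] [CharP K p] {r : ℕ} (hr : r ≠ 0) :
    ∃ B : Subfield K, Finite B ∧ Nat.card B = p ^ r := by
  classical
  have hq : 1 < p ^ r := Nat.one_lt_pow hr hp.out.one_lt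
  have hne0 : (X ^ (p ^ r) - X : K[X]) ≠ 0 := FiniteField.X_pow_card_sub_X_ne_zero K hq
  have hdeg : (X ^ (p ^ r) - X : K[X]).natDegree = p ^ r := FiniteField.X_pow_card_sub_X_natDegree_eq K hq
  have hset : ((RingHom.eqLocusField (iterateFrobenius K p r) (RingHom.id K) : Subfield K) : Set K) =
      ((((X ^ (p ^ r) - X : K[X]).roots).toFinset : Finset K) : Set K) := by
    ext x
    rw [Finset.mem_coe, Multiset.mem_toFinset, mem_roots hne0, IsRoot.def, eval_sub, eval_pow, eval_X, sub_eq_zero]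
    show iterateFrobenius K p r x = x ↔ _
    rw [iterateFrobenius_def]
  refine ⟨RingHom.eqLocusField (iterateFrobenius K p r) (RingHom.id K), ?_, ?_⟩
  · have : ((RingHom.eqLocusField (iterateFrobenius K p r) (RingHom.id K) : Subfield K) : Set K).Finite := by
      rw [hset]; exact Finset.finite_toSet _
    exact this
  · show Nat.card ((RingHom.eqLocusField (iterateFrobenius K p r) (RingHom.id K) : Subfield K) : Set K) = _
    rw [hset, Nat.card_coe_set_eq, Set.ncard_coe_finset,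
      Multiset.toFinset_card_of_nodup (nodup_roots (galois_poly_separable p _ (dvd_pow_self _ hr))),
      IsAlgClosed.card_roots_eq_natDegree, hdeg]

theorem subfield_le_of_card {B1 B2 : Subfield K} [Finite B1] [Finite B2] {s : ℕ} (h : Nat.card B1 ^ s = Nat.card B2) : B1 ≤ B2 := by
  intro x hx
  rw [subfield_mem_iff] at hx ⊢
  rw [← h]
  clear h
  induction s with
  | zero => simp
  | succ s ih => rw [pow_succ, pow_mul, ih, hx]

theorem subfield_card_pow {B1 B2 : Subfield K} [Finite B2] (h : B1 ≤ B2) : ∃ m, Nat.card B1 ^ m = Nat.card B2 := by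
  haveI : Finite B1 := Finite.of_injective _ (Subfield.inclusion h).injective
  letI := (Subfield.inclusion h).toAlgebra
  exact ⟨Module.finrank B1 B2, (Module.natCard_eq_pow_finrank (K := B1) (V := B2)).symm⟩

theorem subfield_card_prime_pow (p : ℕ) [hp : Fact p.Prime] [CharP K p] (B : Subfield K) [Finite B] :
    ∃ r, r ≠ 0 ∧ Nat.card B = p ^ r := by
  haveI := Fintype.ofFinite B
  haveI : CharP B p := (RingHom.charP_iff B.subtype B.subtype_injective p).2 inferInstance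
  obtain ⟨r, hr, hcard⟩ := FiniteField.card B p
  exact ⟨r, r.ne_zero, by rw [Nat.card_eq_fintype_card, hcard]⟩

end

end Cfsg.Agent.H5
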