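import Cfsg.Agent.H5.Dk28
set_option autoImplicit false
set_option linter.style.haveILetI false
set_option linter.unusedSectionVars false

/-! Maximal subgroups of subfield type. -/

namespace Cfsg.Agent.H5

open OnePoint Cfsg.Agent.H4 Cfsg.Agent.H2 Matrix Polynomial

section
variable {K : Type*} [Field K] [DecidableEq K]

theorem Simg_mono {B1 B2 : Subfield K} (h : B1 ≤ B2) : Simg B1 ≤ Simg B2 := by
  rintro _ ⟨A, rfl⟩
  refine ⟨Matrix.SpecialLinearGroup.map (Subfield.inclusion h) A, ?_⟩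
  rw [MonoidHom.comp_apply, MonoidHom.comp_apply]
  congr 1

theorem Mimg_mono {B1 B2 : Subfield K} (h : B1 ≤ B2) : Mimg B1 ≤ Mimg B2 := by
  rintro _ ⟨A, rfl⟩
  refine ⟨Matrix.GeneralLinearGroup.map (Subfield.inclusion h) A, ?_⟩
  rw [MonoidHom.comp_apply, MonoidHom.comp_apply]
  congr 1

theorem Mimg_le_Simg [IsAlgClosed K] {B1 B2 : Subfield K} [Finite B1] [Finite B2] (hodd : Nat.card B1 % 2 = 1)
    (h : Nat.card B1 ^ 2 = Nat.card B2) : Mimg B1 ≤ Simg B2 := by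
  have hle : B1 ≤ B2 := subfield_le_of_card h
  rintro _ ⟨A, rfl⟩
  obtain ⟨α, S, rfl⟩ := gl_decomp A
  rw [map_mul]
  refine mul_mem ?_ (Simg_mono hle ⟨S, ?_⟩)
  · have hα0 : ((α : B1) : K) ≠ 0 := fun h => α.ne_zero (Subtype.ext h)
    obtain ⟨β, hβ⟩ := IsAlgClosed.exists_pow_nat_eq ((α : B1) : K) (n := 2) (by norm_num)
    have hβ0 : β ≠ 0 := by
      rintro rfl
      exact hα0 (by rw [← hβ]; ring)
    have h1 : ((α : B1) : K) ^ Nat.card B1 = ((α : B1) : K) := (subfield_mem_iff B1 _).1 (α : B1).2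
    have hq1 : 1 < Nat.card B1 := Finite.one_lt_card
    have h2 : ((α : B1) : K) ^ (Nat.card B1 - 1) = 1 := by
      have h3 : ((α : B1) : K) ^ (Nat.card B1 - 1) * ((α : B1) : K) = 1 * ((α : B1) : K) := by
        rw [← pow_succ, show Nat.card B1 - 1 + 1 = Nat.card B1 by omega, one_mul, h1]
      exact mul_right_cancel₀ hα0 h3
    have hβB : β ∈ B2 := by
      rw [subfield_mem_iff, ← h]
      obtain ⟨t, ht⟩ : ∃ t, Nat.card B1 = 2 * t + 1 := ⟨Nat.card B1 / 2, by omega⟩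
      have h4 : β ^ (Nat.card B1 ^ 2 - 1) = 1 := by
        have h5 : Nat.card B1 ^ 2 - 1 = 2 * ((Nat.card B1 - 1) * (t + 1)) := by
          rw [ht]
          have : (2 * t + 1) ^ 2 = 2 * (2 * t * (t + 1)) + 1 := by ring
          rw [this]; simp
        rw [h5, pow_mul, hβ, pow_mul, h2, one_pow]
      have h6 : 1 ≤ Nat.card B1 ^ 2 := Nat.one_le_pow _ _ (by omega)
      calc β ^ Nat.card B1 ^ 2 = β ^ (Nat.card B1 ^ 2 - 1) * β := by rw [← pow_succ, Nat.sub_add_cancel h6]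
        _ = β := by rw [h4, one_mul]
    have h7 := Simg_sq B2 (Units.mk0 (⟨β, hβB⟩ : B2) (fun h => hβ0 (congrArg Subtype.val h)) ^ 2) ⟨_, sq _⟩
    convert h7 using 1
    apply perm_ext
    · rw [MonoidHom.comp_apply, (glPerm_dgl B1 _).1, (glPerm_dgl B2 _).1]
    · intro k
      rw [MonoidHom.comp_apply, (glPerm_dgl B1 _).2, (glPerm_dgl B2 _).2]
      congr 2
      exact hβ.symm
  · show glPerm K (SpecialLinearGroup.toGL (SpecialLinearGroup.map B1.subtype S)) = glPerm K (Matrix.GeneralLinearGroup.map B1.subtype (SpecialLinearGroup.toGL S))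
    congr 1
    apply Units.ext
    ext i j
    rfl

theorem odd_pow_mod {a : ℕ} (h : a % 2 = 1) (m : ℕ) : a ^ m % 2 = 1 :=
  Nat.odd_iff.1 ((Nat.odd_iff.2 h).pow)

theorem N_mono {a b : ℕ} (ha : 1 < a) (h : a < b) : a * (a ^ 2 - 1) < b * (b ^ 2 - 1) := by
  have h1 : a ^ 2 ≤ b ^ 2 := Nat.pow_le_pow_left h.le 2
  have h2 : 1 < a ^ 2 := Nat.one_lt_pow (by norm_num) ha
  calc a * (a ^ 2 - 1) ≤ a * (b ^ 2 - 1) := Nat.mul_le_mul_left _ (by omega)
    _ < b * (b ^ 2 - 1) := Nat.mul_lt_mul_of_pos_right h (by omega)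

theorem N_two {a b : ℕ} (ha : 1 < a) (h : 2 * a ≤ b) : 2 * (a * (a ^ 2 - 1)) < b * (b ^ 2 - 1) := by
  have h1 : a ^ 2 < b ^ 2 := Nat.pow_lt_pow_left (by omega) (by norm_num)
  have h2 : 1 < a ^ 2 := Nat.one_lt_pow (by norm_num) ha
  calc 2 * (a * (a ^ 2 - 1)) = (2 * a) * (a ^ 2 - 1) := by ring
    _ ≤ b * (a ^ 2 - 1) := Nat.mul_le_mul_right _ h
    _ < b * (b ^ 2 - 1) := Nat.mul_lt_mul_of_pos_left (by omega) (by omega)

theorem Simg_lt {B1 B2 : Subfield K} [Finite B1] [Finite B2] (h : B1 ≤ B2) (hc : Nat.card B1 < Nat.card B2) : Simg B1 < Simg B2 := by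
  refine lt_of_le_of_ne (Simg_mono h) fun he => ?_
  have h1 := card_Simg B1
  have h2 := card_Simg B2
  rw [← he] at h2
  have hq1 : 1 < Nat.card B1 := Finite.one_lt_card
  have h3 := N_mono hq1 hc
  obtain ⟨m, hm⟩ := subfield_card_pow h
  have hg : Nat.gcd 2 (Nat.card B1 - 1) = Nat.gcd 2 (Nat.card B2 - 1) := by
    have hpar : Nat.card B1 % 2 = Nat.card B2 % 2 := by
      have hm0 : m ≠ 0 := by rintro rfl; rw [pow_zero] at hm; omega
      rcases Nat.mod_two_eq_zero_or_one (Nat.card B1) with h | h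
      · rw [h, ← hm, Nat.pow_mod, h, Nat.zero_pow (by omega)]
      · rw [h, ← hm, odd_pow_mod h]
    rcases Nat.mod_two_eq_zero_or_one (Nat.card B1) with h | h
    · rw [Nat.gcd_rec, Nat.gcd_rec 2 (Nat.card B2 - 1), show (Nat.card B1 - 1) % 2 = 1 by omega, show (Nat.card B2 - 1) % 2 = 1 by omega]
    · rw [Nat.gcd_rec, Nat.gcd_rec 2 (Nat.card B2 - 1), show (Nat.card B1 - 1) % 2 = 0 by omega, show (Nat.card B2 - 1) % 2 = 0 by omega]
  rw [hg] at h1
  omega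

theorem Mimg_lt_Simg [IsAlgClosed K] {B1 B2 : Subfield K} [Finite B1] [Finite B2] (hodd : Nat.card B1 % 2 = 1)
    (h : Nat.card B1 ^ 2 = Nat.card B2) : Mimg B1 < Simg B2 := by
  refine lt_of_le_of_ne (Mimg_le_Simg hodd h) fun he => ?_
  have h1 := card_Mimg B1
  have h2 := card_Simg B2
  rw [← he] at h2
  have hq1 : 1 < Nat.card B1 := Finite.one_lt_card
  have h3 := N_two hq1 (b := Nat.card B2) (by rw [← h]; nlinarith)
  have h4 : Nat.gcd 2 (Nat.card B2 - 1) ≤ 2 := Nat.gcd_le_left _ (by norm_num)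
  rw [h1] at h2
  have : Nat.gcd 2 (Nat.card B2 - 1) * (Nat.card B1 * (Nat.card B1 ^ 2 - 1)) ≤ 2 * (Nat.card B1 * (Nat.card B1 ^ 2 - 1)) :=
    Nat.mul_le_mul_right _ h4
  omega

theorem Simg_lt_Mimg {B1 : Subfield K} [Finite B1] (hodd : Nat.card B1 % 2 = 1) : Simg B1 < Mimg B1 := by
  refine lt_of_le_of_ne (Simg_le_Mimg B1) fun he => ?_
  have h1 := card_Mimg B1
  have h2 := card_Simg B1
  rw [Nat.gcd_eq_left (by omega : 2 ∣ Nat.card B1 - 1), he] at h2
  have hq1 : 1 < Nat.card B1 := Finite.one_lt_card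
  have : 1 < Nat.card B1 ^ 2 := Nat.one_lt_pow (by norm_num) hq1
  have : 0 < Nat.card B1 * (Nat.card B1 ^ 2 - 1) := Nat.mul_pos (by omega) (by omega)
  omega

theorem geom_parity {Q : ℕ} (hQ : Q % 2 = 1) (m : ℕ) : ∃ S, Q ^ m - 1 = (Q - 1) * S ∧ S % 2 = m % 2 := by
  induction m with
  | zero => exact ⟨0, by simp, rfl⟩
  | succ m ih =>
    obtain ⟨S, h1, h2⟩ := ih
    refine ⟨S + Q ^ m, ?_, ?_⟩
    · have h3 : 1 ≤ Q ^ m := Nat.one_le_pow _ _ (by omega)
      rw [mul_add, ← h1, pow_succ]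
      obtain ⟨t, ht⟩ : ∃ t, Q = t + 1 := ⟨Q - 1, by omega⟩
      rw [ht, Nat.add_sub_cancel]
      rw [ht] at h3
      have : (t + 1) ^ m * (t + 1) = t * (t + 1) ^ m + (t + 1) ^ m := by ring
      omega
    · have h3 : Q ^ m % 2 = 1 := odd_pow_mod hQ m
      omega

/-- `PGL₂(q')` inside `PSL₂(q)` forces an even degree -/
theorem even_of_dvd {q' m : ℕ} (hodd : q' % 2 = 1) (h1 : 1 < q') (hm : m ≠ 0) (h : 2 * (q' * (q' ^ 2 - 1)) ∣ q' ^ m * ((q' ^ m) ^ 2 - 1)) :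
    m % 2 = 0 := by
  obtain ⟨S, h2, h3⟩ := geom_parity (Q := q' ^ 2) (odd_pow_mod hodd 2) m
  have h4 : (q' ^ m) ^ 2 - 1 = (q' ^ 2 - 1) * S := by rw [← h2, ← pow_mul, ← pow_mul, mul_comm]
  obtain ⟨t, rfl⟩ : ∃ t, m = t + 1 := ⟨m - 1, by omega⟩
  rw [h4, pow_succ q' t, show q' ^ t * q' * ((q' ^ 2 - 1) * S) = (q' ^ t * S) * (q' * (q' ^ 2 - 1)) by ring] at h
  have h5 : 0 < q' * (q' ^ 2 - 1) := by
    have : 1 < q' ^ 2 := Nat.one_lt_pow (by norm_num) h1
    exact Nat.mul_pos (by omega) (by omega)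
  have h6 := Nat.dvd_of_mul_dvd_mul_right h5 h
  have h7 : q' ^ t % 2 = 1 := odd_pow_mod hodd t
  have h8 : Nat.Coprime 2 (q' ^ t) := by
    rw [Nat.coprime_two_left, Nat.odd_iff]; exact h7
  have h9 := h8.dvd_of_dvd_mul_left h6
  omega

theorem cov_false {Γ Λ Δ : Subgroup (Equiv.Perm (OnePoint K))} (hcov : Γ ⋖ Λ) {g : Equiv.Perm (OnePoint K)}
    (hgΛ : cj g⁻¹ Λ = Λ) (h1 : cj g Γ < Δ) (h2 : Δ < Λ) : False := by
  have h3 := cj_lt g⁻¹ h1
  have h4 := cj_lt g⁻¹ h2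
  rw [cj_inv_cj] at h3
  rw [hgΛ] at h4
  exact hcov.2 h3 h4

/-- subfield case for `PSL₂` -/
theorem cov_sub_S [IsAlgClosed K] (p : ℕ) [hp : Fact p.Prime] [CharP K p] (B B' : Subfield K) [Finite B] [Finite B']
    {Γ : Subgroup (Equiv.Perm (OnePoint K))} (hcov : Γ ⋖ Simg B)
    {g : Equiv.Perm (OnePoint K)} (hg : g ∈ (slPerm K).range) (h : cj g Γ = Simg B' ∨ cj g Γ = Mimg B') :
    ∃ r, r.Prime ∧ Nat.card B' ^ r = Nat.card B ∧ ((cj g Γ = Simg B' ∧ (Nat.card B % 2 = 1 → r ≠ 2)) ∨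
      (cj g Γ = Mimg B' ∧ Nat.card B % 2 = 1 ∧ r = 2)) := by
  have hSB : Simg B' ≤ cj g Γ := by
    rcases h with h | h
    · rw [h]
    · rw [h]; exact Simg_le_Mimg B'
  obtain ⟨hgM, hle⟩ := sub1 p B B' (hcov.1.le.trans (Simg_le_Mimg B)) hg hSB
  obtain ⟨m, hm⟩ := subfield_card_pow hle
  have hq' : 1 < Nat.card B' := Finite.one_lt_card
  have hq : 1 < Nat.card B := Finite.one_lt_card
  have hm0 : m ≠ 0 := by rintro rfl; rw [pow_zero] at hm; omega
  have hgS : cj g⁻¹ (Simg B) = Simg B := cj_Simg B (inv_mem hgM)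
  obtain ⟨r0, hr0, hcr0⟩ := subfield_card_prime_pow p B'
  have hinter : ∀ s, s ≠ 0 → s ∣ m → s < m → ∃ B'' : Subfield K, Finite B'' ∧ Nat.card B'' = Nat.card B' ^ s ∧ B' ≤ B'' ∧ B'' ≤ B ∧
      Nat.card B'' < Nat.card B := by
    intro s hs hsm hlt
    obtain ⟨B'', hf, hc⟩ := exists_subfield_card (K := K) p (r := r0 * s) (Nat.mul_ne_zero hr0 hs)
    haveI := hf
    have hc' : Nat.card B'' = Nat.card B' ^ s := by rw [hc, hcr0, pow_mul]
    obtain ⟨u, rfl⟩ := hsm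
    refine ⟨B'', hf, hc', subfield_le_of_card hc'.symm, subfield_le_of_card (s := u) (by rw [hc', ← pow_mul, hm]), ?_⟩
    rw [hc', ← hm]
    exact Nat.pow_lt_pow_right hq' hlt
  have hpar : Nat.card B' % 2 = Nat.card B % 2 := by
    rcases Nat.mod_two_eq_zero_or_one (Nat.card B') with h | h
    · rw [h, ← hm, Nat.pow_mod, h, Nat.zero_pow (by omega)]
    · rw [h, ← hm, odd_pow_mod h]
  have hltcj : cj g Γ < Simg B := by
    have h1 := cj_lt g hcov.1
    rwa [cj_Simg B hgM] at h1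
  have hS : cj g Γ = Simg B' → ∃ r, r.Prime ∧ Nat.card B' ^ r = Nat.card B ∧ ((cj g Γ = Simg B' ∧ (Nat.card B % 2 = 1 → r ≠ 2)) ∨
      (cj g Γ = Mimg B' ∧ Nat.card B % 2 = 1 ∧ r = 2)) := by
    intro hS
    have hm1 : m ≠ 1 := by
      rintro rfl
      rw [pow_one] at hm
      have hBB : B' = B := by
        apply SetLike.coe_injective
        apply Set.eq_of_subset_of_ncard_le hle ?_ (Set.toFinite (B : Set K))
        rw [← Nat.card_coe_set_eq, ← Nat.card_coe_set_eq]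
        exact hm.ge
      rw [hS, hBB] at hltcj
      exact lt_irrefl _ hltcj
    have hmp : m.Prime := by
      by_contra hnp
      have h1 : m.minFac < m := (Nat.not_prime_iff_minFac_lt (by omega)).1 hnp
      obtain ⟨B'', hf, hc, hle1, hle2, hlt⟩ := hinter m.minFac (Nat.minFac_pos m).ne' (Nat.minFac_dvd m) h1
      haveI := hf
      apply cov_false hcov hgS (Δ := Simg B'')
      · rw [hS]
        apply Simg_lt hle1
        rw [hc]
        calc Nat.card B' = Nat.card B' ^ 1 := (pow_one _).symm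
          _ < _ := Nat.pow_lt_pow_right hq' (Nat.minFac_prime hm1).one_lt
      · exact Simg_lt hle2 hlt
    refine ⟨m, hmp, hm, Or.inl ⟨hS, ?_⟩⟩
    rintro hodd rfl
    apply cov_false hcov hgS (Δ := Mimg B')
    · rw [hS]; exact Simg_lt_Mimg (hpar.trans hodd)
    · exact Mimg_lt_Simg (hpar.trans hodd) hm
  rcases h with h | h
  · exact hS h
  · rcases Nat.mod_two_eq_zero_or_one (Nat.card B) with heven | hodd
    · apply hS
      rw [h, Simg_eq_Mimg B' (hpar.trans heven)]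
    · have hodd' := hpar.trans hodd
      have hmeven : m % 2 = 0 := by
        apply even_of_dvd hodd' hq' hm0
        have h1 : Nat.card (Mimg B') ∣ Nat.card (Simg B) := by
          rw [← h]; exact Subgroup.card_dvd_of_le hltcj.le
        rw [card_Mimg] at h1
        have h2 := card_Simg B
        rw [Nat.gcd_eq_left (by omega : 2 ∣ Nat.card B - 1)] at h2
        rw [hm, ← h2]
        exact Nat.mul_dvd_mul_left 2 h1
      have hm2 : m = 2 := by
        by_contra hne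
        obtain ⟨B'', hf, hc, hle1, hle2, hlt⟩ := hinter 2 (by norm_num) (Nat.dvd_of_mod_eq_zero hmeven) (by omega)
        haveI := hf
        apply cov_false hcov hgS (Δ := Simg B'')
        · rw [h]; exact Mimg_lt_Simg hodd' hc.symm
        · exact Simg_lt hle2 hlt
      subst hm2
      exact ⟨2, Nat.prime_two, hm, Or.inr ⟨h, hodd, rfl⟩⟩

end

end Cfsg.Agent.H5
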