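import Cfsg.Agent.H5.Dk29
set_option autoImplicit false
set_option linter.style.haveILetI false
set_option linter.unusedSectionVars false

/-! Maximal subgroups: Borel and dihedral cases. -/

namespace Cfsg.Agent.H5

open OnePoint Cfsg.Agent.H4 Cfsg.Agent.H2 Matrix Polynomial

section
variable {K : Type*} [Field K] [DecidableEq K]

/-- subfield case for `PGL₂` -/
theorem cov_sub_M [IsAlgClosed K] (p : ℕ) [hp : Fact p.Prime] [CharP K p] (B B' : Subfield K) [Finite B] [Finite B']
    (hodd : Nat.card B % 2 = 1)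
    {Γ : Subgroup (Equiv.Perm (OnePoint K))} (hcov : Γ ⋖ Mimg B) (hns : ¬ Simg B ≤ Γ)
    {g : Equiv.Perm (OnePoint K)} (hg : g ∈ (slPerm K).range) (h : cj g Γ = Simg B' ∨ cj g Γ = Mimg B') :
    ∃ r, r.Prime ∧ Nat.card B' ^ r = Nat.card B ∧ r ≠ 2 ∧ cj g Γ = Mimg B' := by
  have hSB : Simg B' ≤ cj g Γ := by
    rcases h with h | h
    · rw [h]
    · rw [h]; exact Simg_le_Mimg B'
  obtain ⟨hgM, hle⟩ := sub1 p B B' hcov.1.le hg hSB
  obtain ⟨m, hm⟩ := subfield_card_pow hle
  have hq' : 1 < Nat.card B' := Finite.one_lt_card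
  have hq : 1 < Nat.card B := Finite.one_lt_card
  have hm0 : m ≠ 0 := by rintro rfl; rw [pow_zero] at hm; omega
  have hgS : cj g⁻¹ (Mimg B) = Mimg B := cj_Mimg B (inv_mem hgM)
  obtain ⟨r0, hr0, hcr0⟩ := subfield_card_prime_pow p B'
  have hpar : Nat.card B' % 2 = 1 := by
    rcases Nat.mod_two_eq_zero_or_one (Nat.card B') with h | h
    · exfalso
      have : Nat.card B % 2 = 0 := by rw [← hm, Nat.pow_mod, h, Nat.zero_pow (by omega)]
      omega
    · exact h
  have hltcj : cj g Γ < Mimg B := by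
    have h1 := cj_lt g hcov.1
    rwa [cj_Mimg B hgM] at h1
  have hle1 : ¬ Γ ≤ Simg B := by
    intro h1
    rcases h1.lt_or_eq with h2 | h2
    · exact hcov.2 h2 (Simg_lt_Mimg hodd)
    · exact hns h2.ge
  have hBB : m = 1 → B' = B := by
    rintro rfl
    rw [pow_one] at hm
    apply SetLike.coe_injective
    apply Set.eq_of_subset_of_ncard_le hle ?_ (Set.toFinite (B : Set K))
    rw [← Nat.card_coe_set_eq, ← Nat.card_coe_set_eq]
    exact hm.ge
  have hnS : cj g Γ ≠ Simg B' := by
    intro hS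
    by_cases h1 : m = 1
    · have h2 := hBB h1
      subst h2
      apply hle1
      rw [← cj_inv_cj g Γ, hS, cj_Simg B' (inv_mem hgM)]
    · apply cov_false hcov hgS (Δ := Mimg B')
      · rw [hS]; exact Simg_lt_Mimg hpar
      · refine lt_of_le_of_ne (Mimg_mono hle) fun he => ?_
        have h2 := card_Mimg B'
        rw [he, card_Mimg] at h2
        have h3 := N_mono hq' (b := Nat.card B) (by
          rw [← hm]
          calc Nat.card B' = Nat.card B' ^ 1 := (pow_one _).symm
            _ < _ := Nat.pow_lt_pow_right hq' (by omega))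
        omega
  have hM : cj g Γ = Mimg B' := by
    rcases h with h | h
    · exact absurd h hnS
    · exact h
  have hm1 : m ≠ 1 := by
    intro h1
    have h2 := hBB h1
    subst h2
    rw [hM] at hltcj
    exact lt_irrefl _ hltcj
  have hm2 : m ≠ 2 := by
    rintro rfl
    apply hle1
    have h1 := cj_mono g⁻¹ (Mimg_le_Simg hpar hm)
    rwa [← hM, cj_inv_cj, cj_Simg B (inv_mem hgM)] at h1
  have hmp : m.Prime := by
    by_contra hnp
    have h1 : m.minFac < m := (Nat.not_prime_iff_minFac_lt (by omega)).1 hnp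
    obtain ⟨B'', hf, hc⟩ := exists_subfield_card (K := K) p (r := r0 * m.minFac) (Nat.mul_ne_zero hr0 (Nat.minFac_pos m).ne')
    haveI := hf
    have hc' : Nat.card B'' = Nat.card B' ^ m.minFac := by rw [hc, hcr0, pow_mul]
    obtain ⟨u, hu⟩ := Nat.minFac_dvd m
    have hlt1 : Nat.card B' < Nat.card B'' := by
      rw [hc']
      calc Nat.card B' = Nat.card B' ^ 1 := (pow_one _).symm
        _ < _ := Nat.pow_lt_pow_right hq' (Nat.minFac_prime hm1).one_lt
    have hlt2 : Nat.card B'' < Nat.card B := by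
      rw [hc', ← hm]
      exact Nat.pow_lt_pow_right hq' h1
    have hle1 : B' ≤ B'' := subfield_le_of_card hc'.symm
    have hle2 : B'' ≤ B := subfield_le_of_card (s := u) (by rw [hc', ← pow_mul, ← hu, hm])
    apply cov_false hcov hgS (Δ := Mimg B'')
    · rw [hM]
      refine lt_of_le_of_ne (Mimg_mono hle1) fun he => ?_
      have h2 := card_Mimg B'
      rw [he, card_Mimg] at h2
      have := N_mono hq' hlt1
      omega
    · refine lt_of_le_of_ne (Mimg_mono hle2) fun he => ?_
      have h2 := card_Mimg B''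
      rw [he, card_Mimg] at h2
      have := N_mono (hq'.trans hlt1) hlt2
      omega
  exact ⟨m, hmp, hm, hm2, hM⟩

/-- stabilizer of a point -/
def bor (Λ : Subgroup (Equiv.Perm (OnePoint K))) (a : OnePoint K) : Subgroup (Equiv.Perm (OnePoint K)) where
  carrier := {γ | γ ∈ Λ ∧ γ a = a}
  mul_mem' := by
    rintro x y ⟨h1, h2⟩ ⟨h1', h2'⟩
    exact ⟨mul_mem h1 h1', by rw [Equiv.Perm.mul_apply, h2', h2]⟩
  one_mem' := ⟨one_mem _, rfl⟩
  inv_mem' := by
    rintro x ⟨h1, h2⟩
    exact ⟨inv_mem h1, by apply x.injective; rw [app_inv, h2]⟩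

theorem mem_bor {Λ : Subgroup (Equiv.Perm (OnePoint K))} {a : OnePoint K} {γ : Equiv.Perm (OnePoint K)} :
    γ ∈ bor Λ a ↔ γ ∈ Λ ∧ γ a = a := Iff.rfl

theorem bor_le (Λ : Subgroup (Equiv.Perm (OnePoint K))) (a : OnePoint K) : bor Λ a ≤ Λ := fun _ h => h.1

theorem card_rat (B : Subfield K) [Finite B] : Nat.card {x : OnePoint K // InB B x} = Nat.card B + 1 := by
  have h1 : Function.Injective (OnePoint.map B.subtype : OnePoint B → OnePoint K) := by
    intro x y hxy
    cases x with
    | infty => cases y with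
      | infty => rfl
      | coe y => exact absurd hxy (infty_ne_coe _)
    | coe x => cases y with
      | infty => exact absurd hxy (coe_ne_infty _)
      | coe y =>
        have h2 : ((x : K) : OnePoint K) = ((y : K) : OnePoint K) := hxy
        rw [coe_inj'] at h2
        rw [Subtype.ext h2]
  have h2 : Nat.card {x : OnePoint K // InB B x} = Nat.card (OnePoint B) :=
    (Nat.card_congr (Equiv.ofInjective _ h1)).symm
  rw [h2]
  haveI := Fintype.ofFinite B
  have h3 : Nat.card (OnePoint B) = Nat.card (Option B) := rfl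
  rw [h3, Nat.card_eq_fintype_card, Fintype.card_option, Nat.card_eq_fintype_card]

theorem card_bor (B : Subfield K) [Finite B] {Λ : Subgroup (Equiv.Perm (OnePoint K))}
    (h1 : Simg B ≤ Λ) (h2 : Λ ≤ Mimg B) {a : OnePoint K} (ha : InB B a) :
    (Nat.card B + 1) * Nat.card (bor Λ a) = Nat.card Λ := by
  haveI := finite_of_le B h2
  have ho := card_orbit_mul' (Γ := Λ) a
  have e1 : Nat.card (MulAction.orbit Λ a) = Nat.card B + 1 := by
    rw [← card_rat B]
    apply Nat.card_congr
    apply Equiv.setCongr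
    ext x
    constructor
    · rintro ⟨g, rfl⟩
      exact inB_Mimg (h2 g.2) ha
    · intro hx
      by_cases hax : a = x
      · rw [← hax]; exact MulAction.mem_orbit_self _
      · obtain ⟨s, hs, s1, s2⟩ := Simg_two_trans B ha hx hax
        obtain ⟨w, hw, w1, w2, -⟩ := Simg_inv B
        refine ⟨⟨s⁻¹ * w * s, h1 (mul_mem (mul_mem (inv_mem hs) hw) hs)⟩, ?_⟩
        show (s⁻¹ * w * s) a = x
        rw [Equiv.Perm.mul_apply, Equiv.Perm.mul_apply, s1, w1, ← s2, inv_app]
  have e2 : Nat.card (MulAction.stabilizer Λ a) = Nat.card (bor Λ a) := by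
    apply Nat.card_congr
    refine ⟨fun g => ⟨g.1, g.1.2, g.2⟩, fun g => ⟨⟨g.1, g.2.1⟩, g.2.2⟩, fun g => rfl, fun g => rfl⟩
  rw [e1, e2] at ho
  exact ho

theorem fixpt (p : ℕ) [hp : Fact p.Prime] [CharP K p] {φ : K →+* K} {x : Equiv.Perm (OnePoint K)} (hx : x ∈ cG φ)
    (h1 : x ≠ 1) (hp1 : x ^ p = 1) {a : OnePoint K} (ha : x a = a) : OnePoint.map φ a = a := by
  obtain ⟨h, hh, hha⟩ := exists_conj_infty a
  have ha' : h⁻¹ ∞ = a := by rw [← hha, inv_app]
  have h2 := (one_fix_infty p (mul_mem (mul_mem hh hx.1) (inv_mem hh)) (by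
      rw [Equiv.Perm.mul_apply, Equiv.Perm.mul_apply, ha', ha, hha]) (by
      intro h3
      apply h1
      have : x = h⁻¹ * (h * x * h⁻¹) * h := by group
      rw [this, h3]; group) (by rw [conj_pow, hp1]; group)).2
  have h4 : x (OnePoint.map φ a) = OnePoint.map φ a := by rw [hx.2, ha]
  have h5 := (h2 (h (OnePoint.map φ a))).1 (by
    rw [Equiv.Perm.mul_apply, Equiv.Perm.mul_apply, inv_app, h4])
  rw [← hha] at h5
  exact h.injective h5

/-- cyclic and dihedral regular groups lie in pair stabilizers -/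
theorem cyc_dih_le (p : ℕ) [hp : Fact p.Prime] [CharP K p] [IsAlgClosed K] {φ : K →+* K}
    {Λ Γ : Subgroup (Equiv.Perm (OnePoint K))} [Finite Γ] (hΛ : Λ ≤ cG φ) (hΓ : Γ ≤ Λ)
    (h : (IsCyclic Γ ∧ ¬ p ∣ Nat.card Γ) ∨ (∃ n, ¬ p ∣ n ∧ (n = 1 → p ≠ 2) ∧ Nonempty (Γ ≃* DihedralGroup n))) :
    ∃ a b, a ≠ b ∧ StP φ a b ∧ Γ ≤ pS Λ a b := by
  rcases h with ⟨hcyc, hpn⟩ | ⟨n, hpn, hn1, ⟨e⟩⟩
  · obtain ⟨c, hc⟩ := hcyc.exists_generator
    by_cases hc1 : c = 1
    · refine ⟨∞, ((0 : K) : OnePoint K), infty_ne_coe _, Or.inl ⟨rfl, by rw [map_coe', map_zero]⟩, ?_⟩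
      intro g hg
      obtain ⟨k, hk⟩ := hc ⟨g, hg⟩
      rw [hc1] at hk
      have : g = 1 := by
        have := congrArg Subtype.val hk
        simpa using this.symm
      rw [this]; exact one_mem _
    · obtain ⟨a, b, hab, hst, hle, -, -⟩ := le_pS_of_normal p hΛ hΓ (hΓ c.2) (by
        intro h1
        have h2 : orderOf c ∣ p := orderOf_dvd_of_pow_eq_one (Subtype.ext h1)
        rcases (Nat.dvd_prime hp.out).1 h2 with h3 | h3
        · exact hc1 (orderOf_eq_one_iff.1 h3)
        · exact hpn (h3 ▸ orderOf_dvd_natCard c)) (by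
        intro g hg
        obtain ⟨k, hk⟩ := hc ⟨g, hg⟩
        have hk' : (c : Equiv.Perm (OnePoint K)) ^ k = g := congrArg Subtype.val hk
        rw [← hk']
        have : (c : Equiv.Perm (OnePoint K)) ^ k * c * ((c : Equiv.Perm (OnePoint K)) ^ k)⁻¹ = c := by group
        rw [this]
        exact Subgroup.mem_zpowers _)
      exact ⟨a, b, hab, hst, hle⟩
  · have hn0 : n ≠ 0 := by rintro rfl; exact hpn (dvd_zero _)
    by_cases h1 : n = 1
    · subst h1
      have hp2 := hn1 rfl
      have hcard : Nat.card Γ = 2 := by rw [Nat.card_congr e.toEquiv, DihedralGroup.nat_card]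
      haveI : Fact (Nat.Prime 2) := ⟨Nat.prime_two⟩
      have hcyc : IsCyclic Γ := isCyclic_of_prime_card hcard
      obtain ⟨c, hc⟩ := hcyc.exists_generator
      obtain ⟨a, b, hab, hst, hle, -, -⟩ := le_pS_of_normal p hΛ hΓ (hΓ c.2) (by
        intro h1
        have h2 : orderOf c ∣ p := orderOf_dvd_of_pow_eq_one (Subtype.ext h1)
        have h4 : orderOf c = 2 := by rw [orderOf_eq_card_of_forall_mem_zpowers hc, hcard]
        rw [h4, Nat.prime_dvd_prime_iff_eq Nat.prime_two hp.out] at h2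
        exact hp2 h2.symm) (by
        intro g hg
        obtain ⟨k, hk⟩ := hc ⟨g, hg⟩
        have hk' : (c : Equiv.Perm (OnePoint K)) ^ k = g := congrArg Subtype.val hk
        rw [← hk']
        have : (c : Equiv.Perm (OnePoint K)) ^ k * c * ((c : Equiv.Perm (OnePoint K)) ^ k)⁻¹ = c := by group
        rw [this]
        exact Subgroup.mem_zpowers _)
      exact ⟨a, b, hab, hst, hle⟩
    · obtain ⟨a, b, hab, hst, hle, -, -⟩ := le_pS_of_normal p hΛ hΓ (c := (e.symm (DihedralGroup.r 1) : Γ)) (hΓ (Subtype.property _)) (by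
        intro h9
        have h2 : (e.symm (DihedralGroup.r 1) : Γ) ^ p = 1 := Subtype.ext h9
        have h3 : orderOf (e.symm (DihedralGroup.r 1) : Γ) ∣ p := orderOf_dvd_of_pow_eq_one h2
        rw [MulEquiv.orderOf_eq, DihedralGroup.orderOf_r_one] at h3
        rcases (Nat.dvd_prime hp.out).1 h3 with h4 | h4
        · exact h1 h4
        · exact hpn (h4 ▸ dvd_rfl)) (by
        intro g hg
        have key : ∀ d : DihedralGroup n, d * DihedralGroup.r 1 * d⁻¹ ∈ Subgroup.zpowers (DihedralGroup.r 1 : DihedralGroup n) := by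
          intro d
          cases d with
          | r i =>
            refine ⟨1, ?_⟩
            simp
          | sr i =>
            refine ⟨-1, ?_⟩
            simp
        obtain ⟨k, hk⟩ := key (e ⟨g, hg⟩)
        refine ⟨k, ?_⟩
        have h5 := congrArg e.symm hk
        simp only [map_mul, map_inv, MulEquiv.symm_apply_apply, map_zpow] at h5
        exact congrArg Subtype.val h5)
      exact ⟨a, b, hab, hst, hle⟩

end

end Cfsg.Agent.H5
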