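import Cfsg.Agent.H5.Dk30
set_option autoImplicit false
set_option linter.style.haveILetI false
set_option linter.unusedSectionVars false

/-! Maximal subgroups of `PSL₂(q)`, `q` even. -/

namespace Cfsg.Agent.H5

open OnePoint Cfsg.Agent.H4 Cfsg.Agent.H2 Matrix Polynomial

theorem covBy_map {G H : Type*} [Group G] [Group H] {f : G →* H} (hf : Function.Injective f) {M : Subgroup G} (hM : IsCoatom M) :
    M.map f ⋖ f.range := by
  constructor
  · rw [MonoidHom.range_eq_map]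
    exact lt_of_le_of_ne (Subgroup.map_mono le_top) (fun he => hM.1 (Subgroup.map_injective hf he))
  · intro c h1 h2
    have h3 : M < c.comap f := by
      refine lt_of_le_of_ne (Subgroup.map_le_iff_le_comap.1 h1.le) fun he => ?_
      apply h1.ne
      rw [he, Subgroup.map_comap_eq, inf_eq_right.2 h2.le]
    have h4 := hM.2 _ h3
    apply h2.ne
    rw [← inf_eq_right.2 h2.le, ← Subgroup.map_comap_eq, h4, MonoidHom.range_eq_map]

section
variable {K : Type*} [Field K] [DecidableEq K]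

/-- the data of `PSL₂` or `PGL₂` -/
def LamD (B : Subfield K) (Λ : Subgroup (Equiv.Perm (OnePoint K))) (d : ℕ) : Prop :=
  (Λ = Mimg B ∧ d = 1) ∨ (Λ = Simg B ∧ d = Nat.gcd 2 (Nat.card B - 1))

theorem LamD.le_M {B : Subfield K} {Λ : Subgroup (Equiv.Perm (OnePoint K))} {d : ℕ} (h : LamD B Λ d) : Λ ≤ Mimg B := by
  rcases h with ⟨rfl, -⟩ | ⟨rfl, -⟩
  · exact le_rfl
  · exact Simg_le_Mimg B

theorem LamD.ge_S {B : Subfield K} {Λ : Subgroup (Equiv.Perm (OnePoint K))} {d : ℕ} (h : LamD B Λ d) : Simg B ≤ Λ := by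
  rcases h with ⟨rfl, -⟩ | ⟨rfl, -⟩
  · exact Simg_le_Mimg B
  · exact le_rfl

theorem LamD.card {B : Subfield K} [Finite B] {Λ : Subgroup (Equiv.Perm (OnePoint K))} {d : ℕ} (h : LamD B Λ d) :
    d * Nat.card Λ = Nat.card B * (Nat.card B ^ 2 - 1) ∧ 0 < d ∧ d ≤ 2 := by
  rcases h with ⟨rfl, rfl⟩ | ⟨rfl, rfl⟩
  · rw [one_mul]; exact ⟨card_Mimg B, by norm_num, by norm_num⟩
  · exact ⟨card_Simg B, Nat.gcd_pos_of_pos_left _ (by norm_num), Nat.gcd_le_left _ (by norm_num)⟩

theorem cov_bor [IsAlgClosed K] {B : Subfield K} [Finite B] {Λ Γ : Subgroup (Equiv.Perm (OnePoint K))} {d : ℕ} (h : LamD B Λ d)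
    (hcov : Γ ⋖ Λ) {a : OnePoint K} (ha : InB B a) (hle : ∀ γ ∈ Γ, γ a = a) :
    Γ = bor Λ a ∧ d * Nat.card Γ = Nat.card B * (Nat.card B - 1) := by
  have hb := card_bor B h.ge_S h.le_M ha
  haveI := finite_of_le B h.le_M
  obtain ⟨hc, hd, -⟩ := h.card
  have hq : 1 < Nat.card B := Finite.one_lt_card
  have hΛpos : 0 < Nat.card Λ := Nat.card_pos
  have hlt : bor Λ a < Λ := by
    refine lt_of_le_of_ne (bor_le _ _) fun he => ?_
    rw [he] at hb
    have : 2 * Nat.card Λ ≤ (Nat.card B + 1) * Nat.card Λ := Nat.mul_le_mul_right _ (by omega)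
    omega
  have hΓ : Γ ≤ bor Λ a := fun γ hγ => ⟨hcov.1.le hγ, hle γ hγ⟩
  have heq : Γ = bor Λ a := by
    rcases hΓ.lt_or_eq with h1 | h1
    · exact absurd hlt (hcov.2 h1)
    · exact h1
  refine ⟨heq, ?_⟩
  rw [← heq] at hb
  have h3 : (Nat.card B + 1) * (d * Nat.card Γ) = (Nat.card B + 1) * (Nat.card B * (Nat.card B - 1)) := by
    rw [show (Nat.card B + 1) * (d * Nat.card Γ) = d * ((Nat.card B + 1) * Nat.card Γ) by ring, hb, hc]
    obtain ⟨t, ht⟩ : ∃ t, Nat.card B = t + 1 := ⟨Nat.card B - 1, by omega⟩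
    rw [ht, Nat.add_sub_cancel, show (t + 1) ^ 2 = t * (t + 2) + 1 by ring, Nat.add_sub_cancel]
    ring
  exact Nat.eq_of_mul_eq_mul_left (by omega) h3

theorem cov_pS [IsAlgClosed K] (p : ℕ) [hp : Fact p.Prime] [CharP K p] {B : Subfield K} [Finite B] (h4 : 4 ≤ Nat.card B)
    {φ : K →+* K} (hφ : ∀ x, φ x = x ^ Nat.card B)
    {Λ Γ : Subgroup (Equiv.Perm (OnePoint K))} {d : ℕ} (h : LamD B Λ d)
    (hcov : Γ ⋖ Λ) {a b : OnePoint K} (hab : a ≠ b) (hst : StP φ a b) (hle : Γ ≤ pS Λ a b) :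
    Γ = pS Λ a b ∧ ∃ n, (d * n = Nat.card B - 1 ∨ d * n = Nat.card B + 1) ∧ Nonempty (Γ ≃* DihedralGroup n) ∧ Nat.card Γ = 2 * n := by
  obtain ⟨n, hn, hcT, hcyc, hw, he, hcS⟩ := pS_dihedral p B hφ h hab hst
  obtain ⟨hc1, -, -⟩ := card_pT_cases p B hφ hab hst
  obtain ⟨hc, hd, hd2⟩ := h.card
  haveI := finite_of_le B h.le_M
  have hlt : pS Λ a b < Λ := by
    refine lt_of_le_of_ne (pS_le _ _ _) fun he => ?_
    rw [he] at hcS
    rw [hcS] at hc
    have h5 : d * (2 * n) = 2 * Nat.card (pT (Mimg B) a b) := by rw [← hn]; ring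
    rw [hc] at h5
    have h6 : 2 * Nat.card (pT (Mimg B) a b) ≤ 2 * (Nat.card B + 1) := by
      rcases hc1 with h | h <;> omega
    have h7 : 4 * 15 ≤ Nat.card B * (Nat.card B ^ 2 - 1) := by
      have : 4 ^ 2 ≤ Nat.card B ^ 2 := Nat.pow_le_pow_left h4 2
      exact Nat.mul_le_mul h4 (by omega)
    have h8 : Nat.card B * (Nat.card B ^ 2 - 1) ≥ 3 * (Nat.card B + 1) := by
      obtain ⟨t, ht⟩ : ∃ t, Nat.card B = t + 1 := ⟨Nat.card B - 1, by omega⟩
      rw [ht, show (t + 1) ^ 2 = t * (t + 2) + 1 by ring, Nat.add_sub_cancel]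
      have : 3 ≤ t := by omega
      have h9 : 3 * (t + 2) ≤ t * (t + 2) := Nat.mul_le_mul_right _ this
      have h10 : t * (t + 2) ≤ (t + 1) * (t * (t + 2)) := Nat.le_mul_of_pos_left _ (by omega)
      linarith
    omega
  have heq : Γ = pS Λ a b := by
    rcases hle.lt_or_eq with h1 | h1
    · exact absurd hlt (hcov.2 h1)
    · exact h1
  refine ⟨heq, n, ?_, ?_, ?_⟩
  · rw [hn]; exact hc1
  · rw [heq]; exact he
  · rw [heq]; exact hcS

/-- maximal subgroups, `q` even -/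
theorem even_main [IsAlgClosed K] [CharP K 2] {B : Subfield K} [Finite B] (h4 : 4 ≤ Nat.card B)
    {Γ : Subgroup (Equiv.Perm (OnePoint K))} (hcov : Γ ⋖ Simg B) :
    Nat.card Γ = Nat.card B * (Nat.card B - 1) ∨ Nonempty (Γ ≃* DihedralGroup (Nat.card B - 1)) ∨
    Nonempty (Γ ≃* DihedralGroup (Nat.card B + 1)) ∨
    (∃ (B' : Subfield K) (_ : Finite B') (r : ℕ), r.Prime ∧ Nat.card B' ≠ 2 ∧ Nat.card B' ^ r = Nat.card B ∧
      Nonempty (Γ ≃* Simg B')) := by
  haveI hp : Fact (Nat.Prime 2) := ⟨Nat.prime_two⟩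
  obtain ⟨hq, hpq, φ, hφ⟩ := subfield_char 2 B
  have hΓr : Γ ≤ (slPerm K).range := hcov.1.le.trans (Simg_le_range B)
  haveI : Finite Γ := finite_of_le B (hcov.1.le.trans (Simg_le_Mimg B))
  have hg1 : Nat.gcd 2 (Nat.card B - 1) = 1 := by
    rw [Nat.gcd_rec, show (Nat.card B - 1) % 2 = 1 by omega]; simp
  have hL : LamD B (Simg B) 1 := Or.inr ⟨rfl, hg1.symm⟩
  have hSc : Simg B ≤ cG φ := (Simg_le_Mimg B).trans (Mimg_eq_cG B hφ).le
  have hpair : (∃ a b, a ≠ b ∧ StP φ a b ∧ Γ ≤ pS (Simg B) a b) →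
      Nonempty (Γ ≃* DihedralGroup (Nat.card B - 1)) ∨ Nonempty (Γ ≃* DihedralGroup (Nat.card B + 1)) := by
    rintro ⟨a, b, hab, hst, hle⟩
    obtain ⟨-, n, hn, he, -⟩ := cov_pS 2 h4 hφ hL hcov hab hst hle
    rw [one_mul] at hn
    rcases hn with rfl | rfl
    · exact Or.inl he
    · exact Or.inr he
  have hbor : ∀ a x, x ∈ Γ → x ≠ 1 → x ^ 2 = 1 → x a = a → (∀ γ ∈ Γ, γ a = a) → Nat.card Γ = Nat.card B * (Nat.card B - 1) := by
    intro a x hx hx1 hx2 hxa hall
    have h1 := fixpt 2 (hSc (hcov.1.le hx)) hx1 hx2 hxa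
    have h2 := (cov_bor hL hcov ((inB_iff B hφ a).2 h1) hall).2
    rwa [one_mul] at h2
  by_cases hdvd : 2 ∣ Nat.card Γ
  · rcases pdvd_class 2 Γ hΓr hdvd with ⟨a, x, hx, hx1, hx2, hxa, hall⟩ | ⟨-, n, c, hc, hn, ⟨f⟩⟩ | ⟨h3, -⟩ | ⟨B', hBf, g, hg, hB⟩
    · exact Or.inl (hbor a x hx hx1 hx2 hxa hall)
    · by_cases hn1 : n = 1
      · left
        subst hn1
        have hcard : Nat.card Γ = 2 := by rw [Nat.card_congr f.toEquiv, DihedralGroup.nat_card]
        obtain ⟨x, hx⟩ := exists_prime_orderOf_dvd_card' 2 hdvd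
        have hx1 : x ≠ 1 := by rintro rfl; rw [orderOf_one] at hx; omega
        have hx2 : (x : Equiv.Perm (OnePoint K)) ^ 2 = 1 := by
          have := pow_orderOf_eq_one x
          rw [hx] at this
          exact congrArg Subtype.val this
        obtain ⟨a, ha⟩ := exists_fix (hΓr x.2)
        refine hbor a x x.2 (fun h => hx1 (Subtype.ext h)) hx2 ha ?_
        intro γ hγ
        have hz : (⟨γ, hγ⟩ : Γ) ∈ Subgroup.zpowers x := by
          have : Subgroup.zpowers x = ⊤ := by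
            apply Subgroup.eq_top_of_card_eq
            rw [Nat.card_zpowers, hx, hcard]
          rw [this]; trivial
        obtain ⟨k, hk⟩ := hz
        have hk' : (x : Equiv.Perm (OnePoint K)) ^ k = γ := congrArg Subtype.val hk
        rw [← hk']
        exact Function.IsFixedPt.perm_zpow ha k
      · right
        have h5 := hpair (cyc_dih_le 2 hSc hcov.1.le (Or.inr ⟨n, by
          rw [← even_iff_two_dvd, Nat.not_even_iff_odd]; exact hn, fun h => absurd h hn1, ⟨f⟩⟩))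
        rcases h5 with h5 | h5
        · exact Or.inl h5
        · exact Or.inr (Or.inl h5)
    · omega
    · right
      haveI := hBf
      obtain ⟨r, hr, hrc, h6⟩ := cov_sub_S 2 B B' hcov hg hB
      have h7 : cj g Γ = Simg B' := by
        rcases h6 with h6 | h6
        · exact h6.1
        · exfalso
          have := h6.2.1
          omega
      have e : Γ ≃* Simg B' := (cjEquiv g Γ).trans (MulEquiv.subgroupCongr h7)
      by_cases hB2 : Nat.card B' = 2
      · have h8 := card_Simg B'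
        rw [hB2] at h8
        norm_num at h8
        have h9 : Nat.card Γ = 6 := by rw [Nat.card_congr e.toEquiv, h8]
        haveI : Fact (Nat.Prime 3) := ⟨Nat.prime_three⟩
        obtain ⟨c, hc⟩ := exists_prime_orderOf_dvd_card' (G := Γ) 3 (by rw [h9]; norm_num)
        have hidx : (Subgroup.zpowers c).index = 2 := by
          have := Subgroup.card_mul_index (Subgroup.zpowers c)
          rw [Nat.card_zpowers, hc, h9] at this
          omega
        haveI := Subgroup.normal_of_index_eq_two hidx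
        obtain ⟨a, b, hab, hst, hle, -, -⟩ := le_pS_of_normal 2 hSc hcov.1.le (hcov.1.le c.2) (by
          intro h10
          have h11 : orderOf c ∣ 2 := orderOf_dvd_of_pow_eq_one (Subtype.ext h10)
          rw [hc] at h11
          omega) (by
          intro g hg
          obtain ⟨k, hk⟩ := Subgroup.Normal.conj_mem inferInstance c (Subgroup.mem_zpowers c) (⟨g, hg⟩ : Γ)
          exact ⟨k, congrArg Subtype.val hk⟩)
        rcases hpair ⟨a, b, hab, hst, hle⟩ with h5 | h5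
        · exact Or.inl h5
        · exact Or.inr (Or.inl h5)
      · exact Or.inr (Or.inr ⟨B', hBf, r, hr, hB2, hrc, ⟨e⟩⟩)
  · rcases coprime_class 2 Γ hΓr hdvd with h | ⟨n, c, hc, ⟨f⟩⟩ | ⟨⟨f⟩⟩ | ⟨⟨f⟩⟩ | ⟨⟨f⟩⟩
    · right
      rcases hpair (cyc_dih_le 2 hSc hcov.1.le (Or.inl ⟨h, hdvd⟩)) with h5 | h5
      · exact Or.inl h5
      · exact Or.inr (Or.inl h5)
    · exact absurd ⟨n, by rw [Nat.card_congr f.toEquiv, DihedralGroup.nat_card]⟩ hdvd
    · exact absurd (by rw [Nat.card_congr f.toEquiv, card_A4']; norm_num) hdvd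
    · exact absurd (by rw [Nat.card_congr f.toEquiv, card_S4']; norm_num) hdvd
    · exact absurd (by rw [Nat.card_congr f.toEquiv, card_A5']; norm_num) hdvd

end

section
variable {F : Type*} [Field F] {K : Type*} [Field K] [DecidableEq K]

local notation "PSL₂" => Matrix.ProjectiveSpecialLinearGroup (Fin 2) F

theorem rrf_surj (ι : F →+* K) : Function.Surjective ι.rangeRestrictField := by
  rintro ⟨_, ⟨x, rfl⟩⟩; exact ⟨x, rfl⟩

theorem pemb_range_eq (ι : F →+* K) : (pemb ι).range = Simg ι.fieldRange := by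
  apply le_antisymm
  · rintro _ ⟨x, rfl⟩
    obtain ⟨A, rfl⟩ := QuotientGroup.mk_surjective x
    refine ⟨Matrix.SpecialLinearGroup.map ι.rangeRestrictField A, ?_⟩
    rw [pemb_mk, MonoidHom.comp_apply]
    congr 1
  · rintro _ ⟨A, rfl⟩
    let e : F ≃+* ι.fieldRange := RingEquiv.ofBijective ι.rangeRestrictField ⟨ι.rangeRestrictField.injective, rrf_surj ι⟩
    refine ⟨QuotientGroup.mk (Matrix.SpecialLinearGroup.map (e.symm : ι.fieldRange →+* F) A), ?_⟩
    rw [pemb_mk, MonoidHom.comp_apply]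
    congr 1
    apply Subtype.ext
    ext i j
    show ι (e.symm (A i j)) = ((A i j : ι.fieldRange) : K)
    exact congrArg Subtype.val (e.apply_symm_apply (A i j))

theorem card_fieldRange (ι : F →+* K) [Finite F] : Finite ι.fieldRange ∧ Nat.card ι.fieldRange = Nat.card F := by
  let e : F ≃+* ι.fieldRange := RingEquiv.ofBijective ι.rangeRestrictField ⟨ι.rangeRestrictField.injective, rrf_surj ι⟩
  exact ⟨Finite.of_equiv _ e.toEquiv, (Nat.card_congr e.toEquiv).symm⟩

end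

theorem max_even {F : Type*} [Field F] [Fintype F]
    (heven : Even (Fintype.card F)) (h4 : 4 ≤ Fintype.card F) (M : Subgroup (Matrix.ProjectiveSpecialLinearGroup (Fin 2) F)) (hM : IsCoatom M) :
    Nat.card M = Fintype.card F * (Fintype.card F - 1) ∨
    Nonempty (M ≃* DihedralGroup (Fintype.card F - 1)) ∨
    Nonempty (M ≃* DihedralGroup (Fintype.card F + 1)) ∨
    (∃ (F₀ : Type) (_ : Field F₀) (_ : Fintype F₀) (r : ℕ), r.Prime ∧ Fintype.card F₀ ≠ 2 ∧
        Fintype.card F = Fintype.card F₀ ^ r ∧ Nonempty (M ≃* Matrix.ProjectiveSpecialLinearGroup (Fin 2) F₀)) := by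
  classical
  haveI : Fact (Nat.Prime 2) := ⟨Nat.prime_two⟩
  haveI : CharP F 2 := by
    have h1 : ringChar F = 2 := FiniteField.even_card_iff_char_two.2 (Nat.even_iff.1 heven)
    exact ringChar.of_eq h1
  let K := AlgebraicClosure F
  haveI : CharP K 2 := charP_of_injective_algebraMap (algebraMap F K).injective 2
  let ι : F →+* K := algebraMap F K
  obtain ⟨hf, hc⟩ := card_fieldRange ι
  haveI := hf
  have hcov := covBy_map (pemb_injective ι) hM
  rw [pemb_range_eq] at hcov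
  let e : M ≃* M.map (pemb ι) := Subgroup.equivMapOfInjective M _ (pemb_injective ι)
  have hcF : Nat.card F = Fintype.card F := Nat.card_eq_fintype_card
  have hmain := even_main (by rw [hc, hcF]; exact h4) hcov
  rw [hc, hcF] at hmain
  rcases hmain with h | ⟨⟨f⟩⟩ | ⟨⟨f⟩⟩ | ⟨B', hf', r, hr, h2, hrc, ⟨f⟩⟩
  · left; rw [Nat.card_congr e.toEquiv, h]
  · right; left; exact ⟨e.trans f⟩
  · right; right; left; exact ⟨e.trans f⟩
  · right; right; right
    haveI := hf'
    obtain ⟨C, i1, i2, ⟨g⟩⟩ := exists_model (B := B')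
    obtain ⟨f1⟩ := Simg_equiv B'
    obtain ⟨f2⟩ := psl_congr (n := 2) g
    refine ⟨C, i1, i2, r, hr, ?_, ?_, ⟨((e.trans f).trans f1).trans f2⟩⟩
    · rw [← Nat.card_eq_fintype_card, ← Nat.card_congr g.toEquiv]; exact h2
    · rw [← hrc, ← Nat.card_eq_fintype_card (α := C), ← Nat.card_congr g.toEquiv]

end Cfsg.Agent.H5
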