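import Mathlib

set_option autoImplicit false

/-! Alternating `4 × 4` matrices, the Pfaffian and the dual. -/

namespace Cfsg.Agent.H5

open Matrix

section
variable {F : Type*} [Field F]

def alt4 (a b c d e f : F) : Matrix (Fin 4) (Fin 4) F :=
  !![0, a, b, c; -a, 0, d, e; -b, -d, 0, f; -c, -e, -f, 0]

def pf4 (M : Matrix (Fin 4) (Fin 4) F) : F := M 0 1 * M 2 3 - M 0 2 * M 1 3 + M 0 3 * M 1 2

def star4 (M : Matrix (Fin 4) (Fin 4) F) : Matrix (Fin 4) (Fin 4) F :=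
  alt4 (M 2 3) (- M 1 3) (M 1 2) (M 0 3) (- M 0 2) (M 0 1)

theorem det_four (M : Matrix (Fin 4) (Fin 4) F) : M.det =
    M 0 0 * (M 1 1 * (M 2 2 * M 3 3 - M 2 3 * M 3 2) - M 1 2 * (M 2 1 * M 3 3 - M 2 3 * M 3 1) + M 1 3 * (M 2 1 * M 3 2 - M 2 2 * M 3 1)) -
    M 0 1 * (M 1 0 * (M 2 2 * M 3 3 - M 2 3 * M 3 2) - M 1 2 * (M 2 0 * M 3 3 - M 2 3 * M 3 0) + M 1 3 * (M 2 0 * M 3 2 - M 2 2 * M 3 0)) +
    M 0 2 * (M 1 0 * (M 2 1 * M 3 3 - M 2 3 * M 3 1) - M 1 1 * (M 2 0 * M 3 3 - M 2 3 * M 3 0) + M 1 3 * (M 2 0 * M 3 1 - M 2 1 * M 3 0)) -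
    M 0 3 * (M 1 0 * (M 2 1 * M 3 2 - M 2 2 * M 3 1) - M 1 1 * (M 2 0 * M 3 2 - M 2 2 * M 3 0) + M 1 2 * (M 2 0 * M 3 1 - M 2 1 * M 3 0)) := by
  simp [Matrix.det_succ_row_zero, Fin.sum_univ_succ, Fin.succAbove]
  ring

theorem alt4_conj_entry (g : Matrix (Fin 4) (Fin 4) F) (a b c d e f : F) (i j : Fin 4) :
    (g * alt4 a b c d e f * gᵀ) i j = a * (g i 0 * g j 1 - g i 1 * g j 0) + b * (g i 0 * g j 2 - g i 2 * g j 0) +
      c * (g i 0 * g j 3 - g i 3 * g j 0) + d * (g i 1 * g j 2 - g i 2 * g j 1) + e * (g i 1 * g j 3 - g i 3 * g j 1) +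
      f * (g i 2 * g j 3 - g i 3 * g j 2) := by
  simp only [Matrix.mul_apply, Fin.sum_univ_four, Matrix.transpose_apply, alt4, Matrix.of_apply, Matrix.cons_val',
    Matrix.cons_val_zero, Matrix.cons_val_one, Matrix.cons_val_fin_one, Matrix.cons_val]
  ring

theorem alt4_conj (g : Matrix (Fin 4) (Fin 4) F) (a b c d e f : F) :
    g * alt4 a b c d e f * gᵀ = alt4 ((g * alt4 a b c d e f * gᵀ) 0 1) ((g * alt4 a b c d e f * gᵀ) 0 2)
      ((g * alt4 a b c d e f * gᵀ) 0 3) ((g * alt4 a b c d e f * gᵀ) 1 2) ((g * alt4 a b c d e f * gᵀ) 1 3)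
      ((g * alt4 a b c d e f * gᵀ) 2 3) := by
  ext i j
  rw [alt4_conj_entry, alt4_conj_entry, alt4_conj_entry, alt4_conj_entry, alt4_conj_entry, alt4_conj_entry, alt4_conj_entry]
  fin_cases i <;> fin_cases j <;> simp [alt4] <;> ring

theorem star4_conj (g : Matrix (Fin 4) (Fin 4) F) (a b c d e f : F) :
    gᵀ * star4 (g * alt4 a b c d e f * gᵀ) * g = g.det • alt4 f (-e) d c (-b) a := by
  rw [det_four]
  unfold star4
  rw [alt4_conj_entry, alt4_conj_entry, alt4_conj_entry, alt4_conj_entry, alt4_conj_entry, alt4_conj_entry]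
  ext i j
  have h := alt4_conj_entry gᵀ
  simp only [Matrix.transpose_transpose] at h
  rw [h, Matrix.smul_apply]
  fin_cases i <;> fin_cases j <;> simp [alt4] <;> ring

theorem alt4_mul_star (a b c d e f : F) : alt4 a b c d e f * alt4 f (-e) d c (-b) a = -(a * f - b * e + c * d) • (1 : Matrix (Fin 4) (Fin 4) F) := by
  ext i j
  simp only [Matrix.mul_apply, Fin.sum_univ_four, Matrix.smul_apply]
  fin_cases i <;> fin_cases j <;> simp [alt4] <;> ring

theorem pf4_conj (g : Matrix (Fin 4) (Fin 4) F) (a b c d e f : F) :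
    pf4 (g * alt4 a b c d e f * gᵀ) = g.det * (a * f - b * e + c * d) := by
  unfold pf4
  rw [alt4_conj_entry, alt4_conj_entry, alt4_conj_entry, alt4_conj_entry, alt4_conj_entry, alt4_conj_entry, det_four]
  ring

theorem pf4_alt4 (a b c d e f : F) : pf4 (alt4 a b c d e f) = a * f - b * e + c * d := by
  simp [pf4, alt4]

theorem alt4_eta (a b c d e f : F) : star4 (alt4 a b c d e f) = alt4 f (-e) d c (-b) a := by
  simp [star4, alt4]

/-- matrices fixing all alternating matrices -/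
theorem scalar_of_fix_alt (g : Matrix (Fin 4) (Fin 4) F) (hg : IsUnit g.det)
    (h : ∀ a b c d e f : F, g * alt4 a b c d e f * gᵀ = alt4 a b c d e f) : ∃ r : F, r * r = 1 ∧ g = r • (1 : Matrix (Fin 4) (Fin 4) F) := by
  have h1 : ∀ a b c d e f : F, g * alt4 a b c d e f = alt4 a b c d e f * (g⁻¹)ᵀ := by
    intro a b c d e f
    have h2 := congrArg (fun M => M * (g⁻¹)ᵀ) (h a b c d e f)
    simp only [Matrix.mul_assoc, ← Matrix.transpose_mul] at h2
    rw [Matrix.nonsing_inv_mul _ hg, Matrix.transpose_one, Matrix.mul_one] at h2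
    exact h2
  obtain ⟨k, hk⟩ : ∃ k, k = (g⁻¹)ᵀ := ⟨_, rfl⟩
  rw [← hk] at h1
  have e1 := h1 1 0 0 0 0 0
  have e2 := h1 0 1 0 0 0 0
  have e3 := h1 0 0 1 0 0 0
  have e4 := h1 0 0 0 1 0 0
  have e5 := h1 0 0 0 0 1 0
  have e6 := h1 0 0 0 0 0 1
  have f1 := fun i j => congrFun (congrFun e1 i) j
  have f2 := fun i j => congrFun (congrFun e2 i) j
  have f3 := fun i j => congrFun (congrFun e3 i) j
  have f4 := fun i j => congrFun (congrFun e4 i) j
  have f5 := fun i j => congrFun (congrFun e5 i) j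
  have f6 := fun i j => congrFun (congrFun e6 i) j
  simp only [Matrix.mul_apply, Fin.sum_univ_four] at f1 f2 f3 f4 f5 f6
  have g20 := f1 2 1
  have g30 := f1 3 1
  have g21 := f1 2 0
  have g31 := f1 3 0
  have g10 := f2 1 2
  have g12 := f2 1 0
  have g32 := f2 3 0
  have g01 := f4 0 2
  have g02 := f4 0 1
  have g13 := f3 1 0
  have g23 := f3 2 0
  have g03 := f5 0 1
  have d01 := f1 0 1
  have d10 := f1 1 0
  have d02 := f2 0 2
  have d20 := f2 2 0
  have d03 := f3 0 3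
  have d30 := f3 3 0
  have d12 := f4 1 2
  simp [alt4] at g20 g30 g21 g31 g10 g12 g32 g01 g02 g13 g23 g03 d01 d10 d02 d20 d03 d30 d12
  have h11 : g 1 1 = g 0 0 := d12.trans d02.symm
  have h22 : g 2 2 = g 0 0 := (d20.trans d10.symm).trans h11
  have h33 : g 3 3 = g 0 0 := (d30.trans d10.symm).trans h11
  have h5 := congrFun (congrFun (h 1 0 0 0 0 0) 0) 1
  rw [alt4_conj_entry, g01, h11, g10] at h5
  simp [alt4] at h5
  refine ⟨g 0 0, h5, ?_⟩
  ext i j
  fin_cases i <;> fin_cases j <;> simp [g20, g30, g21, g31, g10, g12, g32, g01, g02, g13, g23, g03, h11, h22, h33]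

end

end Cfsg.Agent.H5
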