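import Mathlib
import Cfsg.Agent.H5.ExcSmall
import Cfsg.Agent.H5.Pfaff

set_option autoImplicit false

/-! `PΩ₆⁺(q) ≅ PSL₄(q)`. -/

namespace Cfsg.Agent.H5

open Matrix Cfsg

section six

variable {F : Type*} [Field F]

/-- alternating matrices -/
def m6p (F : Type*) [Field F] : (Fin 3 ⊕ Fin 3 → F) →ₗ[F] Matrix (Fin 4) (Fin 4) F where
  toFun v := alt4 (v (.inl 0)) (v (.inl 1)) (v (.inl 2)) (v (.inr 2)) (- v (.inr 1)) (v (.inr 0))
  map_add' x y := by
    ext i j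
    fin_cases i <;> fin_cases j <;> simp [alt4] <;> ring
  map_smul' c x := by
    ext i j
    fin_cases i <;> fin_cases j <;> simp [alt4]

theorem m6p_apply (v : Fin 3 ⊕ Fin 3 → F) :
    m6p F v = alt4 (v (.inl 0)) (v (.inl 1)) (v (.inl 2)) (v (.inr 2)) (- v (.inr 1)) (v (.inr 0)) := rfl

theorem m6p_inj : Function.Injective (m6p F) := by
  intro x y h
  rw [m6p_apply, m6p_apply] at h
  funext k
  rcases k with k | k
  · fin_cases k
    · exact congrFun (congrFun h 0) 1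
    · exact congrFun (congrFun h 0) 2
    · exact congrFun (congrFun h 0) 3
  · fin_cases k
    · exact congrFun (congrFun h 2) 3
    · exact neg_injective (congrFun (congrFun h 1) 3)
    · exact congrFun (congrFun h 1) 2

theorem m6p_alt (a b c d e f : F) : m6p F (Sum.elim ![a, b, c] ![f, -e, d]) = alt4 a b c d e f := by
  rw [m6p_apply]
  simp

theorem m6p_pf (v : Fin 3 ⊕ Fin 3 → F) : pf4 (m6p F v) = qPlus 3 F v := by
  rw [m6p_apply, pf4_alt4, qPlus_coe]
  simp [quadFormPlus, Fin.sum_univ_three]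

theorem m6p_st (g : Matrix.SpecialLinearGroup (Fin 4) F) (v : Fin 3 ⊕ Fin 3 → F) :
    ∃ w, m6p F w = slM (Fin 4) F g * m6p F v * (g : Matrix (Fin 4) (Fin 4) F)ᵀ ∧ qPlus 3 F w = qPlus 3 F v := by
  have h1 := alt4_conj (g : Matrix (Fin 4) (Fin 4) F) (v (.inl 0)) (v (.inl 1)) (v (.inl 2)) (v (.inr 2)) (- v (.inr 1)) (v (.inr 0))
  have h2 : ∃ w, m6p F w = slM (Fin 4) F g * m6p F v * (g : Matrix (Fin 4) (Fin 4) F)ᵀ :=
    ⟨_, (m6p_alt _ _ _ _ _ _).trans h1.symm⟩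
  obtain ⟨w, hw⟩ := h2
  refine ⟨w, hw, ?_⟩
  rw [← m6p_pf, ← m6p_pf, hw]
  have h3 := pf4_conj (g : Matrix (Fin 4) (Fin 4) F) (v (.inl 0)) (v (.inl 1)) (v (.inl 2)) (v (.inr 2)) (- v (.inr 1)) (v (.inr 0))
  rw [g.2, one_mul, ← pf4_alt4] at h3
  exact h3

theorem card_SL4 [Fintype F] {q : ℕ} (hF : Fintype.card F = q) :
    Nat.card (Matrix.SpecialLinearGroup (Fin 4) F) = q ^ 6 * (q ^ 3 - 1) * ((q ^ 2 - 1) * (q ^ 4 - 1)) := by
  have h := card_SL_mul hF 4 (by norm_num)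
  have hq : 1 < q := hF ▸ Fintype.one_lt_card
  have hpos : 0 < q - 1 := by omega
  apply Nat.eq_of_mul_eq_mul_left hpos
  rw [h, Fin.prod_univ_four]
  simp only [Fin.val_zero, Fin.val_one, Fin.val_two, pow_zero, pow_one]
  have e1 : q ^ 4 - q = q * (q ^ 3 - 1) := by rw [Nat.mul_sub, mul_one]; ring_nf
  have e2 : q ^ 4 - q ^ 2 = q ^ 2 * (q ^ 2 - 1) := by rw [Nat.mul_sub, mul_one]; ring_nf
  have e3 : q ^ 4 - q ^ 3 = q ^ 3 * (q - 1) := by rw [Nat.mul_sub, mul_one]; ring_nf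
  have e4 : ((3 : Fin 4) : ℕ) = 3 := rfl
  rw [e1, e2, e4, e3]
  ring

theorem pom6p [Fintype F] : Nonempty (POmega F (quadFormPlus 3 F) ≃* Matrix.ProjectiveSpecialLinearGroup (Fin 4) F) := by
  let G := Matrix.SpecialLinearGroup (Fin 4) F
  have hev : Even (Fintype.card (Fin 4)) := by rw [Fintype.card_fin]; exact ⟨2, rfl⟩
  let φ : G →* OG (qPlus 3 F) := matAct (qPlus 3 F) (slM (Fin 4) F) (fun g => (g : Matrix (Fin 4) (Fin 4) F)ᵀ)
    (by rw [Matrix.SpecialLinearGroup.coe_one, Matrix.transpose_one])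
    (fun g h => by rw [Matrix.SpecialLinearGroup.coe_mul, Matrix.transpose_mul]) (m6p F) m6p_inj m6p_st
  have hker : ∀ g, φ g = 1 → g = 1 ∨ g = nSL (Fin 4) F hev := by
    intro g hg
    have h1 := matAct_ker _ _ _ _ _ _ _ _ g hg
    obtain ⟨r, hr, hgr⟩ := scalar_of_fix_alt (g : Matrix (Fin 4) (Fin 4) F) (by rw [g.2]; exact isUnit_one) (by
      intro a b c d e f
      rw [← m6p_alt]
      exact h1 _)
    exact nSL_cases hev g hr hgr
  have hfr : Module.finrank F (Fin 3 ⊕ Fin 3 → F) = 6 := by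
    rw [Module.finrank_fintype_fun_eq_card]; rfl
  have hcard : Nat.card (OG (qPlus 3 F)) = 2 * Nat.card G := by
    have h8 := Cfsg.Agent.S0287.result (F := F) rfl 3 (by norm_num)
    rw [← Nat.card_congr (ogEquiv (qPlus 3 F)).toEquiv, qPlus_coe]
    have h9 : Nat.card G = _ := card_SL4 rfl
    rw [h9]
    refine h8.trans ?_
    simp only [Nat.reduceSub, Finset.prod_range_succ, Finset.prod_range_zero]
    norm_num
    ring
  have hi1 : (2 : F) = 0 → (commutator (OG (qPlus 3 F))).index = 2 := fun h => comm_index_even h nd_plus (by omega) (fun _ => by omega)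
  have hSq : ∀ x : OG (qPlus 3 F), x * x ∈ commutator (OG (qPlus 3 F)) := by
    by_cases h2 : (2 : F) = 0
    · exact fun x => sq_mem_of_index_two (hi1 h2) x
    · exact sq_mem_comm_odd h2 nd_plus (by omega)
  obtain ⟨e⟩ := pom_iso φ (nSL (Fin 4) F hev) (nSL_mul_self hev) (nSL_central hev) (nSL_two hev) hker
    (sqTop_of_perfect (SL_commutator_eq_top_of_three (by rw [Fintype.card_fin]; norm_num))) hSq hi1
    (fun h => comm_index_odd h nd_plus (by omega)) hcard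
  have e2 := (pomCongr (Q := qPlus 3 F) (Q' := qPlus 3 F) (LinearEquiv.refl F _) (fun x => rfl)).trans e
  rw [qPlus_coe] at e2
  exact ⟨e2⟩

end six

end Cfsg.Agent.H5
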