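import Mathlib
set_option autoImplicit false

namespace Cfsg.Agent.H5

/-- 2-adic valuation of n! -/
def sv (n : ℕ) : ℕ := padicValNat 2 n.factorial

theorem sv_zero : sv 0 = 0 := by simp [sv]

theorem sv_succ (n : ℕ) : sv (n + 1) = padicValNat 2 (n + 1) + sv n := by
  unfold sv
  rw [Nat.factorial_succ, padicValNat.mul (by omega) (Nat.factorial_ne_zero n)]

theorem sv_odd (n : ℕ) : sv (2 * n + 1) = sv (2 * n) := by
  rw [sv_succ, padicValNat.eq_zero_of_not_dvd (by omega), zero_add]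

theorem sv_even (n : ℕ) : sv (2 * n) = n + sv n := by
  induction n with
  | zero => simp
  | succ k ih =>
    rw [show 2 * (k + 1) = 2 * k + 1 + 1 by ring, sv_succ, sv_odd, ih, sv_succ,
      show 2 * k + 1 + 1 = 2 * (k + 1) by ring, padicValNat.mul (by norm_num) (by omega)]
    have : padicValNat 2 2 = 1 := padicValNat.self (by norm_num)
    rw [this]; ring

theorem sv_add (a b : ℕ) : sv a + sv b ≤ sv (a + b) := by
  unfold sv
  rw [← padicValNat.mul (Nat.factorial_ne_zero a) (Nat.factorial_ne_zero b)]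
  exact padicValNat_dvd_iff_le_of_dvd' a b
where
  padicValNat_dvd_iff_le_of_dvd' (a b : ℕ) : padicValNat 2 (a.factorial * b.factorial) ≤ padicValNat 2 (a + b).factorial := by
    have h := Nat.factorial_mul_factorial_dvd_factorial_add a b
    exact (padicValNat_dvd_iff_le (Nat.factorial_ne_zero _)).mp (pow_padicValNat_dvd.trans h)

theorem sv_mono {a b : ℕ} (h : a ≤ b) : sv a ≤ sv b := by
  obtain ⟨c, rfl⟩ := Nat.exists_eq_add_of_le h
  exact (Nat.le_add_right _ _).trans (sv_add a c)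

theorem sv1 : sv 1 = 0 := by simp [sv]
theorem sv2 : sv 2 = 1 := by rw [show 2 = 2 * 1 by norm_num, sv_even, sv1]
theorem sv3 : sv 3 = 1 := by rw [show 3 = 2 * 1 + 1 by norm_num, sv_odd]; exact sv2
theorem sv4 : sv 4 = 3 := by rw [show 4 = 2 * 2 by norm_num, sv_even, sv2]
theorem sv_four (n : ℕ) : sv (4 * n) = 3 * n + sv n := by
  rw [show 4 * n = 2 * (2 * n) by ring, sv_even, sv_even]; ring
theorem sv_four1 (n : ℕ) : sv (4 * n + 1) = 3 * n + sv n := by
  rw [show 4 * n + 1 = 2 * (2 * n) + 1 by ring, sv_odd, sv_even, sv_even]; ring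
theorem sv_four2 (n : ℕ) : sv (4 * n + 2) = 3 * n + 1 + sv n := by
  rw [show 4 * n + 2 = 2 * (2 * n + 1) by ring, sv_even, sv_odd, sv_even]; ring
theorem sv_four3 (n : ℕ) : sv (4 * n + 3) = 3 * n + 1 + sv n := by
  rw [show 4 * n + 3 = 2 * (2 * n + 1) + 1 by ring, sv_odd, sv_even, sv_odd, sv_even]; ring

/-- the bound for nilpotent permutation groups -/
def gn (n : ℕ) : ℕ := if n % 4 = 3 then 3 * 2 ^ sv (n - 3) else 2 ^ sv n

theorem gn0 (k : ℕ) : gn (4 * k) = 8 ^ k * 2 ^ sv k := by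
  unfold gn; rw [if_neg (by omega), sv_four, pow_add, pow_mul]; norm_num
theorem gn1 (k : ℕ) : gn (4 * k + 1) = 8 ^ k * 2 ^ sv k := by
  unfold gn; rw [if_neg (by omega), sv_four1, pow_add, pow_mul]; norm_num
theorem gn2 (k : ℕ) : gn (4 * k + 2) = 2 * (8 ^ k * 2 ^ sv k) := by
  unfold gn; rw [if_neg (by omega), sv_four2, show 3 * k + 1 + sv k = 3 * k + sv k + 1 by ring, pow_succ, pow_add, pow_mul]; norm_num; ring
theorem gn3 (k : ℕ) : gn (4 * k + 3) = 3 * (8 ^ k * 2 ^ sv k) := by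
  unfold gn; rw [if_pos (by omega), show 4 * k + 3 - 3 = 4 * k by omega, sv_four, pow_add, pow_mul]; norm_num

theorem pow_sv_add (a b : ℕ) : 2 ^ sv a * 2 ^ sv b ≤ 2 ^ sv (a + b) := by
  rw [← pow_add]; exact Nat.pow_le_pow_right (by norm_num) (sv_add a b)

theorem pow_sv_add1 (a b : ℕ) : 2 ^ sv a * 2 ^ sv b ≤ 2 ^ sv (a + b + 1) := by
  refine (pow_sv_add a b).trans (Nat.pow_le_pow_right (by norm_num) (sv_mono (by omega)))

theorem gn_add (a b : ℕ) : gn a * gn b ≤ gn (a + b) := by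
  have h1 := pow_sv_add (a / 4) (b / 4)
  have h2 := pow_sv_add1 (a / 4) (b / 4)
  have ha : a = 4 * (a / 4) + a % 4 := (Nat.div_add_mod a 4).symm
  have hb : b = 4 * (b / 4) + b % 4 := (Nat.div_add_mod b 4).symm
  have ha4 : a % 4 < 4 := Nat.mod_lt _ (by norm_num)
  have hb4 : b % 4 < 4 := Nat.mod_lt _ (by norm_num)
  generalize a / 4 = x at *
  generalize b / 4 = y at *
  generalize a % 4 = i at *
  generalize b % 4 = j at *
  subst ha; subst hb
  have key : ∀ c d e : ℕ, c ≤ d * 1 → c * (8 ^ x * 2 ^ sv x * (8 ^ y * 2 ^ sv y)) ≤ d * (8 ^ (x + y) * 2 ^ sv (x + y)) := by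
    intro c d e hcd
    calc c * (8 ^ x * 2 ^ sv x * (8 ^ y * 2 ^ sv y)) = c * (8 ^ (x + y) * (2 ^ sv x * 2 ^ sv y)) := by rw [pow_add]; ring
      _ ≤ d * (8 ^ (x + y) * 2 ^ sv (x + y)) := by
        apply Nat.mul_le_mul (by omega)
        exact Nat.mul_le_mul le_rfl h1
  have key2 : ∀ c d e : ℕ, c ≤ d * 8 → c * (8 ^ x * 2 ^ sv x * (8 ^ y * 2 ^ sv y)) ≤ d * (8 ^ (x + y + 1) * 2 ^ sv (x + y + 1)) := by
    intro c d e hcd
    calc c * (8 ^ x * 2 ^ sv x * (8 ^ y * 2 ^ sv y)) = c * (8 ^ (x + y) * (2 ^ sv x * 2 ^ sv y)) := by rw [pow_add]; ring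
      _ ≤ (d * 8) * (8 ^ (x + y) * 2 ^ sv (x + y + 1)) := by
        apply Nat.mul_le_mul hcd
        exact Nat.mul_le_mul le_rfl h2
      _ = _ := by rw [pow_succ 8]; ring
  interval_cases i <;> interval_cases j
  · simp only [add_zero]; rw [gn0, gn0, show 4 * x + 4 * y = 4 * (x + y) by ring, gn0]; have := key 1 1 0 (by norm_num); linarith
  · simp only [add_zero]; rw [gn0, gn1, show 4 * x + (4 * y + 1) = 4 * (x + y) + 1 by ring, gn1]; have := key 1 1 0 (by norm_num); linarith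
  · simp only [add_zero]; rw [gn0, gn2, show 4 * x + (4 * y + 2) = 4 * (x + y) + 2 by ring, gn2]; have := key 2 2 0 (by norm_num); linarith
  · simp only [add_zero]; rw [gn0, gn3, show 4 * x + (4 * y + 3) = 4 * (x + y) + 3 by ring, gn3]; have := key 3 3 0 (by norm_num); linarith
  · simp only [add_zero]; rw [gn1, gn0, show 4 * x + 1 + 4 * y = 4 * (x + y) + 1 by ring, gn1]; have := key 1 1 0 (by norm_num); linarith
  · rw [gn1, gn1, show 4 * x + 1 + (4 * y + 1) = 4 * (x + y) + 2 by ring, gn2]; have := key 1 2 0 (by norm_num); linarith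
  · rw [gn1, gn2, show 4 * x + 1 + (4 * y + 2) = 4 * (x + y) + 3 by ring, gn3]; have := key 2 3 0 (by norm_num); linarith
  · rw [gn1, gn3, show 4 * x + 1 + (4 * y + 3) = 4 * (x + y + 1) by ring, gn0]; have := key2 3 1 0 (by norm_num); linarith
  · simp only [add_zero]; rw [gn2, gn0, show 4 * x + 2 + 4 * y = 4 * (x + y) + 2 by ring, gn2]; have := key 2 2 0 (by norm_num); linarith
  · rw [gn2, gn1, show 4 * x + 2 + (4 * y + 1) = 4 * (x + y) + 3 by ring, gn3]; have := key 2 3 0 (by norm_num); linarith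
  · rw [gn2, gn2, show 4 * x + 2 + (4 * y + 2) = 4 * (x + y + 1) by ring, gn0]; have := key2 4 1 0 (by norm_num); linarith
  · rw [gn2, gn3, show 4 * x + 2 + (4 * y + 3) = 4 * (x + y + 1) + 1 by ring, gn1]; have := key2 6 1 0 (by norm_num); linarith
  · simp only [add_zero]; rw [gn3, gn0, show 4 * x + 3 + 4 * y = 4 * (x + y) + 3 by ring, gn3]; have := key 3 3 0 (by norm_num); linarith
  · rw [gn3, gn1, show 4 * x + 3 + (4 * y + 1) = 4 * (x + y + 1) by ring, gn0]; have := key2 3 1 0 (by norm_num); linarith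
  · rw [gn3, gn2, show 4 * x + 3 + (4 * y + 2) = 4 * (x + y + 1) + 1 by ring, gn1]; have := key2 6 1 0 (by norm_num); linarith
  · rw [gn3, gn3, show 4 * x + 3 + (4 * y + 3) = 4 * (x + y + 1) + 2 by ring, gn2]; have := key2 9 2 0 (by norm_num); linarith

theorem pow_sv_le_gn (n : ℕ) : 2 ^ sv n ≤ gn n := by
  unfold gn
  split_ifs with h
  · obtain ⟨k, rfl⟩ : ∃ k, n = 4 * k + 3 := ⟨n / 4, by omega⟩
    rw [sv_four3, show 4 * k + 3 - 3 = 4 * k by omega, sv_four, show 3 * k + 1 + sv k = 3 * k + sv k + 1 by ring, pow_succ]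
    linarith [Nat.pos_of_ne_zero (pow_ne_zero (3 * k + sv k) (show (2 : ℕ) ≠ 0 by norm_num))]
  · exact le_rfl

/-- lower bound for `sv`, `5 sv n ≥ 4 n + 1` for `n ≥ 16` -/
theorem sv_lower (n : ℕ) (hn : 16 ≤ n) : 4 * (n - 1) + 5 ≤ 5 * sv n := by
  have h1 : ∀ m, m / 2 + sv (m / 2) = sv m := by
    intro m
    rcases Nat.even_or_odd' m with ⟨c, rfl | rfl⟩
    · rw [sv_even, Nat.mul_div_cancel_left _ (by norm_num)]
    · rw [sv_odd, sv_even, show (2 * c + 1) / 2 = c by omega]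
  have a1 := h1 n
  have a2 := h1 (n / 2)
  have a3 := h1 (n / 2 / 2)
  have a4 := h1 (n / 2 / 2 / 2)
  omega

theorem three_pow_le (k s : ℕ) (h : 8 * k ≤ 5 * s) : 3 ^ k ≤ 2 ^ s := by
  have h1 : (3 ^ k) ^ 5 ≤ (2 ^ s) ^ 5 := by
    calc (3 ^ k) ^ 5 = (3 ^ 5) ^ k := by rw [← pow_mul, ← pow_mul, mul_comm]
      _ ≤ (2 ^ 8) ^ k := Nat.pow_le_pow_left (by norm_num) k
      _ = 2 ^ (8 * k) := by rw [← pow_mul]
      _ ≤ 2 ^ (5 * s) := Nat.pow_le_pow_right (by norm_num) h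
      _ = (2 ^ s) ^ 5 := by rw [← pow_mul, mul_comm]
  exact (Nat.pow_le_pow_iff_left (by norm_num)).mp h1

end Cfsg.Agent.H5
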