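import Mathlib
import Cfsg.Agent.H1.NilHall
import Cfsg.Agent.H5.NilPerm1
set_option autoImplicit false

namespace Cfsg.Agent.H5
open Equiv Subgroup

theorem card_le_pow_sv {Ω : Type*} [Finite Ω] {P : Subgroup (Perm Ω)} (hP : IsPGroup 2 P) :
    Nat.card P ≤ 2 ^ sv (Nat.card Ω) := by
  classical
  haveI : Fintype Ω := Fintype.ofFinite Ω
  obtain ⟨k, hk⟩ := IsPGroup.iff_card.mp hP
  rw [hk]
  apply Nat.pow_le_pow_right (by norm_num)
  have h1 : Nat.card P ∣ (Nat.card Ω).factorial := by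
    have := Subgroup.card_subgroup_dvd_card P
    rwa [Nat.card_eq_fintype_card (α := Perm Ω), Fintype.card_perm, ← Nat.card_eq_fintype_card] at this
  rw [hk] at h1
  exact (padicValNat_dvd_iff_le (Nat.factorial_ne_zero _)).mp h1

/-- hom version -/
theorem card_le_pow_sv' {G Ω : Type*} [Group G] [Finite G] [Finite Ω] (hP : IsPGroup 2 G) (φ : G →* Perm Ω)
    (hφ : Function.Injective φ) : Nat.card G ≤ 2 ^ sv (Nat.card Ω) := by
  rw [Nat.card_congr (MonoidHom.ofInjective hφ).toEquiv]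
  exact card_le_pow_sv (hP.of_surjective _ φ.rangeRestrict_surjective)

theorem nil_split {G : Type*} [Group G] [Finite G] {N : Subgroup G} (hN : Group.IsNilpotent N) :
    ∃ P Q : Subgroup G, P ≤ N ∧ Q ≤ N ∧ IsPGroup 2 P ∧ Odd (Nat.card Q) ∧
      (∀ x ∈ P, ∀ y ∈ Q, x * y = y * x) ∧ Nat.card N = Nat.card P * Nat.card Q ∧ P ⊔ Q = N := by
  haveI : Fact (Nat.Prime 2) := ⟨Nat.prime_two⟩
  have h1 := Cfsg.Agent.H1.nilpotent_index hN 2
  have h2 := Cfsg.Agent.H1.pCore_commute_pPrimeCore (G := N) 2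
  have h3 := Cfsg.Agent.H1.pCore_sup_pPrimeCore_of_nilpotent hN 2
  refine ⟨(pCore 2 N).map N.subtype, (pPrimeCore 2 N).map N.subtype, Subgroup.map_subtype_le _,
    Subgroup.map_subtype_le _, ?_, ?_, ?_, ?_, ?_⟩
  · exact (Cfsg.Agent.H1.pCore_isPGroup 2 N).map _
  · rw [Nat.card_congr ((pPrimeCore 2 N).equivMapOfInjective _ N.subtype_injective).symm.toEquiv]
    have := Cfsg.Agent.H1.pPrimeCore_coprime 2 N
    exact Nat.coprime_two_right.mp this
  · rintro _ ⟨x, hx, rfl⟩ _ ⟨y, hy, rfl⟩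
    have := h2 hx
    rw [Subgroup.mem_centralizer_iff] at this
    exact (congrArg Subtype.val (this y hy)).symm
  · rw [Nat.card_congr ((pPrimeCore 2 N).equivMapOfInjective _ N.subtype_injective).symm.toEquiv,
      Nat.card_congr ((pCore 2 N).equivMapOfInjective _ N.subtype_injective).symm.toEquiv, ← h1.1, mul_comm,
      Subgroup.card_mul_index]
  · rw [← Subgroup.map_sup, h3, ← MonoidHom.range_eq_map, Subgroup.range_subtype]

/-- the basic coprimality lemma. -/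
theorem fix_of_coprime {Ω : Type*} {x y : Perm Ω} (hxy : x * y = y * x) {ω : Ω} (h : x ω = y ω)
    {a b : ℕ} (hx : x ^ a = 1) (hy : y ^ b = 1) (hab : Nat.Coprime a b) : x ω = ω := by
  have h1 : ∀ k : ℕ, (x ^ k) ω = (y ^ k) ω := by
    intro k
    induction k with
    | zero => rfl
    | succ k ih =>
      rw [pow_succ', pow_succ, Perm.mul_apply, Perm.mul_apply, ih, ← h]
      have hc : Commute x (y ^ k) := (show Commute x y from hxy).pow_right k
      exact congrArg (fun p : Perm Ω => p ω) hc.eq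
  have h2 : (x ^ b) ω = ω := by rw [h1, hy]; rfl
  have h3 : Function.IsPeriodicPt x b ω := by
    show (x^[b]) ω = ω
    rw [Equiv.Perm.iterate_eq_pow]; exact h2
  have h4 : Function.IsPeriodicPt x a ω := by
    show (x^[a]) ω = ω
    rw [Equiv.Perm.iterate_eq_pow, hx]; rfl
  have h5 := h4.gcd h3
  rw [Nat.Coprime.gcd_eq_one hab] at h5
  exact h5


/-- restriction to an invariant set -/
def resHom {Ω : Type*} (G : Subgroup (Perm Ω)) (A : Set Ω) (hA : ∀ g ∈ G, ∀ a, g a ∈ A ↔ a ∈ A) : G →* Perm A where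
  toFun g := (g : Perm Ω).subtypePerm (hA g g.2)
  map_one' := by ext x; rfl
  map_mul' g h := by ext x; rfl

theorem resHom_apply {Ω : Type*} (G : Subgroup (Perm Ω)) (A : Set Ω) (hA : ∀ g ∈ G, ∀ a, g a ∈ A ↔ a ∈ A) (g : G) (x : A) :
    ((resHom G A hA g x : A) : Ω) = (g : Perm Ω) x := rfl

theorem inv_iff {Ω : Type*} {G : Subgroup (Perm Ω)} {A : Set Ω} (hA : ∀ g ∈ G, ∀ a ∈ A, g a ∈ A) :
    ∀ g ∈ G, ∀ a, g a ∈ A ↔ a ∈ A := by
  intro g hg a
  refine ⟨fun h => ?_, hA g hg a⟩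
  have := hA g⁻¹ (G.inv_mem hg) _ h
  simpa using this

theorem card_range_mul_card_ker {G H : Type*} [Group G] [Finite G] [Group H] (φ : G →* H) :
    Nat.card G = Nat.card φ.range * Nat.card φ.ker := by
  rw [← Subgroup.index_ker, Subgroup.index_mul_card]

theorem nilp_range {G H : Type*} [Group G] [Group H] (φ : G →* H) (h : Group.IsNilpotent G) :
    Group.IsNilpotent φ.range := by
  haveI := h
  exact Group.nilpotent_of_surjective φ.rangeRestrict φ.rangeRestrict_surjective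

theorem split_inv {Ω : Type*} [Finite Ω] (G : Subgroup (Perm Ω)) (A : Set Ω) (hA : ∀ g ∈ G, ∀ a ∈ A, g a ∈ A) :
    ∃ (G1 : Subgroup (Perm A)) (G2 : Subgroup (Perm ↥(Aᶜ : Set Ω))), Nat.card G = Nat.card G1 * Nat.card G2 ∧
      (Group.IsNilpotent G → Group.IsNilpotent G1 ∧ Group.IsNilpotent G2) := by
  have hA1 := inv_iff hA
  have hA2 : ∀ g ∈ G, ∀ a, g a ∈ Aᶜ ↔ a ∈ Aᶜ := fun g hg a => not_congr (hA1 g hg a)
  set φ1 := resHom G A hA1 with hφ1
  set φ2 : φ1.ker →* Perm ↥(Aᶜ : Set Ω) := (resHom G Aᶜ hA2).comp φ1.ker.subtype with hφ2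
  have hinj : Function.Injective φ2 := by
    rw [injective_iff_map_eq_one]
    rintro ⟨g, hg⟩ h
    apply Subtype.ext; apply Subtype.ext
    show (g : Perm Ω) = 1
    ext x
    by_cases hx : x ∈ A
    · have h1 : φ1 g = 1 := hg
      have h2 := congrArg (fun σ : Perm A => ((σ ⟨x, hx⟩ : A) : Ω)) h1
      exact h2
    · have h2 := congrArg (fun σ : Perm ↥(Aᶜ : Set Ω) => ((σ ⟨x, hx⟩ : ↥(Aᶜ : Set Ω)) : Ω)) h
      exact h2
  refine ⟨φ1.range, φ2.range, ?_, ?_⟩
  · rw [card_range_mul_card_ker φ1, Nat.card_congr (MonoidHom.ofInjective hinj).toEquiv]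
  · intro hn
    refine ⟨nilp_range φ1 hn, nilp_range φ2 ?_⟩
    haveI := hn
    exact Subgroup.isNilpotent _

end Cfsg.Agent.H5
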