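import Mathlib
import Cfsg.Agent.H5.NilPerm2
set_option autoImplicit false

namespace Cfsg.Agent.H5
open Equiv Subgroup

universe u

def zSetoid {Ω : Type u} (z : Perm Ω) : Setoid Ω where
  r a b := ∃ ζ ∈ Subgroup.zpowers z, ζ a = b
  iseqv := ⟨fun a => ⟨1, one_mem _, rfl⟩, fun {a b} h => by
    obtain ⟨ζ, hζ, h⟩ := h
    exact ⟨ζ⁻¹, inv_mem hζ, by rw [← h]; simp⟩, fun {a b c} h h' => by
    obtain ⟨ζ, hζ, h⟩ := h
    obtain ⟨ξ, hξ, h'⟩ := h'
    exact ⟨ξ * ζ, mul_mem hξ hζ, by rw [← h', ← h]; rfl⟩⟩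

theorem zSetoid_iff {Ω : Type u} {z g : Perm Ω} (h : ∀ ζ ∈ Subgroup.zpowers z, ζ * g = g * ζ) (a b : Ω) :
    (zSetoid z).r a b ↔ (zSetoid z).r (g a) (g b) := by
  constructor
  · rintro ⟨ζ, hζ, h'⟩
    refine ⟨ζ, hζ, ?_⟩
    have := congrArg (fun σ : Perm Ω => σ a) (h ζ hζ)
    have h2 : ζ (g a) = g (ζ a) := this
    rw [h2, h']
  · rintro ⟨ζ, hζ, h'⟩
    refine ⟨ζ, hζ, ?_⟩
    have := congrArg (fun σ : Perm Ω => σ a) (h ζ hζ)
    have h2 : ζ (g a) = g (ζ a) := this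
    rw [h2] at h'
    exact g.injective h'

def zHom {Ω : Type u} (G : Subgroup (Perm Ω)) (z : Perm Ω) (h : ∀ g ∈ G, ∀ ζ ∈ Subgroup.zpowers z, ζ * g = g * ζ) :
    G →* Perm (Quotient (zSetoid z)) where
  toFun g := Quotient.congr (g : Perm Ω) (zSetoid_iff (h g g.2))
  map_one' := by
    ext x; induction x using Quotient.ind; rfl
  map_mul' a b := by
    ext x; induction x using Quotient.ind; rfl

theorem zHom_apply {Ω : Type u} (G : Subgroup (Perm Ω)) (z : Perm Ω) (h : ∀ g ∈ G, ∀ ζ ∈ Subgroup.zpowers z, ζ * g = g * ζ)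
    (g : G) (a : Ω) : zHom G z h g (Quotient.mk (zSetoid z) a) = Quotient.mk (zSetoid z) ((g : Perm Ω) a) := rfl

theorem trans_quot {Ω : Type u} [Finite Ω] (G : Subgroup (Perm Ω)) (hn : Group.IsNilpotent G)
    (ht : ∀ a b, ∃ g ∈ G, g a = b) (hG : 1 < Nat.card Ω) :
    ∃ p : ℕ, p.Prime ∧ p ∣ Nat.card G ∧ ∃ (Ω' : Type u) (_ : Finite Ω') (G' : Subgroup (Perm Ω')),
      p * Nat.card Ω' = Nat.card Ω ∧ Group.IsNilpotent G' ∧ Nat.card G' ∣ Nat.card G ∧
      (∀ a b, ∃ g ∈ G', g a = b) ∧ Nat.card G ≤ p ^ (Nat.card Ω') * Nat.card G' := by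
  classical
  haveI : Nontrivial Ω := Finite.one_lt_card_iff_nontrivial.mp hG
  haveI : Nontrivial G := by
    obtain ⟨a, b, hab⟩ := exists_pair_ne Ω
    obtain ⟨g, hg, hgab⟩ := ht a b
    refine ⟨⟨⟨g, hg⟩, 1, ?_⟩⟩
    intro h
    have : g = 1 := congrArg Subtype.val h
    rw [this] at hgab; exact hab hgab
  haveI := hn
  have hc : Nontrivial (Subgroup.center G) := by
    rw [Subgroup.nontrivial_iff_ne_bot]
    intro h
    exact Group.IsNilpotent.center_ne_bot (G := G) h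
  set p := (Nat.card (Subgroup.center G)).minFac with hp
  have hcc : Nat.card (Subgroup.center G) ≠ 1 := Finite.one_lt_card.ne'
  have hpp : p.Prime := Nat.minFac_prime hcc
  haveI : Fact p.Prime := ⟨hpp⟩
  obtain ⟨⟨⟨z, hzG⟩, hzc⟩, hz⟩ := exists_prime_orderOf_dvd_card' p (Nat.minFac_dvd (Nat.card (Subgroup.center G)))
  have hz1 : orderOf z = p := by
    rw [← hz, ← Subgroup.orderOf_coe, ← Subgroup.orderOf_coe]
  have hzcomm : ∀ g ∈ G, z * g = g * z := by
    intro g hg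
    have := (Subgroup.mem_center_iff.mp hzc) ⟨g, hg⟩
    exact (congrArg Subtype.val this).symm
  have hζG : ∀ ζ ∈ Subgroup.zpowers z, ζ ∈ G := by
    intro ζ hζ
    exact (Subgroup.zpowers_le.mpr hzG) hζ
  have hζc : ∀ g ∈ G, ∀ ζ ∈ Subgroup.zpowers z, ζ * g = g * ζ := by
    rintro g hg ζ ⟨k, rfl⟩
    exact ((show Commute z g from hzcomm g hg).zpow_left k).eq
  have hsemi : ∀ ζ ∈ Subgroup.zpowers z, ∀ a, ζ a = a → ζ = 1 := by
    intro ζ hζ a ha
    ext b
    obtain ⟨g, hg, rfl⟩ := ht a b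
    have := congrArg (fun σ : Perm Ω => σ a) (hζc g hg ζ hζ)
    have h2 : ζ (g a) = g (ζ a) := this
    rw [h2, ha]; rfl
  set π := zHom G z hζc with hπ
  haveI : Finite (Quotient (zSetoid z)) := Quotient.finite _
  have hcardz : Nat.card (Subgroup.zpowers z) = p := by rw [Nat.card_zpowers, hz1]
  -- sections
  have hsec : ∀ c : Quotient (zSetoid z), Quotient.mk (zSetoid z) c.out = c := fun c => Quotient.out_eq c
  have hrel : ∀ a : Ω, ∃ ζ ∈ Subgroup.zpowers z, ζ (Quotient.mk (zSetoid z) a).out = a := by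
    intro a
    exact Quotient.exact (hsec (Quotient.mk (zSetoid z) a))
  refine ⟨p, hpp, ?_, Quotient (zSetoid z), inferInstance, π.range, ?_, nilp_range π hn, ?_, ?_, ?_⟩
  · rw [← hz1, ← Subgroup.orderOf_mk z hzG]; exact orderOf_dvd_natCard _
  · rw [← hcardz, ← Nat.card_prod]
    apply Nat.card_congr
    refine Equiv.ofBijective (fun x : Subgroup.zpowers z × Quotient (zSetoid z) => (x.1 : Perm Ω) x.2.out) ⟨?_, ?_⟩
    · rintro ⟨⟨ζ, hζ⟩, c⟩ ⟨⟨ξ, hξ⟩, d⟩ h
      have h' : ζ c.out = ξ d.out := h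
      have hcd : c = d := by
        rw [← hsec c, ← hsec d]
        apply Quotient.sound
        refine ⟨ξ⁻¹ * ζ, mul_mem (inv_mem hξ) hζ, ?_⟩
        rw [Perm.mul_apply, h']; simp
      subst hcd
      have h2 : (ξ⁻¹ * ζ) c.out = c.out := by rw [Perm.mul_apply, h']; simp
      have h3 := hsemi _ (mul_mem (inv_mem hξ) hζ) _ h2
      have h4 : ζ = ξ := by rw [inv_mul_eq_one] at h3; exact h3.symm
      subst h4; rfl
    · intro a
      obtain ⟨ζ, hζ, h⟩ := hrel a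
      exact ⟨(⟨ζ, hζ⟩, Quotient.mk (zSetoid z) a), h⟩
  · rw [card_range_mul_card_ker π]; exact Dvd.intro _ rfl
  · intro a b
    induction a using Quotient.ind with | _ a => ?_
    induction b using Quotient.ind with | _ b => ?_
    obtain ⟨g, hg, rfl⟩ := ht a b
    exact ⟨π ⟨g, hg⟩, ⟨⟨g, hg⟩, rfl⟩, rfl⟩
  · rw [card_range_mul_card_ker π, mul_comm]
    apply Nat.mul_le_mul_right
    have hk : ∀ (k : π.ker) (c : Quotient (zSetoid z)), ∃ ζ : Subgroup.zpowers z, (ζ : Perm Ω) c.out = ((k : G) : Perm Ω) c.out := by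
      rintro ⟨k, hk⟩ c
      have h1 : π k = 1 := hk
      have h2 : π k (Quotient.mk (zSetoid z) c.out) = Quotient.mk (zSetoid z) c.out := by rw [h1]; rfl
      rw [zHom_apply] at h2
      obtain ⟨ζ, hζ, h3⟩ := Quotient.exact h2.symm
      exact ⟨⟨ζ, hζ⟩, h3⟩
    choose f hf using hk
    have hinj : Function.Injective f := by
      rintro k l hkl
      apply Subtype.ext; apply Subtype.ext
      show ((k : G) : Perm Ω) = ((l : G) : Perm Ω)
      ext a
      obtain ⟨ζ, hζ, h⟩ := hrel a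
      have h1 := hf k (Quotient.mk (zSetoid z) a)
      have h2 := hf l (Quotient.mk (zSetoid z) a)
      rw [hkl, h2] at h1
      have h3 : ((k : G) : Perm Ω) a = ζ (((k : G) : Perm Ω) (Quotient.mk (zSetoid z) a).out) := by
        have := congrArg (fun σ : Perm Ω => σ (Quotient.mk (zSetoid z) a).out) (hζc (k : G) (k : G).2 ζ hζ)
        have h4 : ζ (((k : G) : Perm Ω) (Quotient.mk (zSetoid z) a).out) = ((k : G) : Perm Ω) (ζ (Quotient.mk (zSetoid z) a).out) := this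
        rw [h4, h]
      have h3' : ((l : G) : Perm Ω) a = ζ (((l : G) : Perm Ω) (Quotient.mk (zSetoid z) a).out) := by
        have := congrArg (fun σ : Perm Ω => σ (Quotient.mk (zSetoid z) a).out) (hζc (l : G) (l : G).2 ζ hζ)
        have h4 : ζ (((l : G) : Perm Ω) (Quotient.mk (zSetoid z) a).out) = ((l : G) : Perm Ω) (ζ (Quotient.mk (zSetoid z) a).out) := this
        rw [h4, h]
      rw [h3, h3', h1]
    have h5 := Nat.card_le_card_of_injective f hinj
    rw [Nat.card_fun, hcardz] at h5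
    exact h5

end Cfsg.Agent.H5
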