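import Mathlib
import Cfsg.Agent.H5.NilPerm3
set_option autoImplicit false

namespace Cfsg.Agent.H5
open Equiv Subgroup

universe u

theorem odd_le_three_pow (k : ℕ) : 2 * k + 1 ≤ 3 ^ k := by
  induction k with
  | zero => norm_num
  | succ k ih => rw [pow_succ]; omega

/-- the orbit decomposition when `G` is not transitive -/
theorem intrans_split {Ω : Type u} [Finite Ω] (G : Subgroup (Perm Ω)) (hn : Group.IsNilpotent G)
    (ht : ¬ ∀ a b, ∃ g ∈ G, g a = b) :
    ∃ (A B : Type u) (_ : Finite A) (_ : Finite B) (G1 : Subgroup (Perm A)) (G2 : Subgroup (Perm B)),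
      Nat.card A + Nat.card B = Nat.card Ω ∧ 0 < Nat.card A ∧ 0 < Nat.card B ∧ Nat.card G = Nat.card G1 * Nat.card G2 ∧
      Group.IsNilpotent G1 ∧ Group.IsNilpotent G2 := by
  push Not at ht
  obtain ⟨a, b, hab⟩ := ht
  set A : Set Ω := {x | ∃ g ∈ G, g a = x} with hA
  have hAinv : ∀ g ∈ G, ∀ x ∈ A, g x ∈ A := by
    rintro g hg x ⟨h, hh, rfl⟩
    exact ⟨g * h, mul_mem hg hh, rfl⟩
  obtain ⟨G1, G2, h1, h2⟩ := split_inv G A hAinv
  refine ⟨A, ↥(Aᶜ : Set Ω), inferInstance, inferInstance, G1, G2, ?_, ?_, ?_, h1, (h2 hn).1, (h2 hn).2⟩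
  · rw [Nat.card_coe_set_eq, Nat.card_coe_set_eq]
    exact Set.ncard_add_ncard_compl A
  · haveI : Nonempty A := ⟨⟨a, 1, one_mem _, rfl⟩⟩
    exact Nat.card_pos
  · haveI : Nonempty ↥(Aᶜ : Set Ω) := ⟨⟨b, fun ⟨g, hg, h⟩ => hab g hg h⟩⟩
    exact Nat.card_pos

theorem card_le_one_of_card {Ω : Type u} [Finite Ω] (G : Subgroup (Perm Ω)) (h : Nat.card Ω ≤ 1) : Nat.card G = 1 := by
  haveI : Subsingleton Ω := Finite.card_le_one_iff_subsingleton.mp h
  exact Nat.card_unique

theorem odd_bound : ∀ (n : ℕ) (Ω : Type u) [Finite Ω] (G : Subgroup (Perm Ω)), Nat.card Ω = n →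
    Group.IsNilpotent G → Odd (Nat.card G) → Nat.card G ≤ 3 ^ ((n - 1) / 2) := by
  intro n
  induction n using Nat.strong_induction_on with
  | _ n ih =>
    intro Ω _ G hΩ hn hodd
    rcases Nat.lt_or_ge 1 n with h1 | h1
    · by_cases ht : ∀ a b, ∃ g ∈ G, g a = b
      · obtain ⟨p, hp, hpG, Ω', _, G', hcard, hn', hdvd, ht', hle⟩ := trans_quot G hn ht (by omega)
        have hpo : Odd p := hodd.of_dvd_nat hpG
        obtain ⟨k, rfl⟩ := hpo
        have hk : 1 ≤ k := by
          rcases Nat.eq_zero_or_pos k with rfl | h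
          · exact absurd hp.one_lt (by norm_num)
          · exact h
        have hm : 1 ≤ Nat.card Ω' := by
          rcases Nat.eq_zero_or_pos (Nat.card Ω') with h | h
          · rw [h] at hcard; omega
          · exact h
        have hlt : Nat.card Ω' < n := by
          rw [← hΩ, ← hcard]
          have := hp.one_lt
          nlinarith
        have h2 := ih _ hlt Ω' G' rfl hn' (hodd.of_dvd_nat hdvd)
        refine hle.trans ?_
        have h3 : (2 * k + 1) ^ Nat.card Ω' ≤ 3 ^ (k * Nat.card Ω') := by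
          rw [pow_mul]; exact Nat.pow_le_pow_left (odd_le_three_pow k) _
        have h4 : k * Nat.card Ω' + (Nat.card Ω' - 1) / 2 = (n - 1) / 2 := by
          rw [← hΩ, ← hcard]
          have : (2 * k + 1) * Nat.card Ω' - 1 = Nat.card Ω' - 1 + 2 * (k * Nat.card Ω') := by
            have : (2 * k + 1) * Nat.card Ω' = Nat.card Ω' + 2 * (k * Nat.card Ω') := by ring
            rw [this]; omega
          rw [this, Nat.add_mul_div_left _ _ (by norm_num)]; ring
        rw [← h4, pow_add]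
        exact Nat.mul_le_mul h3 h2
      · obtain ⟨A, B, _, _, G1, G2, hc, hA, hB, hG, hn1, hn2⟩ := intrans_split G hn ht
        have h2 := ih _ (by omega) A G1 rfl hn1 (hodd.of_dvd_nat (hG ▸ Dvd.intro _ rfl))
        have h3 := ih _ (by omega) B G2 rfl hn2 (hodd.of_dvd_nat (hG ▸ Dvd.intro_left _ rfl))
        rw [hG]
        refine (Nat.mul_le_mul h2 h3).trans ?_
        rw [← pow_add]
        exact Nat.pow_le_pow_right (by norm_num) (by omega)
    · rw [card_le_one_of_card G (by omega)]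
      exact Nat.one_le_pow _ _ (by norm_num)

theorem odd_bound_intrans {Ω : Type u} [Finite Ω] (G : Subgroup (Perm Ω)) (hn : Group.IsNilpotent G) (hodd : Odd (Nat.card G))
    (ht : ¬ ∀ a b, ∃ g ∈ G, g a = b) (ho : Odd (Nat.card Ω)) : Nat.card G ≤ 3 ^ ((Nat.card Ω - 3) / 2) := by
  obtain ⟨A, B, _, _, G1, G2, hc, hA, hB, hG, hn1, hn2⟩ := intrans_split G hn ht
  have h2 := odd_bound _ A G1 rfl hn1 (hodd.of_dvd_nat (hG ▸ Dvd.intro _ rfl))
  have h3 := odd_bound _ B G2 rfl hn2 (hodd.of_dvd_nat (hG ▸ Dvd.intro_left _ rfl))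
  rw [hG]
  refine (Nat.mul_le_mul h2 h3).trans ?_
  rw [← pow_add]
  apply Nat.pow_le_pow_right (by norm_num)
  obtain ⟨k, hk⟩ := ho
  omega

theorem odd_bound_prime {Ω : Type u} [Finite Ω] (G : Subgroup (Perm Ω)) (hn : Group.IsNilpotent G) 
    (ht : ∀ a b, ∃ g ∈ G, g a = b) (hp : (Nat.card Ω).Prime) : Nat.card G ≤ Nat.card Ω := by
  obtain ⟨p, hp', hpG, Ω', _, G', hcard, hn', hdvd, ht', hle⟩ := trans_quot G hn ht hp.one_lt
  rcases (Nat.prime_mul_iff).mp (hcard ▸ hp) with ⟨_, h⟩ | ⟨h, _⟩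
  · rw [card_le_one_of_card G' (by omega), h, pow_one, mul_one] at hle
    rw [h] at hcard
    omega
  · exact absurd hp'.one_lt (by
      rcases (Nat.prime_mul_iff).mp (hcard ▸ hp) with ⟨_, h'⟩ | ⟨_, h'⟩
      · rw [h'] at h; exact absurd h Nat.not_prime_one
      · rw [h']; norm_num)

theorem odd_bound_fifteen {Ω : Type u} [Finite Ω] (G : Subgroup (Perm Ω)) (hn : Group.IsNilpotent G) (hodd : Odd (Nat.card G))
    (ht : ∀ a b, ∃ g ∈ G, g a = b) (hΩ : Nat.card Ω = 15) : Nat.card G ≤ 1215 := by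
  obtain ⟨p, hp', hpG, Ω', _, G', hcard, hn', hdvd, ht', hle⟩ := trans_quot G hn ht (by omega)
  have h1 : p ∣ 15 := by rw [← hΩ, ← hcard]; exact Dvd.intro _ rfl
  have h2 : p ≤ 15 := Nat.le_of_dvd (by norm_num) h1
  have h3 : p = 3 ∨ p = 5 := by
    interval_cases p <;> first | (exfalso; revert h1; norm_num; done) | (exfalso; revert hp'; norm_num; done) | simp
  have h4 := odd_bound _ Ω' G' rfl hn' (hodd.of_dvd_nat hdvd)
  rcases h3 with rfl | rfl
  · have h5 : Nat.card Ω' = 5 := by omega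
    have h6 := odd_bound_prime G' hn' ht' (by rw [h5]; norm_num)
    rw [h5] at h6 hle
    calc Nat.card G ≤ _ := hle
      _ ≤ 3 ^ 5 * 5 := Nat.mul_le_mul_left _ h6
      _ = 1215 := by norm_num
  · have h5 : Nat.card Ω' = 3 := by omega
    rw [h5] at h4 hle
    calc Nat.card G ≤ _ := hle
      _ ≤ 5 ^ 3 * 3 ^ ((3 - 1) / 2) := Nat.mul_le_mul_left _ h4
      _ ≤ 1215 := by norm_num

/-- odd order nilpotent groups, sharp enough bounds. `n` is the degree. -/
theorem odd_bound_sharp {Ω : Type u} [Finite Ω] (G : Subgroup (Perm Ω)) (hn : Group.IsNilpotent G) (hodd : Odd (Nat.card G)) :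
    (Nat.card Ω = 5 → Nat.card G ≤ 5) ∧ (Nat.card Ω = 7 → Nat.card G ≤ 9) ∧ (Nat.card Ω = 11 → Nat.card G ≤ 81) ∧
    (Nat.card Ω = 13 → Nat.card G ≤ 243) ∧ (Nat.card Ω = 15 → Nat.card G ≤ 1215) := by
  by_cases ht : ∀ a b, ∃ g ∈ G, g a = b
  · refine ⟨fun h => ?_, fun h => ?_, fun h => ?_, fun h => ?_, fun h => ?_⟩
    · have := odd_bound_prime G hn ht (by rw [h]; norm_num)
      omega
    · have := odd_bound_prime G hn ht (by rw [h]; norm_num)
      omega
    · have := odd_bound_prime G hn ht (by rw [h]; norm_num)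
      omega
    · have := odd_bound_prime G hn ht (by rw [h]; norm_num)
      omega
    · exact odd_bound_fifteen G hn hodd ht h
  · refine ⟨fun h => ?_, fun h => ?_, fun h => ?_, fun h => ?_, fun h => ?_⟩
    all_goals
      have h1 := odd_bound_intrans G hn hodd ht (by rw [h]; decide)
      rw [h] at h1
      norm_num at h1
      omega

end Cfsg.Agent.H5
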