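import Mathlib
import Cfsg.Agent.H5.NilPerm4
set_option autoImplicit false

namespace Cfsg.Agent.H5
open Equiv Subgroup

universe u

theorem mem_prod_of_sup {G : Type*} [Group G] {P Q : Subgroup G} (hPQ : ∀ x ∈ P, ∀ y ∈ Q, x * y = y * x) {h : G}
    (hh : h ∈ P ⊔ Q) : ∃ x ∈ P, ∃ y ∈ Q, h = x * y := by
  let S : Subgroup G :=
    { carrier := {h | ∃ x ∈ P, ∃ y ∈ Q, h = x * y}
      one_mem' := ⟨1, one_mem _, 1, one_mem _, by simp⟩
      mul_mem' := by
        rintro _ _ ⟨x, hx, y, hy, rfl⟩ ⟨x', hx', y', hy', rfl⟩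
        refine ⟨x * x', mul_mem hx hx', y * y', mul_mem hy hy', ?_⟩
        have := hPQ x' hx' y hy
        calc x * y * (x' * y') = x * (y * x') * y' := by group
          _ = x * (x' * y) * y' := by rw [this]
          _ = _ := by group
      inv_mem' := by
        rintro _ ⟨x, hx, y, hy, rfl⟩
        refine ⟨x⁻¹, inv_mem hx, y⁻¹, inv_mem hy, ?_⟩
        rw [_root_.mul_inv_rev]
        exact (hPQ _ (inv_mem hx) _ (inv_mem hy)).symm }
  have h1 : P ≤ S := fun x hx => ⟨x, hx, 1, one_mem _, by simp⟩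
  have h2 : Q ≤ S := fun y hy => ⟨1, one_mem _, y, hy, by simp⟩
  exact (sup_le h1 h2) hh

theorem exists_exps {G : Type*} [Group G] [Finite G] {P Q : Subgroup G} (hP : IsPGroup 2 P) (hQ : Odd (Nat.card Q)) :
    ∃ a b : ℕ, (∀ x ∈ P, x ^ a = 1) ∧ (∀ y ∈ Q, y ^ b = 1) ∧ Nat.Coprime a b := by
  obtain ⟨k, hk⟩ := IsPGroup.iff_card.mp hP
  refine ⟨2 ^ k, Nat.card Q, ?_, ?_, ?_⟩
  · intro x hx
    rw [← hk]
    exact congrArg Subtype.val (pow_card_eq_one' (x := (⟨x, hx⟩ : P)))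
  · intro y hy
    exact congrArg Subtype.val (pow_card_eq_one' (x := (⟨y, hy⟩ : Q)))
  · exact Nat.Coprime.pow_left _ (Nat.coprime_two_left.mpr hQ)

theorem comm_apply {Ω : Type*} {x y : Perm Ω} (h : x * y = y * x) (ω : Ω) : x (y ω) = y (x ω) :=
  congrArg (fun σ : Perm Ω => σ ω) h

theorem trans_decomp {Ω : Type u} [Finite Ω] [Nonempty Ω] (N : Subgroup (Perm Ω)) (hN : Group.IsNilpotent N)
    (ht : ∀ a b, ∃ g ∈ N, g a = b) :
    ∃ (A B : Type u) (_ : Finite A) (_ : Finite B) (G2 : Subgroup (Perm B)), Nat.card A * Nat.card B = Nat.card Ω ∧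
      Group.IsNilpotent G2 ∧ Odd (Nat.card G2) ∧ Nat.card N ≤ 2 ^ sv (Nat.card A) * Nat.card G2 := by
  obtain ⟨P, Q, hPN, hQN, hP, hQ, hPQ, hcard, hsup⟩ := nil_split hN
  obtain ⟨ea, eb, hea, heb, hab⟩ := exists_exps hP hQ
  obtain ⟨ω⟩ := ‹Nonempty Ω›
  set A : Set Ω := {x | ∃ g ∈ P, g ω = x} with hA
  set B : Set Ω := {x | ∃ g ∈ Q, g ω = x} with hB
  have hAi : ∀ g ∈ P, ∀ x ∈ A, g x ∈ A := by
    rintro g hg x ⟨h, hh, rfl⟩
    exact ⟨g * h, mul_mem hg hh, rfl⟩
  have hBi : ∀ g ∈ Q, ∀ x ∈ B, g x ∈ B := by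
    rintro g hg x ⟨h, hh, rfl⟩
    exact ⟨g * h, mul_mem hg hh, rfl⟩
  have hdec : ∀ a : Ω, ∃ x ∈ P, ∃ y ∈ Q, a = x (y ω) := by
    intro a
    obtain ⟨g, hg, rfl⟩ := ht ω a
    rw [← hsup] at hg
    obtain ⟨x, hx, y, hy, rfl⟩ := mem_prod_of_sup hPQ hg
    exact ⟨x, hx, y, hy, rfl⟩
  have hinjP : Function.Injective (resHom P A (inv_iff hAi)) := by
    rw [injective_iff_map_eq_one]
    rintro ⟨g, hg⟩ h
    apply Subtype.ext
    show g = 1
    ext a
    obtain ⟨x, hx, y, hy, rfl⟩ := hdec a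
    rw [comm_apply (hPQ x hx y hy), comm_apply (hPQ g hg y hy)]
    have h2 := congrArg (fun σ : Perm A => ((σ ⟨x ω, x, hx, rfl⟩ : A) : Ω)) h
    have h3 : g (x ω) = x ω := h2
    rw [h3]; rfl
  have hinjQ : Function.Injective (resHom Q B (inv_iff hBi)) := by
    rw [injective_iff_map_eq_one]
    rintro ⟨g, hg⟩ h
    apply Subtype.ext
    show g = 1
    ext a
    obtain ⟨x, hx, y, hy, rfl⟩ := hdec a
    rw [← comm_apply (hPQ x hx g hg)]
    have h2 := congrArg (fun σ : Perm B => ((σ ⟨y ω, y, hy, rfl⟩ : B) : Ω)) h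
    have h3 : g (y ω) = y ω := h2
    rw [h3]; rfl
  refine ⟨A, B, inferInstance, inferInstance, (resHom Q B (inv_iff hBi)).range, ?_, ?_, ?_, ?_⟩
  · rw [← Nat.card_prod]
    have hx : ∀ a : A, ∃ x ∈ P, x ω = a := fun a => a.2
    choose f hf1 hf2 using hx
    apply Nat.card_congr
    refine Equiv.ofBijective (fun p : A × B => f p.1 p.2) ⟨?_, ?_⟩
    · rintro ⟨a, ⟨b, y, hy, rfl⟩⟩ ⟨a', ⟨b', y', hy', rfl⟩⟩ h
      have h1 : f a (y ω) = f a' (y' ω) := h
      have h2 : ((f a')⁻¹ * f a) ω = (y⁻¹ * y') ω := by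
        rw [comm_apply (hPQ _ (hf1 a) y hy)] at h1
        have h3 : f a ω = y⁻¹ (f a' (y' ω)) := by rw [← h1]; simp
        rw [← comm_apply (hPQ _ (hf1 a') _ (inv_mem hy))] at h3
        rw [Perm.mul_apply, h3]; simp
      have h4 := fix_of_coprime (hPQ _ (mul_mem (inv_mem (hf1 a')) (hf1 a)) _ (mul_mem (inv_mem hy) hy')) h2
        (hea _ (mul_mem (inv_mem (hf1 a')) (hf1 a))) (heb _ (mul_mem (inv_mem hy) hy')) hab
      have h5 : f a ω = f a' ω := by
        rw [Perm.mul_apply] at h4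
        have := congrArg (f a') h4
        simpa using this
      rw [hf2, hf2] at h5
      have h6 : a = a' := Subtype.ext h5
      subst h6
      have h7 := (f a).injective h1
      simp only [h7]
    · intro a
      obtain ⟨x, hx, y, hy, rfl⟩ := hdec a
      refine ⟨(⟨x ω, x, hx, rfl⟩, ⟨y ω, y, hy, rfl⟩), ?_⟩
      show f _ (y ω) = x (y ω)
      rw [comm_apply (hPQ _ (hf1 _) y hy), hf2, comm_apply (hPQ _ hx y hy)]
  · exact nilp_range _ (Cfsg.Agent.H1.isNilpotent_of_le hQN hN)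
  · rw [← Nat.card_congr (MonoidHom.ofInjective hinjQ).toEquiv]; exact hQ
  · rw [← Nat.card_congr (MonoidHom.ofInjective hinjQ).toEquiv, hcard]
    exact Nat.mul_le_mul_right _ (card_le_pow_sv' hP _ hinjP)


theorem gn_table : gn 0 = 1 ∧ gn 1 = 1 ∧ gn 2 = 2 ∧ gn 3 = 3 ∧ gn 4 = 8 ∧ gn 5 = 8 ∧ gn 6 = 16 ∧ gn 7 = 24 ∧ gn 8 = 128 ∧ gn 9 = 128 ∧
    gn 10 = 256 ∧ gn 11 = 384 ∧ gn 12 = 1024 ∧ gn 13 = 1024 ∧ gn 14 = 2048 ∧ gn 15 = 3072 := by
  have a0 := gn0 0; have a1 := gn1 0; have a2 := gn2 0; have a3 := gn3 0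
  have b0 := gn0 1; have b1 := gn1 1; have b2 := gn2 1; have b3 := gn3 1
  have c0 := gn0 2; have c1 := gn1 2; have c2 := gn2 2; have c3 := gn3 2
  have d0 := gn0 3; have d1 := gn1 3; have d2 := gn2 3; have d3 := gn3 3
  simp only [sv_zero, sv1, sv2, sv3] at *
  norm_num at *
  exact ⟨a0, a1, a2, a3, b0, b1, b2, b3, c0, c1, c2, c3, d0, d1, d2, d3⟩

/-- the bound for nilpotent permutation groups of odd order. -/
theorem odd_le_gn {Ω : Type u} [Finite Ω] (G : Subgroup (Perm Ω)) (hn : Group.IsNilpotent G) (hodd : Odd (Nat.card G)) :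
    Nat.card G ≤ gn (Nat.card Ω) := by
  have h1 := odd_bound _ Ω G rfl hn hodd
  obtain ⟨g5, g7, g11, g13, g15⟩ := odd_bound_sharp G hn hodd
  obtain ⟨a0, a1, a2, a3, b0, b1, b2, b3, c0, c1, c2, c3, d0, d1, d2, d3⟩ := gn_table
  generalize Nat.card Ω = n at *
  rcases Nat.lt_or_ge n 16 with h | h
  · interval_cases n
    · rw [a0]; norm_num at h1; omega
    · rw [a1]; norm_num at h1; omega
    · rw [a2]; norm_num at h1; omega
    · rw [a3]; norm_num at h1; omega
    · rw [b0]; norm_num at h1; omega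
    · have := g5 rfl; omega
    · rw [b2]; norm_num at h1; omega
    · have := g7 rfl; omega
    · rw [c0]; norm_num at h1; omega
    · rw [c1]; norm_num at h1; omega
    · rw [c2]; norm_num at h1; omega
    · have := g11 rfl; omega
    · rw [d0]; norm_num at h1; omega
    · have := g13 rfl; omega
    · rw [d2]; norm_num at h1; omega
    · have := g15 rfl; omega
  · refine h1.trans ((three_pow_le _ (sv n) ?_).trans (pow_sv_le_gn n))
    have := sv_lower n h
    omega

theorem sv_mul_lower (t b : ℕ) (hb : 1 ≤ b) : sv t + t * ((b - 1) / 2) ≤ sv (t * b) := by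
  · have h1 : t * b = 2 * (t * ((b - 1) / 2)) + t * (b - 2 * ((b - 1) / 2)) := by
      have : b = 2 * ((b - 1) / 2) + (b - 2 * ((b - 1) / 2)) := by omega
      nth_rewrite 1 [this]; ring
    rw [h1]
    refine le_trans ?_ (sv_add _ _)
    rw [sv_even]
    have h2 : sv t ≤ sv (t * (b - 2 * ((b - 1) / 2))) := sv_mono (Nat.le_mul_of_pos_right _ (by omega))
    omega

theorem card_sylow_perm (n : ℕ) (P : Sylow 2 (Perm (Fin n))) : Nat.card P = 2 ^ sv n := by
  rw [Sylow.card_eq_multiplicity, Nat.card_eq_fintype_card (α := Perm (Fin n)), Fintype.card_perm, Fintype.card_fin, sv,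
    Nat.factorization_def _ Nat.prime_two]

theorem nil_bound : ∀ (n : ℕ) (Ω : Type u) [Finite Ω] (N : Subgroup (Perm Ω)), Nat.card Ω = n → Group.IsNilpotent N →
    Nat.card N ≤ gn n := by
  intro n
  induction n using Nat.strong_induction_on with
  | _ n ih =>
    intro Ω _ N hΩ hn
    by_cases ht : ∀ a b, ∃ g ∈ N, g a = b
    · rcases Nat.eq_zero_or_pos n with rfl | h0
      · rw [card_le_one_of_card N (by omega), gn_table.1]
      · haveI : Nonempty Ω := (Nat.card_pos_iff.mp (by omega)).1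
        obtain ⟨A, B, _, _, G2, hcard, hG2, hodd, hle⟩ := trans_decomp N hn ht
        have hA : 1 ≤ Nat.card A := by
          rcases Nat.eq_zero_or_pos (Nat.card A) with h | h
          · rw [h] at hcard; omega
          · exact h
        have hB : 1 ≤ Nat.card B := by
          rcases Nat.eq_zero_or_pos (Nat.card B) with h | h
          · rw [h] at hcard; omega
          · exact h
        rcases Nat.lt_or_ge 1 (Nat.card A) with h1 | h1
        · have h2 := odd_bound _ B G2 rfl hG2 hodd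
          refine (hle.trans (Nat.mul_le_mul_left _ h2)).trans (le_trans ?_ (pow_sv_le_gn n))
          rw [← hΩ, ← hcard]
          have h3 : 0 < Nat.card B := hB
          calc 2 ^ sv (Nat.card A) * 3 ^ ((Nat.card B - 1) / 2) ≤ 2 ^ sv (Nat.card A) * 2 ^ (Nat.card A * ((Nat.card B - 1) / 2)) := by
                apply Nat.mul_le_mul_left
                rw [pow_mul]
                apply Nat.pow_le_pow_left
                calc 3 ≤ 2 ^ 2 := by norm_num
                  _ ≤ 2 ^ Nat.card A := Nat.pow_le_pow_right (by norm_num) h1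
            _ ≤ 2 ^ sv (Nat.card A * Nat.card B) := by
                rw [← pow_add]
                exact Nat.pow_le_pow_right (by norm_num) (sv_mul_lower _ _ hB)
        · have h2 : Nat.card A = 1 := by omega
          have h3 := odd_le_gn G2 hG2 hodd
          rw [h2, sv1, pow_zero, one_mul] at hle
          rw [h2, one_mul] at hcard
          rw [← hΩ, ← hcard]
          exact hle.trans h3
    · obtain ⟨A, B, _, _, G1, G2, hc, hA, hB, hG, hn1, hn2⟩ := intrans_split N hn ht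
      have h2 := ih _ (by omega) A G1 rfl hn1
      have h3 := ih _ (by omega) B G2 rfl hn2
      rw [hG, ← hΩ, ← hc]
      exact (Nat.mul_le_mul h2 h3).trans (gn_add _ _)

end Cfsg.Agent.H5
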