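import Mathlib
import Cfsg.Agent.H5.NilPerm5
set_option autoImplicit false

namespace Cfsg.Agent.H5
open Equiv Subgroup

theorem sv_pred_lt (k : ℕ) (hk : 1 ≤ k) : sv (4 * k - 1) < sv (4 * k) := by
  obtain ⟨j, rfl⟩ : ∃ j, k = j + 1 := ⟨k - 1, by omega⟩
  have h0 := sv_succ (4 * j + 3)
  rw [show 4 * (j + 1) - 1 = 4 * j + 3 by omega, show 4 * (j + 1) = 4 * j + 3 + 1 by ring]
  have : padicValNat 2 (4 * j + 3 + 1) ≠ 0 := by
    intro h
    rcases (padicValNat.eq_zero_iff).mp h with h | h | h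
    · omega
    · omega
    · exact h ⟨2 * (j + 1), by ring⟩
  omega

theorem ext_struct {n : ℕ} (hn : n % 4 = 3) (N : Subgroup (Perm (Fin n))) (hN : Group.IsNilpotent N)
    (hc : Nat.card N = 3 * 2 ^ sv (n - 3)) :
    ∃ (c : Perm (Fin n)) (P : Subgroup (Perm (Fin n))), c.cycleType = {3} ∧ (∀ x ∈ P, ∀ a, c a ≠ a → x a = a) ∧
      Nat.card P = 2 ^ sv (n - 3) ∧ N = P ⊔ Subgroup.zpowers c := by
  obtain ⟨P, Q, hPN, hQN, hP, hQ, hPQ, hcard, hsup⟩ := nil_split hN
  obtain ⟨e, ha⟩ := IsPGroup.iff_card.mp hP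
  rw [hc, ha] at hcard
  have hQ2 : Nat.Coprime (Nat.card Q) 2 := Nat.coprime_two_right.mpr hQ
  have h1 : e = sv (n - 3) := by
    apply le_antisymm
    · have h2 : 2 ^ e ∣ 3 * 2 ^ sv (n - 3) := by rw [hcard]; exact Dvd.intro _ rfl
      have h3 : 2 ^ e ∣ 2 ^ sv (n - 3) := (Nat.Coprime.pow_left e (by norm_num : Nat.Coprime 2 3)).dvd_of_dvd_mul_left h2
      exact (Nat.pow_dvd_pow_iff_le_right (by norm_num)).mp h3
    · have h2 : 2 ^ sv (n - 3) ∣ 2 ^ e * Nat.card Q := by rw [← hcard]; exact Dvd.intro_left _ rfl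
      have h3 : 2 ^ sv (n - 3) ∣ 2 ^ e := (Nat.Coprime.pow_left _ hQ2.symm).dvd_of_dvd_mul_right h2
      exact (Nat.pow_dvd_pow_iff_le_right (by norm_num)).mp h3
  have h2 : Nat.card Q = 3 := by
    rw [h1, mul_comm] at hcard
    exact (Nat.eq_of_mul_eq_mul_left (pow_pos (by norm_num) _) hcard).symm
  haveI : Fact (Nat.Prime 3) := ⟨Nat.prime_three⟩
  obtain ⟨⟨c, hcQ⟩, hc3⟩ := exists_prime_orderOf_dvd_card' 3 (show 3 ∣ Nat.card Q by rw [h2])
  have hco : orderOf c = 3 := by rw [← hc3, ← Subgroup.orderOf_coe]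
  have hQc : Subgroup.zpowers c = Q := by
    apply Subgroup.eq_of_le_of_card_ge (Subgroup.zpowers_le.mpr hcQ)
    rw [Nat.card_zpowers, hco, h2]
  obtain ⟨m, hm⟩ := Equiv.Perm.cycleType_prime_order (σ := c) (by rw [hco]; exact Nat.prime_three)
  rw [hco] at hm
  have hsum := c.sum_cycleType_le
  rw [hm, Multiset.sum_replicate, Fintype.card_fin, smul_eq_mul] at hsum
  have hPc : P ≤ Subgroup.centralizer {c} := by
    intro x hx
    rw [Subgroup.mem_centralizer_singleton_iff]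
    exact (hPQ x hx c hcQ)
  have hdvd := Subgroup.card_dvd_of_le hPc
  rw [Equiv.Perm.nat_card_centralizer, hm, ha, h1, Multiset.sum_replicate, Multiset.prod_replicate,
    Multiset.toFinset_replicate, if_neg (by omega), Finset.prod_singleton, Multiset.count_replicate_self, Fintype.card_fin,
    smul_eq_mul] at hdvd
  have hdvd2 : 2 ^ sv (n - 3) ∣ (n - (m + 1) * 3).factorial * (m + 1).factorial := by
    rw [mul_assoc, mul_comm (3 ^ (m + 1)), ← mul_assoc] at hdvd
    exact (Nat.Coprime.pow _ _ (by norm_num : Nat.Coprime 2 3)).dvd_of_dvd_mul_right hdvd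
  have hdvd3 : sv (n - 3) ≤ sv (n - (m + 1) * 3 + (m + 1)) :=
    (padicValNat_dvd_iff_le (Nat.factorial_ne_zero _)).mp (hdvd2.trans (Nat.factorial_mul_factorial_dvd_factorial_add _ _))
  have hm0 : m = 0 := by
    by_contra hcon
    obtain ⟨k, rfl⟩ : ∃ k, n = 4 * k + 3 := ⟨n / 4, by omega⟩
    have h3 : sv (4 * k + 3 - (m + 1) * 3 + (m + 1)) ≤ sv (4 * k - 1) := sv_mono (by omega)
    have h4 := sv_pred_lt k (by omega)
    rw [show 4 * k + 3 - 3 = 4 * k by omega] at hdvd3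
    omega
  subst hm0
  have hct : c.cycleType = {3} := by rw [hm]; rfl
  have hcyc : c.IsCycle := by
    rw [← Equiv.Perm.card_cycleType_eq_one, hct]; rfl
  refine ⟨c, P, hct, ?_, by rw [ha, h1], by rw [hQc, hsup]⟩
  intro x hx a ha'
  have hcomm : x * c = c * x := hPQ x hx c hcQ
  have h3 : c (x a) ≠ x a := by
    rw [← comm_apply hcomm]
    intro h
    exact ha' (x.injective h)
  obtain ⟨i, hi⟩ := hcyc.exists_zpow_eq ha' h3
  refine fix_of_coprime (y := c ^ i) (a := 2 ^ e) (b := 3) ?_ hi.symm ?_ ?_ ?_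
  · exact ((show Commute x c from hcomm).zpow_right i).eq
  · rw [← ha]
    exact congrArg Subtype.val (pow_card_eq_one' (x := (⟨x, hx⟩ : P)))
  · rw [← zpow_natCast, ← zpow_mul, mul_comm, zpow_mul, zpow_natCast, ← hco, pow_orderOf_eq_one, one_zpow]
  · exact Nat.Coprime.pow_left _ (by norm_num)

/-- pointwise stabilizer of the support of `c` -/
def fixF {Ω : Type*} (c : Perm Ω) : Subgroup (Perm Ω) where
  carrier := {x | ∀ a, c a ≠ a → x a = a}
  one_mem' := fun _ _ => rfl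
  mul_mem' := by
    intro x y hx hy a ha
    rw [Perm.mul_apply, hy a ha, hx a ha]
  inv_mem' := by
    intro x hx a ha
    have := hx a ha
    rw [Perm.inv_eq_iff_eq]; exact this.symm

theorem mem_fixF {Ω : Type*} {c x : Perm Ω} : x ∈ fixF c ↔ ∀ a, c a ≠ a → x a = a := Iff.rfl

theorem card_fixF {n : ℕ} (c : Perm (Fin n)) (hc : c.cycleType = {3}) : Nat.card (fixF c) = (n - 3).factorial := by
  classical
  have e : fixF c ≃ Perm {a : Fin n // c a = a} :=
    (Equiv.subtypeEquivRight (fun x => Iff.rfl)).trans (Equiv.Perm.subtypeEquivSubtypePerm (fun a => c a = a)).symm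
  rw [Nat.card_congr e, Nat.card_eq_fintype_card, Fintype.card_perm]
  congr 1
  have h1 : c.support.card = 3 := by rw [← Equiv.Perm.sum_cycleType, hc]; rfl
  rw [Fintype.card_subtype]
  have h2 : (Finset.univ.filter (fun a : Fin n => c a = a)) = c.supportᶜ := by
    ext a; simp
  rw [h2, Finset.card_compl, h1, Fintype.card_fin]

theorem zpowers_fixF {Ω : Type*} {c x : Perm Ω} (hx : x ∈ fixF c) : x * c = c * x := by
  ext a
  rw [Perm.mul_apply, Perm.mul_apply]
  by_cases ha : c a = a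
  · rw [ha]
    by_cases h2 : c (x a) = x a
    · exact h2.symm
    · have h3 := hx (x a) h2
      have h4 : x a = a := x.injective h3
      rw [h4, ha]
  · rw [hx a ha]
    exact hx (c a) (fun h => ha (c.injective h))

theorem conj_smul_mem {G : Type*} [Group G] {P : Subgroup G} {g x : G} :
    x ∈ P.map (MulAut.conj g).toMonoidHom ↔ g⁻¹ * x * g ∈ P := by
  constructor
  · rintro ⟨y, hy, rfl⟩
    have : g⁻¹ * ((MulAut.conj g).toMonoidHom y) * g = y := by simp [mul_assoc]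
    rw [this]; exact hy
  · intro h
    exact ⟨_, h, by simp [mul_assoc]⟩

/-- Sylow conjugacy inside a subgroup -/
theorem sylow_conj_in {G : Type*} [Group G] [Finite G] {p : ℕ} [Fact p.Prime] {F P1 P2 : Subgroup G} (h1 : P1 ≤ F) (h2 : P2 ≤ F)
    (hc1 : Nat.card P1 = p ^ (Nat.card F).factorization p) (hc2 : Nat.card P2 = p ^ (Nat.card F).factorization p) :
    ∃ f ∈ F, P2 = P1.map (MulAut.conj f).toMonoidHom := by
  have e1 : Nat.card (P1.subgroupOf F) = Nat.card P1 := Nat.card_congr (Subgroup.subgroupOfEquivOfLe h1).toEquiv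
  have e2 : Nat.card (P2.subgroupOf F) = Nat.card P2 := Nat.card_congr (Subgroup.subgroupOfEquivOfLe h2).toEquiv
  let S1 : Sylow p F := Sylow.ofCard (P1.subgroupOf F) (by rw [e1, hc1])
  let S2 : Sylow p F := Sylow.ofCard (P2.subgroupOf F) (by rw [e2, hc2])
  obtain ⟨f, hf⟩ := MulAction.exists_smul_eq F S1 S2
  refine ⟨f, f.2, ?_⟩
  have hf' : (P1.subgroupOf F).map (MulAut.conj f).toMonoidHom = P2.subgroupOf F := by
    have := congrArg (fun S : Sylow p F => (S : Subgroup F)) hf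
    exact this
  ext x
  rw [conj_smul_mem]
  constructor
  · intro hx
    have hx' : (⟨x, h2 hx⟩ : F) ∈ P2.subgroupOf F := hx
    rw [← hf', conj_smul_mem] at hx'
    exact hx'
  · intro hx
    have h3 := h1 hx
    have hxF : x ∈ F := by
      have h4 : x = (f : G) * ((f : G)⁻¹ * x * f) * (f : G)⁻¹ := by group
      rw [h4]; exact mul_mem (mul_mem f.2 h3) (inv_mem f.2)
    have hx' : (⟨x, hxF⟩ : F) ∈ (P1.subgroupOf F).map (MulAut.conj f).toMonoidHom := by
      rw [conj_smul_mem]; exact hx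
    rw [hf'] at hx'
    exact hx'

theorem ext_conj {n : ℕ} (hn : n % 4 = 3) (N₁ N₂ : Subgroup (Perm (Fin n))) (hN₁ : Group.IsNilpotent N₁)
    (hN₂ : Group.IsNilpotent N₂) (hc₁ : Nat.card N₁ = 3 * 2 ^ sv (n - 3)) (hc₂ : Nat.card N₂ = 3 * 2 ^ sv (n - 3)) :
    ∃ g : Perm (Fin n), N₂ = N₁.map (MulAut.conj g).toMonoidHom := by
  obtain ⟨c₁, P₁, hct₁, hf₁, hP₁, rfl⟩ := ext_struct hn N₁ hN₁ hc₁
  obtain ⟨c₂, P₂, hct₂, hf₂, hP₂, rfl⟩ := ext_struct hn N₂ hN₂ hc₂
  have hconj : IsConj c₁ c₂ := by rw [Equiv.Perm.isConj_iff_cycleType_eq, hct₁, hct₂]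
  obtain ⟨g, hg⟩ := isConj_iff.mp hconj
  haveI : Fact (Nat.Prime 2) := ⟨Nat.prime_two⟩
  have hP₁' : P₁.map (MulAut.conj g).toMonoidHom ≤ fixF c₂ := by
    intro x hx a ha
    rw [conj_smul_mem] at hx
    have h1 := hf₁ _ hx (g⁻¹ a) (by
      intro h
      apply ha
      rw [← hg, Perm.mul_apply, Perm.mul_apply, h]; simp)
    have h2 : g⁻¹ (x a) = g⁻¹ a := by
      have : (g⁻¹ * x * g) (g⁻¹ a) = g⁻¹ (x a) := by simp [Perm.mul_apply]
      rw [← this, h1]
    exact g⁻¹.injective h2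
  have hcF : Nat.card (fixF c₂) = (n - 3).factorial := card_fixF c₂ hct₂
  have hs : ∀ P : Subgroup (Perm (Fin n)), Nat.card P = 2 ^ sv (n - 3) → Nat.card P = 2 ^ (Nat.card (fixF c₂)).factorization 2 := by
    intro P hP
    rw [hP, hcF, sv, Nat.factorization_def _ Nat.prime_two]
  obtain ⟨f, hf, hff⟩ := sylow_conj_in (p := 2) hP₁' (show P₂ ≤ fixF c₂ from hf₂)
    (hs _ (by rw [← hP₁]; exact Nat.card_congr (P₁.equivMapOfInjective _ (MulAut.conj g).injective).symm.toEquiv)) (hs _ hP₂)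
  refine ⟨f * g, ?_⟩
  rw [Subgroup.map_sup, MonoidHom.map_zpowers]
  have h1 : (MulAut.conj (f * g)).toMonoidHom c₁ = c₂ := by
    show f * g * c₁ * (f * g)⁻¹ = c₂
    calc f * g * c₁ * (f * g)⁻¹ = f * (g * c₁ * g⁻¹) * f⁻¹ := by group
      _ = f * c₂ * f⁻¹ := by rw [hg]
      _ = c₂ := by rw [zpowers_fixF hf]; group
  rw [h1]
  congr 1
  rw [hff, Subgroup.map_map]
  congr 1

theorem exists_kappa : ∃ κ : Multiplicative (ZMod 3) →* Perm (Fin 3), Function.Injective κ ∧ ∀ x, Perm.sign (κ x) = 1 := by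
  have h1 : Nat.card (alternatingGroup (Fin 3)) = 3 := by
    rw [nat_card_alternatingGroup]; simp; decide
  have h2 : Nat.card (Multiplicative (ZMod 3)) = 3 := by simp
  haveI : Fact (Nat.Prime 3) := ⟨Nat.prime_three⟩
  have e : Multiplicative (ZMod 3) ≃* alternatingGroup (Fin 3) := mulEquivOfPrimeCardEq (p := 3) h2 h1
  refine ⟨(alternatingGroup (Fin 3)).subtype.comp e.toMonoidHom, ?_, ?_⟩
  · exact Subtype.val_injective.comp e.injective
  · intro x
    exact Equiv.Perm.mem_alternatingGroup.mp (e x).2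

theorem exists_psi {m n : ℕ} (h : n = m + 3) {H : Type*} [Group H] (φ : H →* Perm (Fin m)) (hφ : Function.Injective φ) :
    ∃ ψ : H × Multiplicative (ZMod 3) →* Perm (Fin n), Function.Injective ψ ∧ ∀ x, Perm.sign (ψ x) = Perm.sign (φ x.1) := by
  obtain ⟨κ, hκ, hκs⟩ := exists_kappa
  have e : Fin m ⊕ Fin 3 ≃ Fin n := by rw [h]; exact finSumFinEquiv
  refine ⟨(e.permCongrHom.toMonoidHom.comp (Equiv.Perm.sumCongrHom (Fin m) (Fin 3))).comp (φ.prodMap κ), ?_, ?_⟩
  · refine (e.permCongrHom.injective.comp Equiv.Perm.sumCongrHom_injective).comp ?_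
    exact Function.Injective.prodMap hφ hκ
  · intro x
    show Perm.sign (e.permCongr (Perm.sumCongr (φ x.1) (κ x.2))) = _
    rw [Equiv.Perm.sign_permCongr, Equiv.Perm.sign_sumCongr, hκs, mul_one]

end Cfsg.Agent.H5
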