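import Mathlib
import Cfsg.Agent.H5.NilPerm6
set_option autoImplicit false

namespace Cfsg.Agent.H5
open Equiv Subgroup

/-- swap of two `Q`-orbits through a commuting element. -/
theorem exists_odd_swap {n : ℕ} {Q : Subgroup (Perm (Fin n))} (hQ : Odd (Nat.card Q)) {x : Perm (Fin n)}
    (hx : ∀ y ∈ Q, x * y = y * x) {ω : Fin n} (hω : ∀ y ∈ Q, y ω ≠ x ω) :
    ∃ τ : Perm (Fin n), τ ^ 2 = 1 ∧ Perm.sign τ = -1 ∧ ∀ y ∈ Q, τ * y = y * τ := by
  classical
  set O : Set (Fin n) := {a | ∃ y ∈ Q, y ω = a} with hO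
  have hOi : ∀ y ∈ Q, ∀ a ∈ O, y a ∈ O := by
    rintro y hy a ⟨z, hz, rfl⟩
    exact ⟨y * z, mul_mem hy hz, rfl⟩
  have hOiff := inv_iff hOi
  have hdisj : ∀ a ∈ O, x a ∉ O := by
    rintro a ⟨y, hy, rfl⟩ ⟨z, hz, h⟩
    apply hω (y⁻¹ * z) (mul_mem (inv_mem hy) hz)
    rw [comm_apply (hx y hy)] at h
    rw [Perm.mul_apply, h]; simp
  have hdisj' : ∀ a ∈ O, x⁻¹ a ∉ O := by
    intro a ha h
    have := hdisj _ h
    simp at this
    exact this ha
  let f : Fin n → Fin n := fun a => if a ∈ O then x a else if x⁻¹ a ∈ O then x⁻¹ a else a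
  have hf1 : ∀ a ∈ O, f a = x a := fun a ha => if_pos ha
  have hf2 : ∀ a, x⁻¹ a ∈ O → f a = x⁻¹ a := by
    intro a ha
    have : a ∉ O := fun h => hdisj' a h ha
    show (if a ∈ O then x a else if x⁻¹ a ∈ O then x⁻¹ a else a) = _
    rw [if_neg this, if_pos ha]
  have hf3 : ∀ a, a ∉ O → x⁻¹ a ∉ O → f a = a := by
    intro a h1 h2
    show (if a ∈ O then x a else if x⁻¹ a ∈ O then x⁻¹ a else a) = _
    rw [if_neg h1, if_neg h2]
  have hinv : Function.Involutive f := by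
    intro a
    by_cases h1 : a ∈ O
    · rw [hf1 a h1, hf2 (x a) (by simpa using h1)]; simp
    · by_cases h2 : x⁻¹ a ∈ O
      · rw [hf2 a h2, hf1 _ h2]; simp
      · rw [hf3 a h1 h2, hf3 a h1 h2]
  let τ : Perm (Fin n) := hinv.toPerm
  have hτ : ∀ a, τ a = f a := fun a => rfl
  have hxx : x⁻¹ ω ≠ x⁻¹ (x ω) := by
    intro h
    have := x⁻¹.injective h
    exact hω 1 (one_mem _) this
  have hτ2 : τ ^ 2 = 1 := by
    ext a
    rw [pow_two, Perm.mul_apply, hτ, hτ, hinv a]; rfl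
  refine ⟨τ, hτ2, ?_, ?_⟩
  · have hωO : ω ∈ O := ⟨1, one_mem _, rfl⟩
    have hτ1 : τ ≠ 1 := by
      intro h
      have h1 := hτ ω
      rw [h, hf1 ω hωO] at h1
      exact hω 1 (one_mem _) h1
    have hord : orderOf τ = 2 := orderOf_eq_prime hτ2 hτ1
    obtain ⟨m, hm⟩ := Equiv.Perm.cycleType_prime_order (σ := τ) (by rw [hord]; exact Nat.prime_two)
    rw [hord] at hm
    have hsup : (τ.support : Set (Fin n)) = O ∪ (x '' O) := by
      ext a
      simp only [Finset.mem_coe, Equiv.Perm.mem_support, Set.mem_union, Set.mem_image]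
      rw [hτ]
      constructor
      · intro h
        by_contra hcon
        push Not at hcon
        apply h
        apply hf3 a hcon.1
        intro h2
        exact hcon.2 _ h2 (by simp)
      · rintro (h | ⟨b, hb, rfl⟩)
        · rw [hf1 a h]
          intro h2
          have := hdisj a h
          rw [h2] at this
          exact this h
        · rw [hf2 (x b) (by simpa using hb)]
          intro h2
          have h3 : b = x b := by simpa using h2
          apply hdisj b hb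
          rw [← h3]; exact hb
    have hcardS : τ.support.card = 2 * O.ncard := by
      rw [← Set.ncard_coe_finset, hsup, Set.ncard_union_eq, Set.ncard_image_of_injective _ x.injective]
      · ring
      · rw [Set.disjoint_left]
        rintro a ha ⟨b, hb, rfl⟩
        exact hdisj b hb ha
    have hOodd : Odd O.ncard := by
      have h1 : O.ncard ∣ Nat.card Q := by
        have h2 : O = MulAction.orbit Q ω := by
          ext a; constructor
          · rintro ⟨y, hy, rfl⟩; exact ⟨⟨y, hy⟩, rfl⟩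
          · rintro ⟨⟨y, hy⟩, rfl⟩; exact ⟨y, hy, rfl⟩
        rw [h2, ← MulAction.index_stabilizer]
        exact Subgroup.index_dvd_card _
      exact hQ.of_dvd_nat h1
    have hsum := Equiv.Perm.sum_cycleType τ
    rw [hm, Multiset.sum_replicate, smul_eq_mul, hcardS] at hsum
    have hm1 : m + 1 = O.ncard := by omega
    rw [Equiv.Perm.sign_of_cycleType, hm, Multiset.sum_replicate, Multiset.card_replicate, smul_eq_mul, hm1]
    have : Odd (O.ncard * 2 + O.ncard) := by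
      obtain ⟨k, hk⟩ := hOodd
      exact ⟨3 * k + 1, by omega⟩
    exact this.neg_one_pow
  · intro y hy
    ext a
    rw [Perm.mul_apply, Perm.mul_apply, hτ, hτ]
    have hyx : ∀ b, x⁻¹ (y b) = y (x⁻¹ b) := by
      intro b
      have h1 := comm_apply (hx y hy) (x⁻¹ b)
      simp at h1
      rw [← h1]; simp
    by_cases h1 : a ∈ O
    · rw [hf1 a h1, hf1 _ ((hOiff y hy a).mpr h1), comm_apply (hx y hy)]
    · by_cases h2 : x⁻¹ a ∈ O
      · rw [hf2 a h2, hf2 (y a) (by rw [hyx]; exact (hOiff y hy _).mpr h2), hyx]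
      · rw [hf3 a h1 h2, hf3 (y a) (fun h => h1 ((hOiff y hy a).mp h)) (by rw [hyx]; exact fun h => h2 ((hOiff y hy _).mp h))]


theorem inf_eq_bot_of_exps {G : Type*} [Group G] [Finite G] {P Q : Subgroup G} (hP : IsPGroup 2 P) (hQ : Odd (Nat.card Q)) {x : G}
    (h1 : x ∈ P) (h2 : x ∈ Q) : x = 1 := by
  obtain ⟨a, b, ha, hb, hab⟩ := exists_exps hP hQ
  have h3 := orderOf_dvd_of_pow_eq_one (ha x h1)
  have h4 := orderOf_dvd_of_pow_eq_one (hb x h2)
  exact orderOf_eq_one_iff.mp (Nat.eq_one_of_dvd_coprimes hab h3 h4)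

theorem nilp_sup_comm {G : Type*} [Group G] [Finite G] {S Q : Subgroup G} (hS : IsPGroup 2 S) (hQ : Odd (Nat.card Q))
    (hQn : Group.IsNilpotent Q) (hSQ : ∀ x ∈ S, ∀ y ∈ Q, x * y = y * x) :
    Group.IsNilpotent ↥(S ⊔ Q) ∧ Nat.card ↥(S ⊔ Q) = Nat.card S * Nat.card Q := by
  haveI : Fact (Nat.Prime 2) := ⟨Nat.prime_two⟩
  haveI : Group.IsNilpotent S := hS.isNilpotent
  haveI := hQn
  let ψ : S × Q →* G := MonoidHom.noncommCoprod S.subtype Q.subtype (fun x y => hSQ x x.2 y y.2)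
  have hψ : ∀ x : S × Q, ψ x = x.1 * x.2 := fun x => rfl
  have hr : ψ.range = S ⊔ Q := by
    apply le_antisymm
    · rintro _ ⟨⟨x, y⟩, rfl⟩
      rw [hψ]
      exact mul_mem (Subgroup.mem_sup_left x.2) (Subgroup.mem_sup_right y.2)
    · apply sup_le
      · intro x hx; exact ⟨(⟨x, hx⟩, 1), by rw [hψ]; simp⟩
      · intro x hx; exact ⟨(1, ⟨x, hx⟩), by rw [hψ]; simp⟩
  have hinj : Function.Injective ψ := by
    rw [injective_iff_map_eq_one]
    rintro ⟨x, y⟩ h
    rw [hψ] at h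
    have h1 : (x : G) = (y : G)⁻¹ := eq_inv_of_mul_eq_one_left h
    have h2 : (x : G) = 1 := inf_eq_bot_of_exps hS hQ x.2 (by rw [h1]; exact inv_mem y.2)
    have h3 : (y : G) = 1 := by rw [h2, one_mul] at h; exact h
    exact Prod.ext (Subtype.ext h2) (Subtype.ext h3)
  rw [← hr]
  refine ⟨nilp_range ψ inferInstance, ?_⟩
  rw [← Nat.card_congr (MonoidHom.ofInjective hinj).toEquiv, Nat.card_prod]

open Pointwise in
theorem alt_double {n : ℕ} (N : Subgroup (Perm (Fin n))) (hN : Group.IsNilpotent N) (hA : N ≤ alternatingGroup (Fin n)) :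
    Odd (Nat.card N) ∨ ∃ M : Subgroup (Perm (Fin n)), Group.IsNilpotent M ∧ N ≤ M ∧ ¬ M ≤ alternatingGroup (Fin n) ∧
      2 * Nat.card N ≤ Nat.card M := by
  obtain ⟨P, Q, hPN, hQN, hP, hQ, hPQ, hcard, hsup⟩ := nil_split hN
  by_cases hPb : P = ⊥
  · left; rw [hcard, hPb, Subgroup.card_bot, one_mul]; exact hQ
  · right
    obtain ⟨⟨x, hx⟩, hx1'⟩ := Subgroup.ne_bot_iff_exists_ne_one.mp hPb
    have hx1 : x ≠ 1 := fun h => hx1' (Subtype.ext h)
    obtain ⟨ω, hω⟩ : ∃ ω, ∀ y ∈ Q, y ω ≠ x ω := by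
      by_contra hcon
      push Not at hcon
      apply hx1
      ext ω
      obtain ⟨y, hy, h⟩ := hcon ω
      obtain ⟨a, b, ha, hb, hab⟩ := exists_exps hP hQ
      rw [fix_of_coprime (hPQ x hx y hy) h.symm (ha x hx) (hb y hy) hab]; rfl
    obtain ⟨τ, hτ2, hτs, hτQ⟩ := exists_odd_swap hQ (hPQ x hx) hω
    set C : Subgroup (Perm (Fin n)) := Subgroup.centralizer (Q : Set (Perm (Fin n))) with hC
    have hmC : ∀ z, (∀ y ∈ Q, z * y = y * z) → z ∈ C := by
      intro z hz
      rw [hC, Subgroup.mem_centralizer_iff]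
      intro y hy
      exact (hz y hy).symm
    have hPC : P ≤ C := fun z hz => hmC z (hPQ z hz)
    have hτC : τ ∈ C := hmC τ hτQ
    haveI : Fact (Nat.Prime 2) := ⟨Nat.prime_two⟩
    have hPp : IsPGroup 2 (P.subgroupOf C) := hP.of_equiv (Subgroup.subgroupOfEquivOfLe hPC).symm
    obtain ⟨S, hS⟩ := hPp.exists_le_sylow
    have hτp : IsPGroup 2 (Subgroup.zpowers (⟨τ, hτC⟩ : C)) := by
      rw [IsPGroup.iff_card]
      rw [Nat.card_zpowers]
      have : orderOf (⟨τ, hτC⟩ : C) ∣ 2 ^ 1 := orderOf_dvd_of_pow_eq_one (Subtype.ext (by simpa using hτ2))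
      obtain ⟨k, -, hk⟩ := (Nat.dvd_prime_pow Nat.prime_two).mp this
      exact ⟨k, hk⟩
    obtain ⟨S', hS'⟩ := hτp.exists_le_sylow
    obtain ⟨c, hc⟩ := MulAction.exists_smul_eq C S' S
    have hτS : c * ⟨τ, hτC⟩ * c⁻¹ ∈ S := by
      rw [← hc]
      exact Subgroup.smul_mem_pointwise_smul _ (MulAut.conj c) (S' : Subgroup C) (hS' (Subgroup.mem_zpowers _))
    set S₀ : Subgroup (Perm (Fin n)) := (S : Subgroup C).map C.subtype with hS₀
    have hS₀p : IsPGroup 2 S₀ := S.isPGroup'.map _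
    have hPS : P ≤ S₀ := by
      intro z hz
      exact ⟨⟨z, hPC hz⟩, hS (show (⟨z, hPC hz⟩ : C) ∈ P.subgroupOf C from hz), rfl⟩
    have hτS₀ : (c : Perm (Fin n)) * τ * (c : Perm (Fin n))⁻¹ ∈ S₀ := ⟨_, hτS, rfl⟩
    have hsign : Perm.sign ((c : Perm (Fin n)) * τ * (c : Perm (Fin n))⁻¹) = -1 := by
      rw [map_mul, map_mul, Perm.sign_inv, hτs, mul_comm (Perm.sign (c : Perm (Fin n))), mul_assoc, Int.units_mul_self, mul_one]
    have hnotA : (c : Perm (Fin n)) * τ * (c : Perm (Fin n))⁻¹ ∉ alternatingGroup (Fin n) := by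
      intro h
      rw [Equiv.Perm.mem_alternatingGroup, hsign] at h
      exact absurd h (by decide)
    have hSQ : ∀ x ∈ S₀, ∀ y ∈ Q, x * y = y * x := by
      rintro _ ⟨z, hz, rfl⟩ y hy
      have := Subgroup.mem_centralizer_iff.mp (show (z : Perm (Fin n)) ∈ Subgroup.centralizer (Q : Set (Perm (Fin n))) from z.2)
      exact (this y hy).symm
    obtain ⟨hM1, hM2⟩ := nilp_sup_comm hS₀p hQ (Cfsg.Agent.H1.isNilpotent_of_le hQN hN) hSQ
    refine ⟨S₀ ⊔ Q, hM1, ?_, ?_, ?_⟩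
    · rw [← hsup]; exact sup_le_sup_right hPS Q
    · intro h
      exact hnotA (h (Subgroup.mem_sup_left hτS₀))
    · rw [hM2, hcard, ← mul_assoc]
      apply Nat.mul_le_mul_right
      obtain ⟨k, hk⟩ := Subgroup.card_dvd_of_le hPS
      rw [hk, mul_comm]
      apply Nat.mul_le_mul_left
      by_contra hlt
      have hpos : 0 < Nat.card S₀ := Nat.card_pos
      have hk1 : k = 1 := by
        rcases Nat.eq_zero_or_pos k with h | h
        · rw [h] at hk; omega
        · omega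
      have : P = S₀ := Subgroup.eq_of_le_of_card_ge hPS (by rw [hk, hk1, mul_one])
      rw [← this] at hτS₀
      exact hnotA (hA (hPN hτS₀))

theorem card_sylow_alt (n : ℕ) (hn : 2 ≤ n) (P : Sylow 2 (alternatingGroup (Fin n))) : 2 * Nat.card P = 2 ^ sv n := by
  haveI : Nontrivial (Fin n) := Fin.nontrivial_iff_two_le.mpr hn
  have h1 : 2 * Nat.card (alternatingGroup (Fin n)) = n.factorial := by
    rw [nat_card_alternatingGroup, Nat.card_eq_fintype_card (α := Fin n), Fintype.card_fin]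
    exact Nat.mul_div_cancel' (Nat.dvd_factorial (by norm_num) hn)
  rw [Sylow.card_eq_multiplicity, sv, ← h1, padicValNat.mul (by norm_num) Nat.card_pos.ne', padicValNat.self (by norm_num),
    Nat.factorization_def _ Nat.prime_two, pow_add, pow_one]

theorem odd_alt1 {n : ℕ} (hn : n % 4 ≠ 3) (h2 : 2 ≤ n) (h5 : n ≠ 5) (h6 : n ≠ 6) (h9 : n ≠ 9) (G : Subgroup (Perm (Fin n)))
    (hG : Group.IsNilpotent G) (hodd : Odd (Nat.card G)) : 2 * Nat.card G ≤ 2 ^ sv n := by
  have h1 := odd_bound n (Fin n) G (by simp) hG hodd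
  obtain ⟨g5, g7, g11, g13, g15⟩ := odd_bound_sharp G hG hodd
  rw [Nat.card_eq_fintype_card, Fintype.card_fin] at g5 g7 g11 g13 g15
  have hgn : 2 ^ sv n = gn n := by rw [gn, if_neg hn]
  obtain ⟨a0, a1, a2, a3, b0, b1, b2, b3, c0, c1, c2, c3, d0, d1, d2, d3⟩ := gn_table
  rcases Nat.lt_or_ge n 16 with h | h
  · rw [hgn]
    generalize Nat.card G = x at *
    clear hG hodd hgn G
    interval_cases n <;> first | omega | (norm_num at h1; omega)
  · have h3 := sv_lower n h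
    have h4 : 3 ^ ((n - 1) / 2) ≤ 2 ^ (sv n - 1) := three_pow_le _ _ (by omega)
    calc 2 * Nat.card G ≤ 2 * 2 ^ (sv n - 1) := Nat.mul_le_mul_left _ (h1.trans h4)
      _ = 2 ^ sv n := by rw [mul_comm, ← pow_succ]; congr 1; omega

theorem odd_alt2 {n : ℕ} (hn : n % 4 = 3) (h7 : 7 ≤ n) (G : Subgroup (Perm (Fin n)))
    (hG : Group.IsNilpotent G) (hodd : Odd (Nat.card G)) : 2 * Nat.card G ≤ 3 * 2 ^ sv (n - 3) := by
  have h1 := odd_bound n (Fin n) G (by simp) hG hodd
  obtain ⟨g5, g7, g11, g13, g15⟩ := odd_bound_sharp G hG hodd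
  rw [Nat.card_eq_fintype_card, Fintype.card_fin] at g5 g7 g11 g13 g15
  have hgn : 3 * 2 ^ sv (n - 3) = gn n := by rw [gn, if_pos hn]
  obtain ⟨a0, a1, a2, a3, b0, b1, b2, b3, c0, c1, c2, c3, d0, d1, d2, d3⟩ := gn_table
  rcases Nat.lt_or_ge n 19 with h | h
  · rw [hgn]
    generalize Nat.card G = x at *
    clear hG hodd hgn G
    interval_cases n <;> first | omega | (norm_num at h1; omega)
  · have h3 := sv_lower (n - 3) (by omega)
    have h4 : 3 ^ ((n - 3) / 2) ≤ 2 ^ (sv (n - 3) - 1) := by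
      apply three_pow_le
      have ha : ∀ m, m / 2 + sv (m / 2) = sv m := by
        intro m
        rcases Nat.even_or_odd' m with ⟨c, rfl | rfl⟩
        · rw [sv_even, Nat.mul_div_cancel_left _ (by norm_num)]
        · rw [sv_odd, sv_even, show (2 * c + 1) / 2 = c by omega]
      have a1 := ha (n - 3)
      have a2 := ha ((n - 3) / 2)
      have a3 := ha ((n - 3) / 2 / 2)
      have a4 := ha ((n - 3) / 2 / 2 / 2)
      omega
    have h5 : 3 ^ ((n - 1) / 2) = 3 * 3 ^ ((n - 3) / 2) := by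
      rw [mul_comm, ← pow_succ]; congr 1; omega
    calc 2 * Nat.card G ≤ 2 * (3 * 2 ^ (sv (n - 3) - 1)) := by
          apply Nat.mul_le_mul_left; rw [h5] at h1
          exact h1.trans (Nat.mul_le_mul_left _ h4)
      _ = 3 * (2 ^ (sv (n - 3) - 1 + 1)) := by rw [pow_succ]; ring
      _ = 3 * 2 ^ sv (n - 3) := by congr 2; omega

end Cfsg.Agent.H5
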