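import Mathlib
import Cfsg.Agent.H5.NilPerm7
set_option autoImplicit false

namespace Cfsg.Agent.H5
open Equiv Subgroup

theorem inf_alt_eq {n : ℕ} {N M : Subgroup (Perm (Fin n))} (hNA : N ≤ alternatingGroup (Fin n)) (hNM : N ≤ M)
    (hM : ¬ M ≤ alternatingGroup (Fin n)) (hc : Nat.card M ≤ 2 * Nat.card N) : N = M ⊓ alternatingGroup (Fin n) := by
  apply Subgroup.eq_of_le_of_card_ge (le_inf hNM hNA)
  obtain ⟨k, hk⟩ := Subgroup.card_dvd_of_le (show M ⊓ alternatingGroup (Fin n) ≤ M from inf_le_left)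
  have hpos : 0 < Nat.card M := Nat.card_pos
  have hpos2 : 0 < Nat.card ↥(M ⊓ alternatingGroup (Fin n)) := Nat.card_pos
  have hk2 : 2 ≤ k := by
    by_contra hcon
    have hk1 : k = 1 := by
      rcases Nat.eq_zero_or_pos k with h | h
      · rw [h] at hk; omega
      · omega
    have : M ⊓ alternatingGroup (Fin n) = M := Subgroup.eq_of_le_of_card_ge inf_le_left (by rw [hk, hk1, mul_one])
    exact hM (by rw [← this]; exact inf_le_right)
  rw [hk] at hc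
  have : Nat.card ↥(M ⊓ alternatingGroup (Fin n)) * 2 ≤ Nat.card ↥(M ⊓ alternatingGroup (Fin n)) * k := Nat.mul_le_mul_left _ hk2
  omega

theorem s2256_conj {n : ℕ} (hn : n % 4 = 3) (N₁ N₂ : Subgroup (Perm (Fin n))) (hN₁ : Group.IsNilpotent N₁)
    (hN₂ : Group.IsNilpotent N₂) (hc₁ : 2 * Nat.card N₁ = 3 * 2 ^ sv (n - 3)) (hc₂ : 2 * Nat.card N₂ = 3 * 2 ^ sv (n - 3))
    (hA₁ : N₁ ≤ alternatingGroup (Fin n)) (hA₂ : N₂ ≤ alternatingGroup (Fin n)) (ho₁ : ¬ Odd (Nat.card N₁)) (ho₂ : ¬ Odd (Nat.card N₂)) :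
    ∃ g ∈ alternatingGroup (Fin n), N₂ = N₁.map (MulAut.conj g).toMonoidHom := by
  obtain ⟨M₁, hM₁, hNM₁, hMA₁, hMc₁⟩ := (alt_double N₁ hN₁ hA₁).resolve_left ho₁
  obtain ⟨M₂, hM₂, hNM₂, hMA₂, hMc₂⟩ := (alt_double N₂ hN₂ hA₂).resolve_left ho₂
  have hb₁ := nil_bound n (Fin n) M₁ (by simp) hM₁
  have hb₂ := nil_bound n (Fin n) M₂ (by simp) hM₂
  rw [gn, if_pos hn] at hb₁ hb₂
  have e₁ := inf_alt_eq hA₁ hNM₁ hMA₁ (by omega)
  have e₂ := inf_alt_eq hA₂ hNM₂ hMA₂ (by omega)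
  obtain ⟨g, hg⟩ := ext_conj hn M₁ M₂ hM₁ hM₂ (by omega) (by omega)
  have key : ∀ g : Perm (Fin n), M₂ = M₁.map (MulAut.conj g).toMonoidHom → N₂ = N₁.map (MulAut.conj g).toMonoidHom := by
    intro g hg
    rw [e₁, e₂, hg]
    ext x
    rw [Subgroup.mem_inf, conj_smul_mem, conj_smul_mem, Subgroup.mem_inf]
    have : Perm.sign (g⁻¹ * x * g) = Perm.sign x := by
      rw [map_mul, map_mul, Perm.sign_inv, mul_comm (Perm.sign g), mul_assoc, Int.units_mul_self, mul_one]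
    rw [Equiv.Perm.mem_alternatingGroup, Equiv.Perm.mem_alternatingGroup, this]
  rcases Int.units_eq_one_or (Perm.sign g) with h | h
  · exact ⟨g, Equiv.Perm.mem_alternatingGroup.mpr h, key g hg⟩
  · obtain ⟨m, hm, hmA⟩ := SetLike.not_le_iff_exists.mp hMA₁
    have hms : Perm.sign m = -1 := by
      rcases Int.units_eq_one_or (Perm.sign m) with h | h
      · exact absurd (Equiv.Perm.mem_alternatingGroup.mpr h) hmA
      · exact h
    refine ⟨g * m, Equiv.Perm.mem_alternatingGroup.mpr (by rw [map_mul, h, hms]; decide), key _ ?_⟩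
    rw [hg]
    ext x
    rw [conj_smul_mem, conj_smul_mem]
    constructor
    · intro hx
      have : (g * m)⁻¹ * x * (g * m) = m⁻¹ * (g⁻¹ * x * g) * m := by group
      rw [this]
      exact mul_mem (mul_mem (inv_mem hm) hx) hm
    · intro hx
      have : g⁻¹ * x * g = m * ((g * m)⁻¹ * x * (g * m)) * m⁻¹ := by group
      rw [this]
      exact mul_mem (mul_mem hm hx) (inv_mem hm)

theorem map_alt {n : ℕ} (N : Subgroup (alternatingGroup (Fin n))) :
    Nat.card (N.map (alternatingGroup (Fin n)).subtype) = Nat.card N ∧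
    (Group.IsNilpotent N → Group.IsNilpotent (N.map (alternatingGroup (Fin n)).subtype)) ∧
    N.map (alternatingGroup (Fin n)).subtype ≤ alternatingGroup (Fin n) := by
  refine ⟨Nat.card_congr (N.equivMapOfInjective _ Subtype.val_injective).symm.toEquiv, ?_, Subgroup.map_subtype_le _⟩
  intro h
  exact Cfsg.Agent.H1.isNilpotent_of_equiv (N.equivMapOfInjective _ Subtype.val_injective) h

theorem alt_bound {n B : ℕ} (N : Subgroup (alternatingGroup (Fin n))) (hN : Group.IsNilpotent N)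
    (h1 : ∀ G : Subgroup (Perm (Fin n)), Group.IsNilpotent G → Odd (Nat.card G) → 2 * Nat.card G ≤ B)
    (h2 : gn n ≤ B) : 2 * Nat.card N ≤ B := by
  obtain ⟨m1, m2, m3⟩ := map_alt N
  rcases alt_double _ (m2 hN) m3 with h | ⟨M, hM, -, -, hle⟩
  · have := h1 _ (m2 hN) h
    rwa [m1] at this
  · have := nil_bound n (Fin n) M (by simp) hM
    rw [m1] at hle
    omega

theorem s2256_conj' {n : ℕ} (hn : n % 4 = 3) (N₁ N₂ : Subgroup (alternatingGroup (Fin n))) (hN₁ : Group.IsNilpotent N₁)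
    (hN₂ : Group.IsNilpotent N₂) (hc₁ : 2 * Nat.card N₁ = 3 * 2 ^ sv (n - 3)) (hc₂ : 2 * Nat.card N₂ = 3 * 2 ^ sv (n - 3))
    (ho₁ : ¬ Odd (Nat.card N₁)) (ho₂ : ¬ Odd (Nat.card N₂)) :
    ∃ g : alternatingGroup (Fin n), N₂ = N₁.map (MulAut.conj g).toMonoidHom := by
  obtain ⟨m1, m2, m3⟩ := map_alt N₁
  obtain ⟨n1, n2, n3⟩ := map_alt N₂
  obtain ⟨g, hg, h⟩ := s2256_conj hn _ _ (m2 hN₁) (n2 hN₂) (by rw [m1, hc₁]) (by rw [n1, hc₂]) m3 n3 (by rwa [m1]) (by rwa [n1])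
  refine ⟨⟨g, hg⟩, ?_⟩
  apply Subgroup.map_injective (f := (alternatingGroup (Fin n)).subtype) Subtype.val_injective
  rw [h, Subgroup.map_map, Subgroup.map_map]
  congr 1

end Cfsg.Agent.H5
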