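import Mathlib
import Cfsg.Agent.H5.IsoG2

set_option autoImplicit false

/-! The even-weight permutation module of the symmetric group over the field with two elements. -/

namespace Cfsg.Agent.H5

open Module

variable {F : Type*} [Field F] {N : ℕ}

/-- vectors of even weight vanishing at the last coordinate -/
def E0 (F : Type*) [Field F] (N : ℕ) : Submodule F (Fin (N + 1) → F) where
  carrier := {v | ∑ i, v i = 0 ∧ v (Fin.last N) = 0}
  add_mem' := fun {a b} ha hb => ⟨by
    simp only [Pi.add_apply, Finset.sum_add_distrib]; rw [ha.1, hb.1, add_zero],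
    by rw [Pi.add_apply, ha.2, hb.2, add_zero]⟩
  zero_mem' := ⟨by simp, rfl⟩
  smul_mem' := fun c v hv => ⟨by
    simp only [Pi.smul_apply, smul_eq_mul, ← Finset.mul_sum]; rw [hv.1, mul_zero],
    by rw [Pi.smul_apply, hv.2, smul_zero]⟩

theorem mem_E0 {v : Fin (N + 1) → F} : v ∈ E0 F N ↔ ∑ i, v i = 0 ∧ v (Fin.last N) = 0 := Iff.rfl

theorem finrank_E0 (hN : 1 ≤ N) : finrank F (E0 F N) + 2 = N + 1 := by
  let T : (Fin (N + 1) → F) →ₗ[F] (F × F) :=
    (∑ i, LinearMap.proj i).prod (LinearMap.proj (Fin.last N))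
  have hT : ∀ v, T v = (∑ i, v i, v (Fin.last N)) := by
    intro v
    simp [T, LinearMap.prod_apply, LinearMap.sum_apply]
  have hker : LinearMap.ker T = E0 F N := by
    ext v
    rw [LinearMap.mem_ker, hT, Prod.mk_eq_zero, mem_E0]
  have hsurj : LinearMap.range T = ⊤ := by
    rw [LinearMap.range_eq_top]
    rintro ⟨a, b⟩
    refine ⟨Pi.single 0 (a - b) + Pi.single (Fin.last N) b, ?_⟩
    rw [hT]
    have h0 : (0 : Fin (N + 1)) ≠ Fin.last N := by
      intro h
      have := congrArg Fin.val h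
      simp at this
      omega
    congr 1
    · simp [Finset.sum_add_distrib]
    · simp [Pi.single_eq_of_ne h0.symm]
  have h := LinearMap.finrank_range_add_finrank_ker T
  rw [hsurj, hker, finrank_top, Module.finrank_prod, Module.finrank_self, Module.finrank_fin_fun] at h
  omega

/-- the action of a permutation -/
def pact (h2 : (2 : F) = 0) (hN : ((N + 1 : ℕ) : F) = 0) (σ : Equiv.Perm (Fin (N + 1))) :
    E0 F N →ₗ[F] E0 F N where
  toFun v := ⟨fun i => (v : Fin (N + 1) → F) (σ⁻¹ i) + (v : Fin (N + 1) → F) (σ⁻¹ (Fin.last N)), by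
    constructor
    · rw [Finset.sum_add_distrib, Finset.sum_const, Finset.card_univ, Fintype.card_fin, nsmul_eq_mul, hN, zero_mul, add_zero]
      rw [Equiv.sum_comp σ⁻¹ (fun i => (v : Fin (N + 1) → F) i)]
      exact v.2.1
    · show (v : Fin (N + 1) → F) _ + _ = 0
      rw [← two_mul, h2, zero_mul]⟩
  map_add' v w := by
    apply Subtype.ext
    funext i
    show ((v : Fin (N + 1) → F) _ + (w : Fin (N + 1) → F) _) + ((v : Fin (N + 1) → F) _ + (w : Fin (N + 1) → F) _) =
      ((v : Fin (N + 1) → F) _ + (v : Fin (N + 1) → F) _) + ((w : Fin (N + 1) → F) _ + (w : Fin (N + 1) → F) _)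
    ring
  map_smul' c v := by
    apply Subtype.ext
    funext i
    show c * (v : Fin (N + 1) → F) _ + c * (v : Fin (N + 1) → F) _ = c * ((v : Fin (N + 1) → F) _ + (v : Fin (N + 1) → F) _)
    ring

theorem pact_apply (h2 : (2 : F) = 0) (hN : ((N + 1 : ℕ) : F) = 0) (σ : Equiv.Perm (Fin (N + 1))) (v : E0 F N)
    (i : Fin (N + 1)) : (pact h2 hN σ v : Fin (N + 1) → F) i =
      (v : Fin (N + 1) → F) (σ⁻¹ i) + (v : Fin (N + 1) → F) (σ⁻¹ (Fin.last N)) := rfl

theorem pact_mul (h2 : (2 : F) = 0) (hN : ((N + 1 : ℕ) : F) = 0) (σ τ : Equiv.Perm (Fin (N + 1))) (v : E0 F N) :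
    pact h2 hN (σ * τ) v = pact h2 hN σ (pact h2 hN τ v) := by
  apply Subtype.ext
  funext i
  rw [pact_apply, pact_apply, pact_apply, pact_apply]
  rw [_root_.mul_inv_rev]
  simp only [Equiv.Perm.mul_apply]
  linear_combination (-(v : Fin (N + 1) → F) (τ⁻¹ (Fin.last N))) * h2

theorem pact_one (h2 : (2 : F) = 0) (hN : ((N + 1 : ℕ) : F) = 0) (v : E0 F N) : pact h2 hN 1 v = v := by
  apply Subtype.ext
  funext i
  rw [pact_apply]
  simp only [inv_one, Equiv.Perm.one_apply]
  rw [v.2.2, add_zero]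

/-- the representation -/
def prep (h2 : (2 : F) = 0) (hN : ((N + 1 : ℕ) : F) = 0) : Equiv.Perm (Fin (N + 1)) →* (E0 F N ≃ₗ[F] E0 F N) where
  toFun σ :=
    { pact h2 hN σ with
      invFun := pact h2 hN σ⁻¹
      left_inv := fun v => by
        show pact h2 hN σ⁻¹ (pact h2 hN σ v) = v
        rw [← pact_mul, inv_mul_cancel, pact_one]
      right_inv := fun v => by
        show pact h2 hN σ (pact h2 hN σ⁻¹ v) = v
        rw [← pact_mul, mul_inv_cancel, pact_one] }
  map_one' := LinearEquiv.ext (fun v => pact_one h2 hN v)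
  map_mul' σ τ := LinearEquiv.ext (fun v => pact_mul h2 hN σ τ v)

theorem prep_apply (h2 : (2 : F) = 0) (hN : ((N + 1 : ℕ) : F) = 0) (σ : Equiv.Perm (Fin (N + 1))) (v : E0 F N) :
    prep h2 hN σ v = pact h2 hN σ v := rfl

/-- test vectors `e_i + e_j` -/
def e2v (h2 : (2 : F) = 0) (i j : Fin (N + 1)) (hi : i ≠ Fin.last N) (hj : j ≠ Fin.last N) : E0 F N :=
  ⟨Pi.single i 1 + Pi.single j 1, by
    constructor
    · simp [Finset.sum_add_distrib, one_add_one_eq_two, h2]
    · simp [Pi.single_eq_of_ne hi.symm, Pi.single_eq_of_ne hj.symm]⟩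

theorem e2v_apply (h2 : (2 : F) = 0) (i j : Fin (N + 1)) (hi : i ≠ Fin.last N) (hj : j ≠ Fin.last N) (k : Fin (N + 1)) :
    (e2v h2 i j hi hj : Fin (N + 1) → F) k = (if k = i then 1 else 0) + (if k = j then 1 else 0) := by
  show (Pi.single i 1 + Pi.single j 1 : Fin (N + 1) → F) k = _
  rw [Pi.add_apply, Pi.single_apply, Pi.single_apply]

theorem prep_injective (h2 : (2 : F) = 0) (hN : ((N + 1 : ℕ) : F) = 0) (h5 : 4 ≤ N) :
    Function.Injective (prep (F := F) h2 hN) := by
  classical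
  rw [injective_iff_map_eq_one]
  intro σ hσ
  have hfix : ∀ (v : E0 F N) i, (v : Fin (N + 1) → F) (σ⁻¹ i) + (v : Fin (N + 1) → F) (σ⁻¹ (Fin.last N)) =
      (v : Fin (N + 1) → F) i := by
    intro v i
    have h1 := congrArg (fun g : E0 F N ≃ₗ[F] E0 F N => (g v : Fin (N + 1) → F) i) hσ
    exact h1
  have hex : ∀ s : Finset (Fin (N + 1)), s.card ≤ 4 → ∃ w, w ∉ s := by
    intro s hs
    by_contra hcon
    push Not at hcon
    have : Fintype.card (Fin (N + 1)) ≤ s.card := Finset.card_le_card (fun x _ => hcon x)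
    rw [Fintype.card_fin] at this
    omega
  have h10 : (1 : F) ≠ 0 := one_ne_zero
  set τ := σ⁻¹ with hτ
  have hτl : τ (Fin.last N) = Fin.last N := by
    by_contra hz
    set z := τ (Fin.last N) with hzd
    obtain ⟨x, hx⟩ := hex {Fin.last N, z} (by have := Finset.card_le_two (a := Fin.last N) (b := z); omega)
    simp only [Finset.mem_insert, Finset.mem_singleton, not_or] at hx
    obtain ⟨w, hw⟩ := hex {z, x, τ x, Fin.last N} (Finset.card_le_four)
    simp only [Finset.mem_insert, Finset.mem_singleton, not_or] at hw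
    have hτx : τ x ≠ z := by
      intro h; rw [hzd] at h; exact hx.1 (τ.injective h)
    have h1 := hfix (e2v h2 z w hz hw.2.2.2) x
    rw [e2v_apply, e2v_apply, e2v_apply, if_neg hτx, if_neg (Ne.symm hw.2.2.1), if_pos rfl, if_neg (Ne.symm hw.1),
      if_neg hx.2, if_neg (Ne.symm hw.2.1)] at h1
    apply h10
    linear_combination h1
  have hτ1 : τ = 1 := by
    apply Equiv.ext
    intro x
    by_contra hne
    rw [Equiv.Perm.one_apply] at hne
    have hxl : x ≠ Fin.last N := by rintro rfl; exact hne hτl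
    have hτxl : τ x ≠ Fin.last N := by
      intro h; apply hxl; apply τ.injective; rw [h, hτl]
    obtain ⟨w, hw⟩ := hex {x, τ x, Fin.last N} (by have := Finset.card_le_three (a := x) (b := τ x) (c := Fin.last N); omega)
    simp only [Finset.mem_insert, Finset.mem_singleton, not_or] at hw
    have h1 := hfix (e2v h2 x w hxl hw.2.2) x
    rw [hτl, e2v_apply, e2v_apply, e2v_apply, if_neg hne, if_neg (Ne.symm hw.2.1), if_neg (Ne.symm hxl), if_neg (Ne.symm hw.2.2),
      if_pos rfl, if_neg (Ne.symm hw.1)] at h1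
    apply h10
    linear_combination -h1
  rw [← inv_inv σ, ← hτ, hτ1, inv_one]

/-- the standard bilinear form -/
noncomputable def dotB (F : Type*) [Field F] (N : ℕ) : LinearMap.BilinForm F (E0 F N) :=
  LinearMap.mk₂ F (fun v w => ∑ i, (v : Fin (N + 1) → F) i * (w : Fin (N + 1) → F) i)
    (by intro x y z; simp [add_mul, Finset.sum_add_distrib])
    (by intro c x y; simp [mul_assoc, Finset.mul_sum])
    (by intro x y z; simp [mul_add, Finset.sum_add_distrib])
    (by intro c x y; simp [mul_left_comm, Finset.mul_sum])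

theorem dotB_apply (v w : E0 F N) : dotB F N v w = ∑ i, (v : Fin (N + 1) → F) i * (w : Fin (N + 1) → F) i := rfl

theorem dotB_alt (hF : ∀ x : F, x * x = x) : (dotB F N).IsAlt := by
  intro v
  rw [dotB_apply]
  simp only [hF]
  exact v.2.1

theorem dotB_pact (h2 : (2 : F) = 0) (hN : ((N + 1 : ℕ) : F) = 0) (σ : Equiv.Perm (Fin (N + 1))) (v w : E0 F N) :
    dotB F N (pact h2 hN σ v) (pact h2 hN σ w) = dotB F N v w := by
  rw [dotB_apply, dotB_apply]
  simp only [pact_apply]
  have e : ∀ i, ((v : Fin (N + 1) → F) (σ⁻¹ i) + (v : Fin (N + 1) → F) (σ⁻¹ (Fin.last N))) *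
      ((w : Fin (N + 1) → F) (σ⁻¹ i) + (w : Fin (N + 1) → F) (σ⁻¹ (Fin.last N))) =
      (v : Fin (N + 1) → F) (σ⁻¹ i) * (w : Fin (N + 1) → F) (σ⁻¹ i) +
      ((w : Fin (N + 1) → F) (σ⁻¹ (Fin.last N)) * (v : Fin (N + 1) → F) (σ⁻¹ i) +
      ((v : Fin (N + 1) → F) (σ⁻¹ (Fin.last N)) * (w : Fin (N + 1) → F) (σ⁻¹ i) +
       (v : Fin (N + 1) → F) (σ⁻¹ (Fin.last N)) * (w : Fin (N + 1) → F) (σ⁻¹ (Fin.last N)))) := fun i => by ring
  rw [Finset.sum_congr rfl (fun i _ => e i), Finset.sum_add_distrib, Finset.sum_add_distrib, Finset.sum_add_distrib,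
    ← Finset.mul_sum, ← Finset.mul_sum, Finset.sum_const, Finset.card_univ, Fintype.card_fin, nsmul_eq_mul, hN, zero_mul]
  rw [Equiv.sum_comp σ⁻¹ (fun i => (v : Fin (N + 1) → F) i), Equiv.sum_comp σ⁻¹ (fun i => (w : Fin (N + 1) → F) i),
    Equiv.sum_comp σ⁻¹ (fun i => (v : Fin (N + 1) → F) i * (w : Fin (N + 1) → F) i), v.2.1, w.2.1]
  ring

theorem dotB_nondeg (h2 : (2 : F) = 0) (hN : ((N + 1 : ℕ) : F) = 0) (hN1 : 1 ≤ N) (v : E0 F N)
    (h : ∀ w, dotB F N v w = 0) : v = 0 := by
  have h1 : ∀ i j : Fin (N + 1), i ≠ Fin.last N → j ≠ Fin.last N →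
      (v : Fin (N + 1) → F) i = (v : Fin (N + 1) → F) j := by
    intro i j hi hj
    have h3 := h (e2v h2 i j hi hj)
    rw [dotB_apply] at h3
    simp only [e2v_apply, mul_add, mul_ite, mul_one, mul_zero, Finset.sum_add_distrib, Finset.sum_ite_eq',
      Finset.mem_univ, if_true] at h3
    linear_combination h3 - (v : Fin (N + 1) → F) j * h2
  have h0 : (0 : Fin (N + 1)) ≠ Fin.last N := by
    intro h
    have := congrArg Fin.val h
    simp at this
    omega
  have hsum := v.2.1
  rw [Fin.sum_univ_castSucc, v.2.2, add_zero] at hsum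
  have h4 : ∀ i : Fin N, (v : Fin (N + 1) → F) i.castSucc = (v : Fin (N + 1) → F) 0 :=
    fun i => h1 _ _ (Fin.castSucc_lt_last i).ne h0
  rw [Finset.sum_congr rfl (fun i _ => h4 i), Finset.sum_const, Finset.card_univ, Fintype.card_fin, nsmul_eq_mul] at hsum
  have hNF : (N : F) = 1 := by
    have : (N : F) + 1 = 0 := by exact_mod_cast hN
    linear_combination this - h2
  rw [hNF, one_mul] at hsum
  apply Subtype.ext
  funext i
  by_cases hi : i = Fin.last N
  · rw [hi]; exact v.2.2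
  · rw [h1 i 0 hi h0, hsum]; rfl

/-- the symmetric group in the symplectic group -/
theorem exists_perm_sp (F : Type*) [Field F] (hF : ∀ x : F, x * x = x) (h2 : (2 : F) = 0) (k : ℕ) (hk : 2 ≤ k) :
    ∃ f : Equiv.Perm (Fin (2 * k + 2)) →* Matrix.symplecticGroup (Fin k) F, Function.Injective f := by
  have hN : (((2 * k + 1) + 1 : ℕ) : F) = 0 := by
    push_cast
    linear_combination ((k : F) + 1) * h2
  have hrank : finrank F (E0 F (2 * k + 1)) = 2 * k := by
    have := finrank_E0 (F := F) (N := 2 * k + 1) (by omega)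
    omega
  obtain ⟨e, he⟩ := exists_symp_iso (dotB_alt (F := F) (N := 2 * k + 1) hF)
    (fun x hx => dotB_nondeg h2 hN (by omega) x hx) hrank
  let f₁ : Equiv.Perm (Fin (2 * k + 1 + 1)) →* IsoG (dotB F (2 * k + 1)) :=
    (prep h2 hN).codRestrict _ (fun σ x y => dotB_pact h2 hN σ x y)
  let f : Equiv.Perm (Fin (2 * k + 1 + 1)) →* Matrix.symplecticGroup (Fin k) F :=
    (spIso k F).symm.toMonoidHom.comp ((isoCongr e he).toMonoidHom.comp f₁)
  refine ⟨f, ?_⟩
  apply (spIso k F).symm.injective.comp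
  apply (isoCongr e he).injective.comp
  intro σ τ h
  exact prep_injective h2 hN (by omega) (congrArg Subtype.val h)

end Cfsg.Agent.H5
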