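import Mathlib
import Cfsg.Agent.H5.PermMod
import Cfsg.Agent.H5.GLStab
import Cfsg.Agent.S0287

set_option autoImplicit false

/-! `O₆⁺(2) ≅ S₈`. -/

namespace Cfsg.Agent.H5

open Cfsg

/-- transport of isometry groups along a field isomorphism -/
def isomTransport {ι : Type} [Fintype ι] [DecidableEq ι] {F K : Type*} [Field F] [Field K] (e : F ≃+* K)
    (Q : (ι → F) → F) (Q' : (ι → K) → K) (h : ∀ v, Q' (fun i => e (v i)) = e (Q v)) :
    isometryGroup F Q ≃* isometryGroup K Q' := by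
  let M : Matrix.GeneralLinearGroup ι F ≃* Matrix.GeneralLinearGroup ι K := Units.mapEquiv (e.mapMatrix (m := ι)).toMulEquiv
  have hM : ∀ (g : Matrix.GeneralLinearGroup ι F) (v : ι → F),
      (M g : Matrix ι ι K).mulVec (fun i => e (v i)) = fun i => e ((g : Matrix ι ι F).mulVec v i) := by
    intro g v
    funext i
    show ((g : Matrix ι ι F).map e).mulVec (fun i => e (v i)) i = _
    exact (RingHom.map_mulVec (e : F →+* K) (g : Matrix ι ι F) v i).symm
  have hmem : ∀ g : Matrix.GeneralLinearGroup ι F, g ∈ isometryGroup F Q ↔ M g ∈ isometryGroup K Q' := by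
    intro g
    constructor
    · intro hg u w
      show Q' ((M g : Matrix ι ι K).mulVec u) = Q' u
      have hu : u = fun i => e (e.symm (u i)) := by funext i; simp
      rw [hu, hM, h, h]
      exact congrArg e (hg _ 0)
    · intro hg u w
      show Q ((g : Matrix ι ι F).mulVec u) = Q u
      apply e.injective
      rw [← h, ← h, ← hM]
      exact hg _ 0
  exact
    { toFun := fun g => ⟨M g.1, (hmem _).1 g.2⟩
      invFun := fun g => ⟨M.symm g.1, (hmem _).2 (by rw [MulEquiv.apply_symm_apply]; exact g.2)⟩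
      left_inv := fun g => Subtype.ext (M.symm_apply_apply _)
      right_inv := fun g => Subtype.ext (M.apply_symm_apply _)
      map_mul' := fun g k => Subtype.ext (map_mul M _ _) }

/-- `Σ_{i<j} v_i v_j` -/
def esq {n : ℕ} {F : Type*} [CommRing F] (v : Fin n → F) : F :=
  ∑ p ∈ (Finset.univ : Finset (Fin n × Fin n)).filter (fun p => p.1 < p.2), v p.1 * v p.2

theorem esq_perm {n : ℕ} {F : Type*} [CommRing F] (v : Fin n → F) (σ : Equiv.Perm (Fin n)) :
    esq (fun i => v (σ i)) = esq v := by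
  unfold esq
  apply Finset.sum_nbij' (i := fun p => if σ p.1 < σ p.2 then (σ p.1, σ p.2) else (σ p.2, σ p.1))
    (j := fun p => if σ.symm p.1 < σ.symm p.2 then (σ.symm p.1, σ.symm p.2) else (σ.symm p.2, σ.symm p.1))
  · intro p hp
    rw [Finset.mem_filter] at hp ⊢
    refine ⟨Finset.mem_univ _, ?_⟩
    split_ifs with h
    · exact h
    · have h1 : σ p.1 ≠ σ p.2 := fun h' => hp.2.ne (σ.injective h')
      exact lt_of_le_of_ne (not_lt.1 h) h1.symm
  · intro p hp
    rw [Finset.mem_filter] at hp ⊢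
    refine ⟨Finset.mem_univ _, ?_⟩
    split_ifs with h
    · exact h
    · have h1 : σ.symm p.1 ≠ σ.symm p.2 := fun h' => hp.2.ne (σ.symm.injective h')
      exact lt_of_le_of_ne (not_lt.1 h) h1.symm
  · intro p hp
    rw [Finset.mem_filter] at hp
    by_cases h : σ p.1 < σ p.2
    · simp [h, hp.2]
    · simp [h, not_lt.2 hp.2.le]
  · intro p hp
    rw [Finset.mem_filter] at hp
    by_cases h : σ.symm p.1 < σ.symm p.2
    · simp [h, hp.2]
    · simp [h, not_lt.2 hp.2.le]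
  · intro p hp
    by_cases h : σ p.1 < σ p.2
    · simp [h]
    · simp [h, mul_comm]

theorem esq8 {F : Type*} [CommRing F] (v : Fin 8 → F) : esq v =
    v 0 * v 1 + v 0 * v 2 + v 0 * v 3 + v 0 * v 4 + v 0 * v 5 + v 0 * v 6 + v 0 * v 7 +
    (v 1 * v 2 + v 1 * v 3 + v 1 * v 4 + v 1 * v 5 + v 1 * v 6 + v 1 * v 7) +
    (v 2 * v 3 + v 2 * v 4 + v 2 * v 5 + v 2 * v 6 + v 2 * v 7) +
    (v 3 * v 4 + v 3 * v 5 + v 3 * v 6 + v 3 * v 7) +
    (v 4 * v 5 + v 4 * v 6 + v 4 * v 7) + (v 5 * v 6 + v 5 * v 7) + v 6 * v 7 := by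
  unfold esq
  rw [Finset.sum_filter, Fintype.sum_prod_type]
  simp only [Fin.sum_univ_eight]
  simp [show ¬ ((1 : Fin 8) < 0) by decide]

theorem esq8_const {F : Type*} [CommRing F] (h2 : (2 : F) = 0) (v : Fin 8 → F) (c : F) (hs : ∑ i, v i = 0) :
    esq (fun i => v i + c) = esq v := by
  rw [Fin.sum_univ_eight] at hs
  rw [esq8, esq8]
  linear_combination (7 * c) * hs + (14 * c ^ 2) * h2

/-- a hyperbolic basis of even vectors -/
def hyp8 : Fin 3 ⊕ Fin 3 → Fin 8 → ZMod 2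
  | .inl 0 => ![1, 1, 1, 1, 0, 0, 0, 0]
  | .inr 0 => ![1, 1, 1, 0, 1, 0, 0, 0]
  | .inl 1 => ![1, 0, 0, 1, 1, 1, 0, 0]
  | .inr 1 => ![0, 1, 0, 1, 1, 1, 0, 0]
  | .inl 2 => ![0, 0, 1, 1, 1, 0, 1, 0]
  | .inr 2 => ![1, 1, 0, 0, 0, 1, 1, 0]

theorem hyp8_mem (k : Fin 3 ⊕ Fin 3) : hyp8 k ∈ E0 (ZMod 2) 7 := by
  rw [mem_E0]
  rcases k with k | k <;> fin_cases k <;> decide

/-- the coordinate map -/
def hyp8L : (Fin 3 ⊕ Fin 3 → ZMod 2) →ₗ[ZMod 2] E0 (ZMod 2) 7 :=
  ∑ k, (LinearMap.proj k : (Fin 3 ⊕ Fin 3 → ZMod 2) →ₗ[ZMod 2] ZMod 2).smulRight (⟨hyp8 k, hyp8_mem k⟩ : E0 (ZMod 2) 7)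

theorem hyp8L_coe (x : Fin 3 ⊕ Fin 3 → ZMod 2) (i : Fin 8) : (hyp8L x : Fin 8 → ZMod 2) i =
    ∑ k, x k * hyp8 k i := by
  unfold hyp8L
  rw [LinearMap.sum_apply, Submodule.coe_sum, Finset.sum_apply]
  rfl

theorem hyp8_esq (x : Fin 3 ⊕ Fin 3 → ZMod 2) : esq (hyp8L x : Fin 8 → ZMod 2) = quadFormPlus 3 (ZMod 2) x := by
  rw [esq8]
  simp only [hyp8L_coe, Fintype.sum_sum_type, Fin.sum_univ_three, quadFormPlus]
  generalize x (.inl 0) = a
  generalize x (.inl 1) = b
  generalize x (.inl 2) = c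
  generalize x (.inr 0) = d
  generalize x (.inr 1) = e
  generalize x (.inr 2) = f
  revert a b c d e f
  decide

theorem hyp8L_inj : Function.Injective hyp8L := by
  rw [← LinearMap.ker_eq_bot, eq_bot_iff]
  intro x hx
  rw [LinearMap.mem_ker] at hx
  have h : ∀ i : Fin 8, ∑ k, x k * hyp8 k i = 0 := by
    intro i
    rw [← hyp8L_coe, hx]; rfl
  have h0 := h 0
  have h1 := h 1
  have h2 := h 2
  have h3 := h 3
  have h4 := h 4
  have h5 := h 5
  have h6 := h 6
  simp only [Fintype.sum_sum_type, Fin.sum_univ_three, hyp8] at h0 h1 h2 h3 h4 h5 h6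
  have key : x (.inl 0) = 0 ∧ x (.inl 1) = 0 ∧ x (.inl 2) = 0 ∧ x (.inr 0) = 0 ∧ x (.inr 1) = 0 ∧ x (.inr 2) = 0 := by
    revert h0 h1 h2 h3 h4 h5 h6
    generalize x (.inl 0) = a
    generalize x (.inl 1) = b
    generalize x (.inl 2) = c
    generalize x (.inr 0) = d
    generalize x (.inr 1) = e
    generalize x (.inr 2) = f
    revert a b c d e f
    decide
  rw [Submodule.mem_bot]
  funext k
  rcases k with k | k
  · fin_cases k
    · exact key.1
    · exact key.2.1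
    · exact key.2.2.1
  · fin_cases k
    · exact key.2.2.2.1
    · exact key.2.2.2.2.1
    · exact key.2.2.2.2.2

/-- hom into the isometry group from a representation -/
noncomputable def isomHom {ι : Type} [Fintype ι] [DecidableEq ι] {K V G : Type*} [Field K] [AddCommGroup V] [Module K V]
    [Group G] (Q : (ι → K) → K) (e : (ι → K) ≃ₗ[K] V) (ρ : G →* (V ≃ₗ[K] V))
    (h : ∀ g x, Q (e.symm (ρ g (e x))) = Q x) : G →* isometryGroup K Q where
  toFun g := ⟨mkGL ((e.trans (ρ g)).trans e.symm), fun u _ => by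
    show Q (((mkGL ((e.trans (ρ g)).trans e.symm) : Matrix.GeneralLinearGroup ι K) : Matrix ι ι K).mulVec u) = Q u
    rw [mkGL_mulVec]
    exact h g u⟩
  map_one' := by
    apply Subtype.ext
    apply gl_ext_mulVec
    intro x
    rw [mkGL_mulVec]
    show e.symm (ρ 1 (e x)) = (1 : Matrix ι ι K).mulVec x
    rw [map_one, Matrix.one_mulVec]
    show e.symm (e x) = x
    rw [e.symm_apply_apply]
  map_mul' := by
    intro g k
    apply Subtype.ext
    apply gl_ext_mulVec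
    intro x
    rw [mkGL_mulVec]
    show e.symm (ρ (g * k) (e x)) = (((mkGL ((e.trans (ρ g)).trans e.symm) : Matrix.GeneralLinearGroup ι K) : Matrix ι ι K) *
      ((mkGL ((e.trans (ρ k)).trans e.symm) : Matrix.GeneralLinearGroup ι K) : Matrix ι ι K)).mulVec x
    rw [← Matrix.mulVec_mulVec, mkGL_mulVec, mkGL_mulVec, map_mul]
    show e.symm (ρ g (ρ k (e x))) = e.symm (ρ g (e (e.symm (ρ k (e x)))))
    rw [e.apply_symm_apply]

theorem isomHom_inj {ι : Type} [Fintype ι] [DecidableEq ι] {K V G : Type*} [Field K] [AddCommGroup V] [Module K V]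
    [Group G] (Q : (ι → K) → K) (e : (ι → K) ≃ₗ[K] V) (ρ : G →* (V ≃ₗ[K] V))
    (h : ∀ g x, Q (e.symm (ρ g (e x))) = Q x) (hρ : Function.Injective ρ) : Function.Injective (isomHom Q e ρ h) := by
  intro g k hgk
  apply hρ
  apply LinearEquiv.ext
  intro v
  have h1 := congrArg Subtype.val hgk
  have h2 : ((mkGL ((e.trans (ρ g)).trans e.symm) : Matrix.GeneralLinearGroup ι K) : Matrix ι ι K).mulVec (e.symm v) =
      ((mkGL ((e.trans (ρ k)).trans e.symm) : Matrix.GeneralLinearGroup ι K) : Matrix ι ι K).mulVec (e.symm v) := by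
    have h1' : (mkGL ((e.trans (ρ g)).trans e.symm) : Matrix.GeneralLinearGroup ι K) =
      mkGL ((e.trans (ρ k)).trans e.symm) := h1
    rw [h1']
  rw [mkGL_mulVec, mkGL_mulVec] at h2
  have h3 : e.symm (ρ g (e (e.symm v))) = e.symm (ρ k (e (e.symm v))) := h2
  rw [e.apply_symm_apply] at h3
  exact e.symm.injective h3

/-- `O₆⁺(2) ≅ S₈` -/
theorem o6plus2 {F : Type*} [Field F] [Fintype F] (hF : Fintype.card F = 2) :
    ∃ f : Equiv.Perm (Fin 8) →* isometryGroup F (quadFormPlus 3 F), Function.Bijective f := by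
  classical
  let r : F ≃+* ZMod 2 := FiniteField.ringEquivOfCardEq (by rw [hF, ZMod.card])
  have hQ : ∀ v, quadFormPlus 3 (ZMod 2) (fun i => r (v i)) = r (quadFormPlus 3 F v) := by
    intro v
    simp only [quadFormPlus, map_sum, map_mul]
  let T := isomTransport r (quadFormPlus 3 F) (quadFormPlus 3 (ZMod 2)) hQ
  have h2 : (2 : ZMod 2) = 0 := by decide
  have hN : ((7 + 1 : ℕ) : ZMod 2) = 0 := by decide
  let e : (Fin 3 ⊕ Fin 3 → ZMod 2) ≃ₗ[ZMod 2] E0 (ZMod 2) 7 := LinearMap.linearEquivOfInjective hyp8L hyp8L_inj (by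
    have := finrank_E0 (F := ZMod 2) (N := 7) (by norm_num)
    rw [Module.finrank_fintype_fun_eq_card]
    simp only [Fintype.card_sum, Fintype.card_fin]
    omega)
  have he : ∀ x, e x = hyp8L x := fun x => rfl
  have hq : ∀ v : E0 (ZMod 2) 7, quadFormPlus 3 (ZMod 2) (e.symm v) = esq (v : Fin 8 → ZMod 2) := by
    intro v
    rw [← hyp8_esq, ← he, e.apply_symm_apply]
  have hρ : ∀ (g : Equiv.Perm (Fin 8)) (x : Fin 3 ⊕ Fin 3 → ZMod 2),
      quadFormPlus 3 (ZMod 2) (e.symm (prep h2 hN g (e x))) = quadFormPlus 3 (ZMod 2) x := by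
    intro g x
    rw [hq, prep_apply]
    have h1 : esq ((pact h2 hN g (e x) : E0 (ZMod 2) 7) : Fin 8 → ZMod 2) =
        esq (fun i => ((e x : E0 (ZMod 2) 7) : Fin 8 → ZMod 2) (g⁻¹ i) + ((e x : E0 (ZMod 2) 7) : Fin 8 → ZMod 2) (g⁻¹ (Fin.last 7))) := rfl
    rw [h1, esq8_const h2 (fun i => ((e x : E0 (ZMod 2) 7) : Fin 8 → ZMod 2) (g⁻¹ i)) _ (by
      rw [Equiv.sum_comp g⁻¹ (fun i => ((e x : E0 (ZMod 2) 7) : Fin 8 → ZMod 2) i)]
      exact (e x).2.1), esq_perm (fun i => ((e x : E0 (ZMod 2) 7) : Fin 8 → ZMod 2) i) g⁻¹, he]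
    exact hyp8_esq x
  let f₀ := isomHom (quadFormPlus 3 (ZMod 2)) e (prep h2 hN) hρ
  have hf₀ : Function.Injective f₀ := isomHom_inj _ _ _ _ (prep_injective h2 hN (by norm_num))
  let f : Equiv.Perm (Fin 8) →* isometryGroup F (quadFormPlus 3 F) := T.symm.toMonoidHom.comp f₀
  have hf : Function.Injective f := T.symm.injective.comp hf₀
  have hcard : Nat.card (isometryGroup F (quadFormPlus 3 F)) = 40320 := by
    rw [Cfsg.Agent.S0287.result hF 3 (by norm_num)]
    simp [Finset.prod_range_succ]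
  refine ⟨f, ?_⟩
  haveI : Finite (isometryGroup F (quadFormPlus 3 F)) := Nat.finite_of_card_ne_zero (by rw [hcard]; norm_num)
  rw [Nat.bijective_iff_injective_and_card]
  refine ⟨hf, ?_⟩
  rw [hcard, Nat.card_perm, Nat.card_fin]
  rfl

end Cfsg.Agent.H5
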