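import Mathlib
import Cfsg.Agent.H5.Ree33
set_option autoImplicit false
set_option maxHeartbeats 1000000
set_option maxRecDepth 10000

/-! Solvable subgroups lie in local subgroups. -/

namespace Cfsg.Agent.H5.Ree

/-- the conclusion -/
def Good (q r : ℕ) {G : Type*} [Group G] (S : Subgroup G) : Prop := ∃ A : Subgroup G, S ≤ Subgroup.normalizer (A : Set G) ∧
  ((∃ P : Sylow 2 G, A = P) ∨ (∃ P : Sylow 3 G, A = P) ∨
    (IsCyclic A ∧ (Nat.card A = (q - 1) / 2 ∨ Nat.card A = (q + 1) / 4 ∨ Nat.card A = q - r + 1 ∨ Nat.card A = q + r + 1)))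

section abs
variable {K : Type*} [Field K] [Fintype K] {G : Type*} [Group G] [Finite G] {B T U : Subgroup G} {n : G} (R : RA K B T U n)
  (R3 : RB3 (Fintype.card K) G) (IC : ∀ a b : G, a ≠ 1 → a * a = 1 → b ≠ 1 → b * b = 1 → ∃ g : G, b = g * a * g⁻¹)
  (X : UX (Fintype.card K) U) {r : ℕ} (hr : r * r = 3 * Fintype.card K) (hrq : r ≤ Fintype.card K)

include R R3 IC hr hrq in
theorem RA.good_big {S : Subgroup G} {x : G} (hx : Big x) (hS : S ≤ Subgroup.normalizer (Subgroup.centralizer {x} : Set G)) : Good (Fintype.card K) r S := by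
  have hq := R.q27
  have h8 := R.mod8
  have key : ∀ c k : ℕ, Nat.Coprime k c → Nat.Coprime k 6 → Nat.card (Subgroup.centralizer {x}) = k * c →
      (k = (Fintype.card K - 1) / 2 ∨ k = (Fintype.card K + 1) / 4 ∨ k = Fintype.card K - r + 1 ∨ k = Fintype.card K + r + 1) → Good (Fintype.card K) r S := by
    intro c k hck hk6 hc hk
    have hA := card_Om (R.big_comm R3 hx) hck hc
    refine ⟨Om (Subgroup.centralizer {x}) (R.big_comm R3 hx) k, ?_, Or.inr (Or.inr ⟨R.big_cyc R3 hx (fun z hz => hz.1) (Om_odd (six_odd hk6)), by rw [hA]; exact hk⟩)⟩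
    apply le_norm
    intro s hs v hv
    refine ⟨(Subgroup.mem_normalizer_iff.1 (hS hs) v).1 hv.1, ?_⟩
    rw [conj_pow, hv.2]; group
  obtain ⟨p, z, hp, hp3, hz, -, -, he⟩ := R.big_cent R3 hx
  have hzp : z ^ p = 1 := by rw [← hz, pow_orderOf_eq_one]
  have hz1 : z ≠ 1 := by rintro rfl; rw [orderOf_one] at hz; exact hp.one_lt.ne hz
  have hzb : Big z := ⟨p, hp, hp3, hz ▸ dvd_rfl⟩
  rcases R.prime_cases hp hp3 hz with h | h | h
  · obtain ⟨h, hh, -⟩ := R.split hp (by omega) h hzp hz1
    apply key 2 ((Fintype.card K - 1) / 2) (Nat.Coprime.coprime_dvd_right (by norm_num) R.q_coprime) R.q_coprime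
    · rw [he, hh, card_map_conj, R.cardT]; omega
    · exact Or.inl rfl
  · obtain ⟨a, -, -, -, -, hc, -⟩ := R.ell hp (by omega) h hzp hz1
    apply key 4 ((Fintype.card K + 1) / 4) _ R.q1_coprime
    · rw [he, hc]; omega
    · exact Or.inr (Or.inl rfl)
    · have h2 : Nat.Coprime ((Fintype.card K + 1) / 4) 2 := (Nat.Coprime.coprime_dvd_right (by norm_num) R.q1_coprime)
      exact Nat.Coprime.mul_right (n := 2) (k := (Fintype.card K + 1) / 4) h2 h2
  · obtain ⟨x₁, x₂, m₁, m₂, h₁, h₂, h3, h4, -, hcov⟩ := R.third_main R3 IC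
    have hzBK : z ∈ BK G (Fintype.card K ^ 2 - Fintype.card K + 1) := ⟨hzb, by rw [hz]; exact h⟩
    have hcases := m_cases hr hrq h3 h4
    have hcard : ∀ {x₁ : G} {m₁ : ℕ}, TD (Fintype.card K) x₁ 6 m₁ → z ∈ CL (XB (Subgroup.centralizer {x₁})) → Nat.card (Subgroup.centralizer {x}) = m₁ := by
      rintro x₁ m₁ h₁ ⟨g, hg1, hg2⟩
      have e1 := R.big_eq R3 h₁.big hg2 hg1
      have e2 := cent_conj' g⁻¹ z
      rw [inv_inv, e1] at e2
      rw [he, ← h₁.cm, e2, card_map_conj]
    rcases hcov z hzBK with hc | hc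
    · have hc' := hcard h₁ hc
      apply key 1 m₁ (Nat.coprime_one_right m₁) (Nat.Coprime.coprime_dvd_left h₁.mM R.M_coprime) (by rw [hc', mul_one])
      rcases hcases with ⟨e1, e2⟩ | ⟨e1, e2⟩
      · exact Or.inr (Or.inr (Or.inl e1))
      · exact Or.inr (Or.inr (Or.inr e1))
    · have hc' := hcard h₂ hc
      apply key 1 m₂ (Nat.coprime_one_right m₂) (Nat.Coprime.coprime_dvd_left h₂.mM R.M_coprime) (by rw [hc', mul_one])
      rcases hcases with ⟨e1, e2⟩ | ⟨e1, e2⟩
      · exact Or.inr (Or.inr (Or.inr e2))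
      · exact Or.inr (Or.inr (Or.inl e2))

theorem z2_sq : ∀ e : Multiplicative (ZMod 2), e * e = 1 := by decide
theorem z2_uniq : ∀ e e' : Multiplicative (ZMod 2), e ≠ 1 → e' ≠ 1 → e = e' := by decide

theorem exists_ne {H : Type*} [Group H] {V : Subgroup H} (h : V ≠ ⊥) : ∃ v ∈ V, v ≠ 1 := by
  by_contra hno
  push Not at hno
  apply h
  rw [eq_bot_iff]
  intro v hv
  exact hno v hv

include R R3 IC hr hrq in
/-- normalising a subgroup of prime exponent at least five -/
theorem RA.good_five {S V : Subgroup G} {p : ℕ} (hp : p.Prime) (hp3 : 3 < p) (hV : V ≠ ⊥) (hVp : ∀ v ∈ V, v ^ p = 1)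
    (hVc : ∀ u ∈ V, ∀ v ∈ V, u * v = v * u) (hS : S ≤ Subgroup.normalizer (V : Set G)) : Good (Fintype.card K) r S := by
  haveI : Fact p.Prime := ⟨hp⟩
  obtain ⟨x, hx, hx1⟩ := exists_ne hV
  have hxo : orderOf x = p := orderOf_eq_prime_iff.2 ⟨hVp x hx, hx1⟩
  have hxb : Big x := ⟨p, hp, hp3, hxo ▸ dvd_rfl⟩
  apply R.good_big R3 IC hr hrq hxb
  intro s hs
  apply R.mem_norm R3 hxb
  rw [Subgroup.mem_centralizer_singleton_iff]
  exact hVc _ ((Subgroup.mem_normalizer_iff.1 (hS hs) x).1 hx) _ hx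

include R X in
/-- normalising a three-subgroup -/
theorem RA.good_three {S V : Subgroup G} (hV : V ≠ ⊥) (hVp : ∀ v ∈ V, v ^ 3 = 1) (hS : S ≤ Subgroup.normalizer (V : Set G)) : Good (Fintype.card K) r S := by
  haveI : Fact (Nat.Prime 3) := ⟨Nat.prime_three⟩
  have hVP : IsPGroup 3 V := fun v => ⟨1, by rw [pow_one]; exact Subtype.ext (hVp v v.2)⟩
  obtain ⟨P, hP⟩ := hVP.exists_le_sylow
  obtain ⟨v, hv, hv1⟩ := exists_ne hV
  have hU : IsPGroup 3 U := fun u => ⟨2, Subtype.ext (X.nine u u.2)⟩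
  have hi : ¬ 3 ∣ U.index := by
    rw [R.index_U]
    intro h
    obtain ⟨j, hj⟩ := R.three_dvd
    have hq := R.q27
    rcases (Nat.Prime.dvd_mul Nat.prime_three).1 h with h | h
    · omega
    · rw [hj] at h
      have h2 : 3 ∣ (3 * j) ^ 3 := by rw [pow_succ]; exact Dvd.dvd.mul_left (Dvd.intro _ rfl) _
      have := (Nat.dvd_add_right h2).1 h
      exact absurd this (by norm_num)
  refine ⟨P, ?_, Or.inr (Or.inl ⟨P, rfl⟩)⟩
  intro s hs
  refine (Sylow.smul_eq_iff_mem_normalizer).1 ?_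
  by_contra hne
  have h1 := R.rk.sylow_ti hU hi P (s • P) (fun h => hne h.symm)
  have h2 : v ∈ (P : Subgroup G) ⊓ ((s • P : Sylow 3 G) : Subgroup G) := by
    refine Subgroup.mem_inf.2 ⟨hP hv, ?_⟩
    have h3 : s⁻¹ * v * s ∈ V := by
      have := (Subgroup.mem_normalizer_iff.1 (inv_mem (hS hs)) v).1 hv
      rw [inv_inv] at this; exact this
    rw [Sylow.coe_subgroup_smul, Subgroup.mem_pointwise_smul_iff_inv_smul_mem, MulAut.smul_def, MulAut.conj_inv_apply]
    exact hP h3
  rw [h1, Subgroup.mem_bot] at h2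
  exact hv1 h2

include R in
/-- the second component of the central involution -/
theorem RA.snd_inv {a : G} (ha2 : a * a = 1) (E : ↥(Subgroup.centralizer {a}) ≃* Multiplicative (ZMod 2) × Matrix.ProjectiveSpecialLinearGroup (Fin 2) K)
    (a' : ↥(Subgroup.centralizer {a})) (ha'c : (a' : G) = a) : (E a').2 = 1 := by
  have hq := R.q27
  have hcc := psl_cube_card (F := K) R.c3
  have hne : ∃ y : Matrix.ProjectiveSpecialLinearGroup (Fin 2) K, y ^ 3 = 1 ∧ y ≠ 1 := by
    by_contra hno
    push Not at hno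
    have hsub : Subsingleton {y : Matrix.ProjectiveSpecialLinearGroup (Fin 2) K // y ^ 3 = 1} :=
      ⟨fun x y => Subtype.ext ((hno x.1 x.2).trans (hno y.1 y.2).symm)⟩
    have := Nat.card_eq_one_iff_unique.2 ⟨hsub, ⟨⟨1, one_pow _⟩⟩⟩
    rw [this] at hcc
    nlinarith
  obtain ⟨y, hy, hy1⟩ := hne
  have hcomm : (E a').2 * y = y * (E a').2 := by
    have h3 : a' * E.symm (1, y) = E.symm (1, y) * a' := by
      apply Subtype.ext
      show (a' : G) * _ = _ * (a' : G)
      rw [ha'c]
      exact (Subgroup.mem_centralizer_singleton_iff.1 (E.symm (1, y)).2).symm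
    have h4 := congrArg (fun g => (E g).2) h3
    simp only [map_mul, Prod.snd_mul, MulEquiv.apply_symm_apply] at h4
    exact h4
  have h3 := psl_cent_three R.c3 hy hy1 hcomm
  have h4 : (E a').2 ^ 2 = 1 := by
    rw [← Prod.pow_snd, ← map_pow]
    have : a' ^ 2 = 1 := by
      apply Subtype.ext
      show (a' : G) ^ 2 = 1
      rw [ha'c, pow_two, ha2]
    rw [this, map_one]; rfl
  rw [pow_succ, h4, one_mul] at h3
  exact h3

include R R3 IC hr hrq in
/-- normalising an elementary abelian group of order four or eight -/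
theorem RA.good_two {S V : Subgroup G} (hV2 : ∀ v ∈ V, v * v = 1) {a b : G} (ha : a ∈ V) (hb : b ∈ V) (ha1 : a ≠ 1) (hb1 : b ≠ 1) (hab : b ≠ a)
    (hS : S ≤ Subgroup.normalizer (V : Set G)) : Good (Fintype.card K) r S := by
  haveI : Fact (Nat.Prime 2) := ⟨Nat.prime_two⟩
  have hq := R.q27
  have h8 := R.mod8
  have hVP : IsPGroup 2 V := fun v => ⟨1, by rw [pow_one, pow_two]; exact Subtype.ext (hV2 v v.2)⟩
  obtain ⟨P, hP⟩ := hVP.exists_le_sylow
  have hP8 := (R.syl P).1
  have hd : Nat.card V ∣ 8 := by rw [← hP8]; exact Subgroup.card_dvd_of_le hP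
  have ha2 := hV2 a ha
  have hb2 := hV2 b hb
  have hao : orderOf a = 2 := orderOf_eq_prime_iff.2 ⟨by rw [pow_two, ha2], ha1⟩
  have hza : Nat.card (Subgroup.zpowers a) = 2 := by rw [Nat.card_zpowers, hao]
  have hbz : b ∉ Subgroup.zpowers a := by
    intro h
    obtain ⟨k, hk⟩ := (isOfFinOrder_of_finite a).mem_powers_iff_mem_zpowers.2 h
    have hk : a ^ k = b := hk
    rcases Nat.even_or_odd' k with ⟨l, hl | hl⟩
    · rw [hl, pow_mul, pow_two, ha2, one_pow] at hk; exact hb1 hk.symm
    · rw [hl, pow_succ, pow_mul, pow_two, ha2, one_pow, one_mul] at hk; exact hab hk.symm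
  have hcases : Nat.card V = 4 ∨ Nat.card V = 8 := by
    have h1 : Nat.card V ∈ Nat.divisors 8 := Nat.mem_divisors.2 ⟨hd, by norm_num⟩
    have hdv : Nat.divisors 8 = {1, 2, 4, 8} := by decide
    rw [hdv] at h1
    simp only [Finset.mem_insert, Finset.mem_singleton] at h1
    rcases h1 with h | h | h | h
    · exfalso
      rw [Subgroup.card_eq_one] at h
      rw [h, Subgroup.mem_bot] at ha
      exact ha1 ha
    · exfalso
      have := Subgroup.eq_of_le_of_card_ge (Subgroup.zpowers_le.2 ha) (by rw [h, hza])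
      rw [← this] at hb
      exact hbz hb
    · exact Or.inl h
    · exact Or.inr h
  rcases hcases with h4 | h4
  · -- four
    have hcomm : ∀ u ∈ V, ∀ v ∈ V, u * v = v * u := R.two_group_comm V hVP
    have hbc : b ∈ Subgroup.centralizer {a} := Subgroup.mem_centralizer_singleton_iff.2 (hcomm b hb a ha)
    have haa : a ∈ Subgroup.centralizer {a} := Subgroup.mem_centralizer_singleton_iff.2 rfl
    obtain ⟨E⟩ := R.cent a ha1 ha2
    obtain ⟨b', hb'⟩ : ∃ b' : ↥(Subgroup.centralizer {a}), (b' : G) = b := ⟨⟨b, hbc⟩, rfl⟩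
    obtain ⟨a', ha'⟩ : ∃ a' : ↥(Subgroup.centralizer {a}), (a' : G) = a := ⟨⟨a, haa⟩, rfl⟩
    have ha'2 := R.snd_inv ha2 E a' ha'
    have hne : ∀ c : ↥(Subgroup.centralizer {a}), (c : G) ≠ 1 → (E c).2 = 1 → (E c).1 ≠ 1 := by
      intro c hc h2 h1
      apply hc
      have : E c = 1 := Prod.ext h1 h2
      rw [E.injective (this.trans (map_one E).symm)]; rfl
    have hZ := z2_uniq
    have hw1 : (E b').2 ≠ 1 := by
      intro h
      apply hab
      have h5 := hZ _ _ (hne b' (by rw [hb']; exact hb1) h) (hne a' (by rw [ha']; exact ha1) ha'2)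
      have h6 : E b' = E a' := Prod.ext h5 (h.trans ha'2.symm)
      rw [← hb', E.injective h6, ha']
    have hw2 : (E b').2 * (E b').2 = 1 := by
      rw [← Prod.snd_mul, ← map_mul]
      have : b' * b' = 1 := by apply Subtype.ext; show (b' : G) * b' = 1; rw [hb', hb2]
      rw [this, map_one]; rfl
    obtain ⟨hi1, hi2⟩ := psl_inv R.c3 (by omega) (E b').2 hw2 hw1
    obtain ⟨p, -, hp, hp3, hpq, -⟩ := R.exists_ell
    obtain ⟨z, hzp, hz1, hzw⟩ := hi2 p hp (by omega) hpq
    haveI : Fact p.Prime := ⟨hp⟩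
    obtain ⟨x', hx'⟩ : ∃ x' : ↥(Subgroup.centralizer {a}), E x' = (1, z) := ⟨E.symm (1, z), E.apply_symm_apply _⟩
    have hx'o : orderOf (x' : G) = p := by
      rw [Subgroup.orderOf_coe]
      apply orderOf_eq_prime_iff.2
      constructor
      · apply E.injective
        rw [map_pow, hx', map_one]
        exact Prod.ext (one_pow _) hzp
      · intro h
        rw [h, map_one] at hx'
        exact hz1 (congrArg Prod.snd hx').symm
    have hxb : Big (x' : G) := ⟨p, hp, hp3, hx'o ▸ dvd_rfl⟩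
    have hxa : a ∈ Subgroup.centralizer {(x' : G)} := by
      rw [Subgroup.mem_centralizer_singleton_iff]
      exact (Subgroup.mem_centralizer_singleton_iff.1 x'.2).symm
    have hxbb : b ∈ Subgroup.centralizer {(x' : G)} := by
      rw [Subgroup.mem_centralizer_singleton_iff, ← hb']
      have : b' * x' = x' * b' := by
        apply E.injective
        rw [map_mul, map_mul, hx']
        exact Prod.ext (by simp) hzw.symm
      exact congrArg Subtype.val this
    have hVx : V ≤ Subgroup.centralizer {(x' : G)} := by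
      have h1 : Subgroup.zpowers a ≤ V ⊓ Subgroup.centralizer {(x' : G)} := Subgroup.zpowers_le.2 ⟨ha, hxa⟩
      have h2 : Nat.card ↥(V ⊓ Subgroup.centralizer {(x' : G)}) ∣ 4 := by rw [← h4]; exact Subgroup.card_dvd_of_le inf_le_left
      have h3 : 2 ∣ Nat.card ↥(V ⊓ Subgroup.centralizer {(x' : G)}) := by rw [← hza]; exact Subgroup.card_dvd_of_le h1
      have h5 : Nat.card ↥(V ⊓ Subgroup.centralizer {(x' : G)}) ≠ 2 := by
        intro h
        have h6 := Subgroup.eq_of_le_of_card_ge h1 (by rw [h, hza])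
        apply hbz
        rw [h6]; exact ⟨hb, hxbb⟩
      have h7 : Nat.card ↥(V ⊓ Subgroup.centralizer {(x' : G)}) = 4 := by
        have h1 : Nat.card ↥(V ⊓ Subgroup.centralizer {(x' : G)}) ∈ Nat.divisors 4 := Nat.mem_divisors.2 ⟨h2, by norm_num⟩
        have hdv : Nat.divisors 4 = {1, 2, 4} := by decide
        rw [hdv] at h1
        simp only [Finset.mem_insert, Finset.mem_singleton] at h1
        omega
      have h8 := Subgroup.eq_of_le_of_card_ge (inf_le_left : V ⊓ Subgroup.centralizer {(x' : G)} ≤ V) (by rw [h7, h4])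
      rw [← h8]; exact inf_le_right
    apply R.good_big R3 IC hr hrq hxb
    intro s hs
    apply R.mem_norm R3 hxb
    have hcomV : ∀ v ∈ V, (s * (x' : G) * s⁻¹) * v = v * (s * (x' : G) * s⁻¹) := by
      intro v hv
      have h1 : s⁻¹ * v * s ∈ V := by
        have := (Subgroup.mem_normalizer_iff.1 (inv_mem (hS hs)) v).1 hv
        rw [inv_inv] at this; exact this
      have h2 := Subgroup.mem_centralizer_singleton_iff.1 (hVx h1)
      calc (s * (x' : G) * s⁻¹) * v = s * ((x' : G) * (s⁻¹ * v * s)) * s⁻¹ := by group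
        _ = s * ((s⁻¹ * v * s) * (x' : G)) * s⁻¹ := by rw [h2]
        _ = _ := by group
    obtain ⟨y', hy'⟩ : ∃ y' : ↥(Subgroup.centralizer {a}), (y' : G) = s * (x' : G) * s⁻¹ :=
      ⟨⟨s * (x' : G) * s⁻¹, Subgroup.mem_centralizer_singleton_iff.2 (hcomV a ha)⟩, rfl⟩
    have hy'o : orderOf y' = p := by
      rw [← Subgroup.orderOf_coe, hy']
      have := orderOf_conj' s⁻¹ (x' : G)
      rw [inv_inv] at this
      rw [this, hx'o]
    have hodd : Odd p := hp.odd_of_ne_two (by omega)
    have hy1 := fst_one E (y := y') (by rw [hy'o]; exact hodd)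
    have hyw : (E y').2 * (E b').2 = (E b').2 * (E y').2 := by
      rw [← Prod.snd_mul, ← Prod.snd_mul, ← map_mul, ← map_mul]
      have : y' * b' = b' * y' := by
        apply Subtype.ext
        show (y' : G) * b' = b' * y'
        rw [hy', hb']; exact hcomV b hb
      rw [this]
    have hod : ∀ c : ↥(Subgroup.centralizer {a}), orderOf c = p → Odd (orderOf (E c).2) := by
      intro c hc
      have : (E c).2 ^ p = 1 := by
        rw [← Prod.pow_snd, ← map_pow, ← hc, pow_orderOf_eq_one, map_one]; rfl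
      exact Odd.of_dvd_nat hodd (orderOf_dvd_of_pow_eq_one this)
    have hx'o' : orderOf x' = p := by rw [← Subgroup.orderOf_coe]; exact hx'o
    have hzz := hi1 (E y').2 (E x').2 hyw (by rw [hx']; exact hzw) (hod y' hy'o) (hod x' hx'o')
    rw [Subgroup.mem_centralizer_singleton_iff, ← hy']
    have : y' * x' = x' * y' := by
      apply E.injective
      rw [map_mul, map_mul]
      apply Prod.ext
      · rw [Prod.fst_mul, Prod.fst_mul, hy1, hx']
      · exact hzz
    exact congrArg Subtype.val this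
  · refine ⟨V, hS, Or.inl ⟨P, ?_⟩⟩
    exact Subgroup.eq_of_le_of_card_ge hP (hP8.trans h4.symm).le

include R R3 IC hr hrq X in
/-- subgroups of the centraliser of an involution -/
theorem RA.good_inv {S : Subgroup G} (hsol : IsSolvable S) {a : G} (ha1 : a ≠ 1) (ha2 : a * a = 1) (hS : S ≤ Subgroup.centralizer {a}) :
    Good (Fintype.card K) r S := by
  haveI : Fact (Nat.Prime 2) := ⟨Nat.prime_two⟩
  obtain ⟨E⟩ := R.cent a ha1 ha2
  have haa : a ∈ Subgroup.centralizer {a} := Subgroup.mem_centralizer_singleton_iff.2 rfl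
  obtain ⟨a', ha'⟩ : ∃ a' : ↥(Subgroup.centralizer {a}), (a' : G) = a := ⟨⟨a, haa⟩, rfl⟩
  have ha'2 := R.snd_inv ha2 E a' ha'
  let f : ↥(Subgroup.centralizer {a}) →* Matrix.ProjectiveSpecialLinearGroup (Fin 2) K := (MonoidHom.snd _ _).comp E.toMonoidHom
  have hf : ∀ y, f y = (E y).2 := fun y => rfl
  set S' := (S.subgroupOf (Subgroup.centralizer {a})).map f with hS'
  have hmem : ∀ s (hs : s ∈ S), (E ⟨s, hS hs⟩).2 ∈ S' := fun s hs => ⟨⟨s, hS hs⟩, Subgroup.mem_subgroupOf.2 hs, rfl⟩
  by_cases hbot : S' = ⊥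
  · have hS2 : ∀ s ∈ S, s * s = 1 := by
      intro s hs
      have h1 := hmem s hs
      rw [hbot, Subgroup.mem_bot] at h1
      have h2 : (⟨s, hS hs⟩ : ↥(Subgroup.centralizer {a})) * ⟨s, hS hs⟩ = 1 := by
        apply E.injective
        rw [map_mul, map_one]
        apply Prod.ext
        · exact z2_sq _
        · rw [Prod.snd_mul, h1, one_mul]; rfl
      exact congrArg Subtype.val h2
    have hSP : IsPGroup 2 S := fun v => ⟨1, by rw [pow_one, pow_two]; exact Subtype.ext (hS2 v v.2)⟩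
    obtain ⟨P, hP⟩ := hSP.exists_le_sylow
    exact ⟨P, hP.trans Subgroup.le_normalizer, Or.inl ⟨P, rfl⟩⟩
  · haveI : Group.IsSolvable ↥S := hsol
    haveI hsol1 : Group.IsSolvable ↥(S.subgroupOf (Subgroup.centralizer {a})) :=
      solvable_of_solvable_injective (f := (Subgroup.subgroupOfEquivOfLe hS).toMonoidHom) (Subgroup.subgroupOfEquivOfLe hS).injective
    have hsol2 : IsSolvable ↥S' :=
      solvable_of_surjective (f := f.subgroupMap (S.subgroupOf (Subgroup.centralizer {a}))) (f.subgroupMap_surjective _)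
    obtain ⟨p, V, hp, -, hV, hVp, hVc, hVn⟩ := solv_normal hsol2 hbot
    let ι : Matrix.ProjectiveSpecialLinearGroup (Fin 2) K →* G :=
      (Subgroup.centralizer {a}).subtype.comp (E.symm.toMonoidHom.comp (MonoidHom.inr _ _))
    have hι : ∀ z, ι z = (E.symm (1, z) : ↥(Subgroup.centralizer {a})) := fun z => rfl
    have hιinj : Function.Injective ι := by
      intro z w h
      rw [hι, hι] at h
      have := E.symm.injective (Subtype.ext h)
      exact congrArg Prod.snd this
    have hW : V.map ι ≠ ⊥ := by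
      rw [Ne, Subgroup.map_eq_bot_iff_of_injective _ hιinj]; exact hV
    have hWp : ∀ v ∈ V.map ι, v ^ p = 1 := by
      rintro _ ⟨z, hz, rfl⟩
      rw [← map_pow, hVp z hz, map_one]
    have hWc : ∀ u ∈ V.map ι, ∀ v ∈ V.map ι, u * v = v * u := by
      rintro _ ⟨z, hz, rfl⟩ _ ⟨w, hw, rfl⟩
      rw [← map_mul, hVc z hz w hw, map_mul]
    have hWn : S ≤ Subgroup.normalizer (V.map ι : Set G) := by
      apply le_norm
      rintro s hs _ ⟨z, hz, rfl⟩
      refine ⟨(E ⟨s, hS hs⟩).2 * z * (E ⟨s, hS hs⟩).2⁻¹, (Subgroup.mem_normalizer_iff.1 (hVn (hmem s hs)) z).1 hz, ?_⟩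
      have : (E.symm (1, (E ⟨s, hS hs⟩).2 * z * (E ⟨s, hS hs⟩).2⁻¹) : ↥(Subgroup.centralizer {a})) = ⟨s, hS hs⟩ * E.symm (1, z) * ⟨s, hS hs⟩⁻¹ := by
        rw [MulEquiv.symm_apply_eq, map_mul, map_mul, map_inv, MulEquiv.apply_symm_apply]
        apply Prod.ext
        · simp
        · rfl
      exact congrArg Subtype.val this
    have hp2 := hp.two_le
    rcases Nat.lt_trichotomy p 3 with h | h | h
    · -- p = 2
      have hp2' : p = 2 := by omega
      subst hp2'
      set W := (V.comap f).map (Subgroup.centralizer {a}).subtype with hWdef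
      have hWmem : ∀ c : ↥(Subgroup.centralizer {a}), (E c).2 ∈ V → (c : G) ∈ W := fun c hc => ⟨c, hc, rfl⟩
      obtain ⟨z, hz, hz1⟩ := exists_ne hV
      have haW : a ∈ W := by
        rw [← ha']
        apply hWmem
        rw [ha'2]; exact one_mem _
      have hbW : ι z ∈ W := by
        rw [hι]
        apply hWmem
        rw [MulEquiv.apply_symm_apply]; exact hz
      apply R.good_two R3 IC hr hrq (V := W) (a := a) (b := ι z) _ haW hbW ha1
      · intro h
        apply hz1
        exact hιinj (h.trans (map_one ι).symm)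
      · intro h
        apply hz1
        have h0 : ((E.symm (1, z) : ↥(Subgroup.centralizer {a})) : G) = (a' : G) := h.trans ha'.symm
        have h1 := Subtype.ext h0
        rw [MulEquiv.symm_apply_eq] at h1
        rw [← ha'2, ← h1]
      · apply le_norm
        rintro s hs _ ⟨c, hc, rfl⟩
        refine ⟨⟨s, hS hs⟩ * c * ⟨s, hS hs⟩⁻¹, ?_, rfl⟩
        show (E (⟨s, hS hs⟩ * c * ⟨s, hS hs⟩⁻¹)).2 ∈ V
        rw [map_mul, map_mul, map_inv]
        exact (Subgroup.mem_normalizer_iff.1 (hVn (hmem s hs)) _).1 hc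
      · rintro _ ⟨c, hc, rfl⟩
        have h2 : c * c = 1 := by
          apply E.injective
          rw [map_mul, map_one]
          apply Prod.ext
          · exact z2_sq _
          · have := hVp (E c).2 hc
            rw [pow_two] at this
            exact this
        exact congrArg Subtype.val h2
    · subst h
      exact R.good_three X hW hWp hWn
    · exact R.good_five R3 IC hr hrq hp h hW hWp hWc hWn

include R R3 IC hr hrq X in
theorem RA.good_all {S : Subgroup G} (hsol : IsSolvable S) : Good (Fintype.card K) r S := by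
  haveI : Fact (Nat.Prime 2) := ⟨Nat.prime_two⟩
  by_cases hbot : S = ⊥
  · haveI : Nonempty (Sylow 2 G) := inferInstance
    obtain ⟨P⟩ := this
    exact ⟨P, by rw [hbot]; exact bot_le, Or.inl ⟨P, rfl⟩⟩
  · obtain ⟨p, V, hp, -, hV, hVp, hVc, hVn⟩ := solv_normal hsol hbot
    have hp2 := hp.two_le
    rcases Nat.lt_trichotomy p 3 with h | h | h
    · have hp2' : p = 2 := by omega
      subst hp2'
      have hV2 : ∀ v ∈ V, v * v = 1 := fun v hv => by rw [← pow_two]; exact hVp v hv
      obtain ⟨a, ha, ha1⟩ := exists_ne hV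
      by_cases hex : ∃ b ∈ V, b ≠ 1 ∧ b ≠ a
      · obtain ⟨b, hb, hb1, hba⟩ := hex
        exact R.good_two R3 IC hr hrq hV2 ha hb ha1 hb1 hba hVn
      · push Not at hex
        apply R.good_inv R3 IC X hr hrq hsol ha1 (hV2 a ha)
        intro s hs
        rw [Subgroup.mem_centralizer_singleton_iff]
        have h1 := (Subgroup.mem_normalizer_iff.1 (hVn hs) a).1 ha
        have h2 : s * a * s⁻¹ = a := by
          apply hex _ h1
          intro h
          apply ha1
          calc a = s⁻¹ * (s * a * s⁻¹) * s := by group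
            _ = 1 := by rw [h]; group
        exact mul_inv_eq_iff_eq_mul.1 h2
    · subst h
      exact R.good_three X hV hVp hVn
    · exact R.good_five R3 IC hr hrq hp h hV hVp hVc hVn

end abs

end Cfsg.Agent.H5.Ree
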