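import Mathlib
import Cfsg.Agent.H5.Ree33
set_option autoImplicit false
set_option maxHeartbeats 1000000
set_option maxRecDepth 10000

/-! A semidirect product. -/

namespace Cfsg.Agent.H5.Ree

section sd
variable {N L : Type*} [CommGroup N] [Group L] {φ : L →* MulAut N}

theorem sd_pow (h : N ⋊[φ] L) (n : ℕ) : h ^ n = ⟨∏ i ∈ Finset.range n, φ (h.right ^ i) h.left, h.right ^ n⟩ := by
  induction n with
  | zero => rw [pow_zero, pow_zero, Finset.prod_range_zero]; rfl
  | succ n ih =>
    rw [pow_succ, ih]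
    apply SemidirectProduct.ext
    · rw [SemidirectProduct.mul_left, Finset.prod_range_succ]
    · rw [SemidirectProduct.mul_right, pow_succ]

theorem sd_fpf (h : N ⋊[φ] L) (hf : ∀ v, φ h.right v = v → v = 1) {n : ℕ} (hn : h.right ^ n = 1) : h ^ n = 1 := by
  rw [sd_pow, hn]
  apply SemidirectProduct.ext
  · show ∏ i ∈ Finset.range n, φ (h.right ^ i) h.left = 1
    apply hf
    rw [map_prod]
    have h1 : ∀ i, φ h.right (φ (h.right ^ i) h.left) = φ (h.right ^ (i + 1)) h.left := by
      intro i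
      rw [← MulAut.mul_apply, ← map_mul, ← pow_succ']
    simp only [h1]
    have h2 := Finset.prod_range_succ' (fun i => φ (h.right ^ i) h.left) n
    have h3 := Finset.prod_range_succ (fun i => φ (h.right ^ i) h.left) n
    rw [h3, hn, pow_zero] at h2
    exact (mul_right_cancel h2).symm
  · rfl

theorem sd_three (hN : ∀ v : N, v ^ 3 = 1) (h : N ⋊[φ] L) {n : ℕ} (hn : h.right ^ n = 1) : h ^ (n * 3) = 1 := by
  have h1 : h ^ n = SemidirectProduct.inl (h ^ n).left := by
    apply SemidirectProduct.ext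
    · rw [SemidirectProduct.left_inl]
    · rw [SemidirectProduct.right_inl, sd_pow]; exact hn
  rw [pow_mul, h1, ← map_pow, hN, map_one]

theorem sd_neg (h : N ⋊[φ] L) (hi : ∀ v, φ (h.right ^ 3) v = v⁻¹) (h6 : h.right ^ 6 = 1) : h ^ 6 = 1 := by
  have h1 : (h ^ 3).right = h.right ^ 3 := by rw [sd_pow]
  have h2 : h ^ 6 = h ^ 3 * h ^ 3 := by rw [← pow_add]
  rw [h2]
  apply SemidirectProduct.ext
  · rw [SemidirectProduct.mul_left, h1, hi, mul_inv_cancel]; rfl
  · rw [SemidirectProduct.mul_right, h1, ← pow_add]; exact h6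

end sd

section tw
open Matrix Cfsg.Agent.H16 Cfsg.Agent.H5
variable {F : Type*} [Field F] [CharP F 3]

local notation "SL₂" => Matrix.SpecialLinearGroup (Fin 2) F
local notation "M₂" => Matrix (Fin 2) (Fin 2) F
local notation "PG" => Matrix.ProjectiveSpecialLinearGroup (Fin 2) F
local notation "π'" => QuotientGroup.mk' (Subgroup.center (Matrix.SpecialLinearGroup (Fin 2) F))

instance fact3 : Fact (Nat.Prime 3) := ⟨Nat.prime_three⟩

/-- the Frobenius twist -/
noncomputable def fr (ζ : SL₂) : SL₂ := Matrix.SpecialLinearGroup.map (frobenius F 3) ζ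

theorem fr_mul (ζ η : SL₂) : fr (ζ * η) = fr ζ * fr η := map_mul _ _ _
theorem fr_one : fr (1 : SL₂) = 1 := map_one _

/-- the twisted action -/
noncomputable def tw (ζ : SL₂) (X : M₂) : M₂ := (ζ : M₂) * X * (((fr ζ)⁻¹ : SL₂) : M₂)

theorem tw_one (X : M₂) : tw (1 : SL₂) X = X := by
  unfold tw
  rw [fr_one, inv_one]
  show (1 : M₂) * X * (1 : M₂) = X
  rw [one_mul, mul_one]

theorem tw_mul (ζ η : SL₂) (X : M₂) : tw (ζ * η) X = tw ζ (tw η X) := by
  unfold tw
  rw [fr_mul, _root_.mul_inv_rev, Matrix.SpecialLinearGroup.coe_mul, Matrix.SpecialLinearGroup.coe_mul]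
  simp only [mul_assoc]

theorem tw_add (ζ : SL₂) (X Y : M₂) : tw ζ (X + Y) = tw ζ X + tw ζ Y := by
  unfold tw; rw [mul_add, add_mul]

theorem tw_neg (ζ : SL₂) (X : M₂) : tw (-ζ) X = tw ζ X := by
  have h1 : fr (-ζ) = -fr ζ := by
    apply Matrix.SpecialLinearGroup.ext
    intro i j
    show frobenius F 3 (-((ζ : M₂) i j)) = -(frobenius F 3 ((ζ : M₂) i j))
    rw [map_neg]
  unfold tw
  rw [h1]
  have h2 : ((-fr ζ)⁻¹ : SL₂) = -((fr ζ)⁻¹) := by
    rw [inv_eq_iff_mul_eq_one, neg_mul_neg, mul_inv_cancel]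
  rw [h2]
  show (-(ζ : M₂)) * X * (-(((fr ζ)⁻¹ : SL₂) : M₂)) = _
  rw [neg_mul, neg_mul, mul_neg, neg_neg]

omit [CharP F 3] in
theorem cayh (M : M₂) (h : M 0 0 * M 1 1 - M 0 1 * M 1 0 = 1) : M * M = (M 0 0 + M 1 1) • M - 1 := by
  ext i j
  fin_cases i <;> fin_cases j
  · simp only [Matrix.mul_apply, Fin.sum_univ_two, Matrix.sub_apply, Matrix.smul_apply, smul_eq_mul, Fin.zero_eta, Fin.mk_one, Matrix.one_apply_eq]
    linear_combination -h
  · simp only [Matrix.mul_apply, Fin.sum_univ_two, Matrix.sub_apply, Matrix.smul_apply, smul_eq_mul, Fin.zero_eta, Fin.mk_one, Matrix.one_apply_ne (show (0 : Fin 2) ≠ 1 by decide)]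
    ring
  · simp only [Matrix.mul_apply, Fin.sum_univ_two, Matrix.sub_apply, Matrix.smul_apply, smul_eq_mul, Fin.zero_eta, Fin.mk_one, Matrix.one_apply_ne (show (1 : Fin 2) ≠ 0 by decide)]
    ring
  · simp only [Matrix.mul_apply, Fin.sum_univ_two, Matrix.sub_apply, Matrix.smul_apply, smul_eq_mul, Fin.zero_eta, Fin.mk_one, Matrix.one_apply_eq]
    linear_combination -h

/-- fixed points of the twisted action -/
theorem tw_fix {ζ : SL₂} {e : F} (he : e * e = 1) (h1 : (ζ : M₂) 0 0 + (ζ : M₂) 1 1 ≠ 0) (h2 : 1 - e * ((ζ : M₂) 0 0 + (ζ : M₂) 1 1) ^ 2 ≠ 0) {X : M₂}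
    (hX : e • tw ζ X = X) : X = 0 := by
  set a := (ζ : M₂) 0 0 with ha
  set b := (ζ : M₂) 0 1 with hb
  set c := (ζ : M₂) 1 0 with hc
  set d := (ζ : M₂) 1 1 with hd
  have hdet : a * d - b * c = 1 := by
    rw [ha, hb, hc, hd, ← Matrix.det_fin_two]; exact ζ.2
  -- the equation without inverses
  have h3 : (ζ : M₂) * X = e • (X * ((fr ζ : SL₂) : M₂)) := by
    have h4 : tw ζ X * ((fr ζ : SL₂) : M₂) = (ζ : M₂) * X := by
      unfold tw
      rw [mul_assoc, ← Matrix.SpecialLinearGroup.coe_mul, inv_mul_cancel, Matrix.SpecialLinearGroup.coe_one, mul_one]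
    have h5 : tw ζ X = e • X := by
      calc tw ζ X = (e * e) • tw ζ X := by rw [he, one_smul]
        _ = e • (e • tw ζ X) := by rw [smul_smul]
        _ = _ := by rw [hX]
    rw [← h4, h5, Matrix.smul_mul]
  set S : M₂ := ((fr ζ : SL₂) : M₂) with hSdef
  set τ := a + d with hτ
  have hζ2 : (ζ : M₂) * (ζ : M₂) = τ • (ζ : M₂) - 1 := cayh _ hdet
  have hS2 : S * S = τ ^ 3 • S - 1 := by
    have h6 : S 0 0 * S 1 1 - S 0 1 * S 1 0 = 1 := by
      rw [← Matrix.det_fin_two]; exact (fr ζ).2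
    have h7 : τ ^ 3 = S 0 0 + S 1 1 := by
      show τ ^ 3 = a ^ 3 + d ^ 3
      rw [hτ, add_pow_char]
    rw [h7]; exact cayh _ h6
  have h8 : (τ * e) • (X * S) = τ ^ 3 • (X * S) := by
    have h9 : (ζ : M₂) * ((ζ : M₂) * X) = τ ^ 3 • (X * S) - X := by
      calc (ζ : M₂) * ((ζ : M₂) * X) = (ζ : M₂) * (e • (X * S)) := by rw [h3]
        _ = e • ((ζ : M₂) * X * S) := by rw [Matrix.mul_smul, mul_assoc]
        _ = e • ((e • (X * S)) * S) := by rw [h3]
        _ = (e * e) • (X * (S * S)) := by rw [Matrix.smul_mul, smul_smul, mul_assoc]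
        _ = X * (τ ^ 3 • S - 1) := by rw [he, one_smul, hS2]
        _ = _ := by rw [mul_sub, Matrix.mul_smul, mul_one]
    have h10 : (ζ : M₂) * ((ζ : M₂) * X) = (τ * e) • (X * S) - X := by
      rw [← mul_assoc, hζ2, sub_mul, Matrix.smul_mul, h3, smul_smul, one_mul]
    have h11 := h10.symm.trans h9
    exact sub_left_injective h11
  have h12 : (τ * e - τ ^ 3) • (X * S) = 0 := by rw [sub_smul, h8, sub_self]
  have h13 : τ * e - τ ^ 3 ≠ 0 := by
    have : τ * e - τ ^ 3 = τ * (e * (1 - e * τ ^ 2)) := by linear_combination τ ^ 3 * he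
    rw [this]
    have he0 : e ≠ 0 := by rintro rfl; rw [zero_mul] at he; exact zero_ne_one he
    exact mul_ne_zero h1 (mul_ne_zero he0 h2)
  have h14 := (smul_eq_zero.1 h12).resolve_left h13
  calc X = X * (S * (((fr ζ)⁻¹ : SL₂) : M₂)) := by
        rw [hSdef, ← Matrix.SpecialLinearGroup.coe_mul, mul_inv_cancel, Matrix.SpecialLinearGroup.coe_one, mul_one]
    _ = (X * S) * (((fr ζ)⁻¹ : SL₂) : M₂) := by rw [mul_assoc]
    _ = 0 := by rw [h14, zero_mul]

/-- the group acted on -/
abbrev NN (F : Type*) [Field F] (k : ℕ) : Type _ := Multiplicative (Fin k → Matrix (Fin 2) (Fin 2) F)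

/-- the automorphism -/
noncomputable def actE (k : ℕ) (ζ : SL₂) : MulAut (NN F k) where
  toFun v := Multiplicative.ofAdd (fun i => tw ζ (Multiplicative.toAdd v i))
  invFun v := Multiplicative.ofAdd (fun i => tw ζ⁻¹ (Multiplicative.toAdd v i))
  left_inv v := by
    apply Multiplicative.toAdd.injective
    funext i
    show tw ζ⁻¹ (tw ζ (Multiplicative.toAdd v i)) = _
    rw [← tw_mul, inv_mul_cancel, tw_one]
  right_inv v := by
    apply Multiplicative.toAdd.injective
    funext i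
    show tw ζ (tw ζ⁻¹ (Multiplicative.toAdd v i)) = _
    rw [← tw_mul, mul_inv_cancel, tw_one]
  map_mul' v w := by
    apply Multiplicative.toAdd.injective
    funext i
    exact tw_add _ _ _

noncomputable def act0 (F : Type*) [Field F] [CharP F 3] (k : ℕ) : Matrix.SpecialLinearGroup (Fin 2) F →* MulAut (NN F k) where
  toFun := actE k
  map_one' := by
    ext v : 1
    apply Multiplicative.toAdd.injective
    funext i
    exact tw_one _
  map_mul' ζ η := by
    ext v : 1
    apply Multiplicative.toAdd.injective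
    funext i
    exact tw_mul _ _ _

/-- the action of `PSL₂` -/
noncomputable def act1 (F : Type*) [Field F] [CharP F 3] (k : ℕ) : Matrix.ProjectiveSpecialLinearGroup (Fin 2) F →* MulAut (NN F k) :=
  QuotientGroup.lift _ (act0 F k) (by
    intro ζ hζ
    rcases (mem_cen_iff _).1 hζ with h | h
    · have : ζ = 1 := Subtype.ext h
      rw [this]; exact one_mem _
    · have h1 : ζ = -1 := Subtype.ext h
      rw [h1]
      ext v : 1
      apply Multiplicative.toAdd.injective
      funext i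
      show tw (-1 : Matrix.SpecialLinearGroup (Fin 2) F) (Multiplicative.toAdd v i) = _
      rw [tw_neg, tw_one]; rfl)

/-- inversion -/
def inv1 (N : Type*) [CommGroup N] : Multiplicative (ZMod 2) →* MulAut N where
  toFun e := if e = 1 then 1 else MulEquiv.inv N
  map_one' := by simp
  map_mul' e e' := by
    by_cases h : e = 1
    · rw [h, one_mul, if_pos rfl, one_mul]
    · by_cases h' : e' = 1
      · rw [h', mul_one, if_pos rfl, mul_one]
      · have h2 : e * e' = 1 := by revert h h'; revert e e'; decide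
        rw [if_pos h2, if_neg h, if_neg h']
        ext v
        show v = (v⁻¹)⁻¹
        rw [inv_inv]

/-- the action -/
noncomputable def act2 (F : Type*) [Field F] [CharP F 3] (k : ℕ) : Multiplicative (ZMod 2) × Matrix.ProjectiveSpecialLinearGroup (Fin 2) F →* MulAut (NN F k) :=
  MonoidHom.noncommCoprod (inv1 (NN F k)) (act1 F k) (by
    intro e z
    show inv1 _ e * act1 F k z = act1 F k z * inv1 _ e
    by_cases h : e = 1
    · rw [h, map_one, one_mul, mul_one]
    · ext v : 1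
      show (inv1 (NN F k) e) (act1 F k z v) = act1 F k z (inv1 (NN F k) e v)
      have : inv1 (NN F k) e = MulEquiv.inv (NN F k) := if_neg h
      rw [this]
      show (act1 F k z v)⁻¹ = act1 F k z v⁻¹
      rw [map_inv])

theorem act2_one (k : ℕ) (z : PG) : act2 F k (1, z) = act1 F k z := by
  show inv1 _ 1 * act1 F k z = _
  rw [map_one, one_mul]

theorem act2_neg (k : ℕ) {e : Multiplicative (ZMod 2)} (he : e ≠ 1) (z : PG) (v : NN F k) : act2 F k (e, z) v = (act1 F k z v)⁻¹ := by
  show (inv1 (NN F k) e * act1 F k z) v = _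
  have : inv1 (NN F k) e = MulEquiv.inv (NN F k) := if_neg he
  rw [this]; rfl

theorem NN_cube (k : ℕ) (v : NN F k) : v ^ 3 = 1 := by
  apply Multiplicative.toAdd.injective
  funext i
  show (3 • Multiplicative.toAdd v) i = 0
  rw [Pi.smul_apply]
  ext a b
  show (3 • (Multiplicative.toAdd v i)) a b = 0
  rw [Matrix.smul_apply, nsmul_eq_mul]
  have : ((3 : ℕ) : F) = 0 := CharP.cast_eq_zero F 3
  rw [this, zero_mul]

end tw

end Cfsg.Agent.H5.Ree
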