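import Mathlib
import Cfsg.Agent.H5.Ree35
set_option autoImplicit false
set_option maxHeartbeats 1000000
set_option maxRecDepth 10000

/-! Groups with the spectrum of a direct cube. -/

namespace Cfsg.Agent.H5.Ree

section tw
open Matrix Cfsg.Agent.H16 Cfsg.Agent.H5
variable {F : Type*} [Field F] [Fintype F] [CharP F 3]

local notation "SL₂" => Matrix.SpecialLinearGroup (Fin 2) F
local notation "M₂" => Matrix (Fin 2) (Fin 2) F
local notation "PG" => Matrix.ProjectiveSpecialLinearGroup (Fin 2) F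
local notation "π'" => QuotientGroup.mk' (Subgroup.center (Matrix.SpecialLinearGroup (Fin 2) F))

/-- the semidirect product -/
abbrev FF (F : Type*) [Field F] [CharP F 3] (k : ℕ) : Type _ :=
  NN F k ⋊[act2 F k] (Multiplicative (ZMod 2) × Matrix.ProjectiveSpecialLinearGroup (Fin 2) F)

omit [Fintype F] in
theorem z2_pow2 : ∀ e : Multiplicative (ZMod 2), e ^ 2 = 1 := by decide
omit [Fintype F] in
theorem z2_pow3 : ∀ e : Multiplicative (ZMod 2), e ^ 3 = e := by decide

theorem ff_order (h4 : Fintype.card F % 4 = 3) {k : ℕ} (h : FF F k) {n : ℕ} (hn : h.right ^ n = 1) : h ^ 6 = 1 ∨ h ^ 9 = 1 ∨ h ^ n = 1 := by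
  have h3 : (3 : F) = 0 := by
    have : ((3 : ℕ) : F) = 0 := CharP.cast_eq_zero F 3
    exact_mod_cast this
  obtain ⟨e, he⟩ : ∃ e, h.right.1 = e := ⟨_, rfl⟩
  obtain ⟨ζ, hζ⟩ := QuotientGroup.mk'_surjective _ h.right.2
  have hr : h.right = (e, π' ζ) := Prod.ext he hζ.symm
  have hdet : (ζ : M₂) 0 0 * (ζ : M₂) 1 1 - (ζ : M₂) 0 1 * (ζ : M₂) 1 0 = 1 := by
    rw [← Matrix.det_fin_two]; exact ζ.2
  by_cases h1 : (ζ : M₂) 0 0 + (ζ : M₂) 1 1 = 0
  · left
    apply sd_three (NN_cube k) h (n := 2)
    rw [hr]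
    apply Prod.ext
    · exact z2_pow2 e
    · show (π' ζ) ^ 2 = 1
      rw [← map_pow, center_eq']
      right
      apply Subtype.ext
      show ((ζ ^ 2 : SL₂) : M₂) = ((-1 : SL₂) : M₂)
      rw [Matrix.SpecialLinearGroup.coe_pow, pow_two, cayh _ hdet, h1, zero_smul, zero_sub]; rfl
  by_cases h2 : ((ζ : M₂) 0 0 + (ζ : M₂) 1 1) ^ 2 = 1
  · have hz3 : (π' ζ) ^ 3 = 1 := by
      have h5 : ((ζ : M₂) 0 0 + (ζ : M₂) 1 1 - 1) * ((ζ : M₂) 0 0 + (ζ : M₂) 1 1 + 1) = 0 := by linear_combination h2
      rw [← map_pow, center_eq']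
      rcases mul_eq_zero.1 h5 with h6 | h6
      · right
        have : (-ζ) ^ 3 = 1 := by
          rw [cube_trace h3]
          show -((ζ : M₂) 0 0) + -((ζ : M₂) 1 1) = 2
          linear_combination -h6 - h3
        rw [Odd.neg_pow (by decide)] at this
        rw [← this, neg_neg]
      · left
        rw [cube_trace h3]
        linear_combination h6 - h3
    by_cases he1 : e = 1
    · right; left
      apply sd_three (NN_cube k) h (n := 3)
      rw [hr, he1]
      exact Prod.ext (one_pow _) hz3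
    · left
      have hg3 : h.right ^ 3 = (e, 1) := by
        rw [hr]
        exact Prod.ext (z2_pow3 e) hz3
      apply sd_neg
      · intro v
        rw [hg3, act2_neg k he1, map_one]; rfl
      · have : h.right ^ 6 = h.right ^ 3 * h.right ^ 3 := by rw [← pow_add]
        rw [this, hg3]
        apply Prod.ext
        · show e * e = 1
          rw [← pow_two, z2_pow2]
        · show (1 : PG) * 1 = 1
          rw [one_mul]
  · right; right
    apply sd_fpf h _ hn
    intro v hv
    rw [hr] at hv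
    apply Multiplicative.toAdd.injective
    funext i
    show Multiplicative.toAdd v i = 0
    by_cases he1 : e = 1
    · rw [he1, act2_one] at hv
      have h5 : tw ζ (Multiplicative.toAdd v i) = Multiplicative.toAdd v i :=
        congrFun (congrArg Multiplicative.toAdd hv) i
      exact tw_fix (e := 1) (one_mul 1) h1 (by rw [one_mul]; exact fun h => h2 (sub_eq_zero.1 h).symm) (by rw [one_smul]; exact h5)
    · rw [act2_neg k he1] at hv
      have h5 : -(tw ζ (Multiplicative.toAdd v i)) = Multiplicative.toAdd v i :=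
        congrFun (congrArg Multiplicative.toAdd hv) i
      refine tw_fix (e := -1) (by ring) h1 ?_ (by rw [neg_smul, one_smul]; exact h5)
      intro h
      have hsq : IsSquare (-1 : F) := ⟨(ζ : M₂) 0 0 + (ζ : M₂) 1 1, by linear_combination -h⟩
      rw [FiniteField.isSquare_neg_one_iff] at hsq
      exact hsq h4

/-- an element of order nine -/
theorem ff_nine (k : ℕ) : ∃ h : FF F (k + 1), orderOf h = 9 := by
  have h3 : (3 : F) = 0 := by
    have : ((3 : ℕ) : F) = 0 := CharP.cast_eq_zero F 3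
    exact_mod_cast this
  let u : SL₂ := ⟨!![1, 1; 0, 1], by rw [Matrix.det_fin_two]; simp⟩
  have hu3 : u ^ 3 = 1 := by
    refine (cube_trace h3 u).2 ?_
    show (1 : F) + 1 = 2
    norm_num
  let X : M₂ := !![0, 0; 1, 0]
  have hfr : fr u = u := by
    apply Matrix.SpecialLinearGroup.ext
    intro i j
    show ((u : M₂) i j) ^ 3 = (u : M₂) i j
    fin_cases i <;> fin_cases j <;> simp [u]
  have htw : ∀ Y : M₂, tw u Y = !![1, 1; 0, 1] * Y * !![1, -1; 0, 1] := by
    intro Y
    unfold tw
    rw [hfr, Matrix.SpecialLinearGroup.coe_inv, Matrix.adjugate_fin_two]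
    simp [u]
  let h : FF F (k + 1) := ⟨Multiplicative.ofAdd (fun _ => X), (1, π' u)⟩
  have hr : h.right ^ 3 = 1 := Prod.ext (one_pow _) (by show (π' u) ^ 3 = 1; rw [← map_pow, hu3, map_one])
  refine ⟨h, ?_⟩
  haveI : Fact (Nat.Prime 3) := ⟨Nat.prime_three⟩
  have h9 : h ^ 3 ^ (1 + 1) = 1 := sd_three (NN_cube (k + 1)) h hr
  have hn3 : ¬ h ^ 3 ^ 1 = 1 := by
    rw [pow_one, sd_pow]
    intro hh
    have h5 := congrArg SemidirectProduct.left hh
    have h6 : ∏ i ∈ Finset.range 3, act2 F (k + 1) (h.right ^ i) h.left = 1 := h5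
    rw [Finset.prod_range_succ, Finset.prod_range_succ, Finset.prod_range_one, pow_zero, pow_one, map_one] at h6
    have h7 := congrFun (congrFun (congrFun (congrArg Multiplicative.toAdd h6) 0) 0) 1
    have h8 : act2 F (k + 1) h.right = act1 F (k + 1) (π' u) := act2_one _ _
    rw [map_pow, h8] at h7
    have e0 : X 0 1 + (tw u X) 0 1 + (tw u (tw u X)) 0 1 = 0 := h7
    rw [htw, htw] at e0
    simp [X, Matrix.mul_apply, Fin.sum_univ_two] at e0
    apply one_ne_zero (α := F)
    linear_combination e0 + 2 * h3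
  have := orderOf_eq_prime_pow hn3 h9
  rw [this]; norm_num

end tw

end Cfsg.Agent.H5.Ree
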