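import Mathlib
import Cfsg.Agent.H5.Ree36
set_option autoImplicit false
set_option maxHeartbeats 1000000
set_option maxRecDepth 10000

/-! The spectrum of the direct cube. -/

namespace Cfsg.Agent.H5.Ree

/-- pigeonhole for least common multiples -/
theorem pig {P Q₁ Q₂ W : ℕ → Prop} (hW : ∀ d, W d ↔ (P d ∨ Q₁ d ∨ Q₂ d)) (hP1 : P 1)
    (h1 : ∀ x y, Q₁ x → Q₁ y → Q₁ (Nat.lcm x y)) (h2 : ∀ x y, Q₂ x → Q₂ y → Q₂ (Nat.lcm x y)) {x y z : ℕ} (hx : W x) (hy : W y) (hz : W z) :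
    ∃ x' y' z', W x' ∧ W y' ∧ P z' ∧ Nat.lcm x (Nat.lcm y z) = Nat.lcm x' (Nat.lcm y' z') := by
  have key : ∀ a b c : ℕ, (Q₁ a ∧ Q₁ b ∨ Q₂ a ∧ Q₂ b) → W c → ∃ x' y' z', W x' ∧ W y' ∧ P z' ∧ Nat.lcm a (Nat.lcm b c) = Nat.lcm x' (Nat.lcm y' z') := by
    intro a b c hab hc
    refine ⟨Nat.lcm a b, c, 1, ?_, hc, hP1, ?_⟩
    · rw [hW]
      rcases hab with ⟨ha, hb⟩ | ⟨ha, hb⟩
      · exact Or.inr (Or.inl (h1 a b ha hb))
      · exact Or.inr (Or.inr (h2 a b ha hb))
    · rw [Nat.lcm_one_right, Nat.lcm_assoc]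
  rcases (hW z).1 hz with hz' | hz'
  · exact ⟨x, y, z, hx, hy, hz', rfl⟩
  rcases (hW y).1 hy with hy' | hy'
  · exact ⟨x, z, y, hx, hz, hy', by rw [Nat.lcm_comm y z]⟩
  rcases (hW x).1 hx with hx' | hx'
  · exact ⟨y, z, x, hy, hz, hx', by rw [Nat.lcm_comm x, Nat.lcm_assoc]⟩
  rcases hx' with hx' | hx' <;> rcases hy' with hy' | hy' <;> rcases hz' with hz' | hz'
  · exact key x y z (Or.inl ⟨hx', hy'⟩) hz
  · exact key x y z (Or.inl ⟨hx', hy'⟩) hz
  · obtain ⟨a, b, c, h3, h4, h5, h6⟩ := key x z y (Or.inl ⟨hx', hz'⟩) hy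
    exact ⟨a, b, c, h3, h4, h5, by rw [Nat.lcm_comm y z]; exact h6⟩
  · obtain ⟨a, b, c, h3, h4, h5, h6⟩ := key y z x (Or.inr ⟨hy', hz'⟩) hx
    exact ⟨a, b, c, h3, h4, h5, by rw [Nat.lcm_comm x, Nat.lcm_assoc]; exact h6⟩
  · obtain ⟨a, b, c, h3, h4, h5, h6⟩ := key y z x (Or.inl ⟨hy', hz'⟩) hx
    exact ⟨a, b, c, h3, h4, h5, by rw [Nat.lcm_comm x, Nat.lcm_assoc]; exact h6⟩
  · obtain ⟨a, b, c, h3, h4, h5, h6⟩ := key x z y (Or.inr ⟨hx', hz'⟩) hy
    exact ⟨a, b, c, h3, h4, h5, by rw [Nat.lcm_comm y z]; exact h6⟩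
  · exact key x y z (Or.inr ⟨hx', hy'⟩) hz
  · exact key x y z (Or.inr ⟨hx', hy'⟩) hz

instance ff_finite {F : Type*} [Field F] [Fintype F] [CharP F 3] (k : ℕ) : Finite (FF F k) := by
  haveI : Finite (NN F k) := inferInstanceAs (Finite (Fin k → Matrix (Fin 2) (Fin 2) F))
  haveI : Finite (Multiplicative (ZMod 2) × Matrix.ProjectiveSpecialLinearGroup (Fin 2) F) := inferInstance
  exact Finite.of_equiv (NN F k × (Multiplicative (ZMod 2) × Matrix.ProjectiveSpecialLinearGroup (Fin 2) F)) SemidirectProduct.equivProd.symm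

theorem ff_card {F : Type*} [Field F] [Fintype F] [CharP F 3] (k : ℕ) : k ≤ Nat.card (FF F k) := by
  let f : Fin k → FF F k := fun j => SemidirectProduct.inl (Multiplicative.ofAdd (Pi.single j 1))
  have hf : Function.Injective f := by
    intro i j hij
    have h1 := SemidirectProduct.inl_injective hij
    have h2 : (Pi.single i 1 : Fin k → Matrix (Fin 2) (Fin 2) F) = Pi.single j 1 := h1
    by_contra hne
    have h3 := congrFun h2 i
    rw [Pi.single_eq_same, Pi.single_eq_of_ne hne] at h3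
    exact one_ne_zero h3
  have := Nat.card_le_card_of_injective f hf
  rwa [Nat.card_eq_fintype_card, Fintype.card_fin] at this

section abs
variable {K : Type*} [Field K] [Fintype K] [CharP K 3] {G : Type*} [Group G] [Finite G] {B T U : Subgroup G} {n : G} (R : RA K B T U n)
  (R3 : RB3 (Fintype.card K) G) (IC : ∀ a b : G, a ≠ 1 → a * a = 1 → b ≠ 1 → b * b = 1 → ∃ g : G, b = g * a * g⁻¹)
  (X : UX (Fintype.card K) U) {r : ℕ} (hr : r * r = 3 * Fintype.card K) (hrq : r ≤ Fintype.card K)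

include R R3 in
/-- elements commuting with an involution -/
theorem RA.no_third {c a : G} (ha1 : a ≠ 1) (ha2 : a * a = 1) (hca : c ∈ Subgroup.centralizer {a}) (hc : orderOf c ∣ Fintype.card K ^ 2 - Fintype.card K + 1) : c = 1 := by
  haveI : Fact (Nat.Prime 2) := ⟨Nat.prime_two⟩
  by_contra hc1
  have hne : orderOf c ≠ 1 := fun h => hc1 (orderOf_eq_one_iff.1 h)
  obtain ⟨p, hp, hpd⟩ := Nat.exists_prime_and_dvd hne
  have hp3 := six_prime hp (hpd.trans hc) R.M_coprime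
  obtain ⟨x, w, m, hT, he⟩ := R.third_data R3 (g := c) ⟨⟨p, hp, hp3, hpd⟩, hc⟩
  have hac : a ∈ Subgroup.centralizer {x} := by
    rw [← he, Subgroup.mem_centralizer_singleton_iff]
    exact (Subgroup.mem_centralizer_singleton_iff.1 hca).symm
  have h1 := orderOf_dvd_sub hac
  have hao : orderOf a = 2 := orderOf_eq_prime_iff.2 ⟨by rw [pow_two, ha2], ha1⟩
  rw [hao, hT.cm] at h1
  have h2 := six_odd (Nat.Coprime.coprime_dvd_left hT.mM R.M_coprime)
  exact (Nat.not_even_iff_odd.2 h2) (even_iff_two_dvd.2 h1)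

include R R3 IC X hr hrq in
/-- the spectrum of the semidirect product -/
theorem RA.ff_spec (k d : ℕ) : (∃ h : FF K (k + 1), orderOf h = d) ↔ (d ∣ 6 ∨ d ∣ 9 ∨ d ∣ Fintype.card K - 1 ∨ d ∣ (Fintype.card K + 1) / 2) := by
  have hq := R.q27
  have h8 := R.mod8
  have hsp := R.spectrum R3 IC X hr hrq
  constructor
  · rintro ⟨h, rfl⟩
    obtain ⟨a, ha1, ha2⟩ := R.exinv
    obtain ⟨E⟩ := R.cent a ha1 ha2
    obtain ⟨c, hc⟩ : ∃ c, c = E.symm h.right := ⟨_, rfl⟩
    have hEc : E c = h.right := by rw [hc, MulEquiv.apply_symm_apply]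
    have key : ∀ n : ℕ, orderOf (c : G) ∣ n → h ^ 6 = 1 ∨ h ^ 9 = 1 ∨ h ^ n = 1 := by
      intro n hn
      apply ff_order (by omega)
      rw [← hEc, ← map_pow]
      have : c ^ n = 1 := by
        rw [Subgroup.orderOf_coe] at hn
        exact orderOf_dvd_iff_pow_eq_one.1 hn
      rw [this, map_one]
    have hM : (Fintype.card K - r + 1) * (Fintype.card K + r + 1) = Fintype.card K ^ 2 - Fintype.card K + 1 := by
      obtain ⟨x₁, x₂, m₁, m₂, -, -, h3, h4, -, -⟩ := R.third_main R3 IC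
      rcases m_cases hr hrq h3 h4 with ⟨e1, e2⟩ | ⟨e1, e2⟩
      · rw [← h3, e1, e2]
      · rw [← h3, e1, e2, mul_comm]
    rcases (hsp (orderOf (c : G))).1 ⟨_, rfl⟩ with hh | hh | hh | hh | hh | hh
    · rcases key _ hh with h1 | h1 | h1
      · exact Or.inl (orderOf_dvd_of_pow_eq_one h1)
      · exact Or.inr (Or.inl (orderOf_dvd_of_pow_eq_one h1))
      · exact Or.inl (orderOf_dvd_of_pow_eq_one h1)
    · rcases key _ hh with h1 | h1 | h1
      · exact Or.inl (orderOf_dvd_of_pow_eq_one h1)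
      · exact Or.inr (Or.inl (orderOf_dvd_of_pow_eq_one h1))
      · exact Or.inr (Or.inl (orderOf_dvd_of_pow_eq_one h1))
    · rcases key _ hh with h1 | h1 | h1
      · exact Or.inl (orderOf_dvd_of_pow_eq_one h1)
      · exact Or.inr (Or.inl (orderOf_dvd_of_pow_eq_one h1))
      · exact Or.inr (Or.inr (Or.inl (orderOf_dvd_of_pow_eq_one h1)))
    · rcases key _ hh with h1 | h1 | h1
      · exact Or.inl (orderOf_dvd_of_pow_eq_one h1)
      · exact Or.inr (Or.inl (orderOf_dvd_of_pow_eq_one h1))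
      · exact Or.inr (Or.inr (Or.inr (orderOf_dvd_of_pow_eq_one h1)))
    · have hc1 := R.no_third R3 ha1 ha2 c.2 (hh.trans (Dvd.intro _ hM))
      rcases key 6 (by rw [hc1, orderOf_one]; exact one_dvd _) with h1 | h1 | h1
      · exact Or.inl (orderOf_dvd_of_pow_eq_one h1)
      · exact Or.inr (Or.inl (orderOf_dvd_of_pow_eq_one h1))
      · exact Or.inl (orderOf_dvd_of_pow_eq_one h1)
    · have hc1 := R.no_third R3 ha1 ha2 c.2 (hh.trans (Dvd.intro_left _ hM))
      rcases key 6 (by rw [hc1, orderOf_one]; exact one_dvd _) with h1 | h1 | h1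
      · exact Or.inl (orderOf_dvd_of_pow_eq_one h1)
      · exact Or.inr (Or.inl (orderOf_dvd_of_pow_eq_one h1))
      · exact Or.inl (orderOf_dvd_of_pow_eq_one h1)
  · have heven : ∀ N : ℕ, 2 ∣ N → (∃ g : G, orderOf g = N) → ∃ h : FF K (k + 1), orderOf h = N := by
      rintro N h2 ⟨g, rfl⟩
      have hb : orderOf (g ^ (orderOf g / 2)) = 2 := orderOf_pow_orderOf_div (orderOf_pos g).ne' h2
      set b := g ^ (orderOf g / 2) with hbdef
      have hb1 : b ≠ 1 := by
        intro h; rw [h, orderOf_one] at hb; norm_num at hb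
      have hb2 : b * b = 1 := by rw [← pow_two, ← hb, pow_orderOf_eq_one]
      have hgb : g ∈ Subgroup.centralizer {b} := by
        rw [Subgroup.mem_centralizer_singleton_iff, hbdef]
        exact ((Commute.refl g).pow_right _).eq
      obtain ⟨E⟩ := R.cent b hb1 hb2
      refine ⟨SemidirectProduct.inr (E ⟨g, hgb⟩), ?_⟩
      rw [orderOf_injective _ SemidirectProduct.inr_injective, MulEquiv.orderOf_eq, Subgroup.orderOf_mk]
    rintro (h | h | h | h)
    · obtain ⟨g, hg⟩ := heven 6 (by norm_num) ((hsp 6).2 (Or.inl dvd_rfl))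
      exact exists_dvd_order hg h
    · obtain ⟨g, hg⟩ := ff_nine (F := K) k
      exact exists_dvd_order hg h
    · obtain ⟨g, hg⟩ := heven (Fintype.card K - 1) (by omega) ((hsp _).2 (Or.inr (Or.inr (Or.inl dvd_rfl))))
      exact exists_dvd_order hg h
    · obtain ⟨g, hg⟩ := heven ((Fintype.card K + 1) / 2) (by omega) ((hsp _).2 (Or.inr (Or.inr (Or.inr (Or.inl dvd_rfl)))))
      exact exists_dvd_order hg h

include R R3 IC X hr hrq in
theorem RA.cube (N : ℕ) : ∃ (H : Type) (_ : Group H) (_ : Fintype H), N < Fintype.card H ∧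
    Set.range (orderOf : H → ℕ) = Set.range (orderOf : G × G × G → ℕ) := by
  have hsp := R.spectrum R3 IC X hr hrq
  have hff := R.ff_spec R3 IC X hr hrq N
  have hfin : Finite (G × G × FF K (N + 1)) := inferInstance
  haveI : Small.{0} (G × G × FF K (N + 1)) := inferInstance
  let E : Shrink.{0} (G × G × FF K (N + 1)) ≃* G × G × FF K (N + 1) := Shrink.mulEquiv
  haveI : Finite (Shrink.{0} (G × G × FF K (N + 1))) := Finite.of_equiv _ (equivShrink _)
  letI hF : Fintype (Shrink.{0} (G × G × FF K (N + 1))) := Fintype.ofFinite _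
  refine ⟨Shrink.{0} (G × G × FF K (N + 1)), inferInstance, hF, ?_, ?_⟩
  · have h1 := ff_card (F := K) (N + 1)
    have h2 : Nat.card (FF K (N + 1)) ≤ Nat.card (G × G × FF K (N + 1)) := by
      apply Nat.card_le_card_of_injective (fun h => ((1 : G), (1 : G), h))
      intro x y hxy
      exact congrArg (fun z => z.2.2) hxy
    rw [← Nat.card_eq_fintype_card, Nat.card_congr E.toEquiv]
    omega
  · have h1 : Set.range (orderOf : Shrink.{0} (G × G × FF K (N + 1)) → ℕ) = Set.range (orderOf : G × G × FF K (N + 1) → ℕ) := by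
      ext d
      constructor
      · rintro ⟨x, rfl⟩
        exact ⟨E x, MulEquiv.orderOf_eq E x⟩
      · rintro ⟨x, rfl⟩
        exact ⟨E.symm x, MulEquiv.orderOf_eq E.symm x⟩
    rw [h1]
    ext d
    constructor
    · rintro ⟨⟨a, b, h⟩, rfl⟩
      obtain ⟨c, hc⟩ := (hsp (orderOf h)).2 (by
        rcases (hff (orderOf h)).1 ⟨h, rfl⟩ with h | h | h | h
        · exact Or.inl h
        · exact Or.inr (Or.inl h)
        · exact Or.inr (Or.inr (Or.inl h))
        · exact Or.inr (Or.inr (Or.inr (Or.inl h))))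
      refine ⟨(a, b, c), ?_⟩
      rw [Prod.orderOf, Prod.orderOf, Prod.orderOf, Prod.orderOf]
      show Nat.lcm (orderOf a) (Nat.lcm (orderOf b) (orderOf c)) = Nat.lcm (orderOf a) (Nat.lcm (orderOf b) (orderOf h))
      rw [hc]
    · rintro ⟨⟨a, b, c⟩, rfl⟩
      obtain ⟨x, y, z, hx, hy, hz, he⟩ := pig (P := fun d => d ∣ 6 ∨ d ∣ 9 ∨ d ∣ Fintype.card K - 1 ∨ d ∣ (Fintype.card K + 1) / 2)
        (Q₁ := fun d => d ∣ Fintype.card K - r + 1) (Q₂ := fun d => d ∣ Fintype.card K + r + 1) (W := fun d => ∃ g : G, orderOf g = d)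
        (by
          intro d
          rw [hsp d]
          tauto) (Or.inl (one_dvd _)) (fun x y h1 h2 => Nat.lcm_dvd h1 h2) (fun x y h1 h2 => Nat.lcm_dvd h1 h2)
        (x := orderOf a) (y := orderOf b) (z := orderOf c) ⟨a, rfl⟩ ⟨b, rfl⟩ ⟨c, rfl⟩
      obtain ⟨x, rfl⟩ := hx
      obtain ⟨y, rfl⟩ := hy
      obtain ⟨h, rfl⟩ := (hff z).2 hz
      refine ⟨(x, y, h), ?_⟩
      rw [Prod.orderOf, Prod.orderOf, Prod.orderOf, Prod.orderOf]
      exact he.symm

end abs

end Cfsg.Agent.H5.Ree
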